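import Cfsg.Agent.BN2.Defs

/-!
# Basic geometry of `Pol`: lines, uniqueness of geodesics, rigidity, transitivity
-/

set_option autoImplicit false

namespace Cfsg.Agent.BN2

section Lines

variable {V : Type*} {adj : V → V → Prop}

theorem IsLine.shift {p : ℤ → V} (h : IsLine adj p) (c : ℤ) : IsLine adj fun i => p (i + c) :=
  ⟨fun k => by simpa [add_right_comm k 1 c] using h.1 (k + c),
    fun k => by simpa [add_right_comm k 2 c] using h.2 (k + c)⟩

theorem IsLine.adj' {p : ℤ → V} (h : IsLine adj p) {i j : ℤ} (e : j = i + 1) : adj (p i) (p j) :=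
  e ▸ h.1 i

theorem IsLine.ne' {p : ℤ → V} (h : IsLine adj p) {i j : ℤ} (e : j = i + 2) : p j ≠ p i :=
  e ▸ h.2 i

theorem IsAp.shift {n : ℕ} {x : ℤ → V} (h : IsAp adj n x) (c : ℤ) :
    IsAp adj n fun i => x (i + c) :=
  ⟨h.1.shift c, fun k => by simpa [add_right_comm k _ c] using h.2 (k + c)⟩

theorem IsAp.per {n : ℕ} {x : ℤ → V} (h : IsAp adj n x) {i j : ℤ} (e : j = i + 2 * n) :
    x j = x i := e ▸ h.2 i

theorem IsAp.per_mul {n : ℕ} {x : ℤ → V} (h : IsAp adj n x) (i c : ℤ) :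
    x (i + c * (2 * n)) = x i := by
  induction c using Int.induction_on with
  | zero => simp
  | succ c ih => rw [← ih]; exact h.per (by ring)
  | pred c ih => rw [← ih]; exact (h.per (by ring)).symm

/-- `p` on `(-∞, 0]`, `q` on `[0, ∞)` -/
def glue (p q : ℤ → V) (i : ℤ) : V := if i ≤ 0 then p i else q i

theorem glue_left (p q : ℤ → V) {i : ℤ} (h : i ≤ 0) : glue p q i = p i := if_pos h

theorem glue_right {p q : ℤ → V} (e : p 0 = q 0) {i : ℤ} (h : 0 ≤ i) : glue p q i = q i := by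
  unfold glue
  split_ifs with h'
  · obtain rfl : i = 0 := by omega
    exact e
  · rfl

theorem IsLine.glue {p q : ℤ → V} (hp : IsLine adj p) (hq : IsLine adj q) (e : p 0 = q 0)
    (hne : q 1 ≠ p (-1)) : IsLine adj (glue p q) := by
  refine ⟨fun k => ?_, fun k => ?_⟩
  · by_cases h : k + 1 ≤ 0
    · rw [glue_left _ _ h, glue_left _ _ (by omega)]; exact hp.1 k
    · rw [glue_right e (by omega), glue_right e (by omega)]; exact hq.1 k
  · by_cases h : k + 2 ≤ 0
    · rw [glue_left _ _ h, glue_left _ _ (by omega)]; exact hp.2 k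
    · by_cases h' : 0 ≤ k
      · rw [glue_right e (by omega), glue_right e (by omega)]; exact hq.2 k
      · obtain rfl : k = -1 := by omega
        rw [glue_right e (by omega), glue_left _ _ (by omega)]; exact hne

end Lines

namespace Pol

variable {G V : Type*} [Group G] [MulAction G V] {P : Pol G V}

theorem _root_.Cfsg.Agent.BN2.IsLine.adj_pred {p : ℤ → V} (h : P.Line p) {i j : ℤ}
    (e : i = j + 1) : P.adj (p i) (p j) := P.adj_symm (h.adj' e)

/-- reflection `i ↦ c - i` -/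
theorem _root_.Cfsg.Agent.BN2.IsLine.rev {p : ℤ → V} (h : P.Line p) (c : ℤ) :
    P.Line fun i => p (c - i) :=
  ⟨fun k => h.adj_pred (by ring), fun k => (h.ne' (by ring)).symm⟩

theorem _root_.Cfsg.Agent.BN2.IsAp.rev {x : ℤ → V} (h : P.Ap x) (c : ℤ) :
    P.Ap fun i => x (c - i) :=
  ⟨h.1.rev c, fun k => (h.per (by ring)).symm⟩

theorem _root_.Cfsg.Agent.BN2.IsAp.smul {x : ℤ → V} (h : P.Ap x) (g : G) :
    P.Ap fun i => g • x i :=
  ⟨h.1.smul g, fun k => by simp only [h.2 k]⟩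

theorem ne_of_adj {a b : V} (h : P.adj a b) : a ≠ b := fun e => P.ty_adj h (by rw [e])

theorem ty_succ {p : ℤ → V} (h : P.Line p) (i : ℤ) : P.ty (p (i + 1)) = !P.ty (p i) := by
  have := P.ty_adj (h.1 i)
  cases h1 : P.ty (p i) <;> cases h2 : P.ty (p (i + 1)) <;> simp_all

theorem ty_two_mul {p : ℤ → V} (h : P.Line p) (i c : ℤ) : P.ty (p (i + 2 * c)) = P.ty (p i) := by
  induction c using Int.induction_on with
  | zero => simp
  | succ c ih =>
    rw [← ih, show i + 2 * ((c : ℤ) + 1) = i + 2 * c + 1 + 1 by ring, ty_succ h, ty_succ h]; simp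
  | pred c ih =>
    rw [← ih, show i + 2 * (-(c : ℤ)) = i + 2 * (-c - 1) + 1 + 1 by ring, ty_succ h, ty_succ h]
    simp

theorem ty_even {p : ℤ → V} (h : P.Line p) {i j : ℤ} (e : (j - i) % 2 = 0) :
    P.ty (p j) = P.ty (p i) := by
  rw [← ty_two_mul h i ((j - i) / 2)]; congr 2; omega

theorem ty_odd {p : ℤ → V} (h : P.Line p) {i j : ℤ} (e : (j - i) % 2 = 1) :
    P.ty (p j) ≠ P.ty (p i) := by
  rw [ty_even h (i := i + 1) (by omega), ty_succ h]; simp

theorem ty_eq_of_adj {y a b : V} (ha : P.adj y a) (hb : P.adj y b) : P.ty a = P.ty b := by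
  have h1 := P.ty_adj ha; have h2 := P.ty_adj hb
  cases h : P.ty y <;> cases h' : P.ty a <;> cases h'' : P.ty b <;> simp_all

/-- a half-line starting with a given edge -/
theorem exists_ray {a b : V} (h : P.adj a b) :
    ∃ f : ℕ → V, f 0 = a ∧ f 1 = b ∧ (∀ k, P.adj (f k) (f (k + 1))) ∧ ∀ k, f (k + 2) ≠ f k := by
  classical
  let nx : V × V → V × V := fun e => (e.2, (P.thick e.2 e.1 e.1).choose)
  have h1 : ∀ k, P.adj (nx^[k] (a, b)).1 (nx^[k] (a, b)).2 := by
    intro k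
    cases k with
    | zero => exact h
    | succ k => rw [Function.iterate_succ_apply']; exact (P.thick _ _ _).choose_spec.1
  refine ⟨fun k => (nx^[k] (a, b)).1, rfl, rfl, fun k => ?_, fun k => ?_⟩
  · have := h1 k
    simp only [Function.iterate_succ_apply']; exact this
  · simp only [Function.iterate_succ_apply']
    exact (P.thick _ _ _).choose_spec.2.1

/-- a line through a path of length two -/
theorem exists_line_two {a y b : V} (ha : P.adj y a) (hb : P.adj y b) (hab : a ≠ b) :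
    ∃ p, P.Line p ∧ p (-1) = a ∧ p 0 = y ∧ p 1 = b := by
  obtain ⟨f, f0, f1, f2, f3⟩ := exists_ray ha
  obtain ⟨g, g0, g1, g2, g3⟩ := exists_ray hb
  refine ⟨fun i => if i ≤ 0 then f (-i).toNat else g i.toNat, ⟨fun k => ?_, fun k => ?_⟩,
    by simpa using f1, by simpa using f0, by simpa using g1⟩
  · dsimp only
    split_ifs with h1 h2 h2
    · rw [show (-k).toNat = (-(k + 1)).toNat + 1 by omega]; exact P.adj_symm (f2 _)
    · obtain rfl : k = 0 := by omega
      simpa [f0, g1] using hb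
    · omega
    · rw [show (k + 1).toNat = k.toNat + 1 by omega]; exact g2 _
  · dsimp only
    split_ifs with h1 h2 h2
    · rw [show (-k).toNat = (-(k + 2)).toNat + 2 by omega]; exact (f3 _).symm
    · omega
    · rcases (by omega : k = 0 ∨ k = -1) with rfl | rfl
      · have := g3 0
        simpa [f0, g0] using this
      · simpa [f1, g1] using hab.symm
    · rw [show (k + 2).toNat = k.toNat + 2 by omega]; exact g3 _

theorem exists_line_edge {a b : V} (h : P.adj a b) : ∃ p, P.Line p ∧ p 0 = a ∧ p 1 = b := by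
  obtain ⟨c, hc, hcb, -⟩ := P.thick a b b
  obtain ⟨p, hp, -, h0, h1⟩ := exists_line_two hc h hcb
  exact ⟨p, hp, h0, h1⟩

theorem exists_line (a : V) : ∃ p, P.Line p ∧ p 0 = a := by
  obtain ⟨c, hc, -, -⟩ := P.thick a a a
  obtain ⟨p, hp, h0, -⟩ := exists_line_edge hc
  exact ⟨p, hp, h0⟩

/-- glue two lines at the index `k` -/
theorem exists_glue {p q : ℤ → V} (hp : P.Line p) (hq : P.Line q) {k : ℤ} (e : p k = q k)
    (hne : q (k + 1) ≠ p (k - 1)) :
    ∃ r, P.Line r ∧ (∀ i, i ≤ k → r i = p i) ∧ ∀ i, k ≤ i → r i = q i := by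
  have := ((hp.shift k).glue (hq.shift k) (by simpa using e)
    (by simpa [add_comm, sub_eq_add_neg] using hne)).shift (-k)
  refine ⟨_, this, fun i hi => ?_, fun i hi => ?_⟩
  · rw [glue_left _ _ (by omega)]; simp
  · rw [glue_right (by simpa using e) (by omega)]; simp

/-- continue a line after the index `k` through a chosen neighbour -/
theorem exists_turn {p : ℤ → V} (hp : P.Line p) {k : ℤ} {z : V} (hz : P.adj (p k) z)
    (hne : z ≠ p (k - 1)) : ∃ r, P.Line r ∧ (∀ i, i ≤ k → r i = p i) ∧ r (k + 1) = z := by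
  obtain ⟨q, hq, h0, h1⟩ := exists_line_edge hz
  obtain ⟨r, hr, r1, r2⟩ := exists_glue (k := k) hp (hq.shift (-k)) (by simpa using h0.symm)
    (by simpa [h1] using hne)
  exact ⟨r, hr, r1, by rw [r2 _ (by omega)]; simpa using h1⟩

/-- the same to the left -/
theorem exists_turn' {p : ℤ → V} (hp : P.Line p) {k : ℤ} {z : V} (hz : P.adj (p k) z)
    (hne : z ≠ p (k + 1)) : ∃ r, P.Line r ∧ (∀ i, k ≤ i → r i = p i) ∧ r (k - 1) = z := by
  obtain ⟨r, hr, r1, r2⟩ := exists_turn (k := k) (z := z) (hp.rev (2 * k))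
    (by simpa [two_mul] using hz) (by rwa [show 2 * k - (k - 1) = k + 1 by ring])
  refine ⟨_, hr.rev (2 * k), fun i hi => ?_, ?_⟩
  · rw [r1 _ (by omega)]; simp
  · rw [← r2]; congr 1; ring

/-- fold a line at the index `k` by an element fixing `p k` and moving `p (k-1)`:
the new line is `…, p (k-1), p k, g p (k-1), g p (k-2), …`. -/
theorem exists_fold {p : ℤ → V} (hp : P.Line p) {k : ℤ} {g : G} (h0 : g • p k = p k)
    (h1 : g • p (k - 1) ≠ p (k - 1)) :
    ∃ r, P.Line r ∧ (∀ i, i ≤ k → r i = p i) ∧ ∀ i, k ≤ i → r i = g • p (2 * k - i) :=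
  exists_glue hp ((hp.rev (2 * k)).smul g) (by simpa [two_mul] using h0.symm)
    (by rwa [show 2 * k - (k + 1) = k - 1 by ring])

theorem girth' {p : ℤ → V} (hp : P.Line p) {i j : ℤ} (h1 : i < j) (h2 : j < i + 2 * P.n) :
    p j ≠ p i := by
  simpa using P.girth _ (hp.shift i) (j - i) (by omega) (by omega)

/-- uniqueness of geodesics -/
theorem uniq {p q : ℤ → V} (hp : P.Line p) (hq : P.Line q) {k l : ℤ} (hk : 0 ≤ k) (hl : 0 ≤ l)
    (hkl : k + l < 2 * P.n) (h0 : p 0 = q 0) (h1 : p k = q l) :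
    k = l ∧ ∀ i, 0 ≤ i → i ≤ k → p i = q i := by
  obtain ⟨k, rfl⟩ := Int.eq_ofNat_of_zero_le hk
  induction k generalizing p q l with
  | zero =>
    have : l = 0 := by
      by_contra hne
      exact girth' hq (i := 0) (j := l) (by omega) (by omega) (by rw [← h0, ← h1]; rfl)
    exact ⟨by simp [this], fun i h h' => by obtain rfl : i = 0 := by omega
                                            exact h0⟩
  | succ k ih =>
    have hl0 : l ≠ 0 := by
      rintro rfl
      exact girth' hp (i := 0) (j := ((k + 1 : ℕ) : ℤ)) (by omega) (by omega) (by rw [h1, h0])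
    by_cases e : p 1 = q 1
    · obtain ⟨a, b⟩ := ih (hp.shift 1) (hq.shift 1) (l := l - 1) (by omega)
        (by simpa using e) (by omega) (by omega) (by simpa using h1)
      refine ⟨by omega, fun i h h' => ?_⟩
      rcases h.eq_or_lt with rfl | h
      · exact h0
      · simpa using b (i - 1) (by omega) (by omega)
    · obtain ⟨r, hr, r1, r2⟩ := exists_glue (k := 0) (hp.rev 0) hq (by simpa using h0)
        (by simpa using Ne.symm e)
      exact absurd (by rw [r2 _ hl, r1 _ (by omega)]; simpa using h1.symm)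
        (girth' hr (i := -((k + 1 : ℕ) : ℤ)) (j := l) (by omega) (by omega))

/-- two lines with the same vertices at `i` and `j`, `j - i < n`, agree in between -/
theorem eq_between {p q : ℤ → V} (hp : P.Line p) (hq : P.Line q) {i j k : ℤ} (hij : j < i + P.n)
    (h0 : p i = q i) (h1 : p j = q j) (hk : i ≤ k) (hk' : k ≤ j) : p k = q k := by
  simpa using (uniq (hp.shift i) (hq.shift i) (k := j - i) (l := j - i) (by omega) (by omega)
    (by omega) (by simpa using h0) (by simpa using h1)).2 (k - i) (by omega) (by omega)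

theorem fix_between {p : ℤ → V} (hp : P.Line p) {g : G} {i j k : ℤ} (hij : j < i + P.n)
    (h0 : g • p i = p i) (h1 : g • p j = p j) (hk : i ≤ k) (hk' : k ≤ j) : g • p k = p k :=
  eq_between (hp.smul g) hp hij h0 h1 hk hk'

theorem exists_ap {p : ℤ → V} (hp : P.Line p) (a : ℤ) :
    ∃ x, P.Ap x ∧ ∀ i, a ≤ i → i ≤ a + P.n + 1 → x i = p i := by
  obtain ⟨x, hx, h⟩ := P.ext_ap _ (hp.shift a)
  exact ⟨_, hx.shift (-a), fun i h1 h2 => by simpa using h (i + -a) (by omega) (by omega)⟩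

/-- an apartment is determined by `n + 2` consecutive vertices -/
theorem ap_eq {x y : ℤ → V} (hx : P.Ap x) (hy : P.Ap y) {a : ℤ}
    (h : ∀ i, a ≤ i → i ≤ a + P.n + 1 → x i = y i) (i : ℤ) : x i = y i := by
  have h3 := P.three_le
  have key : ∀ i, a ≤ i → i < a + 2 * P.n → x i = y i := fun i h1 h2 => by
    by_cases hi : i ≤ a + P.n + 1
    · exact h i h1 hi
    · refine eq_between hx.1 hy.1 (i := a + P.n + 1) (j := a + 2 * P.n) (by omega)
        (h _ (by omega) le_rfl) ?_ (by omega) (by omega)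
      rw [hx.2, hy.2]; exact h a le_rfl (by omega)
  have hn : (0 : ℤ) < 2 * P.n := by omega
  have e : i = (a + (i - a) % (2 * P.n)) + ((i - a) / (2 * P.n)) * (2 * P.n) := by
    have := Int.emod_add_ediv_mul (i - a) (2 * P.n); linarith
  rw [e, hx.per_mul, hy.per_mul]
  exact key _ (by have := Int.emod_nonneg (i - a) hn.ne'; omega)
    (by have := Int.emod_lt_of_pos (i - a) hn; omega)

theorem fix_ap {x : ℤ → V} (hx : P.Ap x) {g : G} {a : ℤ}
    (h : ∀ i, a ≤ i → i ≤ a + P.n + 1 → g • x i = x i) (i : ℤ) : g • x i = x i :=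
  ap_eq (hx.smul g) hx h i

/-- **Rigidity**: an element fixing a path of length `n + 1` and the neighbours of two adjacent
vertices of it is trivial. -/
theorem eq_one {p : ℤ → V} (hp : P.Line p) {g : G} {a k : ℤ}
    (h : ∀ i, a ≤ i → i ≤ a + P.n + 1 → g • p i = p i) (hk : a ≤ k) (hk' : k ≤ a + P.n)
    (h0 : g ∈ P.K (p k)) (h1 : g ∈ P.K (p (k + 1))) : g = 1 := by
  obtain ⟨x, hx, e⟩ := exists_ap hp a
  refine P.rigid _ (hx.shift k) g (fun i => fix_ap hx (a := a) (fun i h1 h2 => ?_) _) ?_ ?_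
  · rw [e i h1 h2]; exact h i h1 h2
  · simpa [e k hk (by omega)] using h0.2
  · simpa [add_comm 1 k, e (k + 1) (by omega) (by omega)] using h1.2

/-- strong transitivity for line segments of length `≤ n + 1` -/
theorem exists_smul_line {p q : ℤ → V} (hp : P.Line p) (hq : P.Line q)
    (ht : P.ty (p 0) = P.ty (q 0)) (a : ℤ) :
    ∃ g : G, ∀ i, a ≤ i → i ≤ a + P.n + 1 → g • p i = q i := by
  obtain ⟨x, hx, ex⟩ := exists_ap hp a
  obtain ⟨y, hy, ey⟩ := exists_ap hq a
  have h3 := P.three_le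
  obtain ⟨g, hg⟩ := P.strong _ _ (hx.shift a) (hy.shift a) (by
    simp only [zero_add]
    rw [ex a le_rfl (by omega), ey a le_rfl (by omega)]
    rcases Int.emod_two_eq_zero_or_one (a - 0) with h | h
    · rw [ty_even hp h, ty_even hq h, ht]
    · have h1 := ty_odd hp h; have h2 := ty_odd hq h
      rw [ht] at h1
      cases h : P.ty (q 0) <;> cases h' : P.ty (p a) <;> cases h'' : P.ty (q a) <;> simp_all)
  exact ⟨g, fun i h1 h2 => by
    rw [← ex i h1 h2, ← ey i h1 h2]; simpa using hg (i - a)⟩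

theorem exists_smul_of_ty {y z : V} (h : P.ty y = P.ty z) : ∃ g : G, g • y = z := by
  obtain ⟨p, hp, rfl⟩ := exists_line (P := P) y
  obtain ⟨q, hq, rfl⟩ := exists_line (P := P) z
  obtain ⟨g, hg⟩ := exists_smul_line hp hq h 0
  exact ⟨g, hg 0 le_rfl (by omega)⟩

/-- `G_y` is doubly transitive on the neighbours; more generally for vertices of equal type -/
theorem exists_smul_two {y a b y' c d : V} (ht : P.ty y = P.ty y') (ha : P.adj y a)
    (hb : P.adj y b) (hab : a ≠ b) (hc : P.adj y' c) (hd : P.adj y' d) (hcd : c ≠ d) :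
    ∃ g : G, g • y = y' ∧ g • a = c ∧ g • b = d := by
  obtain ⟨p, hp, rfl, rfl, rfl⟩ := exists_line_two ha hb hab
  obtain ⟨q, hq, rfl, rfl, rfl⟩ := exists_line_two hc hd hcd
  have h3 := P.three_le
  obtain ⟨g, hg⟩ := exists_smul_line hp hq ht (-1)
  exact ⟨g, hg 0 (by omega) (by omega), hg _ le_rfl (by omega), hg 1 (by omega) (by omega)⟩

theorem exists_shift {x : ℤ → V} (hx : P.Ap x) {c : ℤ} (hc : c % 2 = 0) :
    ∃ g : G, ∀ i, g • x i = x (i + c) :=
  P.strong _ _ hx (hx.shift c) (ty_even hx.1 (by omega)).symm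

theorem exists_refl {x : ℤ → V} (hx : P.Ap x) {c : ℤ} (hc : c % 2 = 0) :
    ∃ g : G, ∀ i, g • x i = x (c - i) :=
  P.strong _ _ hx (hx.rev c) (ty_even hx.1 (by omega)).symm

theorem A_fix' {a b : V} {u : G} (h : u ∈ P.A a b) : u • b = b := P.A_fix (P.A_symm a b ▸ h)

theorem A_conj' {a b : V} {u g : G} (h : u ∈ P.A a b) (ha : g • a = a) (hb : g • b = b) :
    g * u * g⁻¹ ∈ P.A a b := by simpa [ha, hb] using P.A_conj g h

/-- **Transitivity** of `A (p k) (p (k+1))` on the segments of length `n + 1` through the edge -/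
theorem trans {p q : ℤ → V} (hp : P.Line p) (hq : P.Line q) {a k : ℤ} (hk : a ≤ k)
    (hk' : k ≤ a + P.n) (h0 : p k = q k) (h1 : p (k + 1) = q (k + 1)) :
    ∃ g ∈ P.A (p k) (p (k + 1)), ∀ i, a ≤ i → i ≤ a + P.n + 1 → g • p i = q i := by
  obtain ⟨g, hg⟩ := exists_smul_line (hp.shift k) (hq.shift k) (by simp [h0]) (a - k)
  obtain ⟨x, hx, ex⟩ := exists_ap hp a
  have hg' : ∀ i, a ≤ i → i ≤ a + P.n + 1 → g • p i = q i := fun i h1 h2 => by
    simpa using hg (i - k) (by omega) (by omega)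
  obtain ⟨u, hu, e⟩ := P.split _ (hx.shift k) g
    (by simp only [zero_add]; rw [ex k hk (by omega), hg' k hk (by omega), h0])
    (by simp only [add_comm 1 k]
        rw [ex _ (by omega) (by omega), hg' _ (by omega) (by omega), h1])
  refine ⟨u, by simpa [add_comm 1 k, ex k hk (by omega), ex (k + 1) (by omega) (by omega)]
    using hu, fun i h1 h2 => ?_⟩
  have := e (i - k)
  simp only [sub_add_cancel] at this
  rw [← hg' i h1 h2, ← ex i h1 h2, this]

/-! ### `K`, `Ball`, `Q`, `Z` -/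

theorem K_conj (g : G) {y : V} {u : G} (h : u ∈ P.K y) : g * u * g⁻¹ ∈ P.K (g • y) :=
  ⟨by simp [mul_smul, h.1], fun z hz => by
    have := h.2 (g⁻¹ • z) (by simpa using P.adj_smul g⁻¹ hz)
    simp [mul_smul, this]⟩

theorem K_conj' {g : G} {y : V} {u : G} (h : u ∈ P.K y) (hg : g • y = y) :
    g * u * g⁻¹ ∈ P.K y := by simpa [hg] using K_conj g h

theorem Ball_conj (g : G) {k : ℕ} {y : V} {u : G} (h : u ∈ P.Ball k y) :
    g * u * g⁻¹ ∈ P.Ball k (g • y) := fun p hp h0 i h1 h2 => by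
  have := h _ (hp.smul g⁻¹) (by simp [h0]) i h1 h2
  simp [mul_smul, this]

theorem Ball_conj' {g : G} {k : ℕ} {y : V} {u : G} (h : u ∈ P.Ball k y) (hg : g • y = y) :
    g * u * g⁻¹ ∈ P.Ball k y := by simpa [hg] using Ball_conj g h

theorem Q_conj (g : G) {y : V} {u : G} (h : u ∈ P.Q y) : g * u * g⁻¹ ∈ P.Q (g • y) :=
  ⟨K_conj g h.1, fun z hz => by
    simpa using P.A_conj g (h.2 (g⁻¹ • z) (by simpa using P.adj_smul g⁻¹ hz))⟩

theorem Q_conj' {g : G} {y : V} {u : G} (h : u ∈ P.Q y) (hg : g • y = y) :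
    g * u * g⁻¹ ∈ P.Q y := by simpa [hg] using Q_conj g h

theorem Z_conj (g : G) {y z : V} {u : G} (h : u ∈ P.Z y z) :
    g * u * g⁻¹ ∈ P.Z (g • y) (g • z) := by
  rw [mem_Z] at h ⊢
  refine ⟨P.A_conj g h.1, fun a ha => ?_⟩
  have := h.2 (g⁻¹ * a * g) (by simpa using P.A_conj g⁻¹ ha)
  calc a * (g * u * g⁻¹) = g * (g⁻¹ * a * g * u) * g⁻¹ := by group
    _ = _ := by rw [this]; group

theorem Z_symm (y z : V) : P.Z y z = P.Z z y := by simp only [Z, P.A_symm y z]

theorem Zv_conj (g : G) {y : V} {u : G} (h : u ∈ P.Zv y) : g * u * g⁻¹ ∈ P.Zv (g • y) :=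
  fun z hz => by
    simpa using Z_conj g (h (g⁻¹ • z) (by simpa using P.adj_smul g⁻¹ hz))

theorem Zv_conj' {g : G} {y : V} {u : G} (h : u ∈ P.Zv y) (hg : g • y = y) :
    g * u * g⁻¹ ∈ P.Zv y := by simpa [hg] using Zv_conj g h

theorem Q_le_K (y : V) : P.Q y ≤ P.K y := fun _ h => h.1

theorem Q_le_A {y z : V} (h : P.adj y z) : P.Q y ≤ P.A y z := fun _ hu => hu.2 z h

theorem Z_le_A (y z : V) : P.Z y z ≤ P.A y z := inf_le_left

theorem Z_comm {y z : V} {u a : G} (hu : u ∈ P.Z y z) (ha : a ∈ P.A y z) : a * u = u * a :=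
  (mem_Z.1 hu).2 a ha

theorem Zv_comm {y z : V} {u a : G} (hu : u ∈ P.Zv y) (hz : P.adj y z) (ha : a ∈ P.A y z) :
    a * u = u * a := Z_comm (hu z hz) ha

theorem K_fix {p : ℤ → V} (hp : P.Line p) {u : G} {k i : ℤ} (h : u ∈ P.K (p k))
    (h1 : k - 1 ≤ i) (h2 : i ≤ k + 1) : u • p i = p i := by
  rcases (by omega : i = k - 1 ∨ i = k ∨ i = k + 1) with rfl | rfl | rfl
  · exact h.2 _ (hp.adj_pred (by ring))
  · exact h.1
  · exact h.2 _ (hp.1 k)

/-- an element of `Ball k (p c)` fixes `p i` for `|i - c| ≤ k` -/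
theorem Ball_fix {p : ℤ → V} (hp : P.Line p) {u : G} {k : ℕ} {c i : ℤ} (h : u ∈ P.Ball k (p c))
    (h1 : c - k ≤ i) (h2 : i ≤ c + k) : u • p i = p i := by
  rcases le_total c i with hc | hc
  · simpa using h _ (hp.shift c) (by simp) (i - c) (by omega) (by omega)
  · simpa using h _ (hp.rev c) (by simp) (c - i) (by omega) (by omega)

theorem Ball_anti {k l : ℕ} (h : k ≤ l) (y : V) : P.Ball l y ≤ P.Ball k y :=
  fun _ hu p hp h0 i h1 h2 => hu p hp h0 i h1 (by omega)

theorem mem_Ball_one {y : V} {u : G} : u ∈ P.Ball 1 y ↔ u ∈ P.K y := by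
  refine ⟨fun h => ⟨?_, fun z hz => ?_⟩, fun h p hp h0 i h1 h2 => ?_⟩
  · obtain ⟨p, hp, rfl⟩ := exists_line (P := P) y
    exact h p hp rfl 0 le_rfl (by omega)
  · obtain ⟨p, hp, rfl, rfl⟩ := exists_line_edge hz
    exact h p hp rfl 1 (by omega) (by omega)
  · exact K_fix hp (k := 0) (h0 ▸ h) (by omega) (by omega)

/-- `Ball (k + d) (p c) ≤ Ball k (p i)` when `|i - c| ≤ d` -/
theorem Ball_move {p : ℤ → V} (hp : P.Line p) {u : G} {k l : ℕ} {c i : ℤ}
    (h : u ∈ P.Ball l (p c)) (h1 : c + k ≤ i + l) (h2 : i + k ≤ c + l) : u ∈ P.Ball k (p i) := by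
  have one : ∀ (k : ℕ) {y z : V}, P.adj y z → u ∈ P.Ball (k + 1) y → u ∈ P.Ball k z := by
    intro k y z hyz hu q hq h0 j j0 j1
    subst h0
    by_cases e : q 1 = y
    · subst e
      exact Ball_fix hq hu (by omega) (by push_cast; omega)
    · obtain ⟨r, hr, r1, r2⟩ := exists_turn' (k := 0) hq (P.adj_symm hyz) (by simpa using Ne.symm e)
      rw [← r1 j j0]
      exact Ball_fix hr (c := 0 - 1) (r2 ▸ hu) (by omega) (by push_cast; omega)
  have up : ∀ (d k : ℕ) {q : ℤ → V}, P.Line q → u ∈ P.Ball (k + d) (q 0) →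
      u ∈ P.Ball k (q d) := by
    intro d
    induction d with
    | zero => intro k q _ h; simpa using h
    | succ d ih =>
      intro k q hq h
      exact one k (hq.adj' (i := d) (by push_cast; ring))
        (ih (k + 1) hq (by rwa [show k + 1 + d = k + (d + 1) by ring]))
  rcases le_total c i with hc | hc
  · simpa [Int.toNat_of_nonneg (sub_nonneg.2 hc)] using up (i - c).toNat k (hp.shift c)
      (Ball_anti (l := l) (by omega) _ (by simpa using h))
  · simpa [Int.toNat_of_nonneg (sub_nonneg.2 hc)] using up (c - i).toNat k (hp.rev c)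
      (Ball_anti (l := l) (by omega) _ (by simpa using h))

/-- `Ball l (p c) ≤ K (p i)` when `|i - c| < l` -/
theorem Ball_K {p : ℤ → V} (hp : P.Line p) {u : G} {l : ℕ} {c i : ℤ}
    (h : u ∈ P.Ball l (p c)) (h1 : c < i + l) (h2 : i < c + l) : u ∈ P.K (p i) :=
  mem_Ball_one.1 (Ball_move hp h (by push_cast; omega) (by push_cast; omega))

theorem Ball_K' {u : G} {l : ℕ} {y : V} (h : u ∈ P.Ball l y) (hl : 1 ≤ l) : u ∈ P.K y :=
  mem_Ball_one.1 (Ball_anti hl _ h)

/-- An element of `Ball k (p c)`, `k ≥ 2`, fixing `p (c + j)` with `n + 1 ≤ k + j`, `j < n` is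
trivial.  (For `n = 2k`, `j = k + 1`: a central elation moves every vertex at distance `k + 1`.) -/
theorem Ball_eq_one {p : ℤ → V} (hp : P.Line p) {u : G} {k : ℕ} {c j : ℤ}
    (h : u ∈ P.Ball k (p c)) (hk : 2 ≤ k) (hj : P.n + 1 ≤ k + j) (hj' : j < P.n)
    (hf : u • p (c + j) = p (c + j)) : u = 1 := by
  have h3 := P.three_le
  by_cases hkn : P.n + 1 ≤ k
  · exact eq_one hp (a := c - 1) (k := c) (fun i h1 h2 => Ball_fix hp h (by omega) (by omega))
      (by omega) (by omega) (Ball_K hp h (by omega) (by omega)) (Ball_K hp h (by omega) (by omega))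
  refine eq_one hp (a := c - k) (k := c - 1) (fun i h1 h2 => ?_) (by omega) (by omega)
    (Ball_K hp h (by omega) (by omega)) (Ball_K hp h (by omega) (by omega))
  rcases le_total i c with hi | hi
  · exact Ball_fix hp h h1 (by omega)
  · exact fix_between hp (i := c) (j := c + j) (by omega) (Ball_fix hp h (by omega) (by omega)) hf
      hi (by omega)

theorem Ball_eq_one' {p : ℤ → V} (hp : P.Line p) {u : G} {k : ℕ} {c j : ℤ}
    (h : u ∈ P.Ball k (p c)) (hk : 2 ≤ k) (hj : P.n + 1 ≤ k + j) (hj' : j < P.n)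
    (hf : u • p (c - j) = p (c - j)) : u = 1 :=
  Ball_eq_one (hp.rev 0) (c := -c) (by simpa using h) hk hj hj'
    (by simpa [show -(-c + j) = c - j by ring] using hf)

theorem two_le_m : 2 ≤ P.m := by have := P.three_le; unfold m; omega

theorem Sg.of_smul {y : V} (h : P.Sg y) (g : G) : P.Sg (g • y) := fun z hz u hu => by
  have := h (g⁻¹ • z) (by simpa using P.adj_smul g⁻¹ hz) (x := g⁻¹ * u * g⁻¹⁻¹)
    (by simpa using Z_conj g⁻¹ hu)
  simpa [mul_assoc] using Ball_conj g this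

theorem Sg.of_ty {y z : V} (h : P.Sg y) (e : P.ty y = P.ty z) : P.Sg z := by
  obtain ⟨g, rfl⟩ := exists_smul_of_ty e
  exact h.of_smul g

theorem E1.of_smul {y : V} (h : P.E1 y) (g : G) : P.E1 (g • y) := fun a b ha hb hab u hu hf => by
  have := h (g⁻¹ • a) (g⁻¹ • b) (by simpa using P.adj_smul g⁻¹ ha)
    (by simpa using P.adj_smul g⁻¹ hb) (fun e => hab (smul_left_cancel _ e)) (g⁻¹ * u * g⁻¹⁻¹)
    (by simpa using P.A_conj g⁻¹ hu) (by simp [mul_smul, hf])
  simpa [mul_assoc] using K_conj g this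

theorem E1.of_ty {y z : V} (h : P.E1 y) (e : P.ty y = P.ty z) : P.E1 z := by
  obtain ⟨g, rfl⟩ := exists_smul_of_ty e
  exact h.of_smul g

theorem sz_smul (g : G) (y : V) : P.sz (g • y) = P.sz y := by
  unfold sz
  congr 1
  symm
  refine Set.ncard_congr (fun z _ => g • z) (fun z hz => P.adj_smul g hz)
    (fun a b _ _ e => smul_left_cancel g e) fun z hz => ⟨g⁻¹ • z, ?_, by simp⟩
  simpa using P.adj_smul g⁻¹ hz

theorem sz_of_ty {y z : V} (e : P.ty y = P.ty z) : P.sz y = P.sz z := by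
  obtain ⟨g, rfl⟩ := exists_smul_of_ty e
  exact (sz_smul g y).symm

theorem sz_eq [Finite V] {y a : V} (h : P.adj y a) : P.sz y = {z | P.adj y z ∧ z ≠ a}.ncard := by
  unfold sz
  rw [← Set.ncard_sdiff_singleton_of_mem (s := {z | P.adj y z}) h]
  rfl

theorem two_le_sz [Finite V] (y : V) : 2 ≤ P.sz y := by
  obtain ⟨a, ha, -, -⟩ := P.thick y y y
  obtain ⟨b, hb, hba, -⟩ := P.thick y a a
  obtain ⟨c, hc, hca, hcb⟩ := P.thick y a b
  rw [sz_eq ha]
  exact (Set.one_lt_ncard (Set.toFinite _)).2 ⟨b, ⟨hb, hba⟩, c, ⟨hc, hca⟩, hcb.symm⟩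

/-- a subgroup fixing `y, a` whose elements fixing `b` are trivial has at most `sz y` elements;
in case of equality it is transitive on `Γ(y) ∖ a`. -/
theorem card_le_sz [Finite V] {H : Subgroup G} {y a b : V} (ha : P.adj y a) (hb : P.adj y b)
    (hba : b ≠ a) (hf : ∀ g ∈ H, g • y = y ∧ g • a = a) (h1 : ∀ g ∈ H, g • b = b → g = 1) :
    Nat.card H ≤ P.sz y ∧ (P.sz y ≤ Nat.card H → P.Tr H y a) := by
  let f : H → {z | P.adj y z ∧ z ≠ a} := fun g => ⟨g.1 • b, by
    simpa [(hf g g.2).1] using P.adj_smul g.1 hb, fun e => hba (smul_left_cancel g.1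
      (e.trans (hf g g.2).2.symm))⟩
  have hi : Function.Injective f := fun g g' e => by
    have e' : g.1 • b = g'.1 • b := congrArg Subtype.val e
    have := h1 (g'.1⁻¹ * g.1) (mul_mem (inv_mem g'.2) g.2) (by rw [mul_smul, e']; simp)
    exact Subtype.ext (inv_mul_eq_one.1 this).symm
  rw [sz_eq ha, ← Nat.card_coe_set_eq]
  refine ⟨Nat.card_le_card_of_injective f hi, fun hle c d hc hd hca hda => ?_⟩
  have hs := (hi.bijective_of_nat_card_le hle).2
  obtain ⟨g, hg⟩ := hs ⟨c, hc, hca⟩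
  obtain ⟨g', hg'⟩ := hs ⟨d, hd, hda⟩
  have e1 : g.1 • b = c := congrArg Subtype.val hg
  have e2 : g'.1 • b = d := congrArg Subtype.val hg'
  exact ⟨g'.1 * g.1⁻¹, mul_mem g'.2 (inv_mem g.2), by rw [← e1, ← e2, mul_smul]; simp⟩

theorem sz_le_card [Finite G] [Finite V] {H : Subgroup G} {y a : V} (ha : P.adj y a)
    (h : P.Tr H y a) : P.sz y ≤ Nat.card H := by
  obtain ⟨b, hb, hba, -⟩ := P.thick y a a
  rw [sz_eq ha, ← Nat.card_coe_set_eq]
  choose f hf hf' using fun c : {z | P.adj y z ∧ z ≠ a} => h b c hb c.2.1 hba c.2.2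
  exact Nat.card_le_card_of_injective (fun c => (⟨f c, hf c⟩ : H)) fun c d e =>
    Subtype.ext (by rw [← hf' c, ← hf' d, show f c = f d from congrArg Subtype.val e])

theorem Tr.mono {H H' : Subgroup G} {y a : V} (h : P.Tr H y a) (hle : H ≤ H') : P.Tr H' y a :=
  fun b c hb hc h1 h2 => let ⟨g, hg, e⟩ := h b c hb hc h1 h2; ⟨g, hle hg, e⟩

/-- transitivity from one base point -/
theorem tr_of_base {H : Subgroup G} {y a b : V}
    (h : ∀ c, P.adj y c → c ≠ a → ∃ g ∈ H, g • b = c) : P.Tr H y a := fun c d hc hd h1 h2 => by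
  obtain ⟨g, hg, rfl⟩ := h c hc h1
  obtain ⟨g', hg', rfl⟩ := h d hd h2
  exact ⟨g' * g⁻¹, mul_mem hg' (inv_mem hg), by simp [mul_smul]⟩

theorem tr_A {y a : V} (ha : P.adj y a) : P.Tr (P.A y a) y a := fun b c hb hc h1 h2 => by
  obtain ⟨p, hp, rfl, rfl, rfl⟩ := exists_line_two hb ha h1
  obtain ⟨q, hq, rfl, e0, e1⟩ := exists_line_two hc ha h2
  have h3 := P.three_le
  obtain ⟨g, hg, e⟩ := trans hp hq (a := -1) (k := 0) (by omega) (by omega) e0.symm
    (by simpa using e1.symm)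
  exact ⟨g, by simpa using hg, e _ le_rfl (by omega)⟩

/-- an element fixing one point of `Γ(y) ∖ a` and commuting modulo `K y` with a transitive group
lies in `K y` -/
theorem mem_K_of_tr {H : Subgroup G} {y a b : V} (hH : P.Tr H y a) {u : G} (hb : P.adj y b)
    (hba : b ≠ a) (h0 : u • y = y) (h1 : u • a = a) (h2 : u • b = b)
    (hc : ∀ g ∈ H, g⁻¹ * u * g * u⁻¹ ∈ P.K y) : u ∈ P.K y := by
  refine ⟨h0, fun c hc' => ?_⟩
  by_cases e : c = a
  · rw [e, h1]
  obtain ⟨g, hg, rfl⟩ := hH b c hb hc' hba e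
  have := (hc g hg).2 b hb
  rw [mul_smul, inv_smul_eq_iff.2 h2.symm, mul_smul, mul_smul, inv_smul_eq_iff] at this
  exact this

end Pol

end Cfsg.Agent.BN2
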