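import Mathlib

/-!
# Generalized polygons with a strongly transitive group and a nilpotent splitting (definitions)

Framework for S3415 / S1144 (rank two).  `V` = vertices (points and lines) of a thick generalized
`n`-gon, `adj` = incidence.  A *line* (`IsLine`) is a bi-infinite non-backtracking path
`p : ℤ → V`; an *apartment* (`IsAp`) is a line of period `2n`.  For an edge `(a,b)`,
`A a b` is the Fitting subgroup of the edge stabiliser; `split` says that it is transitive on the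
apartments through the edge.
-/

set_option autoImplicit false

namespace Cfsg.Agent.BN2

/-- bi-infinite non-backtracking path -/
def IsLine {V : Type*} (adj : V → V → Prop) (p : ℤ → V) : Prop :=
  (∀ k, adj (p k) (p (k + 1))) ∧ ∀ k, p (k + 2) ≠ p k

/-- apartment: a line of period `2 n` -/
def IsAp {V : Type*} (adj : V → V → Prop) (n : ℕ) (x : ℤ → V) : Prop :=
  IsLine adj x ∧ ∀ k, x (k + 2 * n) = x k

/-- A thick generalized `n`-gon with a faithful, type preserving, strongly transitive group `G`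
whose edge stabilisers split over their Fitting subgroups `A a b`. -/
structure Pol (G V : Type*) [Group G] [MulAction G V] where
  n : ℕ
  three_le : 3 ≤ n
  adj : V → V → Prop
  adj_symm : ∀ {a b : V}, adj a b → adj b a
  adj_smul : ∀ (g : G) {a b : V}, adj a b → adj (g • a) (g • b)
  ty : V → Bool
  ty_adj : ∀ {a b : V}, adj a b → ty a ≠ ty b
  ty_smul : ∀ (g : G) (a : V), ty (g • a) = ty a
  thick : ∀ a b c : V, ∃ d, adj a d ∧ d ≠ b ∧ d ≠ c
  girth : ∀ p : ℤ → V, IsLine adj p → ∀ k : ℤ, 0 < k → k < 2 * n → p k ≠ p 0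
  ext_ap : ∀ p : ℤ → V, IsLine adj p → ∃ x, IsAp adj n x ∧ ∀ i : ℤ, 0 ≤ i → i ≤ n + 1 → x i = p i
  strong : ∀ x y : ℤ → V, IsAp adj n x → IsAp adj n y → ty (x 0) = ty (y 0) →
    ∃ g : G, ∀ i, g • x i = y i
  rigid : ∀ x : ℤ → V, IsAp adj n x → ∀ g : G, (∀ i, g • x i = x i) →
    (∀ z, adj (x 0) z → g • z = z) → (∀ z, adj (x 1) z → g • z = z) → g = 1
  A : V → V → Subgroup G
  A_symm : ∀ a b : V, A a b = A b a
  A_conj : ∀ (g : G) {a b : V} {u : G}, u ∈ A a b → g * u * g⁻¹ ∈ A (g • a) (g • b)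
  A_fix : ∀ {a b : V} {u : G}, u ∈ A a b → u • a = a
  A_nil : ∀ {a b : V}, adj a b → Group.IsNilpotent (A a b)
  A_max : ∀ {a b : V} (H : Subgroup G), adj a b → (∀ u ∈ H, u • a = a ∧ u • b = b) →
    (∀ g : G, g • a = a → g • b = b → ∀ u ∈ H, g * u * g⁻¹ ∈ H) → Group.IsNilpotent H → H ≤ A a b
  split : ∀ x : ℤ → V, IsAp adj n x → ∀ g : G, g • x 0 = x 0 → g • x 1 = x 1 →
    ∃ a ∈ A (x 0) (x 1), ∀ i, a • x i = g • x i

/-- `Pol` whose groups `A a b` are `p`-groups and compatible along paths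
(proved in `BN2/Prime.lean` for every `Pol` with `n = 3` or `n` even). -/
structure SP (G V : Type*) [Group G] [MulAction G V] extends Pol G V where
  p : ℕ
  prime : p.Prime
  A_p : ∀ {a b : V}, adj a b → IsPGroup p (A a b)
  compat : ∀ {x y z : V} {u : G}, adj x y → adj x z → u ∈ A x y → u • z = z → u ∈ A x z

namespace Pol

variable {G V : Type*} [Group G] [MulAction G V] (P : Pol G V)

/-- lines of `P` -/
abbrev Line (p : ℤ → V) : Prop := IsLine P.adj p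

/-- apartments of `P` -/
abbrev Ap (x : ℤ → V) : Prop := IsAp P.adj P.n x

/-- `⌈n/2⌉` -/
def m : ℕ := (P.n + 1) / 2

theorem adj_smul_iff (g : G) {a b : V} : P.adj (g • a) (g • b) ↔ P.adj a b :=
  ⟨fun h => by simpa using P.adj_smul g⁻¹ h, P.adj_smul g⟩

theorem _root_.Cfsg.Agent.BN2.IsLine.smul {P : Pol G V} {p : ℤ → V} (h : P.Line p) (g : G) :
    P.Line fun i => g • p i :=
  ⟨fun k => P.adj_smul g (h.1 k), fun k e => h.2 k (smul_left_cancel g e)⟩

/-- kernel of the action of the stabiliser of `y` on the neighbours of `y` -/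
def K (y : V) : Subgroup G where
  carrier := {g | g • y = y ∧ ∀ z, P.adj y z → g • z = z}
  one_mem' := ⟨one_smul _ _, fun _ _ => one_smul _ _⟩
  mul_mem' ha hb := ⟨by rw [mul_smul, hb.1, ha.1], fun z h => by rw [mul_smul, hb.2 z h, ha.2 z h]⟩
  inv_mem' ha := ⟨inv_smul_eq_iff.2 ha.1.symm, fun z h => inv_smul_eq_iff.2 (ha.2 z h).symm⟩

/-- pointwise stabiliser of the ball of radius `k` around `y` -/
def Ball (k : ℕ) (y : V) : Subgroup G where
  carrier := {g | ∀ p, P.Line p → p 0 = y → ∀ i : ℤ, 0 ≤ i → i ≤ k → g • p i = p i}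
  one_mem' _ _ _ _ _ _ := one_smul _ _
  mul_mem' ha hb p h1 h2 i h3 h4 := by rw [mul_smul, hb p h1 h2 i h3 h4, ha p h1 h2 i h3 h4]
  inv_mem' ha p h1 h2 i h3 h4 := inv_smul_eq_iff.2 (ha p h1 h2 i h3 h4).symm

/-- `Q y = O_p(G_y)`: the elements of `K y` lying in the groups `A y z` -/
def Q (y : V) : Subgroup G where
  carrier := {g | g ∈ P.K y ∧ ∀ z, P.adj y z → g ∈ P.A y z}
  one_mem' := ⟨one_mem _, fun _ _ => one_mem _⟩
  mul_mem' ha hb := ⟨mul_mem ha.1 hb.1, fun z h => mul_mem (ha.2 z h) (hb.2 z h)⟩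
  inv_mem' ha := ⟨inv_mem ha.1, fun z h => inv_mem (ha.2 z h)⟩

/-- the centre of `A y z` -/
def Z (y z : V) : Subgroup G := P.A y z ⊓ Subgroup.centralizer (P.A y z : Set G)

/-- `R x i j = A_{[i,j]}`: the elements of `A (x i) (x (i+1))` fixing `x i, …, x j` -/
def R (x : ℤ → V) (i j : ℤ) : Subgroup G where
  carrier := {g | g ∈ P.A (x i) (x (i + 1)) ∧ ∀ k, i ≤ k → k ≤ j → g • x k = x k}
  one_mem' := ⟨one_mem _, fun _ _ _ => one_smul _ _⟩
  mul_mem' ha hb := ⟨mul_mem ha.1 hb.1, fun k h1 h2 => by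
    rw [mul_smul, hb.2 k h1 h2, ha.2 k h1 h2]⟩
  inv_mem' ha := ⟨inv_mem ha.1, fun k h1 h2 => inv_smul_eq_iff.2 (ha.2 k h1 h2).symm⟩

/-- `QQ x i j = Q (x i) ∩ … ∩ Q (x j)` -/
def QQ (x : ℤ → V) (i j : ℤ) : Subgroup G where
  carrier := {g | ∀ k, i ≤ k → k ≤ j → g ∈ P.Q (x k)}
  one_mem' _ _ _ := one_mem _
  mul_mem' ha hb k h1 h2 := mul_mem (ha k h1 h2) (hb k h1 h2)
  inv_mem' ha k h1 h2 := inv_mem (ha k h1 h2)

/-- root group of the root `(x i, …, x (i+n))` -/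
def X (x : ℤ → V) (i : ℤ) : Subgroup G := P.QQ x (i + 1) (i + P.n - 1)

/-- `D x`: the elements of `A` fixing the whole apartment (line) `x` -/
def D (x : ℤ → V) : Subgroup G where
  carrier := {g | g ∈ P.A (x 0) (x 1) ∧ ∀ k, g • x k = x k}
  one_mem' := ⟨one_mem _, fun _ => one_smul _ _⟩
  mul_mem' ha hb := ⟨mul_mem ha.1 hb.1, fun k => by rw [mul_smul, hb.2 k, ha.2 k]⟩
  inv_mem' ha := ⟨inv_mem ha.1, fun k => inv_smul_eq_iff.2 (ha.2 k).symm⟩

/-- the goal at the vertex `y`: `A y a` acts regularly (modulo the kernel) on `Γ(y) ∖ a` -/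
def E1 (y : V) : Prop :=
  ∀ a b, P.adj y a → P.adj y b → a ≠ b → ∀ u ∈ P.A y a, u • b = b → u ∈ P.K y

/-- vertices of type `σ`: the centres `Z y z` consist of central elations with centre `y` -/
def Sg (y : V) : Prop := ∀ z, P.adj y z → P.Z y z ≤ P.Ball P.m y

/-- `Zv y`: the elements central in all `A y z` (for `σ`-vertices and `n = 4, 8` this is `Z y z`) -/
def Zv (y : V) : Subgroup G where
  carrier := {g | ∀ z, P.adj y z → g ∈ P.Z y z}
  one_mem' _ _ := one_mem _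
  mul_mem' ha hb z h := mul_mem (ha z h) (hb z h)
  inv_mem' ha z h := inv_mem (ha z h)

/-- number of neighbours of `y` minus one -/
noncomputable def sz (y : V) : ℕ := {z | P.adj y z}.ncard - 1

/-- `H` is transitive on `Γ(y) ∖ a` -/
def Tr (H : Subgroup G) (y a : V) : Prop :=
  ∀ b c, P.adj y b → P.adj y c → b ≠ a → c ≠ a → ∃ g ∈ H, g • b = c

variable {P}

theorem mem_K {y : V} {g : G} : g ∈ P.K y ↔ g • y = y ∧ ∀ z, P.adj y z → g • z = z := Iff.rfl

theorem mem_Ball {k : ℕ} {y : V} {g : G} : g ∈ P.Ball k y ↔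
    ∀ p, P.Line p → p 0 = y → ∀ i : ℤ, 0 ≤ i → i ≤ k → g • p i = p i := Iff.rfl

theorem mem_Q {y : V} {g : G} : g ∈ P.Q y ↔ g ∈ P.K y ∧ ∀ z, P.adj y z → g ∈ P.A y z := Iff.rfl

theorem mem_Z {y z : V} {g : G} : g ∈ P.Z y z ↔ g ∈ P.A y z ∧ ∀ a ∈ P.A y z, a * g = g * a := by
  simp [Z, Subgroup.mem_centralizer_iff]

theorem mem_R {x : ℤ → V} {i j : ℤ} {g : G} : g ∈ P.R x i j ↔
    g ∈ P.A (x i) (x (i + 1)) ∧ ∀ k, i ≤ k → k ≤ j → g • x k = x k := Iff.rfl

theorem mem_QQ {x : ℤ → V} {i j : ℤ} {g : G} : g ∈ P.QQ x i j ↔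
    ∀ k, i ≤ k → k ≤ j → g ∈ P.Q (x k) := Iff.rfl

theorem mem_X {x : ℤ → V} {i : ℤ} {g : G} : g ∈ P.X x i ↔
    ∀ k, i < k → k < i + P.n → g ∈ P.Q (x k) :=
  ⟨fun h k h1 h2 => h k (by omega) (by omega), fun h k h1 h2 => h k (by omega) (by omega)⟩

theorem mem_D {x : ℤ → V} {g : G} : g ∈ P.D x ↔
    g ∈ P.A (x 0) (x 1) ∧ ∀ k, g • x k = x k := Iff.rfl

theorem mem_Zv {y : V} {g : G} : g ∈ P.Zv y ↔ ∀ z, P.adj y z → g ∈ P.Z y z := Iff.rfl

end Pol

end Cfsg.Agent.BN2
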