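import Cfsg.Agent.BN2.Sp

/-!
# Central elements of `A y w` (F3), commuting central elations, three centres
-/

set_option autoImplicit false

open scoped commutatorElement

namespace Cfsg.Agent.BN2

namespace Pol

variable {G V : Type*} [Group G] [MulAction G V] {P : Pol G V}

/-- If `z` centralizes `A (p 0) (p (-1))` and fixes `p j`, it fixes `q j` for every line `q`
through the same edge. -/
theorem Z_side {p q : ℤ → V} (hp : P.Line p) (hq : P.Line q) (h0 : p 0 = q 0)
    (h1 : p (-1) = q (-1)) {z : G} (hz : z ∈ P.Z (p 0) (p (-1))) {j : ℤ} (hj : 0 ≤ j)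
    (hj' : j ≤ P.n) (hf : z • p j = p j) : z • q j = q j := by
  obtain ⟨g, hg, e⟩ := trans hp hq (a := -1) (k := -1) le_rfl (by omega) h1 (by simpa using h0)
  have hc := Z_comm hz (a := g) (by rw [P.A_symm]; simpa using hg)
  rw [← e j (by omega) (by omega), ← mul_smul, ← hc, mul_smul, hf]

theorem Z_swap {y w : V} {z : G} (h : z ∈ P.Z y w) : z ∈ P.Z w y := by rwa [Z_symm]

theorem Z_side_fix {z : G} {y w : V} (hz : z ∈ P.Z y w) (j : ℕ) (hj : 2 * j < P.n) :
    ∀ q, P.Line q → q 0 = y → q (-1) = w → z • q j = q j := by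
  induction j with
  | zero => intro q _ h0 _; simpa [h0] using P.A_fix (Z_le_A _ _ hz)
  | succ j ih =>
    intro q hq h0 h1
    by_contra hne
    have hj0 := ih (by omega) q hq h0 h1
    push_cast at hne
    -- the folded line `q (n-1), …, q j, z q (j+1), …`
    obtain ⟨r, hr, r1, r2⟩ := exists_fold (k := -(j : ℤ)) (g := z) (hq.rev 0) (by simpa using hj0)
      (by simpa [show -(-(j : ℤ) - 1) = j + 1 by ring] using hne)
    obtain ⟨x, hx, ex⟩ := exists_ap hr (-(P.n - 1))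
    have e1 : x (-(P.n - 1)) = q (P.n - 1) := by
      rw [ex _ le_rfl (by omega), r1 _ (by omega)]; simp
    have e2 : x (-(P.n - 1) + 1) = q (P.n - 1 - 1) := by
      rw [ex _ (by omega) (by omega), r1 _ (by omega)]; congr 1; ring
    obtain ⟨d, hd, hd1, hd2⟩ := P.thick (q (P.n - 1)) (q (P.n - 1 - 1)) (x (-(P.n - 1) - 1))
    obtain ⟨s, hs, s1, s2⟩ := exists_turn hq (k := P.n - 1) (z := x (-(P.n - 1) - 1))
      (by rw [← e1]; exact hx.1.adj_pred (by ring))
      (by rw [← e2]; exact (hx.1.ne' (by ring)).symm)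
    obtain ⟨t, ht, t1, t2⟩ := exists_turn hq hd hd1
    obtain ⟨g, hg, e⟩ := trans hs ht (a := -1) (k := -1) le_rfl (by omega)
      (by rw [s1 _ (by omega), t1 _ (by omega)]) (by rw [s1 _ (by omega), t1 _ (by omega)])
    have hgA : g ∈ P.A y w := by
      rw [P.A_symm, ← h0, ← h1]
      simpa [s1 (-1) (by omega), s1 0 (by omega)] using hg
    have hq' : ∀ i : ℤ, -1 ≤ i → i ≤ P.n - 1 → g • q i = q i := fun i a b => by
      have := e i a (by omega)
      rwa [s1 _ b, t1 _ b] at this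
    have hx' := fix_ap hx (g := g) (a := -(P.n - 1)) fun i a b => by
      rw [ex i a b]
      rcases le_total i (-(j : ℤ)) with hi | hi
      · rw [r1 _ hi]; exact hq' _ (by omega) (by omega)
      · rw [r2 _ hi, ← mul_smul, Z_comm hz hgA, mul_smul, hq' _ (by omega) (by omega)]
    have := e (P.n - 1 + 1) (by omega) (by omega)
    rw [s2, t2, hx'] at this
    exact hd2 this.symm

theorem Z_side_fix' {z : G} {y w : V} (hz : z ∈ P.Z y w) {q : ℤ → V} (hq : P.Line q)
    (h0 : q 0 = y) (h1 : q 1 ≠ w) (hw : P.adj y w) {j : ℤ} (hj0 : 0 ≤ j) (hj : 2 * j < P.n) :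
    z • q j = q j := by
  obtain ⟨r, hr, r1, r2⟩ := exists_turn' (k := 0) hq (h0 ▸ hw) (by simpa using h1.symm)
  obtain ⟨j, rfl⟩ := Int.eq_ofNat_of_zero_le hj0
  rw [← r1 _ hj0]
  exact Z_side_fix hz j (by omega) r hr (by rw [r1 _ le_rfl, h0]) (by simpa using r2)

/-- **F3**: central elements of `A y w` fix the ball of radius `m - 1` around `y` (and `w`). -/
theorem Z_ball {y w : V} (hw : P.adj y w) : P.Z y w ≤ P.Ball (P.m - 1) y := by
  intro z hz q hq h0 i hi hi'
  have hm : 2 * (P.m - 1) < P.n := by have := P.three_le; unfold m; omega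
  by_cases e : q 1 = w
  · rcases hi.eq_or_lt with rfl | hi
    · rw [h0]; exact P.A_fix (Z_le_A _ _ hz)
    · have := Z_side_fix' (Z_swap hz) (hq.shift 1) (by simpa using e)
        (by simpa [← h0] using hq.ne' (i := 0) (j := 2) rfl) (P.adj_symm hw) (j := i - 1)
        (by omega) (by omega)
      simpa using this
  · exact Z_side_fix' hz hq h0 e hw hi (by omega)

theorem Z_ball' {y w : V} (hw : P.adj y w) : P.Z y w ≤ P.Ball (P.m - 1) w :=
  fun _ hz => Z_ball (P.adj_symm hw) (Z_swap hz)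

theorem Z_K {y w : V} (hw : P.adj y w) {z : G} (hz : z ∈ P.Z y w) : z ∈ P.K y :=
  Ball_K' (Z_ball hw hz) (by have := two_le_m (P := P); omega)

/-- a central element of `A (p 0) w` fixing one vertex `p m` at distance `m` from `p 0` (not
through `w`) is a central elation -/
theorem Z_ball_of_fix {p : ℤ → V} (hp : P.Line p) {w : V} (hw : P.adj (p 0) w) (hne : p 1 ≠ w)
    {z : G} (hz : z ∈ P.Z (p 0) w) (hf : z • p P.m = p P.m) : z ∈ P.Ball P.m (p 0) := by
  intro q hq h0 i hi hi'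
  have h2 := two_le_m (P := P)
  have hm : P.m ≤ P.n := by have := P.three_le; unfold m; omega
  by_cases e : q 1 = w
  · exact Ball_fix hq (c := 1) (e ▸ Z_ball' hw hz) (by omega) (by omega)
  rcases hi'.eq_or_lt with rfl | hi'
  · obtain ⟨r, hr, r1, r2⟩ := exists_turn' (k := 0) hp hw (by simpa using hne.symm)
    obtain ⟨s, hs, s1, s2⟩ := exists_turn' (k := 0) hq (h0 ▸ hw) (by simpa using Ne.symm e)
    rw [← s1 _ hi]
    refine Z_side hr hs (by rw [r1 _ le_rfl, s1 _ le_rfl, h0]) (by simpa using r2.trans s2.symm)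
      (by rwa [r1 _ le_rfl, show r (-1) = w by simpa using r2]) hi (by omega) (by rwa [r1 _ hi])
  · exact Ball_fix hq (c := 0) (h0 ▸ Z_ball hw hz) (by omega) (by omega)

/-- a nontrivial subgroup of `A y w` normalized by `A y w` meets the centre -/
theorem exists_Z_of_normal {y w : V} (hw : P.adj y w) {H : Subgroup G} (hH : H ≤ P.A y w)
    (hn : ∀ a ∈ P.A y w, ∀ u ∈ H, a * u * a⁻¹ ∈ H) {u : G} (hu : u ∈ H) (h1 : u ≠ 1) :
    ∃ z ∈ H, z ≠ 1 ∧ z ∈ P.Z y w := by
  have := P.A_nil hw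
  have key : ∀ (k : ℕ) (v : P.A y w), v ∈ Subgroup.upperCentralSeries (P.A y w) k → v.1 ∈ H → v ≠ 1 →
      ∃ z ∈ H, z ≠ 1 ∧ z ∈ P.Z y w := by
    intro k
    induction k with
    | zero => intro v hv _ h; exact absurd (by simpa using hv) h
    | succ k ih =>
      intro v hv hvH h
      by_cases hc : ∀ a : P.A y w, v * a * v⁻¹ * a⁻¹ = 1
      · refine ⟨v, hvH, fun e => h (Subtype.ext e), mem_Z.2 ⟨v.2, fun a ha => ?_⟩⟩
        have := congrArg Subtype.val (hc ⟨a, ha⟩)
        simp only [Subgroup.coe_mul, Subgroup.coe_inv, Subgroup.coe_one] at this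
        calc a * v.1 = (v.1 * a * v.1⁻¹ * a⁻¹) * (a * v.1) := by rw [this, one_mul]
          _ = _ := by group
      · push Not at hc
        obtain ⟨a, ha⟩ := hc
        refine ih _ (Subgroup.mem_upperCentralSeries_succ_iff.1 hv a) ?_ ha
        have := mul_mem hvH (hn a a.2 _ (inv_mem hvH))
        simpa [commutatorElement_def, mul_assoc] using this
  obtain ⟨k, hk⟩ := Group.IsNilpotent.nilpotent (P.A y w)
  exact key k ⟨u, hH hu⟩ (hk ▸ Subgroup.mem_top _) hu fun e => h1 (congrArg Subtype.val e)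

theorem exists_Z {y w : V} (hw : P.adj y w) : ∃ z ∈ P.Z y w, z ≠ 1 := by
  obtain ⟨b, hb, hbw, -⟩ := P.thick y w w
  obtain ⟨c, hc, hcw, hcb⟩ := P.thick y w b
  obtain ⟨g, hg, e⟩ := tr_A hw b c hb hc hbw hcw
  obtain ⟨z, -, h1, h2⟩ := exists_Z_of_normal hw le_rfl
    (fun a ha u hu => mul_mem (mul_mem ha hu) (inv_mem ha)) hg
    (by rintro rfl; exact hcb (by simpa using e.symm))
  exact ⟨z, h2, h1⟩

/-- a central elation (`n = 2m`) fixing a vertex at distance `m + 1` from its centre is trivial -/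
theorem C_eq_one (hn : P.n = 2 * P.m) {p : ℤ → V} (hp : P.Line p) {u : G} {c j : ℤ}
    (h : u ∈ P.Ball P.m (p c)) (hj : j = c + P.m + 1 ∨ j = c - P.m - 1) (hf : u • p j = p j) :
    u = 1 := by
  have h2 := two_le_m (P := P)
  rcases hj with rfl | rfl
  · exact Ball_eq_one hp h h2 (j := P.m + 1) (by omega) (by omega) (by rwa [← add_assoc])
  · exact Ball_eq_one' hp h h2 (j := P.m + 1) (by omega) (by omega) (by rwa [← sub_sub])

/-- central elations with different centres at distance `≤ n` -/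
theorem C_inf (hn : P.n = 2 * P.m) {p : ℤ → V} (hp : P.Line p) {u : G} {c d : ℤ}
    (h : u ∈ P.Ball P.m (p c)) (h' : u ∈ P.Ball P.m (p d)) (h1 : c < d) (h2 : d ≤ c + P.n) :
    u = 1 :=
  C_eq_one hn hp h (Or.inl rfl) (Ball_fix hp h' (by omega) (by omega))

/-- central elations with centres at distance `≤ m` commute -/
theorem C_comm (hn : P.n = 2 * P.m) {p : ℤ → V} (hp : P.Line p) {u v : G} {c d : ℤ}
    (h : u ∈ P.Ball P.m (p c)) (h' : v ∈ P.Ball P.m (p d)) (h1 : c < d) (h2 : d ≤ c + P.m) :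
    u * v = v * u :=
  commutatorElement_eq_one_iff_mul_comm.1 (C_inf hn hp
    (comm_Ball h (Ball_fix hp h' (by omega) (by omega))).2
    (comm_Ball h' (Ball_fix hp h (by omega) (by omega))).1 h1 (by omega))

theorem not_Sg_both (hn : P.n = 2 * P.m) {y w : V} (hw : P.adj y w) (h : P.Sg y) : ¬ P.Sg w := by
  intro h'
  obtain ⟨z, hz, h1⟩ := exists_Z hw
  obtain ⟨p, hp, rfl, rfl⟩ := exists_line_edge hw
  have := P.three_le
  exact h1 (C_inf hn hp (h _ hw hz) (h' _ (P.adj_symm hw) (Z_swap hz)) (by omega) (by omega))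

theorem not_Sg_three (hn : P.n = 3) (y : V) : ¬ P.Sg y := by
  intro h
  obtain ⟨p, hp, rfl⟩ := exists_line (P := P) y
  obtain ⟨z, hz, h1⟩ := exists_Z (hp.1 0)
  have hm : P.m = 2 := by simp [m, hn]
  have := h _ (hp.1 0) hz
  rw [hm] at this
  exact h1 (Ball_eq_one hp this le_rfl (j := 2) (by omega) (by omega)
    (Ball_fix hp this (by omega) (by omega)))

/-- if `y` is not a `σ`-vertex then every `Z y w` contains an element that is not a central
elation at `y` -/
theorem exists_of_not_Sg {y w : V} (h : ¬ P.Sg y) (hw : P.adj y w) :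
    ∃ z ∈ P.Z y w, z ∉ P.Ball P.m y := by
  by_contra hc
  push Not at hc
  refine h fun c hc' z hz => ?_
  by_cases e : c = w
  · exact hc z (e ▸ hz)
  obtain ⟨g, g0, g1, -⟩ := exists_smul_two rfl hc' hw e hw hc' (Ne.symm e)
  have := Ball_conj' (hc _ (by simpa [g0, g1] using Z_conj g hz)) (g := g⁻¹)
    (inv_smul_eq_iff.2 g0.symm)
  simpa [mul_assoc] using this

/-- **Three centres** (`n = 4j`): no relation `a = b c` between central elations whose centres
are at distance `j` from a vertex in three different directions. -/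
theorem three_centers {j : ℕ} (hn : P.n = 4 * j) {p q r : ℤ → V} (hp : P.Line p) (hq : P.Line q)
    (hr : P.Line r) (hpq : p 0 = q 0) (hpr : p 0 = r 0) (h1 : p 1 ≠ q 1) (h2 : p 1 ≠ r 1)
    (h3 : q 1 ≠ r 1) {b c : G} (ha : b * c ∈ P.Ball P.m (p j)) (hb : b ∈ P.Ball P.m (q j))
    (hc : c ∈ P.Ball P.m (r j)) (hb1 : b ≠ 1) (hc1 : c ≠ 1) : False := by
  have hm : P.m = 2 * j := by unfold m; omega
  have h3' := P.three_le
  -- apartments `x` through `q j, …, q 0, p 1, …, p (3j+1)` with `x i = p i`, `x (-i) = q i`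
  have key : ∀ {q : ℤ → V}, P.Line q → p 0 = q 0 → p 1 ≠ q 1 → ∀ b : G, b ∈ P.Ball P.m (q j) →
      b ≠ 1 → ∃ x t, P.Line x ∧ P.Line t ∧ x (8 * j) = p 0 ∧ x (8 * j - 1) = q 1 ∧
        t (3 * j + 1) = p (3 * j + 1) ∧ t (5 * j) = x (5 * j) ∧ t (7 * j) = b • p (3 * j) := by
    intro q hq hpq h1 b hb hb1
    obtain ⟨s, hs, s1, s2⟩ := exists_glue (k := 0) (hq.rev 0) hp (by simpa using hpq.symm)
      (by simpa using h1)
    obtain ⟨x, hx, ex⟩ := exists_ap hs (-j)
    have hxq : x (7 * j) = q j := by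
      rw [hx.per (i := -j) (by omega), ex _ le_rfl (by omega), s1 _ (by omega)]; simp
    rw [← hxq] at hb
    obtain ⟨t, ht, t1, t2⟩ := exists_fold hx.1 (k := 5 * j) (g := b)
      (Ball_fix hx.1 hb (by omega) (by omega))
      (fun e => hb1 (C_eq_one (by omega) hx.1 hb (Or.inr (by omega)) e))
    refine ⟨x, t, hx.1, ht, ?_, ?_, ?_, t1 _ le_rfl, ?_⟩
    · rw [hx.per (i := 0) (by omega), ex _ (by omega) (by omega), s2 _ le_rfl]
    · rw [hx.per (i := -1) (by omega), ex _ (by omega) (by omega), s1 _ (by omega)]; simp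
    · rw [t1 _ (by omega), ex _ (by omega) (by omega), s2 _ (by omega)]
    · rw [t2 _ (by omega), show (2 * (5 * j) - 7 * j : ℤ) = 3 * j by ring,
        ex _ (by omega) (by omega), s2 _ (by omega)]
  obtain ⟨x, t, hx, ht, x0, x1, t0, t1, t2⟩ := key hq hpq h1 b⁻¹ (inv_mem hb) (by simpa using hb1)
  obtain ⟨y, u, hy, hu, y0, y1, u0, u1, u2⟩ := key hr hpr h2 c hc hc1
  have e : c • p (3 * j) = b⁻¹ • p (3 * j) := by
    rw [eq_inv_smul_iff, ← mul_smul]; exact Ball_fix hp ha (by omega) (by omega)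
  have e1 : x (5 * j) = y (5 * j) := by
    rw [← t1, ← u1]
    exact eq_between ht hu (i := 3 * j + 1) (j := 7 * j) (by omega) (t0.trans u0.symm)
      (by rw [t2, u2, e]) (by omega) (by omega)
  exact h3 (by
    rw [← x1, ← y1]
    exact eq_between hx hy (i := 5 * j) (j := 8 * j) (by omega) e1 (x0.trans y0.symm)
      (by omega) (by omega))

/-- for `n = 4, 8` and a `σ`-vertex `y` the centre `Z y z` does not depend on `z` -/
theorem Z_eq_Zv (hn : P.n = 4 ∨ P.n = 8) {y z : V} (hy : P.Sg y) (hz : P.adj y z) :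
    P.Z y z = P.Zv y := by
  refine le_antisymm (fun u hu c hc => ?_) fun u hu => hu z hz
  by_cases e : z = c
  · exact e ▸ hu
  have hm : P.n = 2 * P.m ∧ (P.m : ℤ) % 2 = 0 := by unfold m; omega
  have h2 := two_le_m (P := P)
  obtain ⟨p, hp, rfl⟩ := exists_line (P := P) y
  obtain ⟨w, hw, w1⟩ := exists_Z (hp.1 P.m)
  have hw' := (hy.of_ty (ty_even hp (by omega)).symm) _ (hp.1 P.m) hw
  have hne : w • p (-1) ≠ p (-1) := fun e => w1 (C_eq_one hm.1 hp hw' (Or.inr (by ring)) e)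
  have hw0 : w • p 0 = p 0 := Ball_fix hp hw' (by omega) (by omega)
  obtain ⟨g, g0, g1, g2⟩ := exists_smul_two rfl (hp.adj_pred (i := 0) (j := -1) rfl)
    (by simpa [hw0] using P.adj_smul w (hp.adj_pred (i := 0) (j := -1) rfl)) hne.symm hz hc e
  have hc' : u * (g * w * g⁻¹) = (g * w * g⁻¹) * u :=
    C_comm hm.1 (hp.smul g) (c := 0) (d := P.m) (by simpa [g0] using hy z hz hu) (Ball_conj g hw')
      (by omega) (by omega)
  have := Z_conj (g * w * g⁻¹) hu
  rw [← hc', mul_inv_cancel_right] at this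
  have e0 : (g * w * g⁻¹) • p 0 = p 0 := by
    rw [mul_smul, mul_smul, inv_smul_eq_iff.2 g0.symm, hw0, g0]
  have e1 : (g * w * g⁻¹) • z = c := by rw [← g1, ← g2]; simp [mul_smul]
  rwa [e0, e1] at this

theorem Zv_ball {y : V} (hy : P.Sg y) : P.Zv y ≤ P.Ball P.m y := fun u hu => by
  obtain ⟨c, hc, -, -⟩ := P.thick y y y
  exact hy c hc (hu c hc)

theorem Vv_ball (y : V) : P.Vv y ≤ P.Ball (P.m - 1) y :=
  Vv_le fun _ hc _ hu => Z_ball' (P.adj_symm hc) (hu _ (P.adj_symm hc))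

theorem card_Zv_of_ty {y z : V} (e : P.ty y = P.ty z) : Nat.card (P.Zv y) = Nat.card (P.Zv z) := by
  obtain ⟨g, rfl⟩ := exists_smul_of_ty e
  refine Nat.card_congr ⟨fun u => ⟨g * u * g⁻¹, Zv_conj g u.2⟩,
    fun u => ⟨g⁻¹ * u * g⁻¹⁻¹, by simpa using Zv_conj g⁻¹ u.2⟩, fun u => ?_, fun u => ?_⟩ <;>
    ext <;> simp [mul_assoc]

end Pol

namespace SP

open Pol

variable {G V : Type*} [Group G] [MulAction G V] {P : SP G V}

theorem Z_Q {y w : V} (hw : P.adj y w) {z : G} (hz : z ∈ P.Z y w) : z ∈ P.Q y :=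
  mem_Q_of hw (Z_le_A _ _ hz) (Z_K hw hz)

theorem Vv_le_Q (y : V) : P.Vv y ≤ P.Q y :=
  Vv_le fun _ hc _ hu => Z_Q hc (Z_swap (hu _ (P.adj_symm hc)))

theorem Zv_le_Q (y : V) : P.Zv y ≤ P.Q y := fun u hu => by
  obtain ⟨c, hc, -, -⟩ := P.thick y y y
  exact Z_Q hc (hu c hc)

theorem Vv_comm_Vv {y : V} {u v : G} (hu : u ∈ P.Vv y) (hv : v ∈ P.Vv y) : u * v = v * u :=
  Vv_comm hv (Vv_le_Q y hu)

/-- an element of `Q (x c) ∩ Ball k (x c)` lies in `QQ x (c - k + 1) (c + k - 1)` -/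
theorem QQ_of_ball {x : ℤ → V} (hx : P.Line x) {u : G} {c i j : ℤ} {k : ℕ} (hu : u ∈ P.Q (x c))
    (hb : u ∈ P.Ball k (x c)) (hi : c - k < i) (hj : j < c + k) (hk : 1 ≤ k) :
    u ∈ P.QQ x i j :=
  QQ_mono (by omega) (by omega) (mem_QQ_of hx (i := c - k + 1) (j := c + k - 1) hu (by omega)
    (by omega) fun _ _ _ => Ball_K hx hb (by omega) (by omega))

/-- elements of `R x i j` centralize `Zv (x k)` for `i ≤ k ≤ j` -/
theorem R_comm_Zv {x : ℤ → V} (hx : P.Line x) {u z : G} {i j k : ℤ} (hu : u ∈ P.R x i j)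
    (hij : i < j) (h1 : i ≤ k) (h2 : k ≤ j) (hz : z ∈ P.Zv (x k)) : u * z = z * u := by
  rcases h2.eq_or_lt with rfl | h2
  · refine Zv_comm hz (hx.adj_pred (j := k - 1) (by ring)) ?_
    have := R_A hx hu (k := k - 1) (by omega) (by omega)
    rwa [P.A_symm, sub_add_cancel] at this
  · exact Zv_comm hz (hx.1 k) (R_A hx hu h1 h2)

end SP

end Cfsg.Agent.BN2
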