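import Cfsg.Agent.BN2.Lin

/-!
# The failure-of-factorization lemma
-/

set_option autoImplicit false

open scoped commutatorElement

namespace Cfsg.Agent.BN2

namespace Pol

variable {G V : Type*} [Group G] [MulAction G V] (P : Pol G V)

/-- the subgroup generated by the centres `Z y c` -/
def Vz (y : V) : Subgroup G := Subgroup.closure {g | ∃ c, P.adj y c ∧ g ∈ P.Z y c}

/-- the elements of `Vz x` acting trivially at distance `m` in the direction `d` -/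
def Uz (x d : V) : Subgroup G where
  carrier := {v | v ∈ P.Vz x ∧ ∀ q, P.Line q → q 0 = x → q 1 = d → v ∈ P.K (q (P.m - 1))}
  one_mem' := ⟨one_mem _, fun _ _ _ _ => one_mem _⟩
  mul_mem' ha hb := ⟨mul_mem ha.1 hb.1, fun q h1 h2 h3 => mul_mem (ha.2 q h1 h2 h3) (hb.2 q h1 h2 h3)⟩
  inv_mem' ha := ⟨inv_mem ha.1, fun q h1 h2 h3 => inv_mem (ha.2 q h1 h2 h3)⟩

/-- an orbit of the centre of `A (p 0) (p (-1))` at distance `m` -/
def Oz (p : ℤ → V) : Set V := {e | ∃ z ∈ P.Z (p 0) (p (-1)), z • p P.m = e}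

variable {P}

theorem Z_le_Vz {y c : V} (h : P.adj y c) : P.Z y c ≤ P.Vz y := fun _ hz =>
  Subgroup.subset_closure ⟨c, h, hz⟩

theorem Vz_le {y : V} {H : Subgroup G} (h : ∀ c, P.adj y c → P.Z y c ≤ H) : P.Vz y ≤ H :=
  (Subgroup.closure_le _).2 fun _ ⟨c, hc, hg⟩ => h c hc hg

theorem Vz_ball (y : V) : P.Vz y ≤ P.Ball (P.m - 1) y := Vz_le fun _ hc => Z_ball hc

theorem Vz_comm {y : V} {u g : G} (hu : u ∈ P.Vz y) (hg : g ∈ P.Q y) : g * u = u * g :=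
  (Subgroup.mem_centralizer_singleton_iff.1 (Vz_le (H := Subgroup.centralizer {g})
    (fun _ hc _ hz => Subgroup.mem_centralizer_singleton_iff.2 (Z_comm hz (Q_le_A hc hg)).symm) hu)).symm

theorem Vz_conj (g : G) {y : V} {u : G} (h : u ∈ P.Vz y) : g * u * g⁻¹ ∈ P.Vz (g • y) :=
  Vz_le (H := (P.Vz (g • y)).comap (MulAut.conj g).toMonoidHom)
    (fun _ hc _ hz => Z_le_Vz (P.adj_smul g hc) (Z_conj g hz)) h

theorem Vz_conj' {g : G} {y : V} {u : G} (h : u ∈ P.Vz y) (hg : g • y = y) :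
    g * u * g⁻¹ ∈ P.Vz y := by simpa [hg] using Vz_conj g h

theorem Uz_conj (g : G) {x d : V} {u : G} (h : u ∈ P.Uz x d) :
    g * u * g⁻¹ ∈ P.Uz (g • x) (g • d) := ⟨Vz_conj g h.1, fun q hq h0 h1 => by
  simpa using K_conj g (h.2 _ (hq.smul g⁻¹) (by simp [h0]) (by simp [h1]))⟩

theorem Z_Uz {x d : V} (h : P.adj x d) : P.Z x d ≤ P.Uz x d := fun z hz =>
  ⟨Z_le_Vz h hz, fun q hq _ h1 => by
    have := two_le_m (P := P)
    exact Ball_K hq (c := 1) (h1 ▸ Z_ball' h hz) (by omega) (by omega)⟩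

theorem Ball_Uz {x d : V} {v : G} (hv : v ∈ P.Vz x) (hb : v ∈ P.Ball P.m x) : v ∈ P.Uz x d :=
  ⟨hv, fun q hq h0 _ => by
    have := two_le_m (P := P)
    exact Ball_K hq (c := 0) (h0 ▸ hb) (by omega) (by omega)⟩

theorem Uz_fix {q : ℤ → V} (hq : P.Line q) {v : G} (hv : v ∈ P.Uz (q 0) (q 1)) :
    v • q P.m = q P.m := K_fix hq (hv.2 q hq rfl rfl) (by omega) (by omega)

theorem eq_of_Uz {x c d : V} (hc : P.adj x c) (hd : P.adj x d) {z : G} (hz : z ∈ P.Z x c)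
    (hb : z ∉ P.Ball P.m x) (hu : z ∈ P.Uz x d) : c = d := by
  obtain ⟨q, hq, rfl, rfl⟩ := exists_line_edge hd
  exact by_contra fun e => hb (Z_ball_of_fix hq hc (Ne.symm e) hz (Uz_fix hq hu))

theorem Oz_le [Finite V] {p q : ℤ → V} (hp : P.Line p) (hq : P.Line q)
    (ht : P.ty (p 0) = P.ty (q 0)) : (P.Oz p).ncard ≤ (P.Oz q).ncard := by
  obtain ⟨g, hg⟩ := exists_smul_line hp hq ht (-1)
  have hm : P.m ≤ P.n := by have := P.three_le; unfold m; omega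
  refine Set.ncard_le_ncard_of_injOn (g • ·) ?_ (fun _ _ _ _ e => smul_left_cancel g e)
  rintro _ ⟨z, hz, rfl⟩
  refine ⟨g * z * g⁻¹, by
    simpa [hg 0 (by omega) (by omega), hg (-1) le_rfl (by omega)] using Z_conj g hz, ?_⟩
  rw [← hg P.m (by omega) (by omega), mul_smul, mul_smul, inv_smul_smul]

end Pol

namespace SP

open Pol

variable {G V : Type*} [Group G] [MulAction G V] {P : SP G V}

theorem Vz_Q (y : V) : P.Vz y ≤ P.Q y := Vz_le fun _ hc _ hz => Z_Q hc hz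

theorem Vz_ab {y : V} {u v : G} (hu : u ∈ P.Vz y) (hv : v ∈ P.Vz y) : u * v = v * u :=
  Vz_comm hv (Vz_Q y hu)

theorem w_mem {L : ℤ → V} (hL : P.Line L) {z t : G} (hz : z ∈ P.Vz (L 0))
    (ht : t ∈ P.Vz (L (1 - P.m))) :
    z⁻¹ * (t * z * t⁻¹) ∈ P.Vz (L 0) ∧ z⁻¹ * (t * z * t⁻¹) ∈ P.Vz (L (1 - P.m)) := by
  have := two_le_m (P := P.toPol)
  refine ⟨mul_mem (inv_mem hz) (Vz_conj' hz (Ball_fix hL (Vz_ball _ ht) (by omega) (by omega))), ?_⟩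
  have := mul_mem (Vz_conj' ht (Ball_fix hL (Vz_ball _ (inv_mem hz)) (by omega) (by omega)))
    (inv_mem ht)
  simpa [mul_assoc] using this

variable [Finite G] [Finite V]

theorem Uz_of {q : ℤ → V} (hq : P.Line q) {v : G} (hv : v ∈ P.Vz (q 0))
    (hK : v ∈ P.K (q (P.m - 1))) : v ∈ P.Uz (q 0) (q 1) := ⟨hv, fun r hr h0 h1 => by
  have := two_le_m (P := P.toPol)
  obtain ⟨g, hg, e⟩ := T_trans hq hr h0.symm h1.symm (j := P.m - 1) (by unfold m; omega)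
  have := K_conj g hK
  rwa [e _ (by omega) le_rfl, Vz_comm hv hg, mul_inv_cancel_right] at this⟩

theorem Vz_dec {x c d : V} (hc : P.adj x c) (hd : P.adj x d) (hcd : c ≠ d) {v : G}
    (hv : v ∈ P.Vz x) : ∃ z ∈ P.Z x c, z⁻¹ * v ∈ P.Uz x d := by
  obtain ⟨q, hq, rfl, rfl⟩ := exists_line_edge hd
  have h2 := two_le_m (P := P.toPol)
  have tn : ∀ c, P.adj (q 0) c → c ≠ q 1 → ∃ r, P.Line r ∧ r 0 = q (P.m - 1) ∧ r 1 = q (P.m - 2) ∧
      r (P.m - 1) = q 0 ∧ r P.m = c := fun c hc hne => by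
    obtain ⟨r, hr, r1, r2⟩ := exists_turn (hq.rev (P.m - 1)) (k := P.m - 1) (z := c)
      (by simpa using hc) (by simpa using hne)
    refine ⟨r, hr, by simpa using r1 0 (by omega), ?_, by simpa using r1 _ le_rfl, by simpa using r2⟩
    rw [r1 1 (by omega)]
    congr 1
    ring
  induction hv using Subgroup.closure_induction with
  | mem z hz =>
    obtain ⟨c', hc', hz⟩ := hz
    by_cases e : c' = q 1
    · exact ⟨1, one_mem _, by simpa using Z_Uz hd (e ▸ hz)⟩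
    obtain ⟨r, hr, r0, r1, r2, r3⟩ := tn c' hc' e
    obtain ⟨s, hs, s0, s1, s2, s3⟩ := tn c hc hcd
    obtain ⟨z', hz', k⟩ := Z_img hr hs (r0.trans s0.symm) (r1.trans s1.symm) (j := P.m) (by omega)
      (by unfold m; omega) (z := z) (by rwa [r2, r3])
      (by rw [r0]; exact Ball_fix hq (c := 0) (Z_ball hc' hz) (by omega) (by omega))
    rw [s2, s3] at hz'
    exact ⟨z', hz', Uz_of hq (mul_mem (inv_mem (Z_le_Vz hc hz')) (Z_le_Vz hc' hz)) (r0 ▸ k)⟩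
  | one => exact ⟨1, one_mem _, by simp⟩
  | mul u v hu hv iu iv =>
    obtain ⟨z, hz, k⟩ := iu
    obtain ⟨z', hz', k'⟩ := iv
    refine ⟨z * z', mul_mem hz hz', ?_⟩
    have := mul_mem k k'
    rwa [← mul_assoc, Vz_ab k.1 (inv_mem (Z_le_Vz hc hz')), ← mul_assoc, ← mul_inv_rev, mul_assoc]
      at this
  | inv u hu iu =>
    obtain ⟨z, hz, k⟩ := iu
    refine ⟨z⁻¹, inv_mem hz, ?_⟩
    have := inv_mem k
    rwa [mul_inv_rev, Vz_ab (inv_mem hu) (inv_mem (inv_mem (Z_le_Vz hc hz)))] at this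

theorem Uz_of_fix {q : ℤ → V} (hq : P.Line q) {v : G} (hv : v ∈ P.Vz (q 0))
    (hf : v • q P.m = q P.m) : v ∈ P.Uz (q 0) (q 1) := by
  have hc : P.adj (q 0) (q (-1)) := hq.adj_pred rfl
  have hne : q 1 ≠ q (-1) := hq.ne' rfl
  obtain ⟨z, hz, k⟩ := Vz_dec hc (hq.adj' rfl) hne.symm hv
  have h1 := Uz_fix hq k
  rw [mul_smul, hf, inv_smul_eq_iff] at h1
  simpa using mul_mem (Ball_Uz (Z_le_Vz hc hz) (Z_ball_of_fix hq hc hne hz h1.symm)) k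

theorem w_inj {L : ℤ → V} (hL : P.Line L) {z t t' : G} (hz : z ∈ P.Z (L 0) (L 1))
    (hb : z ∉ P.Ball P.m (L 0)) (ht : t ∈ P.Vz (L (1 - P.m))) (ht' : t' ∈ P.Vz (L (1 - P.m)))
    (e : (z⁻¹ * (t * z * t⁻¹)) • L P.m = (z⁻¹ * (t' * z * t'⁻¹)) • L P.m) :
    t • L 1 = t' • L 1 := by
  have h2 := two_le_m (P := P.toPol)
  have hd : P.adj (L 0) (L 1) := hL.adj' rfl
  have hV := Z_le_Vz hd hz
  have hs := mul_mem (inv_mem ht') ht
  have f0 : (t'⁻¹ * t) • L 0 = L 0 := Ball_fix hL (Vz_ball _ hs) (by omega) (by omega)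
  have h1 : z⁻¹ * (t * z * t⁻¹) = z⁻¹ * (t' * z * t'⁻¹) * (z⁻¹ * (t'⁻¹ * t * z * (t'⁻¹ * t)⁻¹)) := by
    rw [mul_assoc z⁻¹, mul_assoc (t' * z), Vz_ab (inv_mem ht') (w_mem hL hV hs).2]
    group
  rw [h1, mul_smul, smul_left_cancel_iff] at e
  have h3 := mul_mem (Z_Uz hd hz) (Uz_of_fix hL (w_mem hL hV hs).1 e)
  rw [mul_inv_cancel_left] at h3
  have h4 := eq_of_Uz (by simpa [f0] using P.adj_smul (t'⁻¹ * t) hd) hd
    (by simpa only [f0] using Z_conj (t'⁻¹ * t) hz) (fun c => hb (by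
      simpa [mul_assoc] using Ball_conj' c (g := (t'⁻¹ * t)⁻¹) (inv_smul_eq_iff.2 f0.symm))) h3
  rwa [mul_smul, inv_smul_eq_iff] at h4

theorem Oz_V {L : ℤ → V} (hL : P.Line L) {v : G} (hv : v ∈ P.Vz (L 0)) : v • L P.m ∈ P.Oz L := by
  obtain ⟨z, hz, k⟩ := Vz_dec (hL.adj_pred (i := 0) (j := -1) rfl) (hL.adj' (j := 1) rfl)
    (hL.ne' rfl).symm hv
  have h1 := Uz_fix hL k
  rw [mul_smul, inv_smul_eq_iff] at h1
  exact ⟨z, hz, h1.symm⟩

theorem w_card {L : ℤ → V} (hL : P.Line L) {z : G} (hz : z ∈ P.Z (L 0) (L 1))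
    (hb : z ∉ P.Ball P.m (L 0)) :
    (P.Oz fun i => L (i + (1 - P.m))).ncard ≤
      {e | ∃ t ∈ P.Z (L (1 - P.m)) (L (-P.m)), (z⁻¹ * (t * z * t⁻¹)) • L P.m = e}.ncard ∧
    {e | ∃ t ∈ P.Z (L (1 - P.m)) (L (-P.m)), (z⁻¹ * (t * z * t⁻¹)) • L P.m = e} ⊆ P.Oz L := by
  have ha : P.adj (L (1 - P.m)) (L (-P.m)) := hL.adj_pred (by ring)
  refine ⟨?_, ?_⟩
  · have h1 : ∀ e ∈ P.Oz fun i => L (i + (1 - P.m)), ∃ t ∈ P.Z (L (1 - P.m)) (L (-P.m)),
        t • L 1 = e := by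
      rintro _ ⟨t, ht, rfl⟩
      refine ⟨t, ?_, by simp⟩
      simpa [show (-1 + (1 - P.m) : ℤ) = -P.m by ring] using ht
    choose! τ h2 h3 using h1
    refine Set.ncard_le_ncard_of_injOn (fun e => (z⁻¹ * (τ e * z * (τ e)⁻¹)) • L P.m)
      (fun e he => ⟨_, h2 e he, rfl⟩) fun e he e' he' k => ?_
    rw [← h3 e he, ← h3 e' he']
    exact w_inj hL hz hb (Z_le_Vz ha (h2 e he)) (Z_le_Vz ha (h2 e' he')) k
  · rintro _ ⟨t, ht, rfl⟩
    exact Oz_V hL (w_mem hL (Z_le_Vz (hL.adj' rfl) hz) (Z_le_Vz ha ht)).1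

theorem w_onto {L : ℤ → V} (hL : P.Line L) (h1 : ¬ P.Sg (L (1 - P.m))) {z v : G}
    (hz : z ∈ P.Z (L 0) (L 1)) (hb : z ∉ P.Ball P.m (L 0)) (hv : v ∈ P.Vz (L 0)) :
    ∃ t ∈ P.Z (L (1 - P.m)) (L (-P.m)), (z⁻¹ * (t * z * t⁻¹)) • L P.m = v • L P.m := by
  have hL' := hL.shift (1 - P.m)
  obtain ⟨z', hz', hb'⟩ := exists_of_not_Sg (y := L (0 + (1 - P.m))) (by simpa using h1)
    (hL'.adj' (i := 0) (j := 1) rfl)
  have h2 := w_card hL' hz' hb'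
  have h3 := w_card hL hz hb
  have h4 := Oz_le hL (hL'.shift (1 - P.m)) (ty_even hL (by omega))
  exact (Set.eq_of_subset_of_ncard_le h3.2
    (h4.trans (h2.1.trans ((Set.ncard_le_ncard h2.2).trans h3.1)))).ge (Oz_V hL hv)

theorem FF_tr {L : ℤ → V} (hL : P.Line L) (h0 : ¬ P.Sg (L 0)) (h1 : ¬ P.Sg (L (1 - P.m))) {c : V}
    (hc : P.adj (L 0) c) (hca : c ≠ L (-1)) :
    ∃ t ∈ P.Z (L (1 - P.m)) (L (-P.m)), t • L 1 = c := by
  have h2 := two_le_m (P := P.toPol)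
  have ha : P.adj (L 0) (L (-1)) := hL.adj_pred rfl
  have hd : P.adj (L 0) (L 1) := hL.adj' rfl
  have hy : P.adj (L (1 - P.m)) (L (-P.m)) := hL.adj_pred (by ring)
  obtain ⟨zc, hzc, hbc⟩ := exists_of_not_Sg h0 hc
  obtain ⟨z, hz, k⟩ := Vz_dec hd ha (hL.ne' rfl) (Z_le_Vz hc hzc)
  have hb : z ∉ P.Ball P.m (L 0) := fun b => hca (eq_of_Uz hc ha hzc hbc (by
    simpa using mul_mem (Ball_Uz (Z_le_Vz hd hz) b) k))
  obtain ⟨t, ht, e⟩ := w_onto hL h1 hz hb k.1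
  have hw := w_mem hL (Z_le_Vz hd hz) (Z_le_Vz hy ht)
  have f0 : t • L 0 = L 0 := Ball_fix hL (Z_ball hy ht) (by omega) (by omega)
  have hω := mul_mem (inv_mem hw.1) k.1
  have ω1 := Uz_of_fix hL hω (by rw [mul_smul, ← e, inv_smul_smul])
  have ω2 : (z⁻¹ * (t * z * t⁻¹))⁻¹ * (z⁻¹ * zc) ∈ P.Q (L (1 - P.m)) := by
    refine R_Q hL (i := 1 - P.m) (j := 0) (mem_R_of hL (k := -1) ?_ (fun l l1 l2 =>
      Ball_fix hL (Vz_ball _ hω) (by omega) (by omega)) (by omega) (by omega)) (by omega) le_rfl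
      (by omega) (mul_mem (inv_mem (Vz_Q _ hw.2).1) ?_)
    · rw [P.A_symm]
      exact Q_le_A ha (Vz_Q _ hω)
    · simpa using k.2 _ (hL.rev 0) rfl rfl
  have ω3 := Uz_conj t ω1
  rw [← Z_comm ht (Q_le_A hy ω2), mul_inv_cancel_right, f0] at ω3
  have hd' : P.adj (L 0) (t • L 1) := by simpa [f0] using P.adj_smul t hd
  have ω4 := mul_mem (Z_Uz hd' (by simpa only [f0] using Z_conj t hz)) ω3
  exact ⟨t, ht, (eq_of_Uz hc hd' hzc hbc (by simpa [mul_assoc] using ω4)).symm⟩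

theorem FF {p : ℤ → V} (hp : P.Line p) (h0 : ¬ P.Sg (p 0)) (h1 : ¬ P.Sg (p (P.m - 1))) :
    P.Tr (P.Z (p (P.m - 1)) (p P.m)) (p 0) (p 1) ∧ P.E1 (p 0) := by
  have h2 := two_le_m (P := P.toPol)
  have tr : P.Tr (P.Z (p (P.m - 1)) (p P.m)) (p 0) (p 1) := tr_of_base (b := p (-1)) fun c hc hne => by
    simpa using FF_tr (hp.rev 0) (by simpa using h0) (by simpa using h1) (c := c)
      (by simpa using hc) (by simpa using hne)
  have e1 : ∀ b, P.adj (p 0) b → b ≠ p 1 → ∀ u ∈ P.A (p 0) (p 1), u • b = b → u ∈ P.K (p 0) :=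
    fun b hb hne u hu hf => mem_K_of_tr tr hb hne (P.A_fix hu) (A_fix' hu) hf fun g hg => by
      have := inv_mem (Z_cent hp (j := P.m) (by omega) (by unfold m; omega) (inv_mem hg)
        (Ball_fix hp (Z_ball (hp.adj' (by ring)) (inv_mem hg)) (by omega) (by omega)) hu)
      simpa [commutatorElement_def, mul_assoc] using this
  refine ⟨tr, fun a b ha hb hab u hu hf => ?_⟩
  obtain ⟨g, g0, g1, g2⟩ := exists_smul_two rfl ha hb hab (hp.adj' (j := 1) rfl)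
    (hp.adj_pred (j := -1) rfl) (hp.ne' rfl)
  have := e1 _ (hp.adj_pred (j := -1) rfl) (hp.ne' rfl).symm (g * u * g⁻¹)
    (by simpa [g0, g1] using P.A_conj g hu) (by rw [← g2, mul_smul, mul_smul, inv_smul_smul, hf])
  simpa [mul_assoc] using K_conj' this (g := g⁻¹) (inv_smul_eq_iff.2 g0.symm)

end SP

end Cfsg.Agent.BN2
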