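import Cfsg.Agent.BN2.F3

/-!
# Local lemmas at a vertex: T, images of centres, FQ, L2
-/

set_option autoImplicit false

open scoped commutatorElement Pointwise

namespace Cfsg.Agent.BN2

theorem exists_last' {G : Type*} [Group G] {A X D Z : Subgroup G} (hA : Group.IsNilpotent A)
    (hX : X ≤ A) (hD : D ≤ A) (hn : ∀ d ∈ D, ∀ v ∈ X, d * v * d⁻¹ ∈ X) (h : ¬ X ≤ Z) :
    ∃ c ∈ X, c ∉ Z ∧ ∀ d ∈ D, ⁅c, d⁆ ∈ Z := by
  by_contra! hc
  have key : ∀ k, ∃ c ∈ X, c ∉ Z ∧ c ∈ A.lowerCentralSeries k := fun k => by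
    induction k with
    | zero =>
      obtain ⟨c, h1, h2⟩ := SetLike.not_le_iff_exists.1 h
      exact ⟨c, h1, h2, hX h1⟩
    | succ k ih =>
      obtain ⟨c, h1, h2, h3⟩ := ih
      obtain ⟨d, hd, h4⟩ := hc c h1 h2
      refine ⟨⁅c, d⁆, ?_, h4, Subgroup.commutator_mem_commutator h3 (hD hd)⟩
      simpa [commutatorElement_def, mul_assoc] using mul_mem h1 (hn d hd _ (inv_mem h1))
  obtain ⟨k, hk⟩ := A.isNilpotent_iff_lowerCentralSeries.1 hA
  obtain ⟨c, -, h2, h3⟩ := key k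
  rw [hk, Subgroup.mem_bot] at h3
  exact h2 (h3 ▸ one_mem _)

/-- If `D` normalizes `X`, both inside a nilpotent group, and `⁅X, D⁆ ⊄ Z`, there is an element of
`⁅X, D⁆ ∖ Z` centralized by `D` modulo `Z`. -/
theorem exists_last {G : Type*} [Group G] {A X D Z : Subgroup G} (hA : Group.IsNilpotent A)
    (hX : X ≤ A) (hD : D ≤ A) (hn : ∀ d ∈ D, ∀ v ∈ X, d * v * d⁻¹ ∈ X) (h : ¬ ⁅X, D⁆ ≤ Z) :
    ∃ c ∈ ⁅X, D⁆, c ∉ Z ∧ ∀ d ∈ D, ⁅c, d⁆ ∈ Z :=
  exists_last' hA (Subgroup.commutator_le.2 fun a ha b hb =>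
    mul_mem (mul_mem (mul_mem (hX ha) (hD hb)) (inv_mem (hX ha))) (inv_mem (hD hb))) hD
    (fun d hd v hv => (show ⁅X, D⁆ ≤ ⁅X, D⁆.comap (MulAut.conj d).toMonoidHom from
      Subgroup.commutator_le.2 fun a ha b hb => by
        rw [Subgroup.mem_comap, map_commutatorElement]
        exact Subgroup.commutator_mem_commutator (hn d hd a ha)
          (mul_mem (mul_mem hd hb) (inv_mem hd))) hv) h

theorem ncard_fix {G V : Type*} [Group G] [MulAction G V] [Finite V] {p : ℕ} (hp : p.Prime)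
    {H : Subgroup G} (hH : IsPGroup p H) {S : Set V} (h : ∀ g ∈ H, ∀ w ∈ S, g • w ∈ S) :
    S.ncard ≡ {w ∈ S | ∀ g ∈ H, g • w = w}.ncard [MOD p] := by
  have := Fact.mk hp
  let T : SubMulAction H V := ⟨S, fun g _ hw => h g g.2 _ hw⟩
  convert hH.card_modEq_card_fixedPoints T using 1
  · rfl
  exact Nat.card_congr ⟨fun w => ⟨⟨w.1, w.2.1⟩, fun g => Subtype.ext (w.2.2 g g.2)⟩,
    fun w => ⟨w.1.1, w.1.2, fun g hg => congrArg Subtype.val (w.2 ⟨g, hg⟩)⟩, fun _ => rfl, fun _ => rfl⟩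

namespace Pol

variable {G V : Type*} [Group G] [MulAction G V] {P : Pol G V}

/-- two point stabiliser in `A` -/
def EE (P : Pol G V) (x c d : V) : Subgroup G := P.A x c ⊓ MulAction.stabilizer G d

/-- the line through `c` and `d` in `Γ(x)` -/
def lam (P : Pol G V) (x c d : V) : Set V := {w | P.adj x w ∧ ∀ g ∈ P.EE x c d, g • w = w}

variable {x a b c d : V} {g u : G}

theorem EE_conj (hx : g • x = x) (ha : g • a = c) (hb : g • b = d) (hu : u ∈ P.EE x a b) :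
    g * u * g⁻¹ ∈ P.EE x c d :=
  ⟨by simpa [hx, ha] using P.A_conj g hu.1, by
    show _ • d = d
    rw [← hb, mul_smul, mul_smul, inv_smul_smul, hu.2]⟩

theorem lam_conj (hx : g • x = x) (ha : g • a = c) (hb : g • b = d) {w : V} (hw : w ∈ P.lam x a b) :
    g • w ∈ P.lam x c d :=
  ⟨hx ▸ P.adj_smul g hw.1, fun u hu => by
    have := hw.2 _ (EE_conj (inv_smul_eq_iff.2 hx.symm) (inv_smul_eq_iff.2 ha.symm)
      (inv_smul_eq_iff.2 hb.symm) hu)
    rwa [inv_inv, mul_smul, mul_smul, inv_smul_eq_iff] at this⟩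

theorem left_lam (h : P.adj x a) : a ∈ P.lam x a b := ⟨h, fun _ hg => A_fix' hg.1⟩

theorem right_lam (h : P.adj x b) : b ∈ P.lam x a b := ⟨h, fun _ hg => hg.2⟩

theorem ncard_lam [Finite V] (ha : P.adj x a) (hb : P.adj x b) (hab : a ≠ b) (hc : P.adj x c)
    (hd : P.adj x d) (hcd : c ≠ d) : (P.lam x a b).ncard ≤ (P.lam x c d).ncard := by
  obtain ⟨g, h1, h2, h3⟩ := exists_smul_two rfl ha hb hab hc hd hcd
  exact Set.ncard_le_ncard_of_injOn (g • ·) (fun _ h => lam_conj h1 h2 h3 h)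
    (MulAction.injective g).injOn

theorem A_not_le (ha : P.adj x a) : ¬ P.A x a ≤ P.K x := fun h => by
  obtain ⟨b, hb, h1, -⟩ := P.thick x a a
  obtain ⟨c, hc, h2, h3⟩ := P.thick x a b
  obtain ⟨g, hg, e⟩ := tr_A ha b c hb hc h1 h2
  exact h3 (e.symm.trans ((h hg).2 b hb))

end Pol

namespace SP

open Pol

variable {G V : Type*} [Group G] [MulAction G V] [Finite G] [Finite V] {P : SP G V}

theorem EE_eq {x a b c d : V} (ha : P.adj x a) (hb : P.adj x b) (hab : a ≠ b)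
    (hc : c ∈ P.lam x a b) (hd : d ∈ P.lam x a b) (hcd : c ≠ d) : P.EE x c d = P.EE x a b := by
  obtain ⟨g, h1, h2, h3⟩ := exists_smul_two rfl hc.1 hd.1 hcd ha hb hab
  exact (Subgroup.eq_of_le_of_card_ge (show P.EE x a b ≤ P.EE x c d from
    fun u hu => ⟨P.compat ha hc.1 hu.1 (hc.2 u hu), hd.2 u hu⟩)
    (Nat.card_le_card_of_injective (fun u : P.EE x c d => (⟨_, EE_conj h1 h2 h3 u.2⟩ : P.EE x a b))
      fun u v e => Subtype.ext (by simpa using e))).symm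

theorem lam_eq {x a b c d : V} (ha : P.adj x a) (hb : P.adj x b) (hab : a ≠ b)
    (hc : c ∈ P.lam x a b) (hd : d ∈ P.lam x a b) (hcd : c ≠ d) : P.lam x c d = P.lam x a b := by
  rw [lam, EE_eq ha hb hab hc hd hcd, lam]

omit [Finite G] [Finite V] in
theorem T_aux {p q : ℤ → V} (hp : P.Line p) (hq : P.Line q) (h0 : p 0 = q 0) (h1 : p 1 = q 1)
    {j : ℤ} (hj0 : 0 < j) (hj : 2 * j ≤ P.n + 1) : ∃ s ∈ P.A (p 0) (p 1),
      (∀ i, 0 ≤ i → i ≤ j → s • p (-i) = p (-i)) ∧ ∀ i, 0 ≤ i → i ≤ j → s • p i = q i := by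
  obtain ⟨r, hr, r1, r2⟩ := exists_glue hp hq (k := 0) h0 (by
    rw [zero_add, ← h1]; exact hp.ne' (by omega))
  obtain ⟨s, hs, e⟩ := trans hp hr (a := -j) (k := 0) (by omega) (by omega) (r1 _ le_rfl).symm
    (by rw [r2 _ (by omega), zero_add, h1])
  exact ⟨s, by simpa using hs, fun i a b => by rw [e _ (by omega) (by omega), r1 _ (by omega)],
    fun i a b => by rw [e _ (by omega) (by omega), r2 _ a]⟩

/-- **T**: `Q (p 0)` is transitive on the paths of length `j`, `2j ≤ n + 1`, starting with the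
edge `(p 0, p 1)`. -/
theorem T_trans {p q : ℤ → V} (hp : P.Line p) (hq : P.Line q) (h0 : p 0 = q 0) (h1 : p 1 = q 1)
    {j : ℤ} (hj : 2 * j ≤ P.n + 1) :
    ∃ g ∈ P.Q (p 0), ∀ i, 0 ≤ i → i ≤ j → g • p i = q i := by
  rcases le_or_gt j 0 with hj0 | hj0
  · exact ⟨1, one_mem _, fun i a b => by rw [one_smul, show i = 0 by omega, h0]⟩
  have ha : P.adj (p 0) (p 1) := hp.adj' (by omega)
  have hb : P.adj (p 0) (p (-1)) := hp.adj_pred (by omega)
  have hab : p 1 ≠ p (-1) := hp.ne' (by omega)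
  obtain ⟨z, hz, z1, z2⟩ := exists_last' (Z := P.Q (p 0)) (P.A_nil ha) le_rfl le_rfl
    (fun d hd v hv => mul_mem (mul_mem hd hv) (inv_mem hd)) fun h => A_not_le ha (h.trans (Q_le_K _))
  have z3 : ∀ g ∈ P.A (p 0) (p 1), ⁅g, z⁆ ∈ P.Q (p 0) := fun g hg => by
    simpa using inv_mem (z2 g hg)
  have zb : p (-1) ≠ z • p (-1) := fun e => z1 (mem_Q_of ha hz (mem_K_of_tr (tr_A ha) hb hab.symm
    (P.A_fix hz) (A_fix' hz) e.symm fun g hg => by
      simpa [commutatorElement_def] using (z3 _ (inv_mem hg)).1))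
  have hc : P.adj (p 0) (z • p (-1)) := by simpa [P.A_fix hz] using P.adj_smul z hb
  have cl : z • p (-1) ∈ P.lam (p 0) (p 1) (p (-1)) := ⟨hc, fun h hh => by
    have := (z3 h hh.1).1.2 _ hc
    rwa [commutatorElement_def, mul_smul, mul_smul, mul_smul, inv_smul_smul,
      inv_smul_eq_iff.2 (Eq.symm hh.2)] at this⟩
  obtain ⟨g, g0, g1, g2⟩ := exists_smul_two rfl hb hc zb ha hb hab
  have y0 : (g * z * g⁻¹) • p 0 = p 0 := by
    rw [mul_smul, mul_smul, inv_smul_eq_iff.2 g0.symm, P.A_fix hz, g0]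
  have y1 : (g * z * g⁻¹) • p 1 = p (-1) := by
    rw [mul_smul, mul_smul, inv_smul_eq_iff.2 g1.symm, g2]
  have y2 : ∀ h ∈ P.EE (p 0) (p 1) (p (-1)), ⁅h, g * z * g⁻¹⁆ ∈ P.Q (p 0) := fun h hh => by
    have := EE_conj (inv_smul_eq_iff.2 g0.symm) (inv_smul_eq_iff.2 g1.symm)
      (inv_smul_eq_iff.2 g2.symm) hh
    rw [EE_eq ha hb hab (right_lam hb) cl zb] at this
    simpa [commutatorElement_def, mul_assoc] using Q_conj' (z3 _ this.1) g0
  generalize g * z * g⁻¹ = y at y0 y1 y2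
  obtain ⟨s, hs, s1, s2⟩ := T_aux hp hq h0 h1 hj0 hj
  obtain ⟨h, hh, e1, e2⟩ := T_aux (hp.rev 0) (hp.smul y) (by simp [y0]) (by simp [y1]) hj0 hj
  simp only [zero_sub, neg_neg, neg_zero] at hh e1 e2
  have hh' : h ∈ P.EE (p 0) (p 1) (p (-1)) :=
    ⟨P.compat hb ha hh (e1 1 (by omega) hj0), A_fix' hh⟩
  have k := Q_conj' (inv_mem (Q_conj' (y2 _ (mul_mem (mul_mem hh' ⟨hs, s1 1 (by omega) hj0⟩)
    (inv_mem hh'))) (inv_smul_eq_iff.2 y0.symm))) (inv_smul_eq_iff.2 (P.A_fix hh).symm)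
  refine ⟨_, k, fun i a b => ?_⟩
  have e3 : h⁻¹ • y • p i = p (-i) := inv_smul_eq_iff.2 (e2 i a b).symm
  have e4 : s⁻¹ • p (-i) = p (-i) := inv_smul_eq_iff.2 (s1 i a b).symm
  have e5 : h⁻¹ • p i = p i := inv_smul_eq_iff.2 (e1 i a b).symm
  simp [commutatorElement_def, mul_smul, e1 i a b, e2 i a b, e3, e4, e5, s2 i a b]

/-- every `a ∈ A (p 0) (p 1)` is congruent modulo `Q (p 0)` to an element of `R p 0 j` -/
theorem T_decomp {p : ℤ → V} (hp : P.Line p) {j : ℤ} (hj : 2 * j ≤ P.n + 1) {a : G}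
    (ha : a ∈ P.A (p 0) (p 1)) : ∃ g ∈ P.Q (p 0), g⁻¹ * a ∈ P.R p 0 j := by
  obtain ⟨g, hg, e⟩ := T_trans hp (hp.smul a) (P.A_fix ha).symm (A_fix' ha).symm hj
  refine ⟨g, hg, by simpa using mul_mem (inv_mem (hg.2 _ (hp.1 0))) (by simpa using ha),
    fun k h1 h2 => ?_⟩
  rw [mul_smul, inv_smul_eq_iff, e k h1 h2]

/-- the centres `Z (p (j-1)) (p j)` have the same image on `Γ(p 0)` for all paths through `p 1` -/
theorem Z_img {p q : ℤ → V} (hp : P.Line p) (hq : P.Line q) (h0 : p 0 = q 0) (h1 : p 1 = q 1)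
    {j : ℤ} (hj0 : 0 < j) (hj : 2 * j ≤ P.n + 1) {z : G} (hz : z ∈ P.Z (p (j - 1)) (p j))
    (hf : z • p 0 = p 0) : ∃ z' ∈ P.Z (q (j - 1)) (q j), z'⁻¹ * z ∈ P.K (p 0) := by
  obtain ⟨g, hg, e⟩ := T_trans hp hq h0 h1 hj
  refine ⟨g * z * g⁻¹,
    by simpa [e (j - 1) (by omega) (by omega), e j hj0.le le_rfl] using Z_conj g hz, ?_⟩
  have := mul_mem hg.1 (K_conj' (inv_mem hg.1) (g := z⁻¹) (inv_smul_eq_iff.2 hf.symm))
  simpa [mul_assoc] using this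

theorem Zv_img {p q : ℤ → V} (hp : P.Line p) (hq : P.Line q) (h0 : p 0 = q 0) (h1 : p 1 = q 1)
    {j : ℤ} (hj0 : 0 ≤ j) (hj : 2 * j ≤ P.n + 1) {z : G} (hz : z ∈ P.Zv (p j))
    (hf : z • p 0 = p 0) : ∃ z' ∈ P.Zv (q j), z'⁻¹ * z ∈ P.K (p 0) := by
  obtain ⟨g, hg, e⟩ := T_trans hp hq h0 h1 hj
  refine ⟨g * z * g⁻¹, by simpa [e j hj0 le_rfl] using Zv_conj g hz, ?_⟩
  have := mul_mem hg.1 (K_conj' (inv_mem hg.1) (g := z⁻¹) (inv_smul_eq_iff.2 hf.symm))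
  simpa [mul_assoc] using this

/-- the image of `Z (p (j-1)) (p j)` on `Γ(p 0)` is central in the image of `A (p 0) (p 1)` -/
theorem Z_cent {p : ℤ → V} (hp : P.Line p) {j : ℤ} (hj0 : 0 < j) (hj : 2 * j ≤ P.n + 1) {z a : G}
    (hz : z ∈ P.Z (p (j - 1)) (p j)) (hf : z • p 0 = p 0) (ha : a ∈ P.A (p 0) (p 1)) :
    ⁅a, z⁆ ∈ P.K (p 0) := by
  obtain ⟨g, hg, e⟩ := T_decomp hp hj ha
  have h1 := Z_comm hz (a := g⁻¹ * a) (by simpa using R_A hp e (k := j - 1) (by omega) (by omega))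
  have : ⁅a, z⁆ = ⁅g, z⁆ := by
    simp only [commutatorElement_def]
    calc a * z * a⁻¹ * z⁻¹ = g * (g⁻¹ * a * z) * a⁻¹ * z⁻¹ := by group
      _ = _ := by rw [h1]; group
  rw [this]; exact (comm_K hg.1 hf).2

omit [Finite G] [Finite V] in
theorem exists_nE {x a b : V} (ha : P.adj x a) (hb : P.adj x b) (hab : a ≠ b) (h : ¬ P.E1 x) :
    ∃ e ∈ P.EE x a b, e ∉ P.K x := by
  simp only [E1, not_forall] at h
  obtain ⟨c, d, hc, hd, hcd, u, hu, hf, hK⟩ := h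
  obtain ⟨g, h1, h2, h3⟩ := exists_smul_two rfl hc hd hcd ha hb hab
  exact ⟨_, EE_conj h1 h2 h3 ⟨hu, hf⟩, fun e => hK (by
    simpa [mul_assoc] using K_conj' e (inv_smul_eq_iff.2 h1.symm))⟩

/-- **FQ** (quadratic action).  `X ≤ A x a` acts regularly modulo `K x` on `Γ(x) ∖ a`, `R` covers
`E = A x a ⊓ Stab b` modulo `K x`, normalizes `X` and acts quadratically; then `E1 x`. -/
theorem FQ {x a b : V} (ha : P.adj x a) (hb : P.adj x b) (hab : a ≠ b) {X R : Subgroup G}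
    (hX : X ≤ P.A x a) (htr : P.Tr X x a) (hreg : ∀ v ∈ X, v • b = b → v ∈ P.K x)
    (hR : ∀ r ∈ R, r ∈ P.A x a ∧ r • b = b)
    (hE : ∀ e ∈ P.A x a, e • b = b → ∃ r ∈ R, r⁻¹ * e ∈ P.K x)
    (hn : ∀ r ∈ R, ∀ v ∈ X, r * v * r⁻¹ ∈ X)
    (hq : ∀ r ∈ R, ∀ r' ∈ R, ∀ v ∈ X, ⁅⁅v, r⁆, r'⁆ ∈ P.K x) : P.E1 x := by
  classical
  by_contra hE1
  obtain ⟨e, he, eK⟩ : ∃ e ∈ R, e ∉ P.K x := by
    obtain ⟨e, he, eK⟩ := exists_nE ha hb hab hE1
    obtain ⟨r, hr, h⟩ := hE e he.1 he.2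
    exact ⟨r, hr, fun k => eK (by simpa using mul_mem k h)⟩
  obtain ⟨eA, eb⟩ := hR e he
  obtain ⟨z, hz, ez⟩ : ∃ z, P.adj x z ∧ e • z ≠ z := by
    by_contra! h
    exact eK ⟨P.A_fix eA, h⟩
  have := Fintype.ofFinite V
  let F := Finset.univ.filter fun w => P.adj x w ∧ e • w = w
  let L : V → V → Finset V := fun c d => (Finset.univ.filter (· ∈ P.lam x c d)).erase c
  let Γ : V → Finset V := fun c => Finset.univ.filter fun w => P.adj x w ∧ w ≠ c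
  have cL : ∀ c d, P.adj x c → (L c d).card + 1 = (P.lam x c d).ncard := fun c d hc => by
    rw [Finset.card_erase_add_one (by simpa using left_lam hc), Set.ncard_eq_toFinset_card']
    simp
  have cΓ : ∀ c, P.adj x c → (Γ c).card = P.sz x := fun c hc => by
    rw [sz_eq hc, Set.ncard_eq_toFinset_card']
    simp [Γ]
  have mF : ∀ w, w ∈ F ↔ P.adj x w ∧ e • w = w := by simp [F]
  have mL : ∀ c d w, w ∈ L c d ↔ w ≠ c ∧ w ∈ P.lam x c d := by simp [L]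
  have mΓ : ∀ c w, w ∈ Γ c ↔ P.adj x w ∧ w ≠ c := by simp [Γ]
  have zF : ∀ c ∈ F, z ≠ c := fun c hc h => ez (h ▸ ((mF c).1 hc).2)
  have i1 : F.card * (L a b).card ≤ P.sz x := by
    rw [← cΓ z hz]
    refine le_trans ?_ (Finset.card_le_card (s := F.biUnion (L z)) (Finset.biUnion_subset.2
      fun c _ w hw => (mΓ _ _).2 ⟨((mL _ _ _).1 hw).2.1, ((mL _ _ _).1 hw).1⟩))
    rw [Finset.card_biUnion fun c hc d hd hcd => Finset.disjoint_left.2 fun w h1 h2 => ?_]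
    · refine Finset.card_nsmul_le_sum F _ _ fun c hc => ?_
      have := ncard_lam ha hb hab hz ((mF c).1 hc).1 (zF c hc)
      rw [← cL _ _ ha, ← cL _ _ hz] at this
      omega
    · obtain ⟨c1, c2⟩ := (mF c).1 hc
      obtain ⟨d1, d2⟩ := (mF d).1 hd
      rw [mL] at h1 h2
      have l1 := lam_eq hz c1 (zF c hc) (left_lam hz) h1.2 h1.1.symm
      have l2 := lam_eq hz d1 (zF d hd) (left_lam hz) h2.2 h2.1.symm
      have l3 := lam_eq hz c1 (zF c hc) (right_lam c1) (l1 ▸ l2 ▸ right_lam d1) hcd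
      exact ez ((l3 ▸ left_lam hz : z ∈ P.lam x c d).2 e ⟨P.compat ha c1 eA c2, d2⟩)
  choose! v v1 v2 using fun w (hw : w ∈ Γ a) =>
    htr b w hb ((mΓ _ _).1 hw).1 hab.symm ((mΓ _ _).1 hw).2
  have cX : ∀ u ∈ X, ⁅u⁻¹, e⁆ ∈ X := fun u hu => by
    simpa [commutatorElement_def, mul_assoc] using mul_mem (inv_mem hu) (hn e he u hu)
  have ab : ∀ u ∈ X, P.adj x (u • b) ∧ u • b ≠ a := fun u hu =>
    ⟨by simpa [P.A_fix (hX hu)] using P.adj_smul u hb,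
      fun h => hab (smul_left_cancel u ((A_fix' (hX hu)).trans h.symm))⟩
  have i2 : (Γ a).card ≤ (F.erase a).card * (L a b).card := by
    refine Finset.card_le_mul_card_image_of_maps_to (f := fun w => ⁅(v w)⁻¹, e⁆ • b)
      (fun w hw => ?_) _ fun c _ => ?_
    · obtain ⟨c1, c2⟩ := ab _ (cX _ (v1 w hw))
      refine (mL _ _ _).2 ⟨c2, c1, fun u hu => ?_⟩
      obtain ⟨r, hr, h⟩ := hE u hu.1 hu.2
      have h1 := (inv_mem (hq e he r hr _ (inv_mem (v1 w hw)))).2 _ c1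
      have h2 := h.2 _ c1
      generalize ⁅(v w)⁻¹, e⁆ = c at h1 h2
      rw [mul_smul, inv_smul_eq_iff] at h2
      rw [h2]
      simpa [commutatorElement_def, mul_smul, inv_smul_eq_iff.2 (hR r hr).2.symm] using h1
    · rcases (Finset.filter (fun w => ⁅(v w)⁻¹, e⁆ • b = c) (Γ a)).eq_empty_or_nonempty with h | ⟨w₀, h⟩
      · simp [h]
      obtain ⟨w1, w2⟩ := Finset.mem_filter.1 h
      refine Finset.card_le_card_of_injOn (fun w => (v w₀ * (v w)⁻¹) • b) (fun w hw => ?_)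
        fun w hw w' hw' h => ?_
      · obtain ⟨h1, h2⟩ := Finset.mem_filter.1 hw
        obtain ⟨c1, c2⟩ := ab _ (mul_mem (v1 _ w1) (inv_mem (v1 _ h1)))
        refine Finset.mem_coe.2 (Finset.mem_erase.2 ⟨c2, (mF _).2 ⟨c1, ?_⟩⟩)
        have k := hreg _ (mul_mem (inv_mem (cX _ (v1 _ w1))) (cX _ (v1 _ h1))) (by
          rw [mul_smul, h2, inv_smul_eq_iff, w2])
        have := (K_conj' (K_conj' k (inv_smul_eq_iff.2 (P.A_fix eA).symm))
          (P.A_fix (hX (v1 _ w1)))).2 _ c1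
        refine (inv_smul_eq_iff.1 ?_).symm
        simpa [commutatorElement_def, mul_smul, eb] using this
      · have h1 := (Finset.mem_filter.1 hw).1
        have h2 := (Finset.mem_filter.1 hw').1
        have k := hreg _ (mul_mem (v1 _ h2) (inv_mem (v1 _ h1))) (by
          simpa [mul_smul, smul_eq_iff_eq_inv_smul] using h)
        have := k.2 _ ((mΓ _ _).1 h1).1
        rwa [mul_smul, inv_smul_eq_iff.2 (v2 _ h1).symm, v2 _ h2, eq_comm] at this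
  have i3 := Finset.card_erase_add_one ((mF a).2 ⟨ha, A_fix' eA⟩)
  have i4 : 0 < (L a b).card := Finset.card_pos.2 ⟨b, (mL _ _ _).2 ⟨hab.symm, right_lam hb⟩⟩
  rw [cΓ a ha] at i2
  rw [← i3, add_mul] at i1
  omega

/-- **L2**.  If any two points `b, b'` of `Γ(x) ∖ a` are swapped by an element of `A x a` that is
an involution on `Γ(x)` fixing only `a`, and `p = 2`, then `E1 x`. -/
theorem L2 (hp : P.p = 2) {x : V}
    (h : ∀ a b b', P.adj x a → P.adj x b → P.adj x b' → b ≠ a → b' ≠ a → b ≠ b' →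
      ∃ t ∈ P.A x a, t • b = b' ∧ t * t ∈ P.K x ∧ ∀ c, P.adj x c → t • c = c → c = a) :
    P.E1 x := by
  by_contra hE1
  obtain ⟨a, ha, -, -⟩ := P.thick x x x
  obtain ⟨b, hb, hab, -⟩ := P.thick x a a
  obtain ⟨e, he, eK⟩ := exists_nE ha hb hab.symm hE1
  obtain ⟨c, hc, ec⟩ : ∃ z, P.adj x z ∧ e • z ≠ z := by
    by_contra! h
    exact eK ⟨P.A_fix he.1, h⟩
  have hca : c ≠ a := fun h => ec (h ▸ A_fix' he.1)
  have hbc : b ≠ c := fun h => ec (h ▸ he.2)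
  have inv : ∀ g ∈ P.A x b, ∀ w ∈ {w | P.adj x w ∧ w ≠ b}, g • w ∈ {w | P.adj x w ∧ w ≠ b} :=
    fun g hg w hw => ⟨by simpa [P.A_fix hg] using P.adj_smul g hw.1,
      fun h => hw.2 (smul_left_cancel g (h.trans (A_fix' hg).symm))⟩
  have h1 := ncard_fix P.prime (P.A_p hb) inv
  have h2 := ncard_fix P.prime (H := P.EE x b c) ((P.A_p hb).to_le inf_le_left)
    fun g hg => inv g hg.1
  rw [Set.eq_empty_of_forall_notMem (s := {w ∈ _ | _}) fun w hw => by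
    obtain ⟨d, hd, d1, d2⟩ := P.thick x b w
    obtain ⟨g, hg, r⟩ := tr_A hb w d hw.1.1 hd hw.1.2 d1
    exact d2 (r.symm.trans (hw.2 g hg))] at h1
  obtain ⟨t, ht, t1, t2, t3⟩ := h a b c ha hb hc hab hca hbc
  have t4 : t • c = b := by rw [← t1, ← mul_smul, t2.2 b hb]
  have l := lam_eq hb hc hbc (right_lam hc) (left_lam hb) hbc.symm
  have h3 := ncard_fix P.prime (H := P.A x a ⊓ MulAction.stabilizer G (P.lam x b c))
    ((P.A_p ha).to_le inf_le_left) (S := P.lam x b c) fun g hg w hw =>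
      (MulAction.mem_stabilizer_iff.1 hg.2) ▸ Set.smul_mem_smul_set hw
  rw [Set.eq_empty_of_forall_notMem (s := {w ∈ _ | _}) fun w hw => by
    obtain rfl := t3 w hw.1.1 (hw.2 t ⟨ht, MulAction.mem_stabilizer_set_iff_smul_set_subset
      (Set.toFinite _) |>.2 (by
        rintro _ ⟨w, hw, rfl⟩
        exact l ▸ lam_conj (P.A_fix ht) t1 t4 hw)⟩)
    exact ec ((lam_eq hb hc hbc hw.1 (left_lam hb) hab.symm ▸ right_lam hc : c ∈ P.lam x w b).2 e he)]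
    at h3
  have h4 := Set.ncard_sdiff_singleton_add_one (left_lam (b := c) hb)
  rw [show {w ∈ {w | P.adj x w ∧ w ≠ b} | ∀ g ∈ P.EE x b c, g • w = w} = P.lam x b c \ {b} from
    Set.ext fun w => and_right_comm] at h2
  simp only [hp, Nat.ModEq, Set.ncard_empty] at h1 h2 h3
  omega

end SP

end Cfsg.Agent.BN2
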