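import Cfsg.Agent.BN2.N6b

/-!
# Hexagons, `p` odd: `E1` at the `σ`-vertices

`x` an apartment with `Sg (x 1)`, `U_i = QQ x (i+1) (i+5)`; `U_2, U_4, U_6 = C_5, C_7, C_9`
(`N6_QQ`); all `U_i` are regular on `Γ(x i) ∖ x (i+1)` and `Γ(x (i+6)) ∖ x (i+5)` (`N6_X`,
`N6_C_tr`, `QQ_eq_one`) and abelian (`N6_ab`).  `D = D x` centralizes `U_2, U_4, U_6`, normalizes
all `U_i` and is normalized by `m = v w v` of `N6_mu` (`D_conj`).
-/

set_option autoImplicit false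
set_option linter.unusedSectionVars false

open scoped commutatorElement

namespace Cfsg.Agent.BN2

theorem N6_commL {G : Type*} [Group G] {w d u : G} (h1 : Commute ⁅w, u⁆ w) (h2 : Commute ⁅w, u⁆ d)
    (h3 : Commute d u) : Commute ⁅w, d⁆ u := by
  have e : w⁻¹ * u * w = ⁅w, u⁆⁻¹ * u := by
    rw [eq_inv_mul_iff_mul_eq, ← mul_assoc, ← mul_assoc, h1.inv_right.eq, commutatorElement_def]
    group
  have h4 : Commute d (w⁻¹ * u * w) := e ▸ h2.inv_left.symm.mul_right h3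
  have h5 : Commute (w * d * w⁻¹) u := by simpa [mul_assoc] using h4.map (MulAut.conj w)
  exact h5.mul_left h3.inv_left

namespace SP

open Pol

variable {G V : Type*} [Group G] [MulAction G V] [Finite G] [Finite V] {P : SP G V}

theorem N6_U (hn : P.n = 6) (hp : P.p ≠ 2) {x : ℤ → V} (hx : P.Line x) (hs : P.Sg (x 1))
    (i j k : ℤ) (hj : j = i + 4 := by omega) (hk : k = i - 1 := by omega) :
    P.Tr (P.QQ x i j) (x k) (x i) := by
  rcases Int.emod_two_eq_zero_or_one i with c | c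
  · have := N6_X hn hp (hx.shift i) (N6_sg hx hs _)
    rw [show -1 + i = k by omega, zero_add] at this
    exact this.mono fun g hg => QQ_mono (by omega) (by omega) (QQ_shift.1 hg)
  · have := N6_C_tr hn (hx.shift k) (N6_sg hx hs _)
    rwa [show 1 + k = i by omega, zero_add, ← N6_QZ hn hx hs i j (3 + k)] at this

theorem N6_U' (hn : P.n = 6) (hp : P.p ≠ 2) {x : ℤ → V} (hx : P.Line x) (hs : P.Sg (x 1))
    (i j k : ℤ) (hj : j = i + 4 := by omega) (hk : k = j + 1 := by omega) :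
    P.Tr (P.QQ x i j) (x k) (x j) := by
  have := N6_U hn hp (hx.rev 0) (N6_sg hx hs _) (-j) (-i) (-k)
  simp only [zero_sub, neg_neg] at this
  refine this.mono fun g hg k k1 k2 => ?_
  simpa using hg (-k) (by omega) (by omega)

theorem N6_step (hn : P.n = 6) (hp : P.p ≠ 2) {x : ℤ → V} (hx : P.Line x) (hs : P.Sg (x 1))
    {i : ℤ} (a j k : ℤ) {w : G} (hw : w ∈ P.R x i k) (hj : j = a + 4 := by omega)
    (hk : k = j + 1 := by omega) (hi : a - 1 ≤ i ∧ i < k := by omega) :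
    ∃ h ∈ P.QQ x a j, h⁻¹ * w ∈ P.R x i (k + 1) := by
  obtain ⟨h, hh, e⟩ := N6_U' hn hp hx hs a j k hj hk (x (k + 1)) (w • x (k + 1)) (hx.1 k)
    (N6_adj (hw.2 k (by omega) le_rfl) (hx.1 k)) (hx.ne' (by omega))
    (N6_ne hx (hw.2 _ (by omega) (by omega)))
  have m : h⁻¹ * w ∈ P.R x i k :=
    mul_mem (inv_mem (QQ_R hx hh (by omega) (by omega) (by omega) (by omega))) hw
  refine ⟨h, hh, m.1, fun l k1 k2 => ?_⟩
  rcases eq_or_lt_of_le k2 with rfl | k2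
  · rw [mul_smul, ← e, inv_smul_smul]
  · exact m.2 l k1 (by omega)

/-- `Q_6 ⊓ Q_7 = U_2 U_3 U_4 U_5` (successively fix `x 9, x 10, x 11, x 12`, then `eq_one`), with
unique factors. -/
theorem N6_dec (hn : P.n = 6) (hp : P.p ≠ 2) {x : ℤ → V} (hx : P.Line x) (hs : P.Sg (x 1))
    {g : G} (hg : g ∈ P.QQ x 6 7) : ∃ a ∈ P.QQ x 3 7, ∃ b ∈ P.QQ x 4 8, ∃ c ∈ P.QQ x 5 9,
      ∃ d ∈ P.QQ x 6 10, g = a * b * c * d := by
  obtain ⟨a, ha, h1⟩ := N6_step hn hp hx hs 3 7 8 (QQ_R hx hg (a := 5) (by omega) (by omega)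
    (by omega) (by omega))
  obtain ⟨b, hb, h2⟩ := N6_step hn hp hx hs 4 8 _ h1
  obtain ⟨c, hc, h3⟩ := N6_step hn hp hx hs 5 9 _ h2
  obtain ⟨d, hd, h4⟩ := N6_step hn hp hx hs 6 10 _ h3
  have m : d⁻¹ * (c⁻¹ * (b⁻¹ * (a⁻¹ * g))) ∈ P.QQ x 6 7 :=
    mul_mem (inv_mem (QQ_mono le_rfl (by omega) hd)) (mul_mem (inv_mem (QQ_mono (by omega)
      (by omega) hc)) (mul_mem (inv_mem (QQ_mono (by omega) (by omega) hb))
        (mul_mem (inv_mem (QQ_mono (by omega) le_rfl ha)) hg)))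
  have := eq_one hx (a := 5) (k := 6) (fun i h1 h2 => h4.2 i h1 (by omega)) (by omega) (by omega)
    (m 6 le_rfl (by omega)).1 (m _ (by omega) (by omega)).1
  exact ⟨a, ha, b, hb, c, hc, d, hd, by
    rw [← mul_one (a * b * c * d), ← this]; group⟩

theorem N6_Drev {x : ℤ → V} (hx : P.Line x) (c : ℤ) : P.D (fun i => x (c - i)) = P.D x := by
  have k : ∀ {x : ℤ → V}, P.Line x → P.D x ≤ P.D fun i => x (c - i) := fun hx d hd =>
    ⟨((R_rev hx (i := 0) (j := 1) (by omega)).2 (D_R hx hd (by omega))).1, fun _ => hd.2 _⟩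
  refine le_antisymm ?_ (k hx)
  simpa using k (hx.rev c)

section

variable (hn : P.n = 6) (hp : P.p ≠ 2) {x : ℤ → V} (hx : P.Line x) (hs : P.Sg (x 1))
  {a c t w h d : G}
include hn hx hs

theorem N6_DZ (hd : d ∈ P.D x) {i j : ℤ} (ht : t ∈ P.QQ x i j) (hi : i % 2 = 1 := by omega)
    (hj : j = i + 4 := by omega) : Commute d t :=
  R_comm_Zv hx (D_R hx hd (i := i) (j := j) (by omega)) (by omega) (by omega) (by omega)
    ((N6_QZ hn hx hs i j (i + 2)).le ht)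

omit hn hs in
theorem N6_W {i j : ℤ} : ⁅P.QQ x i j, P.D x⁆ ≤ P.QQ x i j :=
  Subgroup.commutator_le.2 fun _ hu _ hd => (comm_mem hu (QQ_conj hu fun k _ _ => hd.2 k)).2

theorem N6_a (hw : w ∈ ⁅P.QQ x 2 6, P.D x⁆) (hh : h ∈ P.QQ x 4 8)
    (hc : h ∈ Subgroup.centralizer (P.D x : Set G)) : Commute w h := by
  refine Subgroup.mem_centralizer_singleton_iff.1 (Subgroup.commutator_le.2 (fun a ha d hd => ?_) hw)
  have m : ⁅a, h⁆ ∈ P.QQ x 3 7 := fun k k1 k2 => by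
    rcases eq_or_lt_of_le k2 with rfl | k2
    · exact (comm_Q (hh _ (by omega) (by omega)) (QQ_fix hx ha (by omega) (by omega) (by omega))).1
    · exact (comm_Q (ha _ (by omega) (by omega)) (QQ_fix hx hh (by omega) (by omega) (by omega))).2
  exact Subgroup.mem_centralizer_singleton_iff.2 (N6_commL (Commute.symm (R_comm_Zv hx
    (QQ_R hx ha (a := 4) (b := 6) (by omega) (by omega) (by omega) (by omega)) (by omega) (by omega)
    (by omega) ((N6_QZ hn hx hs 3 7 5).le m))) (N6_DZ hn hx hs hd m).symm (hc d hd))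

omit hn hs in
theorem N6_at (ha : a ∈ P.QQ x 2 6) (ht : t ∈ P.QQ x 7 11) : ⁅a, t⁆ ∈ P.QQ x 6 7 := fun k k1 k2 => by
  obtain rfl | rfl : k = 6 ∨ k = 7 := by omega
  · exact (comm_Q (ha _ (by omega) le_rfl) (QQ_fix hx ht (by omega) (by omega) (by omega))).2
  · exact (comm_Q (ht _ le_rfl (by omega)) (QQ_fix hx ha (by omega) (by omega) (by omega))).1

theorem N6_N (ha : a ∈ P.QQ x 2 6) (ht : t ∈ P.QQ x 7 11) (t1 : t ≠ 1)
    (e : (a * t * a⁻¹) • x 9 = x 9) : a = 1 := by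
  by_contra a1
  have hm := N6_m hn
  obtain ⟨r, hr, r1, r2⟩ := exists_fold (hx.rev 14) (k := 7) (g := a)
    (QQ_fix hx ha (by omega) (by omega) (by omega)) fun e => a1 (QQ_eq_one' hx ha (by omega)
      (hx.adj' (by omega)) (hx.ne' (by omega)) e)
  have hb := Ball_conj a (Zv_ball (N6_sg hx hs 9) ((N6_QZ hn hx hs 7 11 9).le ht))
  refine t1 (conj_eq_one_iff.1 (C_eq_one (by omega) hr (u := a * t * a⁻¹) (c := 9) (j := 5) ?_ (by omega) ?_))
  · rw [r2 _ (by omega)]; exact hb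
  · rw [r1 _ (by omega)]; exact e

omit hs in
theorem N6_L (ha : a ∈ P.QQ x 2 6) (ht : t ∈ P.QQ x 7 11) (a1 : a ≠ 1)
    (e : t * a * t⁻¹ ∈ P.K (x 5)) : t = 1 := by
  by_contra t1
  have t6 : t • x 6 = x 6 := QQ_fix hx ht (by omega) (by omega) (by omega)
  obtain ⟨r, hr, r1, r2⟩ := exists_fold hx (k := 6) t6 fun e => t1 (QQ_eq_one hx ht (by omega)
      (hx.adj_pred (by omega)) (hx.ne' (by omega)).symm e)
  refine a1 (conj_eq_one_iff.1 (eq_one hr (g := t * a * t⁻¹) (a := 4) (k := 5) (fun i h1 h2 => ?_)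
    (by omega) (by omega) (by rwa [r1 _ (by omega)])
    (by rw [r1 _ (by omega)]; exact K_conj' (ha 6 (by omega) le_rfl).1 t6)))
  rcases le_total i 6 with h3 | h3
  · rw [r1 i h3]; exact K_fix hx e (by omega) (by omega)
  · rw [r2 i h3, mul_smul, inv_smul_smul, mul_smul, QQ_fix hx ha (by omega) (by omega) (by omega)]

include hp

theorem N6_L1 (ht : t ∈ P.QQ x 7 11) (hc : c ∈ ⁅P.QQ x 2 6, P.D x⁆) :
    ∃ l ∈ ⁅P.QQ x 6 10, P.D x⁆, l⁻¹ * (t * c * t⁻¹) ∈ P.K (x 5) := by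
  have f : ∀ {l}, l ∈ P.QQ x 6 10 → l • x 5 = x 5 := fun h =>
    QQ_fix hx h (by omega) (by omega) (by omega)
  let M : Subgroup G :=
    { carrier := {g | ∃ l ∈ ⁅P.QQ x 6 10, P.D x⁆, l⁻¹ * g ∈ P.K (x 5)}
      one_mem' := ⟨1, one_mem _, by simp⟩
      mul_mem' := fun {g g'} ⟨l, hl, e⟩ ⟨l', hl', e'⟩ => ⟨l * l', mul_mem hl hl', by
        convert mul_mem (K_conj' e (f (inv_mem (N6_W hx hl')))) e' using 1; group⟩
      inv_mem' := fun {g} ⟨l, hl, e⟩ => ⟨l⁻¹, inv_mem hl, by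
        convert K_conj' (inv_mem e) (f (N6_W hx hl)) using 1; group⟩ }
  refine (Subgroup.commutator_le (H₃ := M.comap (MulAut.conj t).toMonoidHom)).2
    (fun a ha d hd => ?_) hc
  obtain ⟨n, h1, h, h2, z, h3, l, h4, e⟩ := N6_dec hn hp hx hs (N6_at hx (inv_mem ha) ht)
  have k : a * (n * h * z) ∈ P.K (x 5) := mul_mem (ha 5 (by omega) (by omega)).1 (mul_mem (mul_mem
    (h1 5 (by omega) (by omega)).1 (h2 5 (by omega) (by omega)).1) (h3 5 le_rfl (by omega)).1)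
  have m := Subgroup.commutator_mem_commutator h4 hd
  refine ⟨_, m, ?_⟩
  have e1 : t * a * t⁻¹ = a * (n * h * z) * l := by
    rw [mul_assoc a, ← e, commutatorElement_def]; group
  have e2 : t * d * t⁻¹ = d := mul_inv_eq_iff_eq_mul.2 (N6_DZ hn hx hs hd ht).eq.symm
  change _ * (t * ⁅a, d⁆ * t⁻¹) ∈ _
  rw [conjugate_commutatorElement, e1, e2]
  convert mul_mem (K_conj' k (f (inv_mem (N6_W hx m)))) (K_conj' (inv_mem k) (hd.2 5)) using 1
  simp only [commutatorElement_def]; group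

theorem N6_J (hc : c ∈ ⁅P.QQ x 2 6, P.D x⁆ ⊓ Subgroup.centralizer (P.D x : Set G)) (c1 : c ≠ 1) :
    P.sz (x 6) ≤ Nat.card ↥(⁅P.QQ x 6 10, P.D x⁆ ⊓ Subgroup.centralizer (P.D x : Set G)) := by
  choose l hl e using fun t : P.QQ x 7 11 => N6_L1 hn hp hx hs t.2 hc.1
  have a4 : P.adj (x 5) (x 4) := hx.adj_pred rfl
  have cU := N6_W hx hc.1
  refine (sz_le_card (hx.adj' rfl) (N6_U hn hp hx hs 7 11 6)).trans
    (Nat.card_le_card_of_injective (fun t => ⟨l t, hl t, fun d hd => ?_⟩) fun t t' h => ?_)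
  · have dt := N6_DZ hn hx hs hd t.2
    have c : Commute d (t * c * t.1⁻¹) := (dt.mul_right (hc.2 d hd)).mul_right dt.inv_right
    have e1 := (e t).2 _ a4
    rw [mul_smul, inv_smul_eq_iff] at e1
    refine mul_inv_eq_iff_eq_mul.1 (inv_mul_eq_one.1 (QQ_eq_one hx (mul_mem (inv_mem (N6_W hx (hl t)))
      (QQ_conj (N6_W hx (hl t)) fun k _ _ => hd.2 k)) (by omega) a4 (hx.ne' rfl).symm ?_)).symm
    rw [mul_smul, mul_smul, inv_smul_eq_iff.2 (hd.2 4).symm, mul_smul, ← e1, ← mul_smul d, c.eq,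
      mul_smul _ d, hd.2, e1, inv_smul_smul]
  · have h : l t = l t' := Subtype.mk.inj h
    have k : (t' * c * t'.1⁻¹)⁻¹ * (t * c * t.1⁻¹) ∈ P.K (x 5) := by
      convert mul_mem (inv_mem (e t')) (e t) using 1; rw [h]; group
    have f6 : ∀ t : P.QQ x 7 11, t.1 • x 6 = x 6 := fun t =>
      QQ_fix hx t.2 (by omega) (by omega) (by omega)
    have q6 : (t' * c * t'.1⁻¹)⁻¹ * (t * c * t.1⁻¹) ∈ P.Q (x 6) :=
      mul_mem (inv_mem (Q_conj' (cU 6 (by omega) le_rfl) (f6 t')))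
        (Q_conj' (cU 6 (by omega) le_rfl) (f6 t))
    have q7 : (t' * c * t'.1⁻¹)⁻¹ * (t * c * t.1⁻¹) ∈ P.Q (x 7) := by
      convert mul_mem (mul_mem (t'.2 7 le_rfl (by omega)) (Q_conj' ((t'⁻¹ * t).2 7 le_rfl (by omega))
        (QQ_fix hx (inv_mem cU) (by omega) (by omega) (by omega)))) (t⁻¹.2 7 le_rfl (by omega)) using 1
      simp only [Subgroup.coe_mul, Subgroup.coe_inv]; group
    have y := N6_nY hn hx hs (i := 5) (j := 7) (k := 6) (mem_QQ_of hx q6 (by omega) (by omega)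
      fun k k1 k2 => by
        obtain rfl | rfl | rfl : k = 5 ∨ k = 6 ∨ k = 7 := by omega
        exacts [k, q6.1, q7.1]) (f6 t'⁻¹)
    have := N6_L hn hx cU (t'⁻¹ * t).2 c1 (by
      convert mul_mem (cU 5 (by omega) (by omega)).1 (y 5 le_rfl (by omega)).1 using 1
      simp only [Subgroup.coe_mul, Subgroup.coe_inv]; group)
    exact (inv_mul_eq_one.1 (Subtype.ext this)).symm

end

section

variable (hn : P.n = 6) (hp : P.p ≠ 2) {x : ℤ → V} (hx : P.Ap x) (hs : P.Sg (x 1)) {c t w l : G}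
include hn hp hx hs

theorem N6_b (hw : w ∈ ⁅P.QQ x 2 6, P.D x⁆) (hl : l ∈ P.QQ x 6 10)
    (hc : l ∈ Subgroup.centralizer (P.D x : Set G)) : w * l * w⁻¹ ∈ P.K (x 8) := by
  by_cases w1 : w = 1
  · simpa [w1] using (hl 8 (by omega) (by omega)).1
  obtain ⟨v, -, hm, e⟩ := N6_mu hn hp hx hs (N6_W hx.1 hw) w1
  obtain ⟨m, em⟩ : ∃ m, m = v * w * v := ⟨_, rfl⟩
  rw [← em] at hm e
  replace hm : ∀ i, m • x i = x (14 - i) := fun i => (hm i).trans (hx.per (by omega)).symm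
  have hm' : ∀ i, m⁻¹ • x i = x (14 - i) := fun i => by rw [inv_smul_eq_iff, hm]; simp
  have hv : m⁻¹ * w * m⁻¹⁻¹ ∈ ⁅P.QQ (fun i => x (14 - i)) 2 6, P.D fun i => x (14 - i)⁆ :=
    (Subgroup.commutator_le (H₃ := Subgroup.comap (MulAut.conj m⁻¹).toMonoidHom
      ⁅P.QQ (fun i => x (14 - i)) 2 6, P.D fun i => x (14 - i)⁆)).2
      (fun a ha d hd => by
        rw [Subgroup.mem_comap, MulEquiv.coe_toMonoidHom, MulAut.conj_apply]
        rw [conjugate_commutatorElement, N6_Drev hx.1]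
        exact Subgroup.commutator_mem_commutator (QQ_rev.2 (N6_cj hm' ha))
          (D_conj hx.1 hd (.inr hm'))) hw
  rw [inv_inv, mul_assoc, ← e, inv_mul_cancel_left] at hv
  have c := N6_a hn (hx.1.rev 14) (N6_sg hx.1 hs _) hv (QQ_rev.2 hl) (by rwa [N6_Drev hx.1])
  have : w * l * w⁻¹ = v⁻¹ * (m * l * m⁻¹) * v⁻¹⁻¹ := by
    calc _ = v⁻¹ * (m * (v⁻¹ * l * v) * m⁻¹) * v⁻¹⁻¹ := by rw [em]; group
      _ = _ := by rw [c.inv_left.eq, inv_mul_cancel_right]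
  rw [this]
  exact K_conj' (N6_cj hm hl (i' := 4) (j' := 8) (by omega) (by omega) 8 (by omega) le_rfl).1
    (QQ_fix hx.1 (inv_mem (QQ_rev.1 (N6_W (hx.1.rev 14) hv))) (by omega) (by omega) (by omega))

theorem N6_key (hc : c ∈ P.QQ x 2 6) (hD : c ∈ Subgroup.centralizer (P.D x : Set G))
    (ht : t ∈ P.QQ x 7 11) : ∃ n ∈ P.QQ x 3 7, ∀ w ∈ ⁅P.QQ x 2 6, P.D x⁆,
      (w * c * t * (w * c)⁻¹) • x 9 = n • (w * t * w⁻¹) • x 9 := by
  have hl := hx.1
  obtain ⟨n, h1, h, h2, z, h3, l, h4, e⟩ := N6_dec hn hp hl hs (N6_at hl hc ht)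
  have cD : ∀ d ∈ P.D x, Commute d h ∧ Commute d l := fun d hd => by
    have dt := N6_DZ hn hl hs hd ht
    have dc : Commute d c := hD d hd
    have c1 : Commute d (h * (z * l)) := by
      rw [← mul_assoc, eq_inv_mul_of_mul_eq (show n * (h * z * l) = ⁅c, t⁆ by rw [e]; group)]
      exact (N6_DZ hn hl hs hd h1).inv_right.mul_right
        (((dc.mul_right dt).mul_right dc.inv_right).mul_right dt.inv_right)
    have f : (z * l) • x 10 = x 10 := by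
      rw [mul_smul, QQ_fix hl h4 (by omega) (by omega) (by omega),
        QQ_fix hl h3 (by omega) (by omega) (by omega)]
    have c2 : Commute d h := mul_inv_eq_iff_eq_mul.1 (inv_mul_eq_one.1 (QQ_eq_one' hl
      (mul_mem (inv_mem h2) (QQ_conj h2 fun k _ _ => hd.2 k)) (by omega) (c := x 10) (hl.adj' rfl)
      (hl.ne' rfl) (by
        rw [mul_smul, mul_smul, inv_smul_eq_iff.2 (hd.2 10).symm, inv_smul_eq_iff, mul_smul]
        conv_lhs => rw [← f, ← mul_smul h, ← mul_smul, c1.eq, mul_smul, hd.2, mul_smul, f]))).symm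
    refine ⟨c2, ?_⟩
    simpa using (N6_DZ hn hl hs hd h3).inv_right.mul_right (c2.inv_right.mul_right c1)
  refine ⟨n, h1, fun w hw => ?_⟩
  have wU := N6_W hl hw
  have c1 : Commute w n := R_comm_Zv hl (QQ_R hl wU (a := 4) (b := 6) (by omega) (by omega)
    (by omega) (by omega)) (by omega) (by omega) (by omega) ((N6_QZ hn hl hs 3 7 5).le h1)
  have c2 := N6_a hn hl hs hw h2 fun d hd => (cD d hd).1
  have c3 : Commute w z := R_comm_Zv hl (QQ_R hl wU (a := 6) (b := 7) (by omega) (by omega)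
    (by omega) (by omega)) (by omega) (by omega) (by omega) ((N6_QZ hn hl hs 5 9 7).le h3)
  have k := mul_mem (mul_mem (h2 8 (by omega) le_rfl).1 (h3 8 (by omega) (by omega)).1)
    (N6_b hn hp hx hs hw h4 fun d hd => (cD d hd).2)
  have : w * c * t * (w * c)⁻¹ = n * (h * z * (w * l * w⁻¹)) * (w * t * w⁻¹) := by
    calc _ = w * ⁅c, t⁆ * t * w⁻¹ := by rw [commutatorElement_def]; group
      _ = w * (n * h * z) * l * t * w⁻¹ := by rw [e]; group
      _ = _ := by rw [((c1.mul_right c2).mul_right c3).eq]; group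
  rw [this, mul_smul, mul_smul, k.2 _ (N6_adj (K_fix hl (K_conj' (ht 7 le_rfl (by omega)).1
    (QQ_fix hl wU (by omega) (by omega) (by omega))) (by omega) (by omega)) (hl.adj' (j := 9) rfl))]

theorem N6_WC : ⁅P.QQ x 2 6, P.D x⁆ ≤ Subgroup.centralizer (P.D x : Set G) := by
  have hl := hx.1
  intro w hw
  by_cases h : ⁅P.QQ x 2 6, P.D x⁆ ≤ ⊥
  · rw [Subgroup.mem_bot.1 (h hw)]; exact one_mem _
  have nt : ∀ {H : Subgroup G} {y}, P.sz y ≤ Nat.card H → ∃ v ∈ H, v ≠ 1 := fun {H y} h =>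
    (Subgroup.nontrivial_iff_exists_ne_one _).1 (Finite.one_lt_card_iff_nontrivial.1
      ((two_le_sz y).trans h))
  obtain ⟨c, hc, c1, cd⟩ := exists_last (P.A_nil (hl.adj' (i := 1) (j := 2) rfl))
    (fun u hu => QQ_A hl hu (k := 1) (by omega) (by omega) (by omega))
    (fun d hd => (D_R hl hd (i := 1) (j := 2) (by omega)).1)
    (fun d hd u hu => QQ_conj hu fun k _ _ => hd.2 k) h
  obtain ⟨c', hc', c1'⟩ := nt (N6_J hn hp hl hs ⟨hc, fun d hd =>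
    (commutatorElement_eq_one_iff_commute.1 (cd d hd)).eq.symm⟩ c1)
  have J := fun h => N6_J hn hp (hl.rev 12) (N6_sg hl hs _) (c := c') h c1'
  rw [N6_Drev hl, show P.QQ (fun i => x (12 - i)) 2 6 = P.QQ x 6 10 from Subgroup.ext fun _ => QQ_rev,
    show P.QQ (fun i => x (12 - i)) 6 10 = P.QQ x 2 6 from Subgroup.ext fun _ => QQ_rev] at J
  obtain ⟨t, ht, t1⟩ := nt (sz_le_card (hl.adj' rfl) (N6_U hn hp hl hs 7 11 6))
  choose n h1 e using fun c : ↥(⁅P.QQ x 2 6, P.D x⁆ ⊓ Subgroup.centralizer (P.D x : Set G)) =>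
    N6_key hn hp hx hs (N6_W hl c.2.1) c.2.2 ht
  have a7 : P.adj (x 8) (x 7) := hl.adj_pred rfl
  have a9 : P.adj (x 8) (x 9) := hl.adj' rfl
  have ne : x 9 ≠ x 7 := hl.ne' rfl
  have t9 : ((1 : G) * t * 1⁻¹) • x 9 = x 9 := by
    simpa using QQ_fix hl ht (by omega) (by omega) (by omega)
  have bij := Function.Injective.bijective_of_nat_card_le
    (f := fun c => (⟨n c, h1 c⟩ : P.QQ x 3 7)) (fun c c' h => ?_) ?_
  · have k := K_conj' (ht 7 le_rfl (by omega)).1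
      (QQ_fix hl (N6_W hl hw) (by omega) (by omega) (by omega))
    obtain ⟨g, hg, eg⟩ := N6_U' hn hp hl hs 3 7 8 rfl rfl _ _
      (N6_adj (K_fix hl k (by omega) (by omega)) a9) a9 (N6_ne hl k.1) ne
    obtain ⟨c, ec⟩ := bij.2 ⟨g, hg⟩
    rw [eq_inv_of_mul_eq_one_left (N6_N hn hl hs (N6_W hl (mul_mem hw c.2.1)) ht t1
      (by rw [e c w hw, Subtype.mk.inj ec, eg]))]
    exact inv_mem c.2.2
  · have h : n c = n c' := Subtype.mk.inj h
    have m := (mul_mem c'.2 (inv_mem c.2)).1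
    have e1 := e c _ m
    rw [inv_mul_cancel_right, ← one_mul c'.1, e c' 1 (one_mem _), one_mul c'.1, t9, h] at e1
    exact Subtype.ext (mul_inv_eq_one.1 (N6_N hn hl hs (N6_W hl m) ht t1
      (smul_left_cancel _ e1).symm)).symm
  · exact ((card_le_sz a7 a9 ne (fun g hg => ⟨QQ_fix hl hg (by omega) (by omega)
      (by omega), QQ_fix hl hg (by omega) (by omega) (by omega)⟩) fun g hg e =>
        QQ_eq_one' hl hg (by omega) a9 ne e).1.trans (sz_of_ty (ty_even hl rfl)).le).trans (J hc')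

end

/-- `D` acts quadratically on `U_1`.
For `a ∈ U_1`, `t ∈ U_6`: `⁅a,t⁆ = n h z l` (`N6_dec`), `n = N(a,t) ∈ U_2`, `l = L(a,t) ∈ U_5`.
`n` is the element of `U_2` acting on `Γ(x 8)` like `a t a⁻¹` (`U_3..U_6 ≤ K (x 8)`); `n ≠ 1` for
`a, t ≠ 1` (`a t a⁻¹` is a central elation with centre `a x 9` at distance 3 from `x 8`).
`l` is the element of `U_5` acting on `Γ(x 5)` like `t a⁻¹ t⁻¹` (`U_1..U_4 ≤ K (x 5)`), so
`L(·,t)` is a `D`-equivariant hom `U_1 → U_5`; `L(a,·)` is a hom (`t` commutes with `U_3, U_4, U_5`,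
`⁅U_6,U_2⁆ ≤ U_4` by `N6_comm`); `l ≠ 1` for `a, t ≠ 1` (else `t a t⁻¹ ∈ K (x 5) ⊓ K (x 6)` fixes
`x 4, x 5, x 6, t x 5, …, t x 1`; `exists_fold`, `eq_one`).
(a) `w ∈ ⁅U_1,D⁆` commutes with every `h ∈ U_3` centralized by `D` (`⁅U_1,U_3⁆ ≤ QQ x 3 7 = U_2`
is centralized by `D`: `a⁻¹ (d a d⁻¹)` commutes with `h`); likewise `⁅U_7,D⁆` commutes with
`C_{U_5}(D)` (`U_7 = QQ x 8 12 = QQ x (-4) 0`, `⁅U_5,U_7⁆ ≤ U_6`).
(b) for `1 ≠ w ∈ ⁅U_1,D⁆`, `l ∈ C_{U_5}(D)`: `w l w⁻¹ ∈ K (x 8)`.  With `m = v w v` of `N6_mu`,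
`v = m⁻¹ w m ∈ ⁅U_7,D⁆` commutes with `l`, so `w l w⁻¹ = v⁻¹ (m l m⁻¹) v`, `m l m⁻¹ ∈ U_3`.
So for `w ∈ ⁅U_1,D⁆`, `c ∈ C_{U_1}(D)` (then `h, l` in `⁅c,t⁆` are centralized by `D`, by
uniqueness): `N(wc,t) = N(c,t) N(w,t)`.  Let `J_i = ⁅U_i,D⁆ ⊓ C(D)`.  `N(·,t)` is an injective hom
`J_1 → U_2`; if `⁅U_1,D⁆ ≠ ⊥` take `1 ≠ c ∈ J_1` (`exists_last`), `L(c,·) : U_6 → J_5` is
injective.  The reflection `i ↦ 12 - i` swaps `U_1, U_5` (same `D`), so `|J_1| = |U_2|`, `N(·,t)`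
is onto, and `w ∈ ⁅U_1,D⁆` has `N(wc,t) = 1` for some `c ∈ J_1`, so `w = c⁻¹ ∈ J_1`. -/
theorem N6_quad (hn : P.n = 6) (hp : P.p ≠ 2) {x : ℤ → V} (hx : P.Ap x) (hs : P.Sg (x 1))
    {d d' w : G} (hd : d ∈ P.D x) (hd' : d' ∈ P.D x) (hw : w ∈ P.QQ x 2 6) :
    ⁅⁅w, d⁆, d'⁆ = 1 :=
  commutatorElement_eq_one_iff_commute.2
    (N6_WC hn hp hx hs (Subgroup.commutator_mem_commutator hw hd) d' hd').symm

/-- `p = 2`: `N6_E_two`.  `p` odd: `FQ` at `x 1`, `a = x 2`, `b = x 0`, `X = U_1`, `R = D`; an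
element of `A (x 1) (x 2)` fixing `x 0` is congruent to an element of `D` modulo
`U_{-4}, …, U_0 ≤ Q (x 1)` (fix `x 3, …, x 7` successively, `mem_D_of`). -/
theorem N6_E_odd (hn : P.n = 6) {y : V} (hs : P.Sg y) : P.E1 y := by
  by_cases hp : P.p = 2
  · exact N6_E_two hn hp hs
  obtain ⟨q, hq, e⟩ := P.exists_line y
  obtain ⟨x, hx, ex⟩ := exists_ap (hq.shift (-1)) 0
  obtain rfl : x 1 = y := (ex 1 (by omega) (by omega)).trans e
  have hl := hx.1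
  have a0 : P.adj (x 1) (x 0) := hl.adj_pred rfl
  have ne : x 2 ≠ x 0 := hl.ne' rfl
  refine FQ (hl.adj' rfl) a0 ne (X := P.QQ x 2 6) (R := P.D x)
    (fun u hu => QQ_A hl hu (k := 1) (by omega) (by omega) (by omega)) (N6_U hn hp hl hs 2 6 1)
    (fun v hv e => QQ_eq_one hl hv (by omega) a0 ne.symm e ▸ one_mem _)
    (fun d hd => ⟨(D_R hl hd (i := 1) (j := 2) (by omega)).1, hd.2 _⟩) (fun u hu u0 => ?_)
    (fun d hd u hu => QQ_conj hu fun k _ _ => hd.2 k)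
    fun d hd d' hd' w hw => N6_quad hn hp hx hs hd hd' hw ▸ one_mem _
  have h0 : u ∈ P.R x 0 2 := mem_R_of hl (k := 1) hu (fun l l1 l2 => by
    obtain rfl | rfl | rfl : l = 0 ∨ l = 1 ∨ l = 2 := by omega
    exacts [u0, P.A_fix hu, A_fix' hu]) (by omega) (by omega)
  obtain ⟨a, ha, h1⟩ := N6_step hn hp hl hs (-3) 1 _ h0
  obtain ⟨b, hb, h2⟩ := N6_step hn hp hl hs (-2) 2 _ h1
  obtain ⟨c, hc, h3⟩ := N6_step hn hp hl hs (-1) 3 _ h2
  obtain ⟨d, hd, h4⟩ := N6_step hn hp hl hs 0 4 _ h3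
  obtain ⟨f, hf, h5⟩ := N6_step hn hp hl hs 1 5 _ h4
  refine ⟨_, mem_D_of hx h5 (by omega), ?_⟩
  convert K_conj' (mul_mem (mul_mem (mul_mem (mul_mem (ha 1 (by omega) (by omega)).1
    (hb 1 (by omega) (by omega)).1) (hc 1 (by omega) (by omega)).1) (hd 1 (by omega) (by omega)).1)
    (hf 1 (by omega) (by omega)).1) (P.A_fix (inv_mem hu)) using 1
  group

end SP

end Cfsg.Agent.BN2
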