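import Cfsg.Agent.BN2.FF

/-!
# BN2/N6a: hexagons, `σ` = odd vertices: structure (~350 lines)

`n = 6`, `m = 3`, `x` a line with `Sg (x 1)` (so `Sg (x i)` for odd `i`, `¬ Sg (x i)` for even
`i`: `Sg.of_ty`, `not_Sg_both`).  `C_i = Zv (x i)` (`i` odd), `Q_i = Q (x i)`.  All statements can
be applied to the lines `fun i => x (i + 2k)`, `fun i => x (2k - i)`.
-/

set_option autoImplicit false

open scoped commutatorElement

namespace Cfsg.Agent.BN2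

namespace SP

open Pol

variable {G V : Type*} [Group G] [MulAction G V] [Finite G] [Finite V] {P : SP G V}

theorem N6_m (hn : P.n = 6) : P.m = 3 := by simp [m, hn]

theorem _root_.Cfsg.Agent.BN2.Pol.Tr.fix {P : Pol G V} {H : Subgroup G} {y a b : V} (h : P.Tr H y a)
    (hb : P.adj y b) (hba : b ≠ a) {u : G} (h0 : u • y = y) (h1 : u • a = a) :
    ∃ g ∈ H, (g⁻¹ * u) • b = b :=
  let ⟨g, hg, e⟩ := h b (u • b) hb (h0 ▸ P.adj_smul u hb) hba fun f =>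
    hba (smul_left_cancel u (f.trans h1.symm))
  ⟨g, hg, by rw [mul_smul, ← e, inv_smul_smul]⟩

theorem _root_.Cfsg.Agent.BN2.Pol.Sg.odd {P : Pol G V} {x : ℤ → V} (hx : P.Line x) {i : ℤ}
    (hs : P.Sg (x i)) (j : ℤ) (h : (i - j) % 2 = 0 := by omega) : P.Sg (x j) :=
  hs.of_ty (ty_even hx h)

theorem N6_FF (hn : P.n = 6) {x : ℤ → V} (hx : P.Line x) (hs : P.Sg (x 1)) :
    P.Tr (P.Z (x 2) (x 3)) (x 0) (x 1) ∧ P.E1 (x 0) := by
  have hm := N6_m hn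
  have := FF hx (not_Sg_both (by omega) (hx.adj_pred rfl) hs)
  rw [hm] at this
  exact this (not_Sg_both (by omega) (hx.1 1) hs)

/-- from `FF` -/
theorem N6_E_even (hn : P.n = 6) {x : ℤ → V} (hx : P.Line x) (hs : P.Sg (x 1)) :
    P.E1 (x 0) := by
  exact (N6_FF hn hx hs).2

/-- `FF`: `Z (x 2) (x 3) ≤ Ball 3 (x 3)` is transitive on `Γ(x 0) ∖ x 1`, where `Ball 3 (x 3)` is
semiregular (`C_eq_one`); so `Z y z = Ball 3 y` for every neighbour `z` of a `σ`-vertex `y`. -/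
theorem N6_C (hn : P.n = 6) {y : V} (hs : P.Sg y) : P.Zv y = P.Ball 3 y := by
  have hm := N6_m hn
  refine le_antisymm (hm ▸ Zv_ball hs) fun u hu z hz => ?_
  obtain ⟨p, hp, rfl, rfl⟩ := exists_line_edge hz
  obtain ⟨g, hg, e⟩ := (N6_FF hn (hp.rev 3) (hs.odd hp _)).1.fix (b := p 4) (hp.1 3)
    (hp.ne' (i := 2) rfl) (Ball_fix hp hu (by omega) (by omega)) (Ball_fix hp hu (by omega) (by omega))
  exact inv_mul_eq_one.1 (C_eq_one (by omega) hp (mul_mem (inv_mem (hs _ hz (Z_swap hg))) (hm ▸ hu))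
    (.inl (by omega)) e) ▸ Z_swap hg

theorem N6_fix (hn : P.n = 6) {x : ℤ → V} (hx : P.Line x) (hs : P.Sg (x 1)) {u : G} {c : ℤ}
    (hu : u ∈ P.Zv (x c)) (i : ℤ) (h : (1 - c) % 2 = 0 ∧ c - 3 ≤ i ∧ i ≤ c + 3 := by omega) :
    u • x i = x i :=
  Ball_fix hx (N6_C hn (hs.odd hx c h.1) ▸ hu) h.2.1 h.2.2

theorem N6_ZQ (hn : P.n = 6) {l y c : V} (hs : P.Sg y) (hy : P.adj l y) (hc : P.adj l c) :
    P.Zv y ≤ P.Q c := fun z hz => by
  by_cases e : y = c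
  · exact e ▸ Zv_le_Q _ hz
  obtain ⟨p, hp, rfl, rfl, rfl⟩ := exists_line_two hy hc e
  exact mem_Q_of (P.adj_symm hc) (P.A_symm _ _ ▸ (Vv_le_Q _ (Zv_le_Vv hy hz)).2 _ hc)
    (Ball_K hp (N6_C hn hs ▸ hz) (by omega) (by omega))

theorem N6_ZQQ (hn : P.n = 6) {x : ℤ → V} (hx : P.Line x) (hs : P.Sg (x 1)) {u : G} {c : ℤ}
    (hu : u ∈ P.Zv (x c)) (i j : ℤ) (h : (1 - c) % 2 = 0 ∧ c - 3 < i ∧ j < c + 3 := by omega) :
    u ∈ P.QQ x i j :=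
  QQ_of_ball hx (k := 3) (Zv_le_Q _ hu) (N6_C hn (hs.odd hx c h.1) ▸ hu) h.2.1 h.2.2 (by omega)

theorem N6_C_tr (hn : P.n = 6) {x : ℤ → V} (hx : P.Line x) (hs : P.Sg (x 1)) :
    P.Tr (P.Zv (x 3)) (x 0) (x 1) := by
  have s3 := hs.odd hx 3
  exact (N6_FF hn hx hs).1.mono fun u hu => N6_C hn s3 ▸ N6_m hn ▸ s3 _ (hx.adj_pred rfl) (Z_swap hu)

/-- the even root groups are the groups of central elations -/
theorem N6_QQ (hn : P.n = 6) {x : ℤ → V} (hx : P.Line x) (hs : P.Sg (x 1)) :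
    P.QQ x 1 5 = P.Zv (x 3) := by
  refine le_antisymm (fun u hu => ?_) fun u hu => N6_ZQQ hn hx hs hu 1 5
  have a : P.adj (x 0) (x (-1)) := hx.adj_pred rfl
  obtain ⟨g, hg, e⟩ := (N6_C_tr hn hx hs).fix a (hx.ne' rfl).symm
    (QQ_fix hx hu (by omega) (by omega) (by omega)) (QQ_fix hx hu (by omega) (by omega) (by omega))
  exact inv_mul_eq_one.1 (QQ_eq_one hx (mul_mem (inv_mem (N6_ZQQ hn hx hs hg 1 5)) hu) (by omega) a
    (hx.ne' rfl).symm e) ▸ hg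

/-- `k = ⁅u,w⁆ ∈ Vv (x 0) ⊓ Vv (x 2)` (`comm_Vv`), so `k ∈ Ball 2 (x 0) ⊓ Ball 2 (x 2)`; `Q_0`
centralizes `k` and is transitive on `Γ(x 1) ∖ x 0` (`T_trans`), so `k ∈ Ball 2 y` for all
`y ∈ Γ(x 1)`, i.e. `k ∈ Ball 3 (x 1)`. -/
theorem N6_comm (hn : P.n = 6) {x : ℤ → V} (hx : P.Line x) (hs : P.Sg (x 1)) {u w : G}
    (hu : u ∈ P.Zv (x (-1))) (hw : w ∈ P.Zv (x 3)) : ⁅u, w⁆ ∈ P.Zv (x 1) := by
  have h0 := (comm_Vv (Zv_le_Vv (hx.adj_pred (i := 0) rfl) hu) (N6_fix hn hx hs hw 0)).2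
  have h2 := Vv_ball _ (comm_Vv (Zv_le_Vv (hx.adj' (i := 2) rfl) hw) (N6_fix hn hx hs hu 2)).1
  have h1 := Vv_ball _ h0
  rw [N6_m hn] at h1 h2
  rw [N6_C hn hs]
  intro p hp e i a b
  refine Ball_fix hp (c := 1) (k := 3 - 1) ?_ (by omega) (by omega)
  by_cases f : p 1 = x 0
  · rwa [f]
  obtain ⟨r, hr, r1, r2⟩ := exists_turn hx (k := 1) (e ▸ hp.1 0) f
  obtain ⟨g, hg, k⟩ := T_trans hx hr (r1 _ (by omega)).symm (r1 _ le_rfl).symm (j := 2) (by omega)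
  have := Ball_conj g h2
  rwa [Vv_comm h0 hg, mul_inv_cancel_right, k 2 (by omega) le_rfl, show r 2 = p 1 from r2] at this

/-- `u ≠ 1` moves `x 3`; if it commutes with `w` then `w ∈ Ball 3 (x 3) ⊓ Ball 3 (u x 3) = 1`
(`exists_fold`, `C_inf`). -/
theorem N6_nondeg (hn : P.n = 6) {x : ℤ → V} (hx : P.Line x) (hs : P.Sg (x 1)) {u w : G}
    (hu : u ∈ P.Zv (x (-1))) (hw : w ∈ P.Zv (x 3)) (h : u * w = w * u) : u = 1 ∨ w = 1 := by
  have hm := N6_m hn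
  refine or_iff_not_imp_left.2 fun u1 => ?_
  have a : P.adj (x 2) (x 3) := hx.1 2
  obtain ⟨p, hp, p0, -, p1⟩ := exists_line_two a (N6_fix hn hx hs hu 2 ▸ P.adj_smul u a) fun e =>
    u1 (C_eq_one (by omega) hx (Zv_ball (hs.odd hx _) hu) (.inl (by omega)) e.symm)
  have := Zv_ball (hs.odd hx 3) hw
  refine C_inf (by omega) hp (c := -1) (d := 1) (p0 ▸ this) ?_ (by omega) (by omega)
  simpa [h, p1] using Ball_conj u this

theorem N6_exZ (hn : P.n = 6) {y : V} (hs : P.Sg y) : ∃ u ∈ P.Zv y, u ≠ 1 ∧ u ^ P.p = 1 := by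
  obtain ⟨c, hc, -⟩ := P.thick y y y
  obtain ⟨z, hz, z1⟩ := exists_Z hc
  obtain ⟨k, hk⟩ := pow_eq_one_of_A hc hz.1
  replace hz : z ∈ P.Zv y := N6_C hn hs ▸ N6_m hn ▸ hs c hc hz
  induction k generalizing z with
  | zero => exact absurd (by simpa using hk) z1
  | succ k ih =>
    by_cases e : z ^ P.p = 1
    · exact ⟨z, hz, z1, e⟩
    · exact ih _ e (by rw [← pow_mul, ← pow_succ', hk]) (pow_mem hz _)

/-- take `u ∈ C_{-1}` of order `p`; `w ↦ ⁅u,w⁆` is an injective, so bijective, map `C_3 → C_1`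
(`C_1` commutes with `C_{-1}, C_3`) and `⁅u,w⁆^p = ⁅u^p,w⁆ = 1`. -/
theorem N6_pow (hn : P.n = 6) {y : V} (hs : P.Sg y) {u : G} (hu : u ∈ P.Zv y) : u ^ P.p = 1 := by
  have hm := N6_m hn
  obtain ⟨p, hp, rfl⟩ := exists_line (P := P.toPol) y
  have hx := hp.shift (-1)
  obtain ⟨v, hv, v1, e⟩ := N6_exZ hn (hs.odd hp (-1 + -1))
  obtain ⟨⟨w, hw⟩, k⟩ := (Function.Injective.bijective_of_nat_card_le
    (f := fun w : P.Zv (p (3 + -1)) => (⟨_, N6_comm hn hx hs hv w.2⟩ : P.Zv (p 0)))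
    (fun ⟨a, ha⟩ ⟨b, hb⟩ k => Subtype.ext (inv_mul_eq_one.1 ((N6_nondeg hn hx hs hv
      (mul_mem (inv_mem ha) hb) (by
        have : v * a * v⁻¹ * a⁻¹ = v * b * v⁻¹ * b⁻¹ := congrArg Subtype.val k
        calc _ = v * a⁻¹ * v⁻¹ * (v * b * v⁻¹ * b⁻¹) * b * v := by group
          _ = _ := by rw [← this]; group)).resolve_left v1)))
    (card_Zv_of_ty (ty_even hp (by omega))).le).2 ⟨u, hu⟩
  have h1 : w * v⁻¹ * w⁻¹ = v⁻¹ * u := by
    rw [← show ⁅v, w⁆ = u from congrArg Subtype.val k, commutatorElement_def]; group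
  have h2 : Commute v u := C_comm (by omega) hp (Zv_ball (hs.odd hp _) hv) (Zv_ball hs hu)
    (by omega) (by omega)
  simpa [h2.inv_left.mul_pow, e] using (congrArg (· ^ P.p) h1).symm

/-- `r` commutes with `C_5` and `C_{-1}` (`R_comm_Zv`), which are transitive on `Γ(x 2) ∖ x 3`,
`Γ(x 2) ∖ x 1`; use `Q_conj` (for `c = x 3` go through a third neighbour). -/
theorem N6_RQ (hn : P.n = 6) {x : ℤ → V} (hx : P.Line x) (hs : P.Sg (x 1)) {r : G}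
    (hr : r ∈ P.R x (-1) 5) (h1 : r ∈ P.Q (x 1)) {c : V} (hc : P.adj (x 2) c) : r ∈ P.Q c := by
  have key : ∀ c, P.adj (x 2) c → c ≠ x 3 → r ∈ P.Q c := fun c hc n => by
    obtain ⟨g, hg, rfl⟩ := N6_C_tr hn (hx.shift 2) (hs.odd hx _) (x 1) c (hx.adj_pred rfl) hc
      (hx.ne' rfl).symm n
    simpa [← R_comm_Zv hx hr (by omega) (by omega) (by omega) hg] using Q_conj g h1
  by_cases e : c = x 3
  · obtain ⟨d, hd, d1, d3⟩ := P.thick (x 2) (x 1) (x 3)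
    obtain ⟨g, hg, rfl⟩ := N6_C_tr hn (hx.rev 2) hs d c hd hc d1 (e ▸ hx.ne' rfl)
    simpa [← R_comm_Zv hx hr (by omega) (by omega) (by omega) hg] using Q_conj g (key d hd d3)
  · exact key c hc e

theorem N6_reg0 (hn : P.n = 6) {x : ℤ → V} (hx : P.Line x) (hs : P.Sg (x 1)) {g : G}
    (hg : g ∈ P.QQ x 1 2) (hf : g • x 4 = x 4) {c : V} (hc : P.adj (x 2) c) : g ∈ P.Q c := by
  have fg := fun k => QQ_fix hx hg (k := k) (by omega)
  obtain ⟨a, ha, e⟩ := (N6_C_tr hn (hx.rev 4) (hs.odd hx _)).fix (b := x 5) (hx.1 4) (hx.ne' rfl) hf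
    (fg _ (by omega) (by omega))
  have f : ∀ k, 0 ≤ k → k ≤ 5 → (a⁻¹ * g) • x k = x k := fun k h1 h2 => by
    rcases h2.eq_or_lt with rfl | h2
    · exact e
    rw [mul_smul, inv_smul_eq_iff, N6_fix hn hx hs ha k]
    rcases (by omega : k = 4 ∨ k ≤ 3) with rfl | h3
    exacts [hf, fg k h1 h3]
  obtain ⟨b, hb, e'⟩ := (N6_C_tr hn hx hs).fix (b := x (-1)) (hx.adj_pred rfl) (hx.ne' rfl).symm
    (f 0 (by omega) (by omega)) (f 1 (by omega) (by omega))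
  have h1 := mul_mem (inv_mem (N6_ZQQ hn hx hs hb 1 2)) (mul_mem (inv_mem (N6_ZQQ hn hx hs ha 1 2)) hg)
    1 le_rfl (by omega)
  have := N6_RQ hn hx hs (mem_R_of hx (h1.2 _ (hx.1 1)) (fun k h1 h2 => by
    rcases h1.eq_or_lt with rfl | h1
    · exact e'
    · rw [mul_smul, f k h1 h2, inv_smul_eq_iff, N6_fix hn hx hs hb k]) (by omega) (by omega)) h1 hc
  rwa [mul_mem_cancel_left (inv_mem (N6_ZQ hn (hs.odd hx 3) (hx.1 2) hc hb)), mul_mem_cancel_left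
    (inv_mem (N6_ZQ hn hs (hx.adj_pred rfl) hc ha))] at this

/-- `g ∈ Q_1 ⊓ Q_2` fixing `c ∈ Γ(x 3) ∖ x 2` lies in all `Q c'`, `c' ∈ Γ(x 2)`.  wlog `c = x 4`
(`exists_turn`); multiply by elements of `C_1`, `C_3` (they lie in all these `Q c'`) to fix `x 5`
and `x (-1)`; `N6_RQ`. -/
theorem N6_reg (hn : P.n = 6) {x : ℤ → V} (hx : P.Line x) (hs : P.Sg (x 1)) {g : G}
    (hg : g ∈ P.QQ x 1 2) {c : V} (hc : P.adj (x 3) c) (hne : c ≠ x 2) (hf : g • c = c)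
    {c' : V} (hc' : P.adj (x 2) c') : g ∈ P.Q c' := by
  obtain ⟨r, hr, r1, rfl⟩ := exists_turn hx hc hne
  exact N6_reg0 hn hr (r1 1 (by omega) ▸ hs) (fun k a b => r1 k (by omega) ▸ hg k a b) hf
    (r1 2 (by omega) ▸ hc')

/-- an element of `Q a ⊓ Q l ⊓ Q b` lies in `Q c` for all neighbours `c` of `l` -/
theorem N6_Y (hn : P.n = 6) {l a b c : V} (hs : P.Sg a) (ha : P.adj l a) (hb : P.adj l b)
    (hab : a ≠ b) (hc : P.adj l c) {g : G} (h1 : g ∈ P.Q a) (h2 : g ∈ P.Q l) (h3 : g ∈ P.Q b) :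
    g ∈ P.Q c := by
  obtain ⟨p, hp, rfl, rfl, rfl⟩ := exists_line_two ha hb hab
  refine N6_reg0 hn (hp.shift (-2)) (by simpa using hs) (fun k h h' => ?_)
    (h3.1.2 _ (hp.adj' (by omega))) (by simpa using hc)
  rcases (by omega : k = 1 ∨ k = 2) with rfl | rfl
  exacts [by simpa using h1, by simpa using h2]

/-- `T_trans` at `x 1` (`j = 3`), `E1_Q` at `x 2`, adjust by `C_3` to fix `x (-1)`, `E1_Q` at
`x 0`. -/
theorem N6_tr (hn : P.n = 6) {x : ℤ → V} (hx : P.Line x) (hs : P.Sg (x 1)) :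
    P.Tr (P.QQ x 0 2) (x 3) (x 2) := by
  intro b c hb hc h1 h2
  obtain ⟨r, hr, r1, rfl⟩ := exists_turn hx hb h1
  obtain ⟨s, hs', s1, rfl⟩ := exists_turn hx hc h2
  obtain ⟨g, hg, e⟩ := T_trans (hr.shift 1) (hs'.shift 1) (by rw [r1 _ (by omega), s1 _ (by omega)])
    (by rw [r1 _ (by omega), s1 _ (by omega)]) (j := 3) (by omega)
  rw [r1 _ (by omega)] at hg
  have f : ∀ k, 0 ≤ k → k ≤ 3 → g • x k = x k := fun k a b => by
    rcases a.eq_or_lt with rfl | a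
    · exact hg.1.2 _ (hx.adj_pred rfl)
    · simpa [r1 k b, s1 k b] using e (k - 1) (by omega) (by omega)
  have E := N6_E_even hn hx hs
  have g2 := E1_Q hx (E.of_ty (ty_even hx (j := 0) (i := 2) (by omega)))
    (mem_R_of hx (hg.2 _ (hx.1 _)) f (by omega) (by omega)) (by omega) (by omega)
  obtain ⟨h, hh, e'⟩ := (N6_C_tr hn hx hs).fix (b := x (-1)) (hx.adj_pred rfl) (hx.ne' rfl).symm
    (f 0 (by omega) (by omega)) (f 1 (by omega) (by omega))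
  have hq := inv_mem (N6_ZQQ hn hx hs hh 1 3)
  have g1 := mul_mem (hq 1 le_rfl (by omega)) hg
  refine ⟨h⁻¹ * g, fun k a b => ?_, by
    rw [mul_smul, e 3 (by omega) le_rfl]; exact (hq 3 (by omega) le_rfl).1.2 _ hc⟩
  rcases (by omega : k = 0 ∨ k = 1 ∨ k = 2) with rfl | rfl | rfl
  · refine E1_Q hx E (mem_R_of hx (i := -1) (j := 2) (g1.2 _ (hx.1 _)) (fun k a b => ?_) (by omega)
      (by omega)) (by omega) (by omega)
    rcases a.eq_or_lt with rfl | a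
    · exact e'
    · rw [mul_smul, f k a (by omega), inv_smul_eq_iff, N6_fix hn hx hs hh k]
  exacts [g1, mul_mem (hq 2 (by omega) (by omega)) g2]

/-- the image of `Q c ⊓ Q_2` on `Γ(x 3)` does not depend on `c ≠ x 3` (conjugate by
`C_5 ≤ K (x 3)`). -/
theorem N6_img (hn : P.n = 6) {x : ℤ → V} (hx : P.Line x) (hs : P.Sg (x 1)) {g : G}
    (hg : g ∈ P.QQ x 1 2) {c : V} (hc : P.adj (x 2) c) (hne : c ≠ x 3) :
    ∃ h ∈ P.Q c, h ∈ P.Q (x 2) ∧ h⁻¹ * g ∈ P.K (x 3) := by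
  obtain ⟨w, hw, rfl⟩ := N6_C_tr hn (hx.shift 2) (hs.odd hx _) (x 1) c (hx.adj_pred rfl) hc
    (hx.ne' rfl).symm hne
  refine ⟨_, Q_conj w (hg 1 le_rfl (by omega)),
    Q_conj' (hg 2 (by omega) le_rfl) (N6_fix hn hx hs hw 2), ?_⟩
  simpa [commutatorElement_def, mul_assoc] using (comm_K (N6_ZQQ hn hx hs hw 3 3 (by omega) 3 le_rfl le_rfl).1
    (QQ_fix hx (inv_mem hg) (by omega) (by omega) (by omega))).2

/-- take `c ∈ Γ(x 2) ∖ {x 1, x 3}`, `h ≡ g'` as in `N6_img`; `⁅g,h⁆ ∈ Q_1 ⊓ Q_2 ⊓ Q c` lies in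
`Q (x 3)` by `N6_reg` for the line `x 1, x 2, c`. -/
theorem N6_ab (hn : P.n = 6) {x : ℤ → V} (hx : P.Line x) (hs : P.Sg (x 1)) {g g' : G}
    (hg : g ∈ P.QQ x 1 2) (hg' : g' ∈ P.QQ x 1 2) : ⁅g, g'⁆ ∈ P.K (x 3) := by
  obtain ⟨c, hc, c1, c3⟩ := P.thick (x 2) (x 1) (x 3)
  obtain ⟨h, h1, h2, k⟩ := N6_img hn hx hs hg' hc c3
  have a1 : P.adj (x 2) (x 1) := hx.adj_pred rfl
  have a3 : P.adj (x 2) (x 3) := hx.1 2
  have g2 := hg 2 (by omega) le_rfl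
  have := mul_mem (N6_Y hn hs a1 hc c1.symm a3 (comm_Q (hg 1 le_rfl (by omega)) (h2.1.2 _ a1)).2
    (comm_Q g2 h2.1.1).2 (comm_Q h1 (g2.1.2 _ hc)).1).1
    (K_conj' (comm_K k (g2.1.2 _ a3)).1 (h2.1.2 _ a3))
  simpa [commutatorElement_def, mul_assoc] using this

/-- `C_{-1}` centralizes `Q_1 ⊓ Q_2` modulo `QQ x 1 3`: `g = u g'`, `u ∈ C_3`, `g'` fixes `x (-1)`
so commutes with `w`; `⁅w,u⁆ ∈ C_1`. -/
theorem N6_cent (hn : P.n = 6) {x : ℤ → V} (hx : P.Line x) (hs : P.Sg (x 1)) {g w : G}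
    (hg : g ∈ P.QQ x 1 2) (hw : w ∈ P.Zv (x (-1))) : ⁅w, g⁆ ∈ P.QQ x 1 3 := by
  have fg := fun k => QQ_fix hx hg (k := k) (by omega)
  obtain ⟨u, hu, e⟩ := (N6_C_tr hn hx hs).fix (b := x (-1)) (hx.adj_pred rfl) (hx.ne' rfl).symm
    (fg 0 (by omega) (by omega)) (fg 1 (by omega) (by omega))
  have h := R_comm_Zv hx (mem_R_of hx (i := -1) (j := 2) ((mul_mem (inv_mem (N6_ZQQ hn hx hs hu 1 2))
    hg 1 le_rfl (by omega)).2 _ (hx.1 1)) (fun k a b => by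
      rcases a.eq_or_lt with rfl | a
      · exact e
      · rw [mul_smul, fg k a (by omega), inv_smul_eq_iff, N6_fix hn hx hs hu k])
    (by omega) (by omega)) (by omega) le_rfl (by omega) hw
  convert N6_ZQQ hn hx hs (N6_comm hn hx hs hw hu) 1 3 using 1
  simp only [commutatorElement_def]
  calc _ = w * u * w⁻¹ * (w * (u⁻¹ * g)) * w⁻¹ * g⁻¹ := by group
    _ = _ := by rw [← h]; group

/-- take `1 ≠ w ∈ C_{-1}`, `c = w x 3 ≠ x 3`; by `N6_img` `g ≡ w h w⁻¹ ≡ ⁅w,h⁆ =: k` mod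
`K (x 3)` with `h ∈ Q_2 ⊓ Q_3`, `k ∈ Q_1 ⊓ Q_2`; `Y = QQ x 1 3` is normalized by `G_{x 2}`
(`N6_reg`), `w^j h w^{-j} ≡ k^j h` mod `Y` (`N6_cent`), `w^p = 1`. -/
theorem N6_exp (hn : P.n = 6) {x : ℤ → V} (hx : P.Line x) (hs : P.Sg (x 1)) {g : G}
    (hg : g ∈ P.QQ x 1 2) : g ^ P.p ∈ P.K (x 3) := by
  have hm := N6_m hn
  have a1 : P.adj (x 2) (x 1) := hx.adj_pred rfl
  have a3 : P.adj (x 2) (x 3) := hx.1 2
  obtain ⟨w, hw, w1, wp⟩ := N6_exZ hn (hs.odd hx (-1))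
  have w2 := N6_fix hn hx hs hw 2
  obtain ⟨h', h1, h2, k1⟩ := N6_img hn hx hs hg (w2 ▸ P.adj_smul w a3) fun e =>
    w1 (C_eq_one (by omega) hx (Zv_ball (hs.odd hx _) hw) (.inl (by omega)) e)
  obtain ⟨h, rfl⟩ : ∃ h, h' = w * h * w⁻¹ := ⟨w⁻¹ * h' * w, by group⟩
  have h3 : h ∈ P.Q (x 3) := by simpa [mul_assoc] using Q_conj w⁻¹ h1
  replace h2 : h ∈ P.Q (x 2) := by
    simpa [mul_assoc] using Q_conj' h2 (inv_smul_eq_iff.2 w2.symm)
  have hk : ⁅w, h⁆ ∈ P.QQ x 1 2 := fun k a b => by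
    rcases (by omega : k = 1 ∨ k = 2) with rfl | rfl
    exacts [(comm_Q (N6_ZQQ hn hx hs hw 1 1 (by omega) 1 le_rfl le_rfl) (h2.1.2 _ a1)).2, (comm_Q h2 w2).1]
  have key : ∀ j : ℕ, w ^ j * h * (w ^ j)⁻¹ * h⁻¹ * (⁅w, h⁆ ^ j)⁻¹ ∈ P.QQ x 1 3 := fun j => by
    induction j with
    | zero => simp
    | succ j ih =>
      have h4 : w * _ * w⁻¹ ∈ P.QQ x 1 3 := fun k a b => by
        have h5 : ∀ c, P.adj (x 2) c → w * _ * w⁻¹ ∈ P.Q c := fun c hc => by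
          simpa using Q_conj w (N6_Y hn hs a1 a3 (hx.ne' rfl).symm (c := w⁻¹ • c)
            (by simpa [inv_smul_eq_iff.2 w2.symm] using P.adj_smul w⁻¹ hc) (ih 1 le_rfl (by omega))
            (ih 2 (by omega) (by omega)) (ih 3 (by omega) le_rfl))
        rcases (by omega : k = 1 ∨ k = 2 ∨ k = 3) with rfl | rfl | rfl
        exacts [h5 _ a1, Q_conj' (ih 2 a b) w2, h5 _ a3]
      convert mul_mem h4 (N6_cent hn hx hs (pow_mem hk j) hw) using 1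
      rw [pow_succ' w, pow_succ _ j, commutatorElement_def w (_ ^ j)]
      generalize ⁅w, h⁆ ^ j = z
      rw [commutatorElement_def]; group
  have h4 : ∀ j : ℕ, (⁅w, h⁆ ^ j)⁻¹ * g ^ j ∈ P.K (x 3) := fun j => by
    induction j with
    | zero => simp
    | succ j ih =>
      have := mul_mem (K_conj' ih ((inv_mem hk 2 (by omega) le_rfl).1.2 _ a3)) (mul_mem h3.1 k1)
      convert this using 1
      rw [pow_succ, pow_succ]
      generalize ⁅w, h⁆ ^ j = z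
      rw [commutatorElement_def]; group
  simpa [wp] using mul_mem (inv_mem (key P.p 3 (by omega) le_rfl).1) (h4 P.p)

/-- `L2` at `x 3` (any neighbour `a` is `x 2` of a suitable line) with `t ∈ QQ x 0 2`:
`N6_tr`, `N6_exp`, `N6_reg`. -/
theorem N6_E_two (hn : P.n = 6) (hp : P.p = 2) {y : V} (hs : P.Sg y) : P.E1 y := by
  refine L2 hp fun a b b' ha hb hb' h1 h2 h3 => ?_
  obtain ⟨p, hp', rfl, rfl⟩ := exists_line_edge ha
  have hx := hp'.rev 3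
  have s1 : P.Sg (p (3 - 1)) := hs.odd hp' _
  obtain ⟨t, ht, e⟩ := N6_tr hn hx s1 b b' hb hb' h1 h2
  have h12 := QQ_mono (by omega : (0 : ℤ) ≤ 1) le_rfl ht
  exact ⟨t, P.A_symm _ _ ▸ QQ_A hx ht (k := 2) (by omega) (by omega) le_rfl, e,
    by simpa [hp, sq] using N6_exp hn hx s1 h12, fun c hc f => by_contra fun n =>
      h3 (((N6_reg hn hx s1 h12 hc n f (hx.1 2)).1.2 b hb).symm.trans e)⟩

end SP

end Cfsg.Agent.BN2
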