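import Cfsg.Agent.BN2.N8c
import Cfsg.Agent.BN2.N6a

/-!
# BN2/N8d: octagons: `E1` at the even vertices (~250 lines).  Notation of `N8a`.
-/

set_option autoImplicit false

open scoped commutatorElement

namespace Cfsg.Agent.BN2

namespace SP

open Pol

variable {G V : Type*} [Group G] [MulAction G V] [Finite G] [Finite V] {P : SP G V}

/-- the elements of `G_y` centralizing `g` modulo `Zv y` -/
def cZ (P : SP G V) (g : G) (y : V) : Subgroup G where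
  carrier := {w | w • y = y ∧ ⁅g, w⁆ ∈ P.Zv y}
  one_mem' := ⟨one_smul _ _, by simp⟩
  mul_mem' := fun {a b} ha hb => ⟨by rw [mul_smul, hb.1, ha.1], by
    simpa [commutatorElement_def, mul_assoc] using mul_mem ha.2 (Zv_conj' hb.2 ha.1)⟩
  inv_mem' := fun {a} ha => ⟨inv_smul_eq_iff.2 ha.1.symm, by
    simpa [commutatorElement_def, mul_assoc] using
      Zv_conj' (inv_mem ha.2) (inv_smul_eq_iff.2 ha.1.symm)⟩

theorem N8d_odd (hn : P.n = 8) {x : ℤ → V} (hx : P.Line x) (hs : P.Sg (x 0)) (a b c d e f : ℤ)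
    (h : b % 2 = 0 ∧ a = b - 1 ∧ c = b + 2 ∧ d = b + 4 ∧ e = b + 6 ∧ f = b + 7 := by omega) :
    P.QQ x b e ≤ P.Wv (x c) ∧ P.QQ x b e ≤ P.Wv (x d) ∧ P.Tr (P.QQ x b e) (x a) (x b) ∧
      P.Tr (P.QQ x b e) (x f) (x e) := by
  obtain ⟨k, rfl⟩ : ∃ k, b = 2 + k := ⟨b - 2, by ring⟩
  have := N8_odd hn (hx.shift k) (hs.even hx (by omega))
  rw [show P.QQ (fun i => x (i + k)) 2 8 = P.QQ x (2 + k) (8 + k) from Subgroup.ext fun _ => QQ_shift]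
    at this
  rw [show a = 1 + k by omega, show c = 4 + k by omega, show d = 6 + k by omega,
    show e = 8 + k by omega, show f = 9 + k by omega]
  exact ⟨this.1, this.2.1, this.2.2.1, this.2.2.2.1⟩

theorem N8d_exZ (hn : P.n = 8) {y : V} (hs : P.Sg y) : ∃ z ∈ P.Zv y, z ≠ 1 := by
  obtain ⟨c, hc, -⟩ := P.thick y y y
  exact Z_eq_Zv (.inr hn) hs hc ▸ exists_Z hc

/-- The `y` with this property form a subgroup.  For `z ∈ Zv c` on a line `q` with `q 0 = c`,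
`q 2 = x 2`: `g = k g'`, `k ∈ Q (q 1)` centralizes `Vv (q 1)`, `g'` fixes `q 1..q 4` (`T_decomp`);
`⁅g', z⁆ ∈ Vv (q 1) ⊓ K (q 4)` (`Z_cent` at `q 4`), and `Vv (q 1) ⊓ K (q 4) = Z_2` (`N8_V`). -/
theorem N8_QW (hn : P.n = 8) {y : V} (hs : P.Sg y) {g w : G} (hg : g ∈ P.Q y)
    (hw : w ∈ P.Wv y) : ⁅g, w⁆ ∈ P.Zv y := by
  refine (Wv_ind (H := P.cZ g y) (fun l c hl hc z hz =>
    ⟨(N8_W_ball hn (Vv_le_Wv hl (Zv_le_Vv hc hz))).2.1.1, ?_⟩) hw).2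
  by_cases e : c = y
  · rw [commutatorElement_eq_one_iff_mul_comm.2 (Zv_comm (e ▸ hz) hl (Q_le_A hl hg))]
    exact one_mem _
  obtain ⟨p, hp, rfl, rfl, rfl⟩ := exists_line_two (P.adj_symm hl) hc (Ne.symm e)
  have hq := hp.rev 1
  have s0 : P.Sg (p (1 - 0)) := hs.of_ty (ty_even hp (by omega))
  obtain ⟨k, hk, r⟩ := T_decomp (hp.rev 0) (j := 3) (a := g) (by omega) (P.A_symm _ _ ▸ Q_le_A hl hg)
  have h1 := comm_Vv (Zv_le_Vv hc hz) (r.2 0 le_rfl (by omega))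
  have h2 := Z_cent (hp.shift (-3)) (j := 4) (by omega) (by omega) (a := k⁻¹ * g)
    (by simpa using Z_swap (hz _ (P.adj_symm hc)))
    (Ball_fix hp (N8_Z hn s0 hz) (by omega) (by omega))
    (by simpa [P.A_symm (p (-3))] using R_A (hp.rev 0) r (k := 2) (by omega) (by omega))
  have h3 : ⁅g, z⁆ = ⁅k⁻¹ * g, z⁆ := by
    have := Vv_comm (Vv_conj' (Zv_le_Vv hc hz) (r.2 0 le_rfl (by omega))) hk
    simp only [commutatorElement_def]
    calc _ = k * (k⁻¹ * g * z * (k⁻¹ * g)⁻¹) * k⁻¹ * z⁻¹ := by group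
      _ = _ := by rw [this]; group
  obtain ⟨a, ha, b, hb, f⟩ := N8_V hn hq s0 h1.1
  rw [f, mul_mem_cancel_right (Ball_K hp (N8_Z hn hs hb) (by omega) (by omega))] at h2
  rwa [h3, f, N8_one hn hp (N8_Z hn s0 ha) (j := -4) (by omega) (K_fix hp h2 (by omega) (by omega)),
    one_mul]

/-- `T_trans` at `x 2` (`j = 4`), `N8_QW`, `Z_2 ≤ Ball 4 (x 2)`; vertices through `x 2` by
`W_2 ≤ Ball 2 (x 2)`. -/
theorem N8_fix (hn : P.n = 8) {x : ℤ → V} (hx : P.Line x) (hs : P.Sg (x 0)) {w : G}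
    (hw : w ∈ P.Wv (x 2)) (h6 : w • x 6 = x 6) : w ∈ P.Ball 3 (x 3) := by
  intro p hp h0 i hi hi'
  have hb := (N8_W_ball hn hw).1
  by_cases e : x 2 = p 1
  · exact Ball_fix hp (e ▸ hb) (by omega) (by omega)
  obtain ⟨r, hr, r1, r2⟩ := exists_turn' hp (k := 0) (z := x 2) (h0 ▸ hx.adj_pred rfl) e
  obtain ⟨g, hg, k⟩ := T_trans (hx.shift 2) (hr.shift (-1)) (by simpa using r2.symm)
    (by simpa using h0.symm.trans (r1 0 le_rfl).symm) (j := 4) (by omega)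
  have s2 := hs.even hx (i := 2) (by omega)
  have h1 : ⁅g⁻¹, w⁆ • x 6 = x 6 :=
    Ball_fix hx (N8_Z hn s2 (N8_QW hn s2 (inv_mem hg) hw)) (by omega) (by omega)
  refine fix_between hp (i := 0) (j := 3) (by omega) (h0 ▸ Ball_fix hx hb (by omega) (by omega)) ?_
    hi hi'
  rw [← show g • x 6 = p 3 from (k 4 (by omega) le_rfl).trans (r1 3 (by omega)), ← mul_smul,
    show w * g = g * ⁅g⁻¹, w⁆ * w by rw [commutatorElement_def]; group, mul_smul, mul_smul, h6, h1]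

/-- Take `1 ≠ ξ ∈ QQ x 4 10 ≤ W_6` (moves `x 2`).  `k = ⁅ξ, w⁆ ∈ W_6 ⊓ Ball 3 (x 3)`;
`k ≡ z₄ ∈ Z_4` mod `K (x 8)` (`N8_W_img` mirrored), `z₄⁻¹ k` fixes `x 0..x 9` ⇒ `k ∈ Z_4`.
`w ↦ ⁅ξ, w⁆` is injective on the group of such `w` (an element commuting with `ξ` fixes the fold
`x (-2), …, x 3, ξ x 2, …`, `eq_one`), and maps `Z_2` injectively, so onto, to `Z_4`. -/
theorem N8_XW (hn : P.n = 8) {x : ℤ → V} (hx : P.Line x) (hs : P.Sg (x 0)) {w : G}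
    (hw : w ∈ P.Wv (x 2)) (h2 : w • x (-2) = x (-2)) (h6 : w • x 6 = x 6) : w ∈ P.Zv (x 2) := by
  have s2 := hs.even hx (i := 2) (by omega)
  have s4 := hs.even hx (i := 4) (by omega)
  obtain ⟨h6', -, tr, -⟩ := N8d_odd hn hx hs 3 4 6 8 10 11
  obtain ⟨c, hc, c2, c4⟩ := P.thick (x 3) (x 2) (x 4)
  obtain ⟨ξ, hξ, rfl⟩ := tr (x 2) c (hx.adj_pred rfl) hc (hx.ne' rfl).symm c4
  have f3 : ξ • x 3 = x 3 := QQ_fix hx hξ (by omega) (by omega) (by omega)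
  let H : Subgroup G := P.Wv (x 2) ⊓ (MulAction.stabilizer G (x (-2)) ⊓ MulAction.stabilizer G (x 6))
  have hZ : P.Zv (x 2) ≤ H := fun z hz => ⟨Zv_Wv hx (by omega) hz,
    Ball_fix hx (N8_Z hn s2 hz) (by omega) (by omega), Ball_fix hx (N8_Z hn s2 hz) (by omega) (by omega)⟩
  have mem : ∀ w ∈ H, ⁅ξ, w⁆ ∈ P.Zv (x 4) := fun w hw => by
    have k6 := (comm_Wv (h6' hξ) hw.2.2).2
    have k3 := (comm_Ball (N8_fix hn hx hs hw.1 hw.2.2) f3).1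
    obtain ⟨z, hz, k⟩ := N8_W_img hn (hx.rev 8) (hs.even hx (by omega)) k6
    have bz := inv_mem (N8_Z hn s4 hz)
    refine inv_mul_eq_one.1 (eq_one hx (a := 0) (k := 4) (fun i a b => ?_) (by omega) (by omega)
      (mul_mem (Ball_K hx bz (by omega) (by omega)) (Ball_K hx k3 (by omega) (by omega)))
      (mul_mem (Ball_K hx bz (by omega) (by omega)) (Ball_K hx k3 (by omega) (by omega)))) ▸ hz
    by_cases e : 7 ≤ i
    · exact K_fix hx k (by omega) (by omega)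
    · rw [mul_smul, Ball_fix hx k3 (by omega) (by omega), Ball_fix hx bz (by omega) (by omega)]
  have inj : ∀ a ∈ H, ∀ b ∈ H, ⁅ξ, a⁆ = ⁅ξ, b⁆ → a = b := fun a ha b hb e => by
    have hv := mul_mem (inv_mem ha) hb
    have cm : a⁻¹ * b * ξ = ξ * (a⁻¹ * b) := by
      simp only [commutatorElement_def] at e
      calc _ = ξ * a⁻¹ * ξ⁻¹ * (ξ * a * ξ⁻¹ * a⁻¹) * b * ξ := by group
        _ = _ := by rw [e]; group
    have fx : ∀ i, -2 ≤ i → i ≤ 3 → (a⁻¹ * b) • x i = x i := fun i h1 h2 =>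
      fix_between hx (by omega) hv.2.1
        (Ball_fix hx (N8_W_ball hn hv.1).1 (i := 3) (by omega) (by omega)) h1 h2
    obtain ⟨r, hr, r1, r2⟩ := exists_fold hx (k := 3) f3 c2
    refine inv_mul_eq_one.1 (eq_one hr (a := -2) (k := 1) (fun i h1 h2 => ?_) (by omega) (by omega)
      (r1 1 (by omega) ▸ Ball_K hx (N8_W_ball hn hv.1).1 (by omega) (by omega))
      (r1 _ (by omega : (1 + 1 : ℤ) ≤ 3) ▸ Ball_K hx (N8_W_ball hn hv.1).1 (by omega) (by omega)))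
    rcases le_total i 3 with h | h
    · rw [r1 i h, fx i h1 h]
    · rw [r2 i h, ← mul_smul, cm, mul_smul, fx _ (by omega) (by omega)]
  obtain ⟨z, e⟩ := (Function.Injective.bijective_of_nat_card_le
    (f := fun z : P.Zv (x 2) => (⟨_, mem _ (hZ z.2)⟩ : P.Zv (x 4)))
    (fun a b e => Subtype.ext (inj _ (hZ a.2) _ (hZ b.2) (congrArg Subtype.val e)))
    (card_Zv_of_ty (ty_even hx (by omega))).le).2 ⟨_, mem w ⟨hw, h2, h6⟩⟩
  exact inj _ (hZ z.2) w ⟨hw, h2, h6⟩ (congrArg Subtype.val e) ▸ z.2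

/-- adjust by `Z_0` (fix `x 5`), `Z_4` (fix `x (-1)`), `QQ x (-2) 4 ≤ W_2` (fix `x 6`),
`QQ x 0 6 ≤ W_2` (fix `x (-2)`); `N8_XW`. -/
theorem N8_Wdec (hn : P.n = 8) {x : ℤ → V} (hx : P.Line x) (hs : P.Sg (x 0)) {w : G}
    (hw : w ∈ P.Wv (x 2)) : ∃ z0 ∈ P.Zv (x 0), ∃ z4 ∈ P.Zv (x 4), ∃ a ∈ P.QQ x (-2) 4,
      ∃ b ∈ P.QQ x 0 6, ∃ z2 ∈ P.Zv (x 2), w = z0 * z4 * a * b * z2 := by
  have s4 := hs.even hx (i := 4) (by omega)
  obtain ⟨z, hz, k4⟩ := N8_W_img hn (hx.rev 4) s4 hw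
  have h1 := mul_mem (inv_mem (Zv_Wv hx (i := 2) (j := 0) (by omega) hz)) hw
  obtain ⟨y, hy, k0⟩ := N8_W_img hn hx hs h1
  have h2 := mul_mem (inv_mem (Zv_Wv hx (i := 2) (by omega) hy)) h1
  replace k4 : _ ∈ P.K (x 4) := mul_mem (inv_mem (Zv_le_Q _ hy).1) k4
  obtain ⟨-, a2, -, ta⟩ := N8d_odd hn hx hs (-3) (-2) 0 2 4 5
  obtain ⟨b2, -, tb, -⟩ := N8d_odd hn hx hs (-1) 0 2 4 6 7
  obtain ⟨a, ha, e⟩ := ta.fix (b := x 6) (hx.1 5) (hx.ne' rfl) (k4.2 _ (hx.1 4)) k4.1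
  have fa := fun k => QQ_fix hx (inv_mem ha) (k := k) (by omega)
  obtain ⟨b, hb, f⟩ := tb.fix (b := x (-2)) (hx.adj_pred rfl) (hx.ne' rfl).symm (u := a⁻¹ * _)
    (by rw [mul_smul, k0.2 _ (hx.adj_pred rfl), fa _ (by omega) (by omega)])
    (by rw [mul_smul, k0.1, fa _ (by omega) (by omega)])
  exact ⟨z, hz, y, hy, a, ha, b, hb, _, N8_XW hn hx hs
    (mul_mem (inv_mem (b2 hb)) (mul_mem (inv_mem (a2 ha)) h2)) f
    (by rw [mul_smul, e, QQ_fix hx (inv_mem hb) (by omega) (by omega) (by omega)]), by group⟩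

theorem N8d_cZ (hn : P.n = 8) {x : ℤ → V} (hx : P.Line x) (hs : P.Sg (x 0)) {e : G}
    (he : e ∈ P.A (x 2) (x 3)) (h1 : e • x 1 = x 1) :
    (∀ k, k = 0 ∨ k = 2 ∨ k = 4 → P.Zv (x k) ≤ P.cZ e (x 2)) ∧ P.QQ x 0 6 ≤ P.cZ e (x 2) := by
  obtain ⟨g, hg, r⟩ := T_decomp (hx.shift 2) (j := 4) (by omega) he
  replace r : g⁻¹ * e ∈ P.R x 2 6 := R_shift.1 r
  have f1 : (g⁻¹ * e) • x 1 = x 1 := by rw [mul_smul, h1, (inv_mem hg).1.2 _ (hx.adj_pred rfl)]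
  obtain ⟨ξ, hξ, f0⟩ := (N8_odd hn hx hs).2.2.1.fix (b := x 0) (hx.adj_pred rfl) (hx.ne' rfl).symm f1
    (r.2 2 le_rfl (by omega))
  have hr : ξ⁻¹ * (g⁻¹ * e) ∈ P.R x 0 6 := mem_R_of hx (k := 2)
    (mul_mem (inv_mem (QQ_A hx hξ (by omega) (by omega) (by omega))) r.1) (fun l a b => by
      rcases a.eq_or_lt with rfl | a
      · exact f0
      rw [mul_smul, inv_smul_eq_iff, QQ_fix hx hξ (by omega) (by omega) (by omega)]
      rcases (by omega : l = 1 ∨ 2 ≤ l) with rfl | a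
      exacts [f1, r.2 l a b]) (by omega) (by omega)
  have key : ∀ t ∈ P.Wv (x 2), Commute (ξ⁻¹ * (g⁻¹ * e)) t → t ∈ P.cZ e (x 2) := fun t ht c =>
    ⟨(N8_W_ball hn ht).2.1.1, by
      convert N8_QW hn (hs.even hx (i := 2) (by omega)) (mul_mem hg (hξ 2 le_rfl (by omega))) ht
        using 1
      calc ⁅e, t⁆ = g * ξ * (ξ⁻¹ * (g⁻¹ * e) * t) * e⁻¹ * t⁻¹ := by rw [commutatorElement_def]; group
        _ = _ := by rw [c.eq, commutatorElement_def]; group⟩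
  have cz : ∀ k, 0 ≤ k → k ≤ 6 → ∀ z ∈ P.Zv (x k), Commute (ξ⁻¹ * (g⁻¹ * e)) z :=
    fun k a b z hz => R_comm_Zv hx hr (by omega) a b hz
  refine ⟨fun k h z hz => key z (Zv_Wv hx (by omega) hz) (cz k (by omega) (by omega) z hz),
    fun t ht => key t ((N8d_odd hn hx hs (-1) 0 2 4 6 7).1 ht) ?_⟩
  obtain ⟨u, hu, u1⟩ := N8d_exZ hn hs
  obtain ⟨w, hw, a, ha, b, hb, f⟩ := N8_xi hn hx hs hu u1 ht
  have c0 := cz 0 (by omega) (by omega) u hu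
  have c6 := cz 6 (by omega) (by omega) w hw
  rw [show t = a⁻¹ * (u * w * u⁻¹ * w⁻¹) * b⁻¹ by rw [← commutatorElement_def, f]; group]
  exact ((cz 2 (by omega) (by omega) a ha).inv_right.mul_right
    (((c0.mul_right c6).mul_right c0.inv_right).mul_right c6.inv_right)).mul_right
    (cz 4 (by omega) (by omega) b hb).inv_right

/-- `e ∈ A (x 2) (x 3)` fixing `x 1`.  Modulo `Q (x 2)`, `e ≡ e' ∈ R x 0 6` (`T_decomp`, `j = 4`,
then `QQ x 2 8` to fix `x 0`); `e'` centralizes `Z_0, Z_2, Z_4, Z_6`, hence `QQ x 0 6` (`N8_xi`,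
`N8_uniq`).  Mirror image: `e ≡ e'' ∈ R x (-2) 4` centralizes `QQ x (-2) 4`.  By `N8_QW` and
`N8_Wdec`, `⁅e, w⁆ ∈ Z_2` for all `w ∈ W_2`.  For `l ∈ Γ(x 2)`, `c ∈ Γ(l) ∖ x 2`, `1 ≠ z ∈ Zv c`:
`e z e⁻¹ ∈ z Z_2 ≤ K c`, and `e z e⁻¹ ∈ Zv (e c)`; if `e l ≠ l` then `d(c, e c) = 4`,
contradiction with `C_eq_one`. -/
theorem N8_E_even (hn : P.n = 8) {y : V} (hs : P.Sg y) : P.E1 y := by
  intro a b ha hb hab e he hf
  obtain ⟨x, hx, rfl, rfl, rfl⟩ : ∃ x, P.Line x ∧ x 1 = b ∧ x 2 = y ∧ x 3 = a :=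
    let ⟨q, hq, h1, h2, h3⟩ := exists_line_two ha hb hab; ⟨_, hq.rev 2, h3, h2, h1⟩
  have s0 : P.Sg (x 0) := hs.of_ty (ty_even hx (by omega))
  obtain ⟨h1, h2⟩ := N8d_cZ hn hx s0 he hf
  have h3 := (N8d_cZ hn (hx.rev 4) (s0.even hx (i := 4) (by omega)) (P.compat ha hb he hf)
    (A_fix' he)).2
  have h4 : ∀ w ∈ P.Wv (x 2), ⁅e, w⁆ ∈ P.Zv (x 2) := fun w hw => by
    obtain ⟨z0, h0, z4, h4, a, ha, b, hb, z2, hz, rfl⟩ := N8_Wdec hn hx s0 hw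
    exact (mul_mem (mul_mem (mul_mem (mul_mem (h1 0 (by omega) h0) (h1 4 (by omega) h4))
      (h3 (QQ_rev.2 ha))) (h2 hb)) (h1 2 (by omega) hz)).2
  refine ⟨P.A_fix he, fun l hl => by_contra fun n => ?_⟩
  obtain ⟨p, hp, p0, rfl⟩ := exists_line_edge hl
  rw [← p0] at hs h4 he
  have s2 := hs.even hp (i := 2) (by omega)
  obtain ⟨z, hz, z1⟩ := N8d_exZ hn s2
  obtain ⟨r, hr, r1, r2⟩ := exists_fold (hp.rev 2) (k := 2) (P.A_fix he) n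
  refine z1 (conj_eq_one_iff.1 (N8_one hn hr (u := e * z * e⁻¹) (c := 4) (j := -1)
    (by rw [r2 4 (by omega)]; exact Ball_conj e (N8_Z hn s2 hz)) (by omega) ?_))
  rw [r1 _ (by omega), show e * z * e⁻¹ = ⁅e, z⁆ * z by rw [commutatorElement_def]; group, mul_smul,
    Ball_fix hp (N8_Z hn s2 hz) (by omega) (by omega),
    Ball_fix hp (N8_Z hn hs (h4 z (Zv_Wv hp (by omega) hz))) (by omega) (by omega)]

end SP

end Cfsg.Agent.BN2
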