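import Cfsg.Agent.BN2.F3
import Cfsg.Agent.FGS.NilpPi

/-!
# The Fitting subgroups `A a b` are `p`-groups and compatible
-/

set_option autoImplicit false

namespace Cfsg.Agent.BN2

variable {G V : Type*} [Group G] [MulAction G V] [Finite G]

theorem nil_comm {A : Subgroup G} (hA : Group.IsNilpotent A) {r s : ℕ} (hr : r.Prime)
    (hs : s.Prime) (hne : r ≠ s) {x y : G} (hx : x ∈ A) (hy : y ∈ A) (h1 : ∃ k, x ^ r ^ k = 1)
    (h2 : ∃ k, y ^ s ^ k = 1) : x * y = y * x := by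
  obtain ⟨k, h1⟩ := h1
  obtain ⟨l, h2⟩ := h2
  exact congrArg Subtype.val (FGS.commute_of_coprime_of_isNilpotent (G := A) (x := ⟨x, hx⟩)
    (y := ⟨y, hy⟩) (by
      rw [← Subgroup.orderOf_coe, ← Subgroup.orderOf_coe]
      exact ((Nat.coprime_pow_primes k l hr hs hne).coprime_dvd_left
        (orderOf_dvd_of_pow_eq_one h1)).coprime_dvd_right (orderOf_dvd_of_pow_eq_one h2)))

theorem mem_map_pCore {A : Subgroup G} (hA : Group.IsNilpotent A) {r : ℕ} (hr : r.Prime) {x : G}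
    (hx : x ∈ A) (h : ∃ k, x ^ r ^ k = 1) : x ∈ (pCore r A).map A.subtype := by
  have := Fact.mk hr
  exact ⟨⟨x, hx⟩, Grp.le_pCore_of_isNilpotent (FGS.isPGroup_zpowers_of_pow
    (h.imp fun _ h => Subtype.ext h)) (Subgroup.mem_zpowers _), rfl⟩

omit [Finite G] in
theorem pe_conj {r : ℕ} {x : G} (h : ∃ k, x ^ r ^ k = 1) (g : G) :
    ∃ k, (g * x * g⁻¹) ^ r ^ k = 1 := h.imp fun _ h => by simp [h]

namespace Pol

variable {P : Pol G V}

/-- (F) -/
theorem A_of_K {y z z' : V} (hz : P.adj y z) (hz' : P.adj y z') {u : G} (hu : u ∈ P.A y z)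
    (hK : u ∈ P.K y) : u ∈ P.A y z' := by
  have := P.A_nil hz
  refine P.A_max ((fittingSubgroup (P.K y)).map (P.K y).subtype) hz' (fun v hv => ?_)
    (fun g hg _ v hv => ?_) (Grp.isNilpotent_map_fitting _)
    (Grp.le_map_fitting (K := P.A y z ⊓ P.K y) inf_le_right (Subgroup.le_normalizer_iff.2
      fun h hh k hk => ⟨A_conj' hk.1 hh.1 (hh.2 z hz), K_conj' hk.2 hh.1⟩)
      (Grp.isNilpotent_of_le inf_le_left) ⟨hu, hK⟩)
  · have := Subgroup.map_subtype_le _ hv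
    exact ⟨this.1, this.2 _ hz'⟩
  · exact (Grp.normalizer_le_normalizer_map_of_characteristic _ _
      (Subgroup.le_normalizer_iff (H := MulAction.stabilizer G y).2
        (fun h hh k hk => K_conj' hk hh) hg) v).1 hv

theorem A_of_K_line {x : ℤ → V} (hx : P.Line x) {u : G} (hu : u ∈ P.A (x 0) (x 1)) (k : ℕ)
    (h : ∀ j : ℤ, 1 ≤ j → j ≤ k → u ∈ P.K (x j)) : u ∈ P.A (x k) (x (k + 1)) := by
  induction k with
  | zero => simpa using hu
  | succ k ih =>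
    push_cast at h ⊢
    exact A_of_K (hx.adj_pred rfl) (hx.1 _) (P.A_symm _ _ ▸ ih fun j a b => h j a (by omega))
      (h _ (by omega) le_rfl)

theorem exists_Z_pe {a b : V} (h : P.adj a b) {r : ℕ} (hr : r.Prime) {u : G} (hu : u ∈ P.A a b)
    (h1 : u ≠ 1) (h2 : ∃ k, u ^ r ^ k = 1) : ∃ z ∈ P.Z a b, z ≠ 1 ∧ ∃ k, z ^ r ^ k = 1 := by
  obtain ⟨z, hz, z1, z2⟩ := exists_Z_of_normal h (Subgroup.map_subtype_le _)
    (Subgroup.le_normalizer_iff.1 (Subgroup.le_normalizer.trans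
      (Grp.normalizer_le_normalizer_map_of_characteristic _ _)))
    (mem_map_pCore (P.A_nil h) hr hu h2) h1
  exact ⟨z, z2, z1, (((Grp.pCore_isPGroup r _).map _) ⟨z, hz⟩).imp fun _ => congrArg Subtype.val⟩

theorem exists_bad {a b : V} (h : P.adj a b) :
    ∃ s : ℕ, s.Prime ∧ ∃ w ∈ P.A a b, (∃ k, w ^ s ^ k = 1) ∧ w ∉ P.K a := by
  by_contra! hc
  obtain ⟨c, hc', h1, -⟩ := P.thick a b b
  obtain ⟨d, hd, h2, h3⟩ := P.thick a b c
  obtain ⟨g, hg, e⟩ := tr_A h c d hc' hd h1 h2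
  exact h3 (e.symm.trans ((FGS.le_of_forall_primePow hc hg).2 c hc'))

theorem Z_ball_of_bad {a b : V} (h : P.adj a b) {r s : ℕ} (hr : r.Prime) (hs : s.Prime)
    (hne : r ≠ s) {w z : G} (hw : w ∈ P.A a b) (w1 : ∃ k, w ^ s ^ k = 1) (w2 : w ∉ P.K a)
    (hz : z ∈ P.Z a b) (z1 : ∃ k, z ^ r ^ k = 1) : z ∈ P.Ball P.m a := by
  obtain ⟨c, hc, e⟩ : ∃ c, P.adj a c ∧ w • c ≠ c := by
    by_contra! h
    exact w2 ⟨P.A_fix hw, h⟩
  have key : ∀ d, P.adj a d → z ∈ P.Ball (P.m - 1) d := fun d hd => by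
    by_cases hbd : b = d
    · exact hbd ▸ Z_ball' h hz
    obtain ⟨g, g0, g1, g2⟩ := exists_smul_two rfl hc
      (by simpa [P.A_fix hw] using P.adj_smul w hc) e.symm h hd hbd
    have g0' := inv_smul_eq_iff.2 g0.symm
    have g1' := inv_smul_eq_iff.2 g1.symm
    have h1 := nil_comm (P.A_nil h) hr hs hne (A_of_K hc h
      (by simpa [g0', g1'] using P.A_conj g⁻¹ hz.1) (K_conj' (Z_K h hz) g0')) hw (pe_conj z1 _) w1
    have h2 := Z_conj (g * w * g⁻¹) hz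
    rw [show g * w * g⁻¹ * z * (g * w * g⁻¹)⁻¹ = g * (w * (g⁻¹ * z * g⁻¹⁻¹)) * w⁻¹ * g⁻¹ by group,
      ← h1] at h2
    exact Z_ball' hd (by simpa [mul_smul, g0', g1', P.A_fix hw, g0, g2, mul_assoc] using h2)
  intro q hq h0 i h1 h2
  have := two_le_m (P := P)
  exact Ball_fix hq (c := 1) (key _ (h0 ▸ hq.1 0)) (by omega) (by omega)

theorem exists_prime (hn : P.n = 3 ∨ P.n % 2 = 0) {a b : V} (h : P.adj a b) :
    ∃ s : ℕ, s.Prime ∧ IsPGroup s (P.A a b) := by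
  obtain ⟨s, hs, w, hw, w1, w2⟩ := exists_bad h
  refine ⟨s, hs, ((Grp.pCore_isPGroup s _).map (P.A a b).subtype).to_le
    (FGS.le_of_forall_primePow fun r hr v hv v1 => ?_)⟩
  by_cases hne : r = s
  · exact mem_map_pCore (P.A_nil h) hs hv (hne ▸ v1)
  by_contra hv1
  obtain ⟨v, hv, v0, v1⟩ := exists_Z_pe h hr hv (fun e => hv1 (e ▸ one_mem _)) v1
  have v2 := Z_ball_of_bad h hr hs hne hw w1 w2 hv v1
  obtain ⟨p, hp, p0, p1⟩ := exists_line_edge h
  obtain ⟨x, hx, ex⟩ := exists_ap hp 0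
  obtain rfl : x 0 = a := (ex 0 le_rfl (by omega)).trans p0
  obtain rfl : x 1 = b := (ex 1 (by omega) (by omega)).trans p1
  have hm := two_le_m (P := P)
  rcases hn with hn | hn
  · have hm : P.m = 2 := by simp [m, hn]
    exact v0 (Ball_eq_one hx.1 v2 hm.ge (j := 2) (by omega) (by omega)
      (Ball_fix hx.1 v2 (by omega) (by omega)))
  replace hn : P.n = 2 * P.m := by unfold m; omega
  obtain ⟨t, ht, y, hy, y1, y2⟩ := exists_bad (P.adj_symm h)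
  obtain rfl : r = t := by
    by_contra e
    exact v0 (C_inf hn hx.1 v2 (Z_ball_of_bad (P.adj_symm h) hr ht e hy y1 y2 (Z_swap hv) v1)
      (by omega) (by omega))
  obtain ⟨u, hu, u0, u1⟩ := exists_Z_pe h hs hw (fun e => w2 (e ▸ one_mem _)) w1
  have u2 := Z_ball_of_bad (P.adj_symm h) hs hr (Ne.symm hne) hy y1 y2 (Z_swap hu) u1
  obtain ⟨g, hg⟩ := exists_refl hx (c := P.n) (by omega)
  have u3 := A_of_K_line hx.1 hu.1 P.m fun j _ _ => Ball_K hx.1 u2 (by omega) (by omega)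
  have v3 := P.A_conj g (A_of_K_line hx.1 hv.1 (P.m - 1) fun j _ _ =>
    Ball_K hx.1 v2 (by omega) (by omega))
  replace v2 := Ball_conj g v2
  rw [hg, hg, P.A_symm, show (P.n - ((P.m - 1 : ℕ) + 1) : ℤ) = P.m by omega,
    show (P.n - (P.m - 1 : ℕ) : ℤ) = P.m + 1 by omega] at v3
  rw [hg] at v2
  have hc := nil_comm (P.A_nil (hx.1.1 _)) hs hr (Ne.symm hne) u3 v3 u1 (pe_conj v1 g)
  obtain ⟨q, hq, q1, q2⟩ := exists_fold hx.1 (P.A_fix v3) fun e =>
    v0 (by simpa using C_eq_one hn hx.1 v2 (Or.inr (by omega)) e)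
  refine u0 (C_eq_one hn hq (c := 1) (by rwa [q1 _ (by omega)]) (Or.inl rfl) ?_)
  rw [q2 _ (by omega), ← mul_smul, hc, mul_smul, Ball_fix hx.1 u2 (by omega) (by omega)]

omit [Finite G] in
theorem A_p_of_ty {a b c d : V} (h : P.adj a b) (h' : P.adj c d) (e : P.ty c = P.ty a) {s : ℕ}
    (hs : IsPGroup s (P.A a b)) : IsPGroup s (P.A c d) := fun u => by
  obtain ⟨b', hb, b1, -⟩ := P.thick a b b
  obtain ⟨d', hd, d1, -⟩ := P.thick c d d
  obtain ⟨g, rfl, rfl, -⟩ := exists_smul_two e h' hd d1.symm h hb b1.symm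
  exact (hs ⟨_, P.A_conj g u.2⟩).imp fun k hk => Subtype.ext (by simpa using hk)

theorem compat_of {s : ℕ} (hs : s.Prime) (h : ∀ {a b : V}, P.adj a b → IsPGroup s (P.A a b))
    {x y z : V} {u : G} (hy : P.adj x y) (hz : P.adj x z) (hu : u ∈ P.A x y) (hf : u • z = z) :
    u ∈ P.A x z := by
  have := Fact.mk hs
  by_cases e : y = z
  · exact e ▸ hu
  let S := P.A x y ⊓ MulAction.stabilizer G z
  refine P.A_max (P.A x z ⊔ S) hz
    (fun v hv => (show P.A x z ⊔ S ≤ MulAction.stabilizer G x ⊓ MulAction.stabilizer G z from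
      sup_le (fun _ h => ⟨P.A_fix h, A_fix' h⟩) fun _ h => ⟨P.A_fix h.1, h.2⟩) hv)
    (fun g g0 g1 v hv => (show P.A x z ⊔ S ≤ (P.A x z ⊔ S).comap (MulAut.conj g).toMonoidHom from
      sup_le (fun v hv => Subgroup.mem_sup_left (A_conj' hv g0 g1)) fun v hv => ?_) hv)
    ((h hz).to_sup_of_normal_left' (K := S) ((h hy).to_le inf_le_left) (Subgroup.le_normalizer_iff.2
      fun g hg k hk => A_conj' hk (P.A_fix hg.1) hg.2)).isNilpotent
    (Subgroup.mem_sup_right ⟨hu, hf⟩)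
  obtain ⟨a, ha, a1⟩ := tr_A hz y (g • y) hy (g0 ▸ P.adj_smul g hy) e
    fun h => e (smul_left_cancel g (h.trans g1.symm))
  have a2 : (a⁻¹ * g) • z = z := by rw [mul_smul, g1, inv_smul_eq_iff, A_fix' ha]
  have := mul_mem (mul_mem (Subgroup.mem_sup_left ha) (Subgroup.mem_sup_right
    (S := P.A x z) (T := S) (x := a⁻¹ * g * v * (a⁻¹ * g)⁻¹)
    ⟨A_conj' hv.1 (by rw [mul_smul, g0, inv_smul_eq_iff, P.A_fix ha])
      (by rw [mul_smul, inv_smul_eq_iff, a1]), mul_mem (mul_mem a2 hv.2) (inv_smul_eq_iff.2 a2.symm)⟩))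
    (Subgroup.mem_sup_left (inv_mem ha))
  simpa [mul_assoc] using this

end Pol

omit [Finite G] in
theorem Pol.exists_SP [Finite G] [Finite V] (P : Pol G V) (hn : P.n = 3 ∨ P.n % 2 = 0) :
    ∃ S : SP G V, S.toPol = P := by
  obtain ⟨s, hs, h⟩ : ∃ s : ℕ, s.Prime ∧ ∀ {a b : V}, P.adj a b → IsPGroup s (P.A a b) := by
    by_cases h : ∃ a b, P.adj a b
    · obtain ⟨a, b, h⟩ := h
      obtain ⟨s, hs, h1⟩ := exists_prime hn h
      refine ⟨s, hs, fun {c d} h' => ?_⟩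
      by_cases e : P.ty c = P.ty a
      · exact A_p_of_ty h h' e h1
      · exact P.A_symm _ _ ▸ A_p_of_ty h (P.adj_symm h')
          (Bool.eq_not_iff.2 (P.ty_adj h').symm |>.trans (Bool.eq_not_iff.2 (Ne.symm e)).symm) h1
    · exact ⟨2, Nat.prime_two, fun h' => absurd ⟨_, _, h'⟩ h⟩
  exact ⟨⟨P, s, hs, h, compat_of hs h⟩, rfl⟩

end Cfsg.Agent.BN2
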