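import Cfsg.Agent.BN2.N4c
import Cfsg.Agent.BN2.N6c
import Cfsg.Agent.BN2.N8d
import Cfsg.Agent.BN2.Prime

/-!
# Split generalized polygons are Moufang
-/

set_option autoImplicit false

namespace Cfsg.Agent.BN2

namespace SP

open Pol

variable {G V : Type*} [Group G] [MulAction G V] [Finite G] [Finite V] {P : SP G V}

theorem E1_all (hn : P.n = 3 ∨ P.n = 4 ∨ P.n = 6 ∨ P.n = 8) (y : V) : P.E1 y := by
  obtain ⟨x, hx, rfl⟩ := exists_line (P := P.toPol) y
  have h1 : ∀ {x : ℤ → V}, P.Line x → P.n % 2 = 0 → P.Sg (x 0) → ¬ P.Sg (x 1) :=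
    fun hx h hs => not_Sg_both (by unfold m; omega) (hx.1 0) hs
  rcases hn with hn | hn | hn | hn
  · exact (FF hx (not_Sg_three hn _) (not_Sg_three hn _)).2
  · have hm : P.m = 2 := by simp [m, hn]
    by_cases h0 : P.Sg (x 0)
    · exact N4_E_even hn hx h0
    by_cases h1 : P.Sg (x 1)
    · simpa using N4_E_odd hn (hx.rev 1) (by simpa using h1)
    · exact (FF hx h0 (by simpa [hm] using h1)).2
  · have hm : P.m = 3 := by simp [m, hn]
    by_cases h0 : P.Sg (x 0)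
    · exact N6_E_odd hn h0
    · exact (FF hx h0 fun h => h0 (h.of_ty (ty_even hx (by simp [hm])))).2
  · have hm : P.m = 4 := by simp [m, hn]
    by_cases h0 : P.Sg (x 0)
    · exact N8_E_even hn h0
    by_cases h1 : P.Sg (x 1)
    · simpa using N8_E_odd hn (hx.rev 1) (by simpa using h1)
    · exact (FF hx h0 fun h => h1 (h.of_ty (ty_even hx (by simp [hm])))).2

theorem D_eq_one (hn : P.n = 3 ∨ P.n = 4 ∨ P.n = 6 ∨ P.n = 8) {x : ℤ → V} (hx : P.Ap x) {d : G}
    (hd : d ∈ P.D x) : d = 1 :=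
  P.rigid x hx d hd.2
    (E1_Q hx.1 (E1_all hn _) (D_R hx.1 hd (i := -1) (j := 1) (by omega)) (by omega) (by omega)).1.2
    (E1_Q hx.1 (E1_all hn _) (D_R hx.1 hd (i := 0) (j := 2) (by omega)) (by omega) (by omega)).1.2

theorem R_le_X (hn : P.n = 3 ∨ P.n = 4 ∨ P.n = 6 ∨ P.n = 8) {x : ℤ → V} (hx : P.Line x) (i : ℤ) :
    P.R x i (i + P.n) ≤ P.X x i := fun _ hu =>
  mem_X.2 fun _ h1 h2 => E1_Q hx (E1_all hn _) hu h1 h2

theorem X_tr (hn : P.n = 3 ∨ P.n = 4 ∨ P.n = 6 ∨ P.n = 8) {x : ℤ → V} (hx : P.Line x) (i : ℤ) :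
    P.Tr (P.X x i) (x i) (x (i + 1)) :=
  (R_tr' hx (by omega) le_rfl).mono (R_le_X hn hx i)

theorem X_tr' (hn : P.n = 3 ∨ P.n = 4 ∨ P.n = 6 ∨ P.n = 8) {x : ℤ → V} (hx : P.Line x) (i : ℤ) :
    P.Tr (P.X x i) (x (i + P.n)) (x (i + P.n - 1)) :=
  (R_tr hx (by omega) le_rfl).mono (R_le_X hn hx i)

/-- the geometric root groups lie in `A` -/
theorem mem_X_of_K (hn : P.n = 3 ∨ P.n = 4 ∨ P.n = 6 ∨ P.n = 8) {x : ℤ → V} (hx : P.Line x)
    {i : ℤ} {g : G} (hg : ∀ k, i < k → k < i + P.n → g ∈ P.K (x k)) : g ∈ P.X x i := by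
  have h3 := P.three_le
  have f0 : g • x i = x i := K_fix hx (hg (i + 1) (by omega) (by omega)) (by omega) (by omega)
  have f1 : g • x (i + 1) = x (i + 1) := (hg (i + 1) (by omega) (by omega)).1
  obtain ⟨u, hu, e⟩ := X_tr hn hx i (x (i - 1)) (g • x (i - 1)) (hx.adj_pred (by ring))
    (by simpa [f0] using P.adj_smul g (hx.adj_pred (i := i) (j := i - 1) (by ring)))
    (hx.ne' (by ring)).symm
    (fun e => hx.ne' (i := i - 1) (j := i + 1) (by ring) (smul_left_cancel g (f1.trans e.symm)))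
  have hK : ∀ k, i < k → k < i + P.n → u⁻¹ * g ∈ P.K (x k) := fun k h1 h2 =>
    mul_mem (inv_mem (mem_X.1 hu k h1 h2).1) (hg k h1 h2)
  have : u⁻¹ * g = 1 := eq_one hx (a := i - 1) (k := i + 1) (fun k h1 h2 => by
    rcases h1.eq_or_lt with rfl | h1
    · rw [mul_smul, ← e, inv_smul_smul]
    · by_cases hk : k = i
      · exact K_fix hx (hK (i + 1) (by omega) (by omega)) (by omega) (by omega)
      · by_cases hk' : k = i + 1
        · exact K_fix hx (hK (i + 1) (by omega) (by omega)) (by omega) (by omega)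
        · exact K_fix hx (hK (k - 1) (by omega) (by omega)) (by omega) (by omega))
    (by omega) (by omega) (hK _ (by omega) (by omega)) (hK _ (by omega) (by omega))
  rwa [← inv_mul_eq_one.1 this]

end SP

end Cfsg.Agent.BN2
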