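import Cfsg.Agent.BN2.Lin

/-!
# BN2/N4a: quadrangles, `σ` = even vertices: odd root groups (~250 lines)

`n = 4`, `m = 2`, `x` a line with `Sg (x 0)` (so `Sg (x i)` for all even `i`, `Sg.of_ty`/`ty_even`).
`Z_y = Zv y ≤ Ball 2 y` (`Zv_ball`), `Z_i = Zv (x i)`; `Z_i ≠ 1` (`exists_Z`, `Z_eq_Zv`); a
nontrivial element of `Z_y` moves every vertex at distance 3 (`C_eq_one`).  `W = Vv (x 1)` is
abelian, `≤ Q (x 1)`, centralized by `Q (x 1)` (`Vv_comm`).  All statements can be applied to the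
lines `fun i => x (i + 2k)`, `fun i => x (2k - i)` (`QQ_shift`, `QQ_rev`, `R_shift`, `R_rev`).
-/

set_option autoImplicit false

open scoped commutatorElement

namespace Cfsg.Agent.BN2

namespace SP

open Pol

variable {G V : Type*} [Group G] [MulAction G V] [Finite G] [Finite V] {P : SP G V}

theorem N4_img2 (hn : P.n = 4) {x : ℤ → V} (hx : P.Line x) {c d : V} (hc : P.adj (x 1) c)
    (hd : P.adj (x 1) d) (c2 : c ≠ x 2) (d2 : d ≠ x 2) {z : G} (hz : z ∈ P.Zv c) :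
    ∃ z' ∈ P.Zv d, z'⁻¹ * z ∈ P.K (x 2) := by
  obtain ⟨r, hr, r1, rfl⟩ := exists_turn (hx.rev 2) (k := 1) hc c2
  obtain ⟨s, hs, s1, rfl⟩ := exists_turn (hx.rev 2) (k := 1) hd d2
  have := Zv_img hr hs (by rw [r1 _ (by omega), s1 _ (by omega)]) (by rw [r1 _ le_rfl, s1 _ le_rfl])
    (j := 1 + 1) (by omega) (by omega) hz
  rw [r1 _ (by omega)] at this
  exact this ((Vv_le_Q _ (Zv_le_Vv hc hz)).1.2 _ (hx.1 1))

/-- `Z_0 ⊓ K (x 2) = 1` -/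
theorem N4_Z0 (hn : P.n = 4) {x : ℤ → V} (hx : P.Line x) (hs : P.Sg (x 0)) {z : G}
    (hz : z ∈ P.Zv (x 0)) (hK : z ∈ P.K (x 2)) : z = 1 :=
  have hm : P.m = 2 := by simp [m, hn]
  C_eq_one (by omega) hx (Zv_ball hs hz) (j := 3) (.inl (by omega)) (K_fix hx hK (by omega) (by omega))

/-- `W` acts on `Γ(x 2)` like `Z_0`.  (Generators `Zv y`, `y ≠ x 2`: `Zv_img` at the vertex `x 2`
for the reversed line turned to `y` (`exists_turn`), `j = 2`; `Z_2 ≤ K (x 2)`.  The set of such `w`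
is a subgroup since `Z_0` normalizes `K (x 2)`.) -/
theorem N4_img (hn : P.n = 4) {x : ℤ → V} (hx : P.Line x) (hs : P.Sg (x 0)) {w : G}
    (hw : w ∈ P.Vv (x 1)) : ∃ z ∈ P.Zv (x 0), z⁻¹ * w ∈ P.K (x 2) := by
  have h10 : P.adj (x 1) (x 0) := hx.adj_pred rfl
  have f : ∀ z ∈ P.Zv (x 0), z • x 2 = x 2 := fun z hz =>
    (Vv_le_Q _ (Zv_le_Vv h10 hz)).1.2 _ (hx.1 1)
  refine Vv_le (H :=
    { carrier := {w | ∃ z ∈ P.Zv (x 0), z⁻¹ * w ∈ P.K (x 2)}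
      one_mem' := ⟨1, one_mem _, by simp⟩
      mul_mem' := fun ⟨z, hz, k⟩ ⟨y, hy, l⟩ => ⟨z * y, mul_mem hz hy, by
        simpa [mul_assoc] using mul_mem (K_conj' k (f _ (inv_mem hy))) l⟩
      inv_mem' := fun ⟨z, hz, k⟩ => ⟨z⁻¹, inv_mem hz, by
        simpa [mul_assoc] using K_conj' (inv_mem k) (f _ hz)⟩ }) (fun c hc z hz => ?_) hw
  by_cases e : c = x 2
  · exact ⟨1, one_mem _, by simpa [← e] using (Zv_le_Q _ hz).1⟩
  · exact N4_img2 hn hx hc h10 e (hx.ne' (i := 0) rfl).symm hz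

/-- `W = Z_0 · (W ⊓ X_{-1}) · Z_2` (apply `N4_img` twice; `Z_0 ≤ K (x 0)`, `mem_QQ_of`). -/
theorem N4_decomp (hn : P.n = 4) {x : ℤ → V} (hx : P.Line x) (hs : P.Sg (x 0)) {w : G}
    (hw : w ∈ P.Vv (x 1)) : ∃ z0 ∈ P.Zv (x 0), ∃ ξ ∈ P.QQ x 0 2, ∃ z2 ∈ P.Zv (x 2),
      ξ ∈ P.Vv (x 1) ∧ w = z0 * ξ * z2 := by
  obtain ⟨z, hz, k⟩ := N4_img hn hx hs hw
  obtain ⟨y, hy, l⟩ := N4_img hn (hx.rev 2) (hs.of_ty (ty_even hx (by omega)).symm) hw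
  have h2 := Zv_le_Vv (hx.1 1) hy
  have h := mul_mem (mul_mem (inv_mem (Zv_le_Vv (hx.adj_pred (i := 1) rfl) hz)) hw) (inv_mem h2)
  refine ⟨z, hz, _, mem_QQ_of hx (Vv_le_Q _ h) (by omega) (by omega) fun i a b => ?_, y, hy, h, by group⟩
  rcases (by omega : i = 0 ∨ i = 1 ∨ i = 2) with rfl | rfl | rfl
  · rw [mul_assoc, Vv_comm_Vv hw (inv_mem h2)]
    exact mul_mem (inv_mem (Zv_le_Q _ hz).1) l
  · exact (Vv_le_Q _ h).1
  · exact mul_mem k (inv_mem (Zv_le_Q _ hy).1)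

theorem N4_dec2 (hn : P.n = 4) {x : ℤ → V} (hx : P.Line x) (hs : P.Sg (x 0)) {w : G}
    (hw : w ∈ P.Vv (x 1)) (hK : w ∈ P.K (x 2)) :
    ∃ ξ ∈ P.QQ x 0 2 ⊓ P.Vv (x 1), ∃ q ∈ P.Zv (x 2), w = ξ * q := by
  obtain ⟨z, hz, ξ, hξ, q, hq, k, rfl⟩ := N4_decomp hn hx hs hw
  rw [mul_mem_cancel_right (Zv_le_Q _ hq).1, mul_mem_cancel_right (hξ 2 (by omega) le_rfl).1] at hK
  exact ⟨ξ, ⟨hξ, k⟩, q, hq, by rw [N4_Z0 hn hx hs hz hK, one_mul]⟩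

/-- The odd root group `X_{-1} = QQ x 0 2` lies in `W` and is transitive at both ends.
Fix `1 ≠ z₀ ∈ Z_0`.  For `y ∈ Γ(x 1) ∖ x 2` there is `z_y ∈ Zv y` with `z_y ≡ z₀` mod `K (x 2)`
(`Zv_img`), `z_y ≠ 1`, and `z_y = z₀ ξ_y c_y` with `ξ_y ∈ W ⊓ QQ x 0 2`, `c_y ∈ Z_2`
(`N4_decomp`; the `Z_0`-component is `z₀` since `Z_0 ⊓ K (x 2) = 1`).  If `ξ_y = ξ_{y'}`,
`y ≠ y'`, then `z_y = z_{y'} c` with `c ∈ Z_2` (`W` abelian); `c ≠ 1` by `C_inf`; this contradicts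
`three_centers` (`j = 1`, centre `x 1`).  So `|W ⊓ QQ x 0 2| ≥ sz (x 1) = sz (x (-1))`, and
`card_le_sz` + `QQ_eq_one` give transitivity of `W ⊓ QQ x 0 2` on `Γ(x (-1)) ∖ x 0` and (same
cardinality, `QQ_eq_one'`) on `Γ(x 3) ∖ x 2`; semiregularity gives `QQ x 0 2 ≤ W`. -/
theorem N4_odd (hn : P.n = 4) {x : ℤ → V} (hx : P.Line x) (hs : P.Sg (x 0)) :
    P.QQ x 0 2 ≤ P.Vv (x 1) ∧ P.Tr (P.QQ x 0 2) (x (-1)) (x 0) ∧
      P.Tr (P.QQ x 0 2) (x 3) (x 2) := by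
  have hm : P.m = 2 := by simp [m, hn]
  have h10 : P.adj (x 1) (x 0) := hx.adj_pred rfl
  obtain ⟨z, hz, z1⟩ := exists_Z (hx.1 0)
  rw [Z_eq_Zv (.inl hn) hs (hx.1 0)] at hz
  have h1 : P.sz (x 1) ≤ Nat.card ↥(P.QQ x 0 2 ⊓ P.Vv (x 1)) := by
    rw [sz_eq (hx.1 1), ← Nat.card_coe_set_eq]
    choose w hw k using fun y : {y | P.adj (x 1) y ∧ y ≠ x (1 + 1)} =>
      N4_img2 hn hx h10 y.2.1 (hx.ne' (i := 0) rfl).symm y.2.2 hz
    choose ξ hξ q hq e using fun y => N4_dec2 hn hx hs (w := z⁻¹ * w y)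
      (mul_mem (inv_mem (Zv_le_Vv h10 hz)) (Zv_le_Vv y.2.1 (hw y))) (by simpa using inv_mem (k y))
    refine Nat.card_le_card_of_injective (fun y => ⟨ξ y, hξ y⟩) fun a b f =>
      Subtype.ext (by_contra fun n => ?_)
    have e1 : w a = w b * ((q b)⁻¹ * q a) := by
      rw [inv_mul_eq_iff_eq_mul.1 (e a), inv_mul_eq_iff_eq_mul.1 (e b),
        show ξ a = ξ b from congrArg Subtype.val f]; group
    have b1 : w b ≠ 1 := fun f => z1 (N4_Z0 hn hx hs hz (by simpa [f] using k b))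
    have bl : ∀ y, w y ∈ P.Ball P.m y.1 := fun y => Zv_ball (hs.of_ty (ty_eq_of_adj h10 y.2.1)) (hw y)
    obtain ⟨p, hp, p0, p1, p2⟩ := exists_line_two a.2.1 b.2.1 n
    refine three_centers (j := 1) hn (hp.rev 0) hp (hx.shift 1) rfl p1 (p0 ▸ p2 ▸ n) (p0 ▸ a.2.2)
      (p2 ▸ b.2.2) (e1 ▸ p0 ▸ bl a) (p2 ▸ bl b) (Zv_ball (hs.of_ty (ty_even hx (by omega)).symm)
        (mul_mem (inv_mem (hq b)) (hq a))) b1 fun f => b1 (C_inf (by omega) hp (c := -1) (d := 1)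
          (by rw [p0, ← mul_one (w b), ← f, ← e1]; exact bl a) (p2 ▸ bl b) (by omega) (by omega))
  have fx := fun g (hg : g ∈ P.QQ x 0 2) k => QQ_fix hx hg (k := k) (by omega)
  have a1 : P.adj (x (-1)) (x (-2)) := hx.adj_pred rfl
  have h2 := card_le_sz (H := P.QQ x 0 2) (hx.1 (-1)) a1 (hx.ne' (by omega)).symm
    (fun g hg => ⟨fx g hg _ (by omega) (by omega), fx g hg _ (by omega) (by omega)⟩)
    fun g hg => QQ_eq_one hx hg (by omega) a1 (hx.ne' (by omega)).symm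
  have h3 := card_le_sz (H := P.QQ x 0 2) (hx.adj_pred (i := 3) (j := 2) rfl) (hx.1 3)
    (hx.ne' (by omega)) (fun g hg => ⟨fx g hg _ (by omega) (by omega), fx g hg _ (by omega) (by omega)⟩)
    fun g hg => QQ_eq_one' hx hg (by omega) (hx.1 3) (hx.ne' (by omega))
  rw [sz_of_ty (ty_even hx (i := 1) (by omega))] at h2 h3
  have h4 := h1.trans (Subgroup.card_le_of_le inf_le_left)
  exact ⟨inf_eq_left.1 (Subgroup.eq_of_le_of_card_ge inf_le_left (h2.1.trans h1)), h2.2 h4, h3.2 h4⟩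

/-- `W ⊓ K (x 2) ⊓ K (x 3) = Z_2` (in `N4_decomp`, `z0 = 1`; `ξ` fixes `x 4` ⇒ `ξ = 1`). -/
theorem N4_mem_Z (hn : P.n = 4) {x : ℤ → V} (hx : P.Line x) (hs : P.Sg (x 0)) {w : G}
    (hw : w ∈ P.Vv (x 1)) (h2 : w ∈ P.K (x 2)) (h4 : w • x 4 = x 4) : w ∈ P.Zv (x 2) := by
  have hm : P.m = 2 := by simp [m, hn]
  obtain ⟨ξ, hξ, q, hq, rfl⟩ := N4_dec2 hn hx hs hw h2
  rw [mul_smul, Ball_fix hx (Zv_ball (hs.of_ty (ty_even hx (by omega)).symm) hq) (by omega)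
    (by omega)] at h4
  rwa [QQ_eq_one' hx hξ.1 (by omega) (hx.1 _) (hx.ne' (by omega)) h4, one_mul]

/-- `⁅X_1, X_{-1}⁆ ≤ Z_2` (the commutator is in `W`, `K (x 2)`, `K (x 3)`). -/
theorem N4_comm (hn : P.n = 4) {x : ℤ → V} (hx : P.Line x) (hs : P.Sg (x 0)) {v ξ : G}
    (hv : v ∈ P.QQ x 2 4) (hξ : ξ ∈ P.QQ x 0 2) : ⁅v, ξ⁆ ∈ P.Zv (x 2) := by
  exact N4_mem_Z hn hx hs
    (comm_Vv ((N4_odd hn hx hs).1 hξ) (QQ_fix hx hv (by omega) (by omega) (by omega))).1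
    (comm_K (hξ 2 (by omega) le_rfl).1 (hv 2 le_rfl (by omega)).1.1).1
    (K_fix hx (comm_K (hv 3 (by omega) (by omega)).1
      (QQ_fix hx hξ (by omega) (by omega) (by omega))).2 (by omega) (by omega))

end SP

end Cfsg.Agent.BN2
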