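import Cfsg.Agent.BN2.N4a

/-!
# BN2/N4b: quadrangles: `E1` at the odd vertices (~250 lines)

Notation of `N4a`.  `X = QQ x 2 4` (abelian, `≤ Vv (x 3)`, regular on `Γ(x 1) ∖ x 2`: `N4_odd` for
the shifted line, `QQ_eq_one`), `X' = QQ x 0 2`, `R = R x 0 4`.  Apply `FQ` at the vertex `x 1`
with `a = x 2`, `b = x 0`.
*Covering*: `e ∈ A (x 1) (x 2)` fixing `x 0`: `T_decomp` (line shifted by 1, `j = 2`) gives
`g ∈ Q (x 1)` with `g⁻¹ e` fixing `x 0..x 3`; then `ξ ∈ X' ≤ Q (x 1)` (transitive on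
`Γ(x 3) ∖ x 2`) makes it fix `x 4`.  `R` normalizes `X`, `X'` (`QQ_conj`) and centralizes
`Z_0, Z_2, Z_4` (`R_comm_Zv`).
*Quadratic action*: it suffices to show `⁅X, R⁆` is centralized by `R`.  For `z ∈ Z_0`, `v ∈ X`:
`v z v⁻¹ ∈ Zv (v x 0) ≤ W`, `≡ z` mod `K (x 2)`, so `v z v⁻¹ = z ξ(z,v) q(z,v)` with unique
`ξ ∈ X'`, `q ∈ Z_2` (`X' ⊓ Z_2 = 1`: `Z_2` fixes `x 4`).  `q(z,v) ≠ 1` for `z, v ≠ 1` (else
`v z v⁻¹ ∈ K (x 0)`, but it is a central elation with centre `v x 0 ≠ x 0` at distance 2 from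
`x 0`).  `ξ(z,v) ≠ 1` for `z, v ≠ 1` (`three_centers`).  `ξ(zz',v) = ξ(z,v) ξ(z',v)` (`W` abelian).
`ξ(z,vv') = ξ(z,v) ξ(z,v')`, `q(z,vv') = q(z,v) q(z,v') ⁅v, ξ(z,v')⁆` (`N4_comm`; `v` centralizes
`Z_2`).  For `r ∈ R`: `ξ(z, r v r⁻¹) = r ξ(z,v) r⁻¹`, `q(z, r v r⁻¹) = q(z,v)`.
Let `X₀ = ⁅X,R⁆ ⊓ C(R)`, `X₀' = ⁅X',R⁆ ⊓ C(R)`.  If `⁅X,R⁆ = ⊥` done.  Otherwise `1 ≠ c ∈ X₀`
(`exists_last` with `Z = ⊥`, `A = A (x 1) (x 2)`).  For `w ∈ ⁅X,R⁆` and `η ∈ X'` centralized by `R`,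
`w` commutes with `η` (`r v r⁻¹ η (r v r⁻¹)⁻¹ = r ⁅v,η⁆ η r⁻¹ = ⁅v,η⁆ η`, so `v⁻¹ (r v r⁻¹)`
centralizes `η`).  So for fixed `z ≠ 1`, `q(z, w c') = q(z,w) q(z,c')` for `w ∈ ⁅X,R⁆`, `c' ∈ X₀`;
hence `q(z,·)` is an injective hom `X₀ → Z_2`, `|X₀| ≤ ζ := |Z_2| = |Z_0|` (`card_Zv_of_ty`).
`ξ(z,·) : X → X'` is a hom commuting with `R`, so maps `X₀` into `X₀'`, and `z ↦ ξ(z,c)` is
injective `Z_0 → X₀'`: `|X₀'| ≥ ζ`.  The reflection `i ↦ 4 - i` swaps `X, X'` and fixes `R`; so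
(applying both bounds to both lines) `|X₀| = ζ` and `q(z,·) : X₀ → Z_2` is onto.  For
`w ∈ ⁅X,R⁆` pick `c' ∈ X₀` with `q(z,c') = q(z,w)⁻¹`; then `q(z, w c') = 1`, `w = c'⁻¹ ∈ X₀`.
-/

set_option autoImplicit false

open scoped commutatorElement

namespace Cfsg.Agent.BN2

section Cf

open Subgroup

variable {G : Type*} [Group G] {X X' R Z₀ Z₂ W : Subgroup G} {v z c ξ q : G}

/-- the commutator relations used -/
structure Cf (X X' R Z₀ Z₂ W : Subgroup G) : Prop where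
  dec : ∀ v ∈ X, ∀ z ∈ Z₀, ∃ ξ ∈ X', ∃ q ∈ Z₂, v * z * v⁻¹ = ξ * q * z
  ab : ∀ a ∈ W, ∀ b ∈ W, Commute a b
  l' : X' ≤ W
  l₀ : Z₀ ≤ W
  l₂ : Z₂ ≤ W
  xx : ∀ a ∈ X, ∀ b ∈ X, Commute a b
  x₂ : ∀ a ∈ X, ∀ b ∈ Z₂, Commute a b
  r₀ : ∀ a ∈ R, ∀ b ∈ Z₀, Commute a b
  r₂ : ∀ a ∈ R, ∀ b ∈ Z₂, Commute a b
  n' : ∀ v ∈ X, ∀ z ∈ Z₀, ∀ ξ ∈ X', v * z * v⁻¹ = ξ * z → v = 1 ∨ z = 1
  n₂ : ∀ v ∈ X, ∀ z ∈ Z₀, ∀ q ∈ Z₂, v * z * v⁻¹ = q * z → v = 1 ∨ z = 1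
  cm : ∀ v ∈ X, ∀ ξ ∈ X', ⁅v, ξ⁆ ∈ Z₂

/-- `X₀`, slightly enlarged -/
def C0 (X X' R : Subgroup G) : Subgroup G := X ⊓ centralizer R ⊓ centralizer (X' ⊓ centralizer R :)

theorem mem_C0 : c ∈ C0 X X' R ↔ (c ∈ X ∧ ∀ r ∈ R, Commute r c) ∧
    ∀ η ∈ X', (∀ r ∈ R, Commute r η) → Commute η c :=
  and_congr_right' ⟨fun h η a b => h η ⟨a, b⟩, fun h η a => h η a.1 a.2⟩

namespace Cf

variable (h : Cf X X' R Z₀ Z₂ W)
include h

theorem xi (hc : ∀ r ∈ R, Commute r c) (hz : z ∈ Z₀) (hq : q ∈ Z₂) (e : c * z * c⁻¹ = ξ * q * z) :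
    ∀ r ∈ R, Commute r ξ := fun r hr => by
  rw [show ξ = c * z * c⁻¹ * z⁻¹ * q⁻¹ by rw [e]; group]
  exact ((((hc r hr).mul_right (h.r₀ r hr z hz)).mul_right (hc r hr).inv_right).mul_right
    (h.r₀ r hr z hz).inv_right).mul_right (h.r₂ r hr q hq).inv_right

theorem xi0 (hc : c ∈ C0 X X' R) (hz : z ∈ Z₀) (hξ : ξ ∈ X') (hq : q ∈ Z₂)
    (e : c * z * c⁻¹ = ξ * q * z) : ξ ∈ C0 X' X R := by
  rw [mem_C0] at hc ⊢
  refine ⟨⟨hξ, h.xi hc.1.2 hz hq e⟩, fun d hd k => ?_⟩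
  obtain ⟨ξ', hξ', q', hq', e'⟩ := h.dec d hd z hz
  have h1 := ((hc.2 ξ' hξ' (h.xi k hz hq' e')).symm.mul_right (h.x₂ c hc.1.1 q' hq')).eq
  have h2 := (h.ab _ (mul_mem (h.l' hξ') (h.l₂ hq')) _ (mul_mem (h.l' hξ) (h.l₂ hq))).eq
  have h3 : d * (ξ * q) * d⁻¹ * (ξ' * q' * z) = ξ * q * (ξ' * q' * z) :=
    calc _ = d * (ξ * q * z) * d⁻¹ := by rw [← e']; group
      _ = d * c * z * (d * c)⁻¹ := by rw [← e]; group
      _ = c * (ξ' * q') * z * c⁻¹ := by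
        rw [← (h.xx c hc.1.1 d hd).eq, mul_assoc c (ξ' * q'), ← e']; group
      _ = ξ' * q' * (c * z * c⁻¹) := by rw [h1]; group
      _ = _ := by rw [e, ← mul_assoc, h2, mul_assoc]
  have h4 : Commute d (ξ * q) := mul_inv_eq_iff_eq_mul.1 (mul_right_cancel h3)
  simpa using h4.mul_right (h.x₂ d hd q hq).inv_right

theorem lb [Finite G] (hc : c ∈ C0 X X' R) (c1 : c ≠ 1) : Nat.card Z₀ ≤ Nat.card (C0 X' X R) := by
  choose! ξ hξ q hq e using h.dec c hc.1.1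
  refine Nat.card_le_card_of_injective (fun z : Z₀ => ⟨ξ z, h.xi0 hc z.2 (hξ z z.2) (hq z z.2) (e z z.2)⟩)
    fun ⟨z, hz⟩ ⟨y, hy⟩ k => Subtype.ext (inv_mul_eq_one.1 ((h.n₂ c hc.1.1 _ (mul_mem (inv_mem hz) hy) _
      (mul_mem (inv_mem (hq z hz)) (hq y hy)) ?_).resolve_left c1))
  rw [← mul_assoc (_ * q y), ← (h.ab _ (h.l₀ (inv_mem hz)) _ (h.l₂ (mul_mem (inv_mem (hq z hz)) (hq y hy)))).eq,
    ← conj_mul, ← conj_inv, e z hz, e y hy, show ξ z = ξ y from congrArg Subtype.val k]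
  group

theorem ub [Finite G] (hc : Nat.card Z₂ ≤ Nat.card (C0 X X' R)) (hz : z ∈ Z₀) (z1 : z ≠ 1) (hv : v ∈ X)
    (k : ∀ η ∈ X', (∀ r ∈ R, Commute r η) → Commute η v) : ∀ r ∈ R, Commute r v := by
  choose! ξ hξ q hq e using fun v hv => h.dec v hv z hz
  have cx : ∀ c ∈ C0 X X' R, ∀ r ∈ R, Commute r (ξ c) := fun c hc =>
    h.xi (mem_C0.1 hc).1.2 hz (hq c hc.1.1) (e c hc.1.1)
  let f : C0 X X' R → Z₂ := fun c => ⟨q c, hq c c.2.1.1⟩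
  have inj : Function.Injective f := fun ⟨c, hc⟩ ⟨d, hd⟩ k => by
    refine Subtype.ext (inv_mul_eq_one.1 ((h.n' _ (mul_mem (inv_mem hc.1.1) hd.1.1) z hz _
      (mul_mem (hξ d hd.1.1) (inv_mem (hξ c hc.1.1))) ?_).resolve_right z1))
    have h1 := (((mem_C0.1 hc).2 _ (hξ d hd.1.1) (cx d hd)).mul_left
      ((mem_C0.1 hc).2 _ (hξ c hc.1.1) (cx c hc)).inv_left).inv_right.eq
    calc _ = c⁻¹ * (d * z * d⁻¹) * c := by group
      _ = c⁻¹ * (ξ d * (ξ c)⁻¹) * (ξ c * q c * z) * c := by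
        rw [e d hd.1.1, show q c = q d from congrArg Subtype.val k]; group
      _ = _ := by rw [← h1, ← e c hc.1.1]; group
  obtain ⟨⟨c, hc⟩, f⟩ := (inj.bijective_of_nat_card_le hc).2 ⟨_, inv_mem (hq v hv)⟩
  have h1 := ((k _ (hξ c hc.1.1) (cx c hc)).symm.mul_right (h.x₂ v hv _ (hq c hc.1.1))).eq
  have h2 : v * c = 1 := (h.n' _ (mul_mem hv hc.1.1) z hz _ (mul_mem (hξ c hc.1.1) (hξ v hv)) (by
    calc _ = v * (ξ c * q c) * z * v⁻¹ := by rw [mul_assoc v (ξ c * q c), ← e c hc.1.1]; group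
      _ = ξ c * (q c * ξ v) * q v * z := by rw [h1, mul_assoc _ v, mul_assoc _ _ v⁻¹, e v hv]; group
      _ = _ := by
        rw [← (h.ab _ (h.l' (hξ v hv)) _ (h.l₂ (hq c hc.1.1))).eq,
          show q c = (q v)⁻¹ from congrArg Subtype.val f]; group)).resolve_right z1
  exact fun r hr => eq_inv_of_mul_eq_one_left h2 ▸ ((mem_C0.1 hc).1.2 r hr).inv_right

theorem com (hc : c ∈ ⁅X, R⁆) : ∀ η ∈ X', (∀ r ∈ R, Commute r η) → Commute η c := fun η hη k => by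
  refine (commutator_le (H₃ := centralizer {η})).2 (fun v hv r hr => ?_) hc η rfl
  refine mem_centralizer_singleton_iff.2 (Eq.symm ?_)
  have := ((h.r₂ r hr _ (h.cm _ (inv_mem hv) _ hη)).mul_right (k r hr)).eq
  have k1 := (k r hr).inv_left.eq
  simp only [commutatorElement_def, inv_inv, inv_mul_cancel_right] at this ⊢
  calc _ = v * (v⁻¹ * η * v * r) * v⁻¹ * r⁻¹ := by group
    _ = v * r * v⁻¹ * (η * r⁻¹) := by rw [← this]; group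
    _ = _ := by rw [← k1]; group

end Cf

end Cf

namespace SP

open Pol

variable {G V : Type*} [Group G] [MulAction G V] [Finite G] [Finite V] {P : SP G V}

theorem N4_odd' (hn : P.n = 4) {x : ℤ → V} (hx : P.Line x) (hs : P.Sg (x 0)) :
    P.QQ x 2 4 ≤ P.Vv (x 3) ∧ P.Tr (P.QQ x 2 4) (x 1) (x 2) := by
  have := N4_odd hn (hx.shift 2) (hs.of_ty (ty_even hx (by omega)).symm)
  rw [show P.QQ (fun i => x (i + 2)) 0 2 = P.QQ x 2 4 from Subgroup.ext fun _ => QQ_shift] at this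
  exact ⟨this.1, this.2.1⟩

theorem N4_cf (hn : P.n = 4) {x : ℤ → V} (hx : P.Line x) (hs : P.Sg (x 0)) :
    Cf (P.QQ x 2 4) (P.QQ x 0 2) (P.R x 0 4) (P.Zv (x 0)) (P.Zv (x 2)) (P.Vv (x 1)) := by
  have hm : P.m = 2 := by simp [m, hn]
  have h10 : P.adj (x 1) (x 0) := hx.adj_pred rfl
  have l₀ := Zv_le_Vv h10
  have l₂ : P.Zv (x 2) ≤ P.Vv (x 1) := Zv_le_Vv (hx.1 1)
  have s2 : P.Sg (x 2) := hs.of_ty (ty_even hx (by omega)).symm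
  have f1 : ∀ v ∈ P.QQ x 2 4, v • x 1 = x 1 := fun v hv => QQ_fix hx hv (by omega) (by omega) (by omega)
  have a1 : ∀ v ∈ P.QQ x 2 4, P.adj (x 1) (v • x 0) := fun v hv => f1 v hv ▸ P.adj_smul v h10
  have mv : ∀ v ∈ P.QQ x 2 4, v ≠ 1 → v • x 0 ≠ x 0 := fun v hv v1 e =>
    v1 (QQ_eq_one hx hv (by omega) h10 (hx.ne' (i := 0) rfl).symm e)
  have n' : ∀ v ∈ P.QQ x 2 4, ∀ z ∈ P.Zv (x 0), ∀ ξ ∈ P.QQ x 0 2, v * z * v⁻¹ = ξ * z →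
      v = 1 ∨ z = 1 := fun v hv z hz ξ hξ e => or_iff_not_imp_left.2 fun v1 => by
    obtain ⟨r, hr, r1, r2⟩ := exists_turn hx (k := 1) (a1 v hv) (mv v hv v1)
    refine conj_eq_one_iff.1 (C_eq_one (by omega) hr (c := 1 + 1) (j := -1)
      (r2 ▸ Ball_conj v (Zv_ball hs hz)) (.inr (by omega)) ?_)
    rw [r1 _ (by omega), e]
    exact K_fix hx (mul_mem (hξ 0 le_rfl (by omega)).1 (Zv_le_Q _ hz).1) (by omega) (by omega)
  refine ⟨fun v hv z hz => ?_, fun a ha b hb => Vv_comm_Vv ha hb, (N4_odd hn hx hs).1, l₀, l₂,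
    fun a ha b hb => Vv_comm_Vv ((N4_odd' hn hx hs).1 ha) ((N4_odd' hn hx hs).1 hb),
    fun a ha b hb => Zv_comm hb (hx.1 2) ((ha 2 le_rfl (by omega)).2 _ (hx.1 2)),
    fun a ha b hb => R_comm_Zv hx ha (by omega) le_rfl (by omega) hb,
    fun a ha b hb => R_comm_Zv hx ha (by omega) (by omega) (by omega) hb, n',
    fun v hv z hz q hq e => by_contra fun k => ?_, fun v hv ξ hξ => N4_comm hn hx hs hv hξ⟩
  · obtain ⟨z0, h0, ξ, hξ, q, hq, -, e⟩ := N4_decomp hn hx hs (comm_Vv (l₀ hz) (f1 v hv)).1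
    have hK := (comm_K (hv 2 le_rfl (by omega)).1
      (Ball_fix hx (Zv_ball hs hz) (by omega) (by omega))).2
    rw [e, mul_mem_cancel_right (Zv_le_Q _ hq).1, mul_mem_cancel_right (hξ 2 (by omega) le_rfl).1] at hK
    obtain rfl := C_eq_one (by omega) hx (Zv_ball hs h0) (j := 3) (.inl (by omega))
      (K_fix hx hK (by omega) (by omega))
    exact ⟨ξ, hξ, q, hq, by rw [← one_mul ξ, ← e, commutatorElement_def, inv_mul_cancel_right]⟩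
  · push Not at k
    obtain ⟨p, hp, p0, p1⟩ := exists_line_edge (a1 v hv)
    refine three_centers (j := 1) hn hp (hx.shift 1) (hx.rev 1) p0 p0 (fun f => ?_)
      (p1 ▸ mv v hv k.1) (hx.ne' (i := 0) rfl) (b := q) (c := z)
      (by rw [← e, Nat.cast_one, p1]; exact Ball_conj v (Zv_ball hs hz)) (Zv_ball s2 hq)
      (Zv_ball hs hz) (fun f => not_or.2 k (n' v hv z hz 1 (one_mem _) (f ▸ e))) k.2
    exact hx.ne' (i := 0) (j := 1 + 1) rfl (smul_left_cancel v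
      ((QQ_fix hx hv (by omega) (by omega) (by omega)).trans (f.symm.trans p1)))

theorem N4_quad (hn : P.n = 4) {x : ℤ → V} (hx : P.Line x) (hs : P.Sg (x 0)) {v r r' : G}
    (hv : v ∈ P.QQ x 2 4) (hr : r ∈ P.R x 0 4) (hr' : r' ∈ P.R x 0 4) : ⁅⁅v, r⁆, r'⁆ = 1 := by
  have h := N4_cf hn hx hs
  have h' := N4_cf hn (hx.rev 4) (hs.of_ty (ty_even hx (by omega)).symm)
  rw [show P.QQ (fun i => x (4 - i)) 2 4 = P.QQ x 0 2 from Subgroup.ext fun _ => QQ_rev,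
    show P.QQ (fun i => x (4 - i)) 0 2 = P.QQ x 2 4 from Subgroup.ext fun _ => QQ_rev,
    show P.R (fun i => x (4 - i)) 0 4 = P.R x 0 4 from Subgroup.ext fun _ => R_rev hx (by omega)] at h'
  have nm : ∀ d ∈ P.R x 0 4, ∀ v ∈ P.QQ x 2 4, d * v * d⁻¹ ∈ P.QQ x 2 4 := fun d hd v hv =>
    QQ_conj hv fun k a b => hd.2 k (by omega) b
  have le : ⁅P.QQ x 2 4, P.R x 0 4⁆ ≤ P.QQ x 2 4 :=
    Subgroup.commutator_le.2 fun v hv d hd => (comm_mem hv (nm d hd v hv)).2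
  have hc := Subgroup.commutator_mem_commutator hv hr
  by_cases k : ⁅P.QQ x 2 4, P.R x 0 4⁆ ≤ ⊥
  · simp [Subgroup.mem_bot.1 (k hc)]
  obtain ⟨c, c0, c1, c2⟩ := exists_last (P.A_nil (hx.1 1))
    (fun v hv => QQ_A hx hv (by omega) (by omega) (by omega))
    (fun r hr => R_A hx hr (by omega) (by omega)) nm k
  obtain ⟨z, hz, z1⟩ := exists_Z (hx.1 0)
  rw [Z_eq_Zv (.inl hn) hs (hx.1 0)] at hz
  have h1 := h.lb (mem_C0.2 ⟨⟨le c0, fun r hr =>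
    (commutatorElement_eq_one_iff_commute.1 (c2 r hr)).symm⟩, h.com c0⟩) c1
  obtain ⟨d, hd, d1⟩ := (Subgroup.nontrivial_iff_exists_ne_one _).1 (Finite.one_lt_card_iff_nontrivial.1
    ((Finite.one_lt_card_iff_nontrivial.2 ((Subgroup.nontrivial_iff_exists_ne_one _).2
      ⟨z, hz, z1⟩)).trans_le h1))
  exact commutatorElement_eq_one_iff_commute.2 (h.ub ((card_Zv_of_ty (ty_even hx (by omega))).trans_le
    (h'.lb hd d1)) hz z1 (le hc) (h.com hc) r' hr').symm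

theorem N4_E_odd (hn : P.n = 4) {x : ℤ → V} (hx : P.Line x) (hs : P.Sg (x 0)) :
    P.E1 (x 1) := by
  have h10 : P.adj (x 1) (x 0) := hx.adj_pred rfl
  refine FQ (hx.1 1) h10 (hx.ne' (i := 0) rfl) (X := P.QQ x 2 4) (R := P.R x 0 4)
    (fun v hv => QQ_A hx hv (by omega) (by omega) (by omega)) (N4_odd' hn hx hs).2
    (fun v hv e => QQ_eq_one hx hv (by omega) h10 (hx.ne' (i := 0) rfl).symm e ▸ one_mem _)
    (fun r hr => ⟨R_A hx hr (by omega) (by omega), hr.2 0 le_rfl (by omega)⟩) (fun e he e0 => ?_)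
    (fun d hd v hv => QQ_conj hv fun k a b => hd.2 k (by omega) b)
    fun r hr r' hr' v hv => N4_quad hn hx hs hv hr hr' ▸ one_mem _
  obtain ⟨g, hg, k⟩ := T_decomp (hx.shift 1) (j := 2) (by omega) he
  replace k : g⁻¹ * e ∈ P.R x 1 3 := R_shift.1 k
  have h4 : P.adj (x 3) (x 4) := hx.1 3
  obtain ⟨ξ, hξ, f⟩ := (N4_odd hn hx hs).2.2 _ _ h4
    (k.2 3 (by omega) le_rfl ▸ P.adj_smul (g⁻¹ * e) h4) (hx.ne' (i := 2) rfl) fun f =>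
      hx.ne' (i := 2) (j := 4) rfl (smul_left_cancel _ (f.trans (k.2 2 (by omega) (by omega)).symm))
  have hq := mul_mem hg (hξ 1 (by omega) (by omega))
  refine ⟨ξ⁻¹ * (g⁻¹ * e), mem_R_of hx (k := 1) (mul_mem (inv_mem (QQ_A hx hξ (by omega) (by omega)
    (by omega))) k.1) (fun l a b => ?_) (by omega) (by omega), by
      simpa [mul_assoc] using K_conj' hq.1 (inv_smul_eq_iff.2 (P.A_fix he).symm)⟩
  rw [mul_smul, inv_smul_eq_iff]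
  rcases b.eq_or_lt with rfl | b
  · exact f.symm
  rw [QQ_fix hx hξ (by omega) (by omega) (by omega)]
  rcases a.eq_or_lt with rfl | a
  · rw [mul_smul, e0, inv_smul_eq_iff, hg.1.2 _ h10]
  · exact k.2 l a (by omega)

end SP

end Cfsg.Agent.BN2
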