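import Cfsg.Agent.BN2.N4b

/-!
# Quadrangles: `E1` at the even vertices

Notation of `N4a`; `X_i = QQ x (i+1) (i+3)`; `E1` holds at all odd vertices (`N4_E_odd`, `E1_Q`).
-/

set_option autoImplicit false
set_option linter.unusedSectionVars false

open scoped commutatorElement

namespace Cfsg.Agent.BN2

theorem N4_commL {G : Type*} [Group G] {w d u : G} (h1 : Commute ⁅w, u⁆ w) (h2 : Commute ⁅w, u⁆ d)
    (h3 : Commute d u) : Commute ⁅w, d⁆ u := by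
  have e : w⁻¹ * u * w = ⁅w, u⁆⁻¹ * u := by
    rw [eq_inv_mul_iff_mul_eq, ← mul_assoc, ← mul_assoc, h1.inv_right.eq, commutatorElement_def]
    group
  have h4 : Commute d (w⁻¹ * u * w) := e ▸ h2.inv_left.symm.mul_right h3
  have h5 : Commute (w * d * w⁻¹) u := by simpa [mul_assoc] using h4.map (MulAut.conj w)
  exact h5.mul_left h3.inv_left

namespace SP

open Pol

variable {G V : Type*} [Group G] [MulAction G V] [Finite G] [Finite V] {P : SP G V}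

theorem N4_sg {x : ℤ → V} (hx : P.Line x) (hs : P.Sg (x 0)) (i : ℤ) (hi : i % 2 = 0 := by omega) :
    P.Sg (x i) := hs.of_ty (ty_even hx (by omega)).symm

theorem N4_E1 (hn : P.n = 4) {x : ℤ → V} (hx : P.Line x) (hs : P.Sg (x 0)) (i : ℤ)
    (hi : i % 2 = 1 := by omega) : P.E1 (x i) :=
  (N4_E_odd hn hx hs).of_ty (ty_even hx (by omega)).symm

theorem N4_ne {x : ℤ → V} (hx : P.Line x) {g : G} {i j : ℤ} (h : g • x j = x j)
    (e : j = i + 2 ∨ i = j + 2 := by omega) : g • x i ≠ x j := fun c => by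
  have := smul_left_cancel g (c.trans h.symm)
  rcases e with e | e
  · exact hx.ne' e this.symm
  · exact hx.ne' e this

theorem N4_adj {g : G} {a b : V} (h : g • a = a) (hab : P.adj a b) : P.adj a (g • b) := by
  simpa [h] using P.adj_smul g hab

/-- `Q_1 ⊓ Q_2 = X_0 X_{-1}`: choose `ξ ∈ X_{-1}` with `g ξ⁻¹` fixing `x 4` (`N4_odd`); then
`g ξ⁻¹ ∈ Q (x 3)` by `E1_Q`. -/
theorem N4_Q12 (hn : P.n = 4) {x : ℤ → V} (hx : P.Line x) (hs : P.Sg (x 0)) {g : G}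
    (hg : g ∈ P.QQ x 1 2) : ∃ u ∈ P.QQ x 1 3, ∃ ξ ∈ P.QQ x 0 2, g = u * ξ := by
  have f := fun k => QQ_fix hx (k := k) (inv_mem hg) (by omega)
  obtain ⟨ξ, hξ, e⟩ := (N4_odd hn hx hs).2.2 (g⁻¹ • x 4) (x 4)
    (N4_adj (f 3 (by omega) (by omega)) (hx.adj' (by omega))) (hx.adj' (by omega))
    (N4_ne hx (f 2 (by omega) (by omega))) (hx.ne' (by omega))
  have h12 : g * ξ⁻¹ ∈ P.QQ x 1 2 := mul_mem hg (inv_mem (QQ_mono (by omega) le_rfl hξ))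
  have h3 : g * ξ⁻¹ ∈ P.Q (x 3) := E1_Q hx (N4_E1 hn hx hs 3) (i := 1) (j := 4)
    ⟨QQ_A hx h12 (by omega) (by omega) (by omega), fun k h1 h2 => by
      rcases eq_or_lt_of_le h2 with rfl | h2
      · rw [mul_smul, inv_smul_eq_iff.2 e.symm, smul_inv_smul]
      · exact QQ_fix hx h12 (by omega) (by omega) (by omega)⟩ (by omega) (by omega)
  refine ⟨g * ξ⁻¹, fun k h1 h2 => ?_, ξ, hξ, by simp⟩
  rcases eq_or_lt_of_le h2 with rfl | h2
  · exact h3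
  · exact h12 k h1 (by omega)

/-- The even root group `X_0` is transitive on `Γ(x 0) ∖ x 1`.  Take `1 ≠ v ∈ X_1 = QQ x 2 4`,
`y = v x 0 ≠ x 0, x 2`, `l' = v x (-1)`.  Given `c ∈ Γ(x 0) ∖ x 1`, the group `R r (-2) 2` of the
line `r = (x (-2), x (-1), x 0, x 1, y)` (`exists_turn`) is transitive on `Γ(y) ∖ x 1` (`R_tr`) and
lies in `Q (x (-1)) ⊓ Q (x 1)` (`E1_Q`); pick `g` in it with `g⁻¹ l' = v c`.  Then
`k = v⁻¹ g⁻¹ v g ∈ Q_1 ⊓ Q_2` (`comm_Q`) maps `x (-1)` to `c`; write `k = u ξ` (`N4_Q12`),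
`ξ ∈ K (x 0)`. -/
theorem N4_even (hn : P.n = 4) {x : ℤ → V} (hx : P.Line x) (hs : P.Sg (x 0)) :
    P.Tr (P.QQ x 1 3) (x 0) (x 1) := by
  refine tr_of_base (b := x (-1)) fun c hc hne => ?_
  obtain ⟨y, hy, y0, y2⟩ := P.thick (x 1) (x 0) (x 2)
  obtain ⟨v, hv, ev⟩ := (N4_odd hn (hx.shift 2) (N4_sg hx hs _)).2.1 (x 0) y
    (hx.adj_pred (by omega)) hy (hx.ne' (by omega)).symm y2
  rw [QQ_shift] at hv
  have v1 : v • x 1 = x 1 := QQ_fix hx hv (by omega) (by omega) (by omega)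
  obtain ⟨r, hr, r1, r2⟩ := exists_turn hx (k := 1) hy y0
  have hsr : P.Sg (r 0) := by rwa [r1 _ (by omega)]
  have a : ∀ c, P.adj (x 0) c → c ≠ x 1 → P.adj (r 2) (v • c) ∧ v • c ≠ r (2 - 1) := fun c hc hne =>
    ⟨by rw [show r 2 = y from r2, ← ev]; exact P.adj_smul v hc, fun e => hne (smul_left_cancel v
      (e.trans ((r1 _ (by omega)).trans v1.symm)))⟩
  have a1 := a _ (hx.adj_pred (i := 0) (j := -1) (by omega)) (hx.ne' (by omega)).symm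
  obtain ⟨g, hg, eg⟩ := R_tr hr (i := -2) (j := 2) (by omega) (by omega) (v • c) (v • x (-1))
    (a c hc hne).1 a1.1 (a c hc hne).2 a1.2
  have g1 : g ∈ P.Q (x 1) := r1 1 le_rfl ▸ E1_Q hr (N4_E1 hn hr hsr 1) hg (by omega) (by omega)
  have g0 : g • x (-1) = x (-1) := r1 (-1) (by omega) ▸ hg.2 _ (by omega) (by omega)
  obtain ⟨u, hu, ξ, hξ, e⟩ := N4_Q12 hn hx hs (g := ⁅v⁻¹, g⁻¹⁆) fun k h1 h2 => by
    obtain rfl | rfl : k = 1 ∨ k = 2 := by omega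
    · exact (comm_Q (inv_mem g1) (inv_smul_eq_iff.2 v1.symm)).1
    · exact (comm_Q (inv_mem (hv 2 (by omega) (by omega)))
        (K_fix hx (inv_mem g1.1) (by omega) (by omega))).2
  refine ⟨u, hu, ?_⟩
  rw [← QQ_fix hx hξ (k := -1) (by omega) (by omega) (by omega), ← mul_smul, ← e,
    commutatorElement_def, inv_inv, inv_inv, mul_smul, mul_smul, mul_smul, g0, ← eg, inv_smul_smul,
    inv_smul_smul]

section

variable (hn : P.n = 4) {x : ℤ → V} (hx : P.Line x) (hs : P.Sg (x 0)) {u v w a z : G}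
include hn hx hs

omit hn hs in
theorem N4_VU (hv : v ∈ P.QQ x (-2) 0) (hu : u ∈ P.QQ x 1 3) : ⁅v, u⁆ ∈ P.QQ x 0 1 := fun k h1 h2 => by
  obtain rfl | rfl : k = 0 ∨ k = 1 := by omega
  · exact (comm_Q (hv 0 (by omega) le_rfl) (QQ_fix hx hu (by omega) (by omega) (by omega))).2
  · exact (comm_Q (hu 1 le_rfl (by omega)) (QQ_fix hx hv (by omega) (by omega) (by omega))).1

omit hn hs in
theorem N4_UP (hu : u ∈ P.QQ x 1 3) (hw : w ∈ P.QQ x 0 1) : ⁅u, w⁆ ∈ P.QQ x 0 2 := fun k h1 h2 => by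
  rcases eq_or_lt_of_le h2 with rfl | h2
  · exact (comm_Q (hu 2 (by omega) (by omega)) (QQ_fix hx hw (by omega) (by omega) (by omega))).2
  · exact (comm_Q (hw k h1 (by omega)) (QQ_fix hx hu (by omega) (by omega) (by omega))).1

theorem N4_dec (hw : w ∈ P.QQ x 0 1) : ∃ b ∈ P.QQ x (-1) 1, ∃ a ∈ P.QQ x 0 2, w = b * a := by
  simpa [QQ_rev] using N4_Q12 hn (hx.rev 2) (N4_sg hx hs _) (g := w) (by simpa [QQ_rev] using hw)

theorem N4_cA (ha : a ∈ P.QQ x 0 2) (hw : w ∈ P.Q (x 1)) : Commute w a :=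
  Vv_comm ((N4_odd hn hx hs).1 ha) hw

theorem N4_cV (hv : v ∈ P.QQ x (-2) 0) (hw : w ∈ P.Q (x (-1))) : Commute w v :=
  N4_cA hn (hx.shift (-2)) (N4_sg hx hs _) (by simpa [QQ_shift] using hv) (by simpa using hw)

theorem N4_ZQ {i : ℤ} (hi : i % 2 = 0) (hz : z ∈ P.Zv (x i)) : z ∈ P.QQ x (i - 1) (i + 1) :=
  have hm : P.m = 2 := by unfold m; omega
  QQ_of_ball hx (Zv_le_Q _ hz) (Zv_ball (N4_sg hx hs i) hz) (by omega) (by omega) (by omega)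

omit hs in
theorem N4_A (hv : v ∈ P.QQ x (-2) 0) (hu : u ∈ P.QQ x 1 3) (h : ⁅v, u⁆ ∈ P.QQ x (-1) 1)
    (u1 : u ≠ 1) : v = 1 := by
  have u0 : u • x 0 = x 0 := QQ_fix hx hu (by omega) (by omega) (by omega)
  obtain ⟨r, hr, r1, r2⟩ := exists_fold hx (k := 0) u0 fun e => u1 (QQ_eq_one hx hu (by omega)
    (hx.adj_pred (i := 1 - 1) (j := 0 - 1) (by omega)) (hx.ne' (by omega)).symm e)
  have t : v⁻¹ * ⁅v, u⁆ ∈ P.QQ x (-1) 0 :=
    mul_mem (inv_mem (QQ_mono (by omega) le_rfl hv)) (QQ_mono le_rfl (by omega) h)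
  have e : v⁻¹ * ⁅v, u⁆ = u * v⁻¹ * u⁻¹ := by rw [commutatorElement_def]; group
  have := eq_one hr (g := v⁻¹ * ⁅v, u⁆) (a := -2) (k := -1) (fun i h1 h2 => by
    rcases le_total i 0 with h3 | h3
    · rw [r1 i h3]; exact QQ_fix hx t (by omega) (by omega) (by omega)
    · rw [r2 i h3, e, mul_smul, inv_smul_smul, mul_smul,
        QQ_fix hx (inv_mem hv) (by omega) (by omega) (by omega)]) (by omega) (by omega)
    (by rw [r1 _ (by omega)]; exact (t _ (by omega) (by omega)).1)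
    (by rw [r1 _ (by omega)]; exact (t _ (by omega) (by omega)).1)
  rwa [e, conj_eq_one_iff, inv_eq_one] at this

theorem N4_B (hv : v ∈ P.QQ x (-2) 0) (hu : u ∈ P.QQ x 1 3) (hz : z ∈ P.Zv (x 0))
    (ha : a ∈ P.QQ x 0 2) (h : ⁅v, u⁆ = z * a) (u1 : u ∉ P.Zv (x 2)) : v = 1 := by
  by_contra v1
  have f : ∀ k, -3 ≤ k → k ≤ 1 → v⁻¹ • x k = x k := fun k h1 h2 =>
    QQ_fix hx (inv_mem hv) (by omega) (by omega) (by omega)
  have hp : P.Line fun i => v⁻¹ • x (2 - i) := (hx.rev 2).smul v⁻¹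
  obtain ⟨r, hr, r1, r2⟩ := exists_glue hp hx (k := 1) (f 1 (by omega) le_rfl) fun e =>
    v1 (inv_eq_one.1 (QQ_eq_one' hx (inv_mem hv) (by omega) (hx.adj' (i := 0 + 1) (j := 2) (by omega))
      (hx.ne' (by omega)) e.symm))
  have z1 := N4_ZQ hn hx hs rfl hz
  have zv : Commute z v := N4_cV hn hx hs hv (z1 _ (by omega) (by omega))
  obtain ⟨z', hz', e⟩ := Zv_img hp hr (r1 0 (by omega)).symm (r1 1 le_rfl).symm (j := 2) (by omega)
    (by omega) (z := z) (by simpa [f 0 (by omega) (by omega)] using hz) (by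
      change z • v⁻¹ • x 2 = v⁻¹ • x 2
      rw [← mul_smul, zv.inv_right.eq, mul_smul, QQ_fix hx z1 (by omega) (by omega) (by omega)])
  rw [r2 2 (by omega)] at hz'
  have h1 : z'⁻¹ * u ∈ P.QQ x 1 3 := mul_mem (inv_mem (N4_ZQ hn hx hs rfl hz')) hu
  have e1 : u • v⁻¹ • x 3 = z • v⁻¹ • x 3 := by
    have := congrArg (fun g : G => v⁻¹ • g • x 3) h
    simp only [commutatorElement_def, mul_smul, inv_smul_smul] at this
    rw [QQ_fix hx (inv_mem hu) (by omega) (by omega) (by omega),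
      QQ_fix hx ha (by omega) (by omega) (by omega)] at this
    rw [this, ← mul_smul, ← zv.inv_right.eq, mul_smul]
  have := QQ_eq_one hr (u := z'⁻¹ * u) (i := 1) (j := 3) (fun k k1 k2 => r2 k k1 ▸ h1 k k1 k2)
    (by omega) (c := r (-1)) (hr.adj_pred (by omega)) (hr.ne' (by omega)).symm (by
      rw [r1 _ (by omega)]
      change (z'⁻¹ * u) • v⁻¹ • x 3 = v⁻¹ • x 3
      rw [mul_smul, e1, ← mul_smul]
      exact e.2 _ (by simpa using hp.adj_pred (i := 0) (j := -1) (by omega)))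
  exact u1 (inv_mul_eq_one.1 this ▸ hz')

theorem N4_szV : P.sz (x 1) ≤ Nat.card (P.QQ x (-2) 0) := by
  have := (N4_odd hn (hx.shift (-2)) (N4_sg hx hs _)).2.2
  rw [show P.QQ (fun i => x (i + -2)) 0 2 = P.QQ x (-2) 0 from Subgroup.ext fun _ => QQ_shift] at this
  exact sz_le_card (hx.adj_pred (by omega)) this

theorem N4_exV : ∃ v ∈ P.QQ x (-2) 0, v ≠ 1 := by
  have := N4_szV hn hx hs
  have := two_le_sz (P := P.toPol) (x 1)
  exact (Subgroup.nontrivial_iff_exists_ne_one _).1 (Finite.one_lt_card_iff_nontrivial.1 (by omega))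

variable {D : Subgroup G} (hD : ∀ d ∈ D, ∀ i, i % 2 = 1 → d ∈ P.Q (x i))
include hD

omit hn hs in
theorem N4_Dfix {d : G} (hd : d ∈ D) (i : ℤ) : d • x i = x i :=
  K_fix hx (hD d hd (2 * (i / 2) + 1) (by omega)).1 (by omega) (by omega)

theorem N4_key {d : G} (hd : d ∈ D) (hu : u ∈ P.QQ x 1 3) (h : ⁅d, u⁆ ∈ P.Zv (x 2)) :
    Commute d u := by
  obtain ⟨v, hv, v1⟩ := N4_exV hn hx hs
  obtain ⟨b, hb, a, ha, e⟩ := N4_dec hn hx hs (N4_VU hx hv hu)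
  have z1 := N4_ZQ hn hx hs rfl h
  have dv := N4_cV hn hx hs hv (hD d hd _ rfl)
  have da := N4_cA hn hx hs ha (hD d hd _ rfl)
  have za := N4_cA hn hx hs ha (z1 1 (by omega) (by omega))
  have zb : Commute b ⁅d, u⁆ := Zv_comm h (hx.adj_pred (j := 1) rfl)
    (P.A_symm _ _ ▸ QQ_A hx hb (k := 1) (by omega) (by omega) le_rfl)
  have e1 : ⁅v, ⁅d, u⁆⁆ * (⁅d, u⁆ * ⁅v, u⁆) = d * ⁅v, u⁆ * d⁻¹ * ⁅d, u⁆ := by
    have h1 : v * d = d * v := dv.eq.symm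
    have h2 : v⁻¹ * d⁻¹ = d⁻¹ * v⁻¹ := dv.inv_inv.eq.symm
    calc _ = v * d * u * (d⁻¹ * v⁻¹) * u⁻¹ := by simp only [commutatorElement_def]; group
      _ = _ := by rw [h1, ← h2]; simp only [commutatorElement_def]; group
  rw [e, ← (zb.mul_left za.symm).eq, ← mul_assoc, mul_left_inj, ← mul_assoc d, mul_assoc _ a,
    ← da.inv_left.eq, ← mul_assoc, ← mul_assoc, mul_left_inj] at e1
  have h2 : ⁅v, ⁅d, u⁆⁆ ∈ P.QQ x (-1) 1 := (mul_mem_cancel_right hb).1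
    (e1 ▸ QQ_conj hb fun k _ _ => N4_Dfix hx hD hd k)
  by_contra c
  exact v1 (N4_A hn hx hv z1 h2 fun e => c (commutatorElement_eq_one_iff_commute.1 e))

theorem N4_dec' (hv : v ∈ P.QQ x (-2) 0) (hu : u ∈ P.QQ x 1 3)
    (hc : u ∈ Subgroup.centralizer (D : Set G)) :
    ∃ b ∈ P.QQ x (-1) 1 ⊓ Subgroup.centralizer (D : Set G), ∃ a ∈ P.QQ x 0 2, ⁅v, u⁆ = b * a := by
  obtain ⟨b, hb, a, ha, e⟩ := N4_dec hn hx hs (N4_VU hx hv hu)
  refine ⟨b, ⟨hb, fun d hd => ?_⟩, a, ha, e⟩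
  have dv := N4_cV hn hx hs hv (hD d hd _ rfl)
  have du : Commute d u := hc d hd
  rw [eq_mul_inv_of_mul_eq e.symm]
  exact (((dv.mul_right du).mul_right dv.inv_right).mul_right du.inv_right).mul_right
    (N4_cA hn hx hs ha (hD d hd _ rfl)).inv_right

theorem N4_cl1 : Nat.card ↥(P.QQ x 1 3 ⊓ Subgroup.centralizer (D : Set G) ⊓ Subgroup.centralizer
    (P.QQ x (-1) 1 ⊓ Subgroup.centralizer (D : Set G) : Subgroup G)) ≤ P.sz (x 1) := by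
  obtain ⟨v, hv, v1⟩ := N4_exV hn hx hs
  choose b hb a ha e using fun u : ↥(P.QQ x 1 3 ⊓ Subgroup.centralizer (D : Set G) ⊓
    Subgroup.centralizer (P.QQ x (-1) 1 ⊓ Subgroup.centralizer (D : Set G) : Subgroup G)) =>
      N4_dec' hn hx hs hD hv u.2.1.1 u.2.1.2
  refine (Nat.card_le_card_of_injective (fun u => (⟨a u, ha u⟩ : P.QQ x 0 2)) fun u u' h => ?_).trans
    ((card_le_sz (hx.adj' (i := -1) (j := 0) rfl) (hx.adj_pred (j := -2) rfl) (hx.ne' rfl).symm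
      (fun g hg => ⟨QQ_fix hx hg (by omega) (by omega) (by omega),
        QQ_fix hx hg (by omega) (by omega) (by omega)⟩) fun g hg e => QQ_eq_one hx hg (by omega)
          (hx.adj_pred (j := -2) rfl) (hx.ne' rfl).symm e).1.trans
      (sz_of_ty (ty_even hx rfl)).le)
  have h : a u = a u' := Subtype.mk.inj h
  have m := mul_mem u.2 (inv_mem u'.2)
  have c1 : Commute (b u') (u.1 * u'.1⁻¹) := m.2 _ (hb u')
  have c2 := N4_cA hn hx hs (ha u) (m.1.1 1 le_rfl (by omega))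
  have : ⁅v, u.1 * u'.1⁻¹⁆ = b u * (b u')⁻¹ := by
    calc _ = ⁅v, u.1⁆ * (u.1 * u'.1⁻¹) * ⁅v, u'.1⁆⁻¹ * (u.1 * u'.1⁻¹)⁻¹ := by
          simp only [commutatorElement_def]; group
      _ = _ := by
        rw [e, e, ← h, mul_assoc (b u), ← c2.eq, mul_inv_rev (b u'), ← mul_assoc, ← mul_assoc,
          mul_inv_cancel_right, mul_assoc (b u), ← c1.inv_left.eq, ← mul_assoc,
          mul_inv_cancel_right]
  by_contra c
  exact v1 (N4_A hn hx hv m.1.1 (this ▸ mul_mem (hb u).1 (inv_mem (hb u').1))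
    fun e => c (Subtype.ext (mul_inv_eq_one.1 e)))

theorem N4_cm (hv : v ∈ P.QQ x (-2) 0) (hu : u ∈ P.QQ x 1 3)
    (hc : u ∈ Subgroup.centralizer (D : Set G)) {c : G} (h : c ∈ ⁅P.QQ x 1 3, D⁆) :
    Commute ⁅v, c⁆ u := by
  have cA : ∀ {a}, a ∈ P.QQ x 0 2 → Commute a u := fun ha =>
    (N4_cA hn hx hs ha (hu 1 le_rfl (by omega))).symm
  have cj : ∀ {c w}, c ∈ P.QQ x 1 3 → w ∈ P.QQ x 0 1 → Commute w u → Commute (c * w * c⁻¹) u :=
    fun {c w} hc hw h => by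
      rw [show c * w * c⁻¹ = ⁅c, w⁆ * w by rw [commutatorElement_def]; group]
      exact (cA (N4_UP hx hc hw)).mul_left h
  let S : Subgroup G :=
    { carrier := {c | c ∈ P.QQ x 1 3 ∧ Commute ⁅v, c⁆ u}
      one_mem' := ⟨one_mem _, by simp⟩
      mul_mem' := fun {c c'} h h' => ⟨mul_mem h.1 h'.1, by
        rw [show ⁅v, c * c'⁆ = ⁅v, c⁆ * (c * ⁅v, c'⁆ * c⁻¹) by
          simp only [commutatorElement_def]; group]
        exact h.2.mul_left (cj h.1 (N4_VU hx hv h'.1) h'.2)⟩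
      inv_mem' := fun {c} h => ⟨inv_mem h.1, by
        rw [show ⁅v, c⁻¹⁆ = c⁻¹ * ⁅v, c⁆⁻¹ * c⁻¹⁻¹ by simp only [commutatorElement_def]; group]
        exact cj (inv_mem h.1) (inv_mem (N4_VU hx hv h.1)) h.2.inv_left⟩ }
  refine (Subgroup.commutator_le.2 (fun c hc' d hd => ?_) h : c ∈ S).2
  have f := fun k (_ : 0 ≤ k) (_ : k ≤ 1) => N4_Dfix hx hD hd k
  have m : ⁅c, d⁆ ∈ P.QQ x 1 3 := (comm_mem hc' (QQ_conj hc' fun k _ _ => N4_Dfix hx hD hd k)).2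
  have hw := N4_VU hx hv hc'
  have dv := N4_cV hn hx hs hv (hD d hd _ rfl)
  refine ⟨m, ?_⟩
  have e : ⁅v, ⁅c, d⁆⁆ = ⁅c, d⁆ * (⁅⁅c, d⁆⁻¹, ⁅v, c⁆⁆ * ⁅⁅v, c⁆, d⁆) * ⁅c, d⁆⁻¹ := by
    have h1 : v * d = d * v := dv.eq.symm
    have h2 : d⁻¹ * v⁻¹ = v⁻¹ * d⁻¹ := dv.inv_inv.eq
    calc _ = v * c * d * c⁻¹ * (d⁻¹ * v⁻¹) * ⁅c, d⁆⁻¹ := by simp only [commutatorElement_def]; group
      _ = v * c * v⁻¹ * (v * d) * c⁻¹ * (v⁻¹ * d⁻¹) * ⁅c, d⁆⁻¹ := by rw [h2]; group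
      _ = _ := by rw [h1]; simp only [commutatorElement_def]; group
  have α := N4_UP hx (inv_mem m) hw
  have β := inv_mem (N4_UP hx hu hw)
  rw [commutatorElement_inv] at β
  rw [e]
  exact cj m (mul_mem (QQ_mono le_rfl (by omega) α) (comm_mem hw (QQ_conj hw f)).2)
    ((cA α).mul_left (N4_commL (N4_cA hn hx hs β (hw 1 (by omega) le_rfl)).symm
      (N4_cA hn hx hs β (hD d hd _ rfl)).symm (hc d hd)))

theorem N4_cl2 (hA : D ≤ P.A (x 1) (x 2)) : ⁅P.QQ x 1 3, D⁆ ≤ P.Zv (x 2) := by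
  by_contra h
  have n : ∀ d ∈ D, ∀ u ∈ P.QQ x 1 3, d * u * d⁻¹ ∈ P.QQ x 1 3 := fun d hd u hu =>
    QQ_conj hu fun k _ _ => N4_Dfix hx hD hd k
  obtain ⟨c, hc, c2', hcd⟩ := exists_last (P.A_nil (hx.adj' (i := 1) (j := 2) rfl))
    (fun u hu => QQ_A hx hu (k := 1) (by omega) (by omega) (by omega)) hA n h
  have cU : c ∈ P.QQ x 1 3 :=
    Subgroup.commutator_le.2 (fun u hu d hd => (comm_mem hu (n d hd u hu)).2) hc
  have cD : c ∈ Subgroup.centralizer (D : Set G) := fun d hd =>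
    N4_key hn hx hs hD hd cU (commutatorElement_inv c d ▸ inv_mem (hcd d hd))
  have l := N4_cl1 hn (hx.rev 2) (N4_sg hx hs _) (D := D) fun d hd i hi => hD d hd _ (by omega)
  rw [show P.QQ (fun i => x (2 - i)) 1 3 = P.QQ x (-1) 1 from Subgroup.ext fun _ => QQ_rev,
    show P.QQ (fun i => x (2 - i)) (-1) 1 = P.QQ x 1 3 from Subgroup.ext fun _ => QQ_rev] at l
  choose b hb a ha e using fun v : P.QQ x (-2) 0 => N4_dec' hn hx hs hD v.2 cU cD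
  have zQ : ∀ z : P.Zv (x 0), z.1 ∈ P.QQ x (-1) 1 := fun z => N4_ZQ hn hx hs rfl z.2
  have zc : ∀ (z : P.Zv (x 0)) {g}, g ∈ P.Q (x 1) → Commute g z := fun z g hg =>
    Zv_comm z.2 (hx.adj' (j := 1) rfl) (QQ_A hx (i := 1) (j := 1) (fun k h1 h2 =>
      le_antisymm h1 h2 ▸ hg) le_rfl (by omega) (by omega))
  have := (Nat.card_le_card_of_injective (fun p : P.QQ x (-2) 0 × P.Zv (x 0) =>
    (⟨b p.1 * p.2, mul_mem (hb _) ⟨zQ _, fun d hd => zc p.2 (hD d hd _ rfl)⟩, fun u hu =>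
      Commute.mul_right (by
        rw [eq_mul_inv_of_mul_eq (e p.1).symm]
        exact (N4_cm hn hx hs hD p.1.2 hu.1 hu.2 hc).symm.mul_right
          (N4_cA hn hx hs (ha _) (hu.1 1 le_rfl (by omega))).inv_right)
        (zc p.2 (hu.1 1 le_rfl (by omega)))⟩ : ↥(P.QQ x (-1) 1 ⊓ Subgroup.centralizer (D : Set G) ⊓
      Subgroup.centralizer (P.QQ x 1 3 ⊓ Subgroup.centralizer (D : Set G) : Subgroup G))))
    fun ⟨v, z⟩ ⟨v', z'⟩ h => by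
      have h : b v * z = b v' * z' := Subtype.mk.inj h
      have α := mul_mem (ha v) (inv_mem (ha v'))
      have hζ := N4_comm hn (hx.shift (-2)) (N4_sg hx hs _) (v := a v * (a v')⁻¹) (ξ := v'.1⁻¹)
        (QQ_shift.2 α) (QQ_shift.2 (inv_mem v'.2))
      have c1 := N4_cV hn hx hs v'.2 (zQ (z' * z⁻¹) _ (by omega) (by omega))
      have c2 := (zc (z' * z⁻¹) ((hb v').1 1 (by omega) le_rfl)).mul_right
        (N4_cA hn hx hs α ((hb v').1 1 (by omega) le_rfl))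
      have e1 : b v = b v' * (z' * z⁻¹ : P.Zv (x 0)) := by
        rw [Subgroup.coe_mul, ← mul_assoc, ← h]; simp
      have e2 : ⁅v'.1⁻¹ * v, c⁆ = ((z' * z⁻¹ : P.Zv (x 0)) * ⁅a v * (a v')⁻¹, v'.1⁻¹⁆⁻¹) *
          (a v * (a v')⁻¹) := by
        calc _ = v'.1⁻¹ * (⁅v.1, c⁆ * ⁅v'.1, c⁆⁻¹) * v' := by
              simp only [commutatorElement_def]; group
          _ = v'.1⁻¹ * (b v' * ((z' * z⁻¹ : P.Zv (x 0)) * (a v * (a v')⁻¹)) * (b v')⁻¹) * v' := by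
              rw [e, e, e1]; group
          _ = _ := by
              rw [c2.eq, mul_inv_cancel_right, ← mul_assoc, ← c1.inv_right.eq]
              simp only [commutatorElement_def]; group
      obtain rfl : v' = v := Subtype.ext (inv_mul_eq_one.1 (N4_B hn hx hs (mul_mem (inv_mem v'.2) v.2)
        cU (mul_mem (z' * z⁻¹).2 (inv_mem hζ)) α e2 c2'))
      rw [Subtype.ext (mul_left_cancel h)]).trans l
  have h1 := N4_szV hn hx hs
  have h2 := two_le_sz (P := P.toPol) (x 1)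
  obtain ⟨z, hz, z1⟩ := exists_Z (P := P.toPol) (hx.adj' (i := 0) (j := 1) rfl)
  have h3 := Finite.one_lt_card_iff_nontrivial.2 ((Subgroup.nontrivial_iff_exists_ne_one _).2
    ⟨z, Z_eq_Zv (.inl hn) hs (hx.adj' (j := 1) rfl) ▸ hz, z1⟩)
  rw [Nat.card_prod, show (2 - 1 : ℤ) = 1 from rfl] at this
  nlinarith

end

/-- `D = 1`.  `D ≤ Q (x i)` for odd `i` (`D_R`, `E1_Q`), so `D` centralizes the odd root groups
(`X_{-1} ≤ Vv (x 1)`, `X_{-3} ≤ Vv (x (-1))`, `Vv_comm`) and all `Z_i`, and normalizes all `X_i`.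
For `v ∈ X_{-3} = QQ x (-2) 0`, `u ∈ X_0 = QQ x 1 3`: `⁅v,u⁆ ∈ Q_0 ⊓ Q_1`, so
`v u v⁻¹ = b a u` with unique `b = b_v(u) ∈ X_{-2} = QQ x (-1) 1`, `a = a_v(u) ∈ X_{-1}` (`N4_Q12`
for `i ↦ 2 - i`; `X_{-2} ⊓ X_{-1} = 1` by `eq_one`); `X_{-1}` is central in `Q_1`.
* `⁅X_{-3}, X_{-2}⁆ ≤ QQ x (-2) 1 = 1`; `⁅X_{-3}, X_{-1}⁆ ≤ Z_0` (`N4_comm` shifted by `-2`);
  `γ(u,b) = b⁻¹ u b u⁻¹ ∈ QQ x 0 2 = X_{-1}` for `u ∈ X_0`, `b ∈ X_{-2}`, trivial if `u ∈ Z_2` or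
  `b ∈ Z_0`.
* `b_v(uu') = b_v(u) b_v(u')`, `a_v(uu') = a_v(u) a_v(u') γ(u, b_v(u'))`;
  `b_{vv'}(u) ≡ b_v(u) b_{v'}(u)` mod `Z_0` (in some order); `b_v(d u d⁻¹) = d b_v(u) d⁻¹`,
  `a_v(d u d⁻¹) = a_v(u)` for `d ∈ D`; `b_v(Z_2) ≤ Z_0` (`⁅v, Z_2⁆ ≤ W ⊓ K (x 0)`, `N4_decomp`).
* (A) `a_v(u) = 1`, `u ≠ 1` ⇒ `v = 1`: `t = u v⁻¹ u⁻¹ = v⁻¹ b ∈ Q (x (-1))` fixes the path
  `x (-2), x (-1), x 0, u x (-1), u x (-2), u x (-3)` (`exists_fold`, reversed line), `eq_one`.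
* (B) `b_v(u) ∈ Z_0`, `v ≠ 1` ⇒ `u ∈ Z_2`: `⁅v,u⁆ x 3 = z x 3` with `z ∈ Z_0`, so with
  `l' = v⁻¹ x 3 ∈ Γ(y)`, `y = v⁻¹ x 2 ≠ x 0, x 2`: `u l' = z l'` (`v` commutes with `z`); by `Zv_img`
  at `y` there is `z₂ ∈ Z_2` with `z₂ l' = u l'`; `z₂⁻¹ u ∈ X_0` fixes `x 4, x 3, x 2, x 1, y, l'`
  ⇒ trivial (`eq_one`).
Let `C = C(x) = {u ∈ ⁅X_0,D⁆ ⊔ Z_2 | ∀ d ∈ D, ⁅u,d⁆ ∈ Z_2}` and `C'` the same for the line
`i ↦ 2 - i` (same `D`; `X_{-2}, Z_0`).  For `u' ∈ C`, `b' = b_v(u') ∈ C'`, and `⁅X_0,D⁆ ⊔ Z_2`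
centralizes `b'` (`γ(d u d⁻¹, b') = γ(u, d⁻¹ b' d) = γ(u, b')`), so `a_v` is a hom on `C`,
injective by (A): `|C| ≤ |X_{-1}| ≤ sz (x 1)`; likewise `|C'| ≤ sz (x 1)`.  If `⁅X_0,D⁆ ⊄ Z_2`,
`exists_last` gives `c ∈ C ∖ Z_2`, and `(v,z) ↦ b_v(c) z`, `X_{-3} × Z_0 → C'` is injective by
(B), so `|C'| ≥ sz (x 1) · |Z_0| > sz (x 1)` (`sz_le_card`): contradiction.  So
`d u d⁻¹ = u z`, `z ∈ Z_2`, `a_v(u) = a_v(u z) = a_v(u) a_v(z)` (`γ(u, b_v z) = 1`), `z = 1` by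
(A).  So `D` centralizes `X_0`, `D ≤ K (x 0)` (`mem_K_of_tr`, `N4_even`), `D ≤ K (x 1)`, `rigid`. -/
theorem N4_D (hn : P.n = 4) {x : ℤ → V} (hx : P.Ap x) (hs : P.Sg (x 0)) {d : G}
    (hd : d ∈ P.D x) : d = 1 := by
  have hD : ∀ d ∈ P.D x, ∀ i, i % 2 = 1 → d ∈ P.Q (x i) := fun d hd i hi =>
    E1_Q hx.1 (N4_E1 hn hx.1 hs i) (D_R hx.1 hd (i := i - 1) (j := i + 1) (by omega)) (by omega)
      (by omega)
  have h := N4_cl2 hn hx.1 hs hD fun d hd => (D_R hx.1 hd (i := 1) (j := 2) (by omega)).1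
  refine eq_one hx.1 (a := 0) (k := 0) (fun i _ _ => hd.2 i) le_rfl (by omega)
    (mem_K_of_tr (N4_even hn hx.1 hs) (hx.1.adj_pred (j := -1) rfl) (hx.1.ne' rfl).symm (hd.2 _)
      (hd.2 _) (hd.2 _) fun g hg => ?_) (hD d hd _ rfl).1
  rw [mul_assoc g⁻¹, (N4_key hn hx.1 hs hD hd hg (commutatorElement_inv g d ▸ inv_mem
    (h (Subgroup.commutator_mem_commutator hg hd)))).eq]
  simp

/-- wlog `x` is an apartment through `b = x (-1)`, `x 0`, `a = x 1`.  Modulo `Q (x 0)` an element of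
`A (x 0) (x 1)` fixing `x (-1)` fixes `x 2` (`T_decomp`), `x 3` (`X_{-2} = QQ x (-1) 1`, `N4_even`
for `i ↦ 2 - i`), `x 4` (`X_{-1}`), so lies in `D = 1` (`mem_D_of`). -/
theorem N4_E_even (hn : P.n = 4) {x : ℤ → V} (hx : P.Line x) (hs : P.Sg (x 0)) :
    P.E1 (x 0) := by
  intro a b ha hb hab u hu ub
  obtain ⟨p, hp, p0, p1, p2⟩ := exists_line_two hb ha hab.symm
  obtain ⟨y, hy, e⟩ := exists_ap hp (-1)
  rw [← p1, ← e 0 (by omega) (by omega)] at hs hu ⊢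
  rw [← p2, ← e 1 (by omega) (by omega)] at hu
  rw [← p0, ← e (-1) (by omega) (by omega)] at ub
  have hl := hy.1
  obtain ⟨g, hg, h1⟩ := T_decomp hl (j := 2) (by omega) hu
  have h1 : g⁻¹ * u ∈ P.R y (-1) 2 := mem_R_of hl h1.1 (fun l l1 l2 => by
    rcases eq_or_lt_of_le l1 with rfl | l1
    · rw [mul_smul, ub]; exact K_fix hl (inv_mem hg.1) (by omega) (by omega)
    · exact h1.2 l (by omega) l2) (by omega) (by omega)
  have step : ∀ {j : ℤ} {w : G} {H : Subgroup G}, 0 < j → w ∈ P.R y (-1) j → H ≤ P.R y (-1) j →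
      P.Tr H (y j) (y (j - 1)) → ∃ h ∈ H, h * w ∈ P.R y (-1) (j + 1) := fun {j w H} hj hw le tr => by
    obtain ⟨h, hh, e⟩ := tr (w • y (j + 1)) (y (j + 1)) (N4_adj (hw.2 j (by omega) le_rfl)
      (hl.1 j)) (hl.1 j) (N4_ne hl (hw.2 _ (by omega) (by omega))) (hl.ne' (by omega))
    refine ⟨h, hh, (mul_mem (le hh) hw).1, fun k k1 k2 => ?_⟩
    rcases eq_or_lt_of_le k2 with rfl | k2
    · rw [mul_smul, e]
    · exact (mul_mem (le hh) hw).2 k k1 (by omega)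
  obtain ⟨h, hh, h2⟩ := step (H := P.QQ y (-1) 1) (by omega) h1
    (fun _ h => QQ_R hl h (by omega) (by omega) (by omega) (by omega)) (by
      have := N4_even hn (hl.rev 2) (N4_sg hl hs _)
      rwa [show P.QQ (fun i => y (2 - i)) 1 3 = P.QQ y (-1) 1 from
        Subgroup.ext fun _ => QQ_rev] at this)
  obtain ⟨ξ, hξ, h3⟩ := step (H := P.QQ y 0 2) (by omega) h2
    (fun _ h => QQ_R hl h (by omega) (by omega) (by omega) (by omega)) (N4_odd hn hl hs).2.2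
  have := N4_D hn hy hs (mem_D_of hy h3 (by omega))
  rw [show u = g * h⁻¹ * ξ⁻¹ * (ξ * (h * (g⁻¹ * u))) by group, this, mul_one]
  exact mul_mem (mul_mem hg.1 (inv_mem (hh 0 (by omega) (by omega)).1))
    (inv_mem (hξ 0 le_rfl (by omega)).1)

end SP

end Cfsg.Agent.BN2
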