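import Cfsg.Agent.BN2.N6a

/-!
# Hexagons, `p` odd: the odd root groups are transitive

Notation of `N6a`; `x` is an apartment (period 12).
-/

set_option autoImplicit false
set_option linter.unusedSectionVars false

open scoped commutatorElement

namespace Cfsg.Agent.BN2

theorem N6_inv {G : Type*} [Group G] {S A B : Subgroup G} {u w u' g : G}
    (n : ∀ s ∈ S, ∀ y ∈ A ⊓ B, s * y * s⁻¹ ∈ A ⊓ B) (uS : u ∈ S) (wS : w ∈ S) (uS' : u' ∈ S)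
    (gS : g ∈ S) (nA : ∀ b ∈ B, ∀ a ∈ A, b * a * b⁻¹ ∈ A) (w1 : ∀ a ∈ A, ⁅w, a⁆ ∈ A ⊓ B)
    (w2 : ∀ b ∈ B, ⁅b, w⁆ ∈ A) (u1 : ∀ b ∈ B, ⁅u, b⁆ ∈ A ⊓ B) (u2 : ∀ a ∈ A, ⁅a, u⁆ ∈ B)
    (v1 : ∀ b ∈ B, ⁅u', b⁆ ∈ A ⊓ B) (v2 : ∀ a ∈ A, ⁅a, u'⁆ ∈ B)
    (m1 : ∀ a ∈ A, u * w * u' * a * (u * w * u')⁻¹ ∈ B)
    (m2 : ∀ b ∈ B, u * w * u' * b * (u * w * u')⁻¹ ∈ A) (hg : g ∈ A) :
    u * w * u' * (u * w * u') * g * (u * w * u' * (u * w * u'))⁻¹ * g ∈ A ⊓ B := by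
  have hβ := v2 _ (inv_mem hg)
  obtain ⟨β, eβ⟩ : ∃ β, β = ⁅g⁻¹, u'⁆ := ⟨_, rfl⟩
  rw [← eβ] at hβ
  have hα := nA _ hβ _ (w2 _ (inv_mem hβ))
  obtain ⟨α, eα⟩ : ∃ α, α = β * ⁅β⁻¹, w⁆ * β⁻¹ := ⟨_, rfl⟩
  rw [← eα] at hα
  have uβ : u * β * u⁻¹ ∈ B := by
    simpa [commutatorElement_def] using mul_mem (u1 _ hβ).2 hβ
  have hγ : ⁅w, g⁆ * g * α ∈ A := mul_mem (mul_mem (w1 g hg).1 hg) hα
  have e1 : u * w * u' * g * (u * w * u')⁻¹ = ⁅w, g⁆ * g * α * ⁅(⁅w, g⁆ * g * α)⁻¹, u⁆ *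
      (u * β * u⁻¹) := by simp only [eα, eβ, commutatorElement_def]; group
  have hγ' : ⁅w, g⁆ * g * α ∈ A ⊓ B := ⟨hγ, (mul_mem_cancel_right (u2 _ (inv_mem hγ))).1
    ((mul_mem_cancel_right uβ).1 (e1 ▸ m1 g hg))⟩
  have y4 := n u uS _ (n w wS _ (v1 _ hβ))
  have e2 : u * w * u' * β * (u * w * u')⁻¹ = u * (w * ⁅u', β⁆ * w⁻¹) * u⁻¹ * α *
      (⁅α⁻¹, u⁆ * (u * β * u⁻¹)) := by simp only [eα, commutatorElement_def]; group
  have hδ : ⁅α⁻¹, u⁆ * (u * β * u⁻¹) ∈ A ⊓ B := ⟨(mul_mem_cancel_left (A.mul_mem y4.1 hα)).1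
    (e2 ▸ m2 β hβ), mul_mem (u2 _ (inv_mem hα)) uβ⟩
  have y2 := n _ (mul_mem (mul_mem uS wS) uS') _ (mul_mem (n u uS _ hγ') (u1 _ hβ))
  have := mul_mem (mul_mem y2 y4) (n _ (inv_mem gS) _
    (mul_mem (mul_mem (inv_mem (w1 g hg)) hγ') hδ))
  convert this using 1
  simp only [eα, eβ, commutatorElement_def]; group

namespace SP

open Pol

variable {G V : Type*} [Group G] [MulAction G V] [Finite G] [Finite V] {P : SP G V}

theorem N6_sg {x : ℤ → V} (hx : P.Line x) (hs : P.Sg (x 1)) (i : ℤ) (hi : i % 2 = 1 := by omega) :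
    P.Sg (x i) := hs.of_ty (ty_even hx (by omega)).symm

theorem N6_ne {x : ℤ → V} (hx : P.Line x) {g : G} {i j : ℤ} (h : g • x j = x j)
    (e : j = i + 2 ∨ i = j + 2 := by omega) : g • x i ≠ x j := fun c => by
  have := smul_left_cancel g (c.trans h.symm)
  rcases e with e | e
  · exact hx.ne' e this.symm
  · exact hx.ne' e this

theorem N6_adj {g : G} {a b : V} (h : g • a = a) (hab : P.adj a b) : P.adj a (g • b) := by
  simpa [h] using P.adj_smul g hab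

theorem N6_QZ (hn : P.n = 6) {x : ℤ → V} (hx : P.Line x) (hs : P.Sg (x 1)) (i j k : ℤ)
    (hk : k % 2 = 1 := by omega) (hi : i = k - 2 := by omega) (hj : j = k + 2 := by omega) :
    P.QQ x i j = P.Zv (x k) := by
  have := N6_QQ hn (hx.shift (k - 3)) (N6_sg hx hs _)
  rw [show 3 + (k - 3) = k by omega] at this
  rw [← this]
  ext; rw [QQ_shift, show 1 + (k - 3) = i by omega, show 5 + (k - 3) = j by omega]

theorem N6_nY (hn : P.n = 6) {x : ℤ → V} (hx : P.Line x) (hs : P.Sg (x 1)) {i j k : ℤ} {g s : G}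
    (hg : g ∈ P.QQ x i j) (hs' : s • x k = x k) (hk : k % 2 = 0 := by omega)
    (hi : i = k - 1 := by omega) (hj : j = k + 1 := by omega) : s * g * s⁻¹ ∈ P.QQ x i j := by
  have h : ∀ c, P.adj (x k) c → s * g * s⁻¹ ∈ P.Q c := fun c hc => by
    have := Q_conj s (N6_reg hn (hx.shift (k - 2)) (N6_sg hx hs _) (g := g)
      (QQ_shift.2 (QQ_mono (by omega) (by omega) hg)) (c := x (k + 2)) (hx.adj' (by omega))
      (hx.ne' (by omega)) (QQ_fix hx hg (by omega) (by omega) (by omega)) (c' := s⁻¹ • c)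
      (by rw [show 2 + (k - 2) = k by omega]; exact N6_adj (inv_smul_eq_iff.2 hs'.symm) hc))
    rwa [smul_inv_smul] at this
  intro l l1 l2
  rcases lt_trichotomy l k with c | rfl | c
  · exact h _ (hx.adj_pred (by omega))
  · exact Q_conj' (hg l l1 l2) hs'
  · exact h _ (hx.adj' (by omega))

theorem N6_cj {x : ℤ → V} {c i j i' j' : ℤ} {g m : G} (hm : ∀ k, m • x k = x (c - k))
    (hg : g ∈ P.QQ x i j) (hi : i' = c - j := by omega) (hj : j' = c - i := by omega) :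
    m * g * m⁻¹ ∈ P.QQ x i' j' := fun k k1 k2 => by
  simpa [hm] using Q_conj m (hg (c - k) (by omega) (by omega))

theorem N6_refl (hn : P.n = 6) {x : ℤ → V} (hx : P.Ap x) {m : G} {c : ℤ}
    (h0 : m • x (c - 1) = x (c + 1)) (h1 : m • x c = x c) (h2 : m • x (c + 1) = x (c - 1))
    (h3 : m • x (c + 6) = x (c - 6)) (i : ℤ) : m • x i = x (2 * c - i) :=
  ap_eq (hx.smul m) (hx.rev (2 * c)) (a := c - 1) (fun i i1 i2 => by
    obtain rfl | rfl | h : i = c - 1 ∨ i = c ∨ c + 1 ≤ i := by omega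
    · exact h0.trans (congrArg x (by omega))
    · exact h1.trans (congrArg x (by omega))
    · exact eq_between (hx.smul m).1 (hx.rev (2 * c)).1 (i := c + 1) (j := c + 6) (by omega)
        (h2.trans (congrArg x (by omega))) (h3.trans (congrArg x (by omega))) h (by omega)) i

/-- `C_3` is regular on `Γ(x 0) ∖ x 1` and fixes `x 0..x 6`; `C_{-3}` is regular on
`Γ(x 0) ∖ x (-1)` and fixes `x (-6) = x 6, …, x 0`.  Take `1 ≠ w ∈ C_3` and `u, u' ∈ C_{-3}` with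
`μ = u w u'` swapping `x 1, x (-1)` (`u' x 1 = w⁻¹ x (-1)`, `u w x (-1) = x 1`); then
`μ x i = x (-i)` (`eq_between`), `h = μ²`.  `R x (-3) 3` commutes with `u, w, u'`.
Let `H₊ = QQ x 0 1`, `H₋ = QQ x (-1) 0`, `Y = QQ x (-1) 1` (normalized by `G_{x 0}`, `N6_reg`),
`⁅H₊,H₋⁆ ≤ Y`; `w` centralizes `H₊` mod `Y`, `u, u'` centralize `H₋` mod `Y` (`N6_cent`);
`⁅w, H₋⁆ ≤ H₊`, `⁅u, H₊⁆ ≤ H₋` (`w ∈ Q_1`, `u ∈ Q_{-1}`).  For `g ∈ H₊`, modulo `Y`: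
`u' g u'⁻¹ = g β` (`β ∈ H₋`), `w β w⁻¹ = β α` (`α ∈ H₊`), `μ g μ⁻¹ = u (g α) u⁻¹ β ∈ H₋`, and
`u (gα) u⁻¹ ∈ (gα) H₋`, so `g α ∈ H₋ ⊓ H₊ = Y`, `μ g μ⁻¹ ≡ β`; `μ β μ⁻¹ ≡ u β α u⁻¹ ∈ α H₋` lies
in `H₊`, so `≡ α ≡ g⁻¹`.  For `g' = μ g μ⁻¹ ∈ H₋` conjugate by `μ`. -/
theorem N6_h (hn : P.n = 6) {x : ℤ → V} (hx : P.Ap x) (hs : P.Sg (x 1)) :
    ∃ h : G, (∀ i, h • x i = x i) ∧ (∀ r ∈ P.R x (-3) 3, h * r = r * h) ∧
      (∀ g ∈ P.QQ x 0 1, h * g * h⁻¹ * g ∈ P.K (x (-1))) ∧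
      ∀ g ∈ P.QQ x (-1) 0, h * g * h⁻¹ * g ∈ P.K (x 1) := by
  have hl := hx.1
  have a1 : P.adj (x 0) (x 1) := hl.adj' rfl
  have a2 : P.adj (x 0) (x (-1)) := hl.adj_pred rfl
  have ne : x 1 ≠ x (-1) := hl.ne' rfl
  obtain ⟨y, hy, y0, y2⟩ := P.thick (x 0) (x 1) (x (-1))
  obtain ⟨w, hw, ew⟩ := N6_C_tr hn hl hs _ y a2 hy ne.symm y0
  have hw' := (N6_QZ hn hl hs 1 5 3).ge hw
  have w0 : w • x 0 = x 0 := QQ_fix hl hw' (by omega) (by omega) (by omega)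
  have tr : P.Tr (P.Zv (x (-3))) (x 0) (x (-1)) := N6_C_tr hn (hl.rev 0) (N6_sg hl hs _)
  obtain ⟨u, hu, eu⟩ := tr y _ hy a1 y2 ne
  obtain ⟨u', hu', eu'⟩ := tr _ (w⁻¹ • x (-1)) a1 (N6_adj (inv_smul_eq_iff.2 w0.symm) a2) ne
    fun e => y2 (ew.symm.trans (inv_smul_eq_iff.1 e).symm)
  have f : ∀ {u}, u ∈ P.Zv (x (-3)) → ∀ k, -6 ≤ k → k ≤ 0 → u • x k = x k := fun h k k1 k2 =>
    QQ_fix hl ((N6_QZ hn hl hs (-5) (-1) (-3)).ge h) (by omega) (by omega) (by omega)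
  have p6 : x 6 = x (-6) := hx.per (by omega)
  have hm : ∀ i, (u * w * u') • x i = x (0 - i) := N6_refl hn hx (c := 0)
    (by simp only [mul_smul]; rw [f hu' _ (by omega) (by omega)]; exact ew ▸ eu)
    (by simp only [mul_smul]; rw [f hu' _ (by omega) le_rfl, w0, f hu _ (by omega) le_rfl])
    (by
      change (u * w * u') • x 1 = x (-1)
      rw [mul_smul, mul_smul, eu', smul_inv_smul, f hu _ (by omega) (by omega)])
    (by
      change (u * w * u') • x 6 = x (-6)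
      rw [mul_smul, mul_smul, p6, f hu' _ le_rfl (by omega), ← p6,
        QQ_fix hl hw' (by omega) (by omega) (by omega), p6, f hu _ le_rfl (by omega)])
  have eY : ∀ {g}, g ∈ P.QQ x 0 1 ⊓ P.QQ x (-1) 0 ↔ g ∈ P.QQ x (-1) 1 :=
    ⟨fun h k k1 k2 => (le_total k 0).elim (h.2 k k1) fun k0 => h.1 k k0 k2,
      fun h => ⟨QQ_mono (by omega) le_rfl h, QQ_mono le_rfl (by omega) h⟩⟩
  have c1 : ∀ {u}, u ∈ P.Zv (x (-3)) → ∀ b ∈ P.QQ x (-1) 0, ⁅u, b⁆ ∈ P.QQ x 0 1 ⊓ P.QQ x (-1) 0 :=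
    fun hu b hb => eY.2 (QQ_shift.1 (N6_cent hn (hl.shift (-2)) (N6_sg hl hs _) (QQ_shift.2 hb) hu))
  have c2 : ∀ {u}, u ∈ P.Zv (x (-3)) → ∀ a ∈ P.QQ x 0 1, ⁅a, u⁆ ∈ P.QQ x (-1) 0 :=
    fun hu a ha k k1 k2 => by
      obtain rfl | rfl : k = -1 ∨ k = 0 := by omega
      · exact (comm_Q ((N6_QZ hn hl hs (-5) (-1) (-3)).ge hu _ (by omega) le_rfl)
          (QQ_fix hl ha (by omega) (by omega) (by omega))).1
      · exact (comm_Q (ha _ le_rfl (by omega)) (f hu _ (by omega) le_rfl)).2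
  have key : ∀ g ∈ P.QQ x 0 1, u * w * u' * (u * w * u') * g * (u * w * u' * (u * w * u'))⁻¹ * g ∈
      P.QQ x (-1) 1 := fun g hg => eY.1 (N6_inv (S := MulAction.stabilizer G (x 0))
    (fun s h y hy => eY.2 (N6_nY hn hl hs (eY.1 hy) h)) (f hu _ (by omega) le_rfl) w0
    (f hu' _ (by omega) le_rfl) (hg 0 le_rfl (by omega)).1.1
    (fun b hb a ha => QQ_conj ha fun k k1 k2 => QQ_fix hl hb (by omega) (by omega) (by omega))
    (fun a ha => eY.2 (QQ_rev.1 (N6_cent hn (hl.rev 2) hs (QQ_rev.2 ha) hw)))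
    (fun b hb k k1 k2 => by
      obtain rfl | rfl : k = 0 ∨ k = 1 := by omega
      · exact (comm_Q (hb _ (by omega) le_rfl) w0).2
      · exact (comm_Q (hw' _ le_rfl (by omega)) (QQ_fix hl hb (by omega) (by omega) (by omega))).1)
    (c1 hu) (c2 hu) (c1 hu') (c2 hu') (fun _ h => N6_cj hm h) (fun _ h => N6_cj hm h) hg)
  refine ⟨u * w * u' * (u * w * u'), fun i => by rw [mul_smul, hm, hm]; simp, fun r hr => ?_,
    fun g hg => (key g hg _ le_rfl (by omega)).1, fun g hg => ?_⟩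
  · have c : ∀ {u}, u ∈ P.Zv (x (-3)) → Commute r u := fun h =>
      R_comm_Zv hl hr (by omega) le_rfl (by omega) h
    have := ((c hu).mul_right (R_comm_Zv hl hr (by omega) (by omega) le_rfl hw)).mul_right (c hu')
    exact (this.mul_right this).eq.symm
  · generalize u * w * u' = m at hm key
    have hm' : ∀ i, m⁻¹ • x i = x (0 - i) := fun i => by rw [inv_smul_eq_iff, hm]; simp
    have := N6_cj (i' := -1) (j' := 1) hm (key _ (N6_cj hm' hg))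
    rw [show m * (m * m * (m⁻¹ * g * m⁻¹⁻¹) * (m * m)⁻¹ * (m⁻¹ * g * m⁻¹⁻¹)) * m⁻¹ =
      m * m * g * (m * m)⁻¹ * g by group] at this
    exact (this _ (by omega) le_rfl).1

theorem N6_odd (hp : P.p ≠ 2) {a b c : V} (hab : P.adj a b) {g : G} (hg : g ∈ P.A a b)
    (h : g⁻¹ • c = g • c) : g • c = c := by
  obtain ⟨k, hk⟩ := pow_eq_one_of_A hab hg
  obtain ⟨l, hl⟩ := (P.prime.odd_of_ne_two hp).pow (n := k)
  have h2 : g * g ∈ MulAction.stabilizer G c := by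
    rw [MulAction.mem_stabilizer_iff, mul_smul, ← h, smul_inv_smul]
  have := inv_mem (pow_mem h2 l)
  rwa [← pow_two, ← pow_mul, ← eq_inv_of_mul_eq_one_right ((pow_succ g _).symm.trans (hl ▸ hk))]
    at this

theorem N6_act {H : Subgroup G} {h g : G} {y c : V} (hh : ∀ g ∈ H, h * g * h⁻¹ * g ∈ P.K y)
    (hg : g ∈ H) (gy : g • y = y) (hc : P.adj y c) (hf : h • c = c) : h • g • c = g⁻¹ • c := by
  have := (hh g hg).2 _ (N6_adj (inv_smul_eq_iff.2 gy.symm) hc)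
  rwa [mul_smul, smul_inv_smul, mul_smul, inv_smul_eq_iff.2 hf.symm, mul_smul] at this

/-- `R = R x (-1) 5`, `h` from `N6_h`.  For `r ∈ R`, `k = r h r⁻¹ h⁻¹ ∈ R` fixes `g x 2` for all
`g ∈ H₋` (`h` inverts `H₋` on `Γ(x 1)`, `R` normalizes `H₋`), and `H₋` is transitive on
`Γ(x 1) ∖ x 0` (`N6_tr`); so `k ∈ Q_1`, `k ∈ QQ x 0 4` (`N6_RQ`, `E1_Q`).  `h` fixes only `x 0`,
`x (-2)` in `Γ(x (-1))` (`h g x (-2) = g⁻¹ x (-2)`, `g ∈ H₊`; `g² ∈ K` by `N6_reg`, `p` odd).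
For `c ∈ Γ(x (-1)) ∖ x 0` choose `r_c ∈ R` with `r_c x (-2) = c` (`R_tr'`); `c ↦ k_c` is
injective (`r_{c'}⁻¹ r_c` commutes with `h`).  `card_le_sz`, `QQ_eq_one`. -/
theorem N6_X (hn : P.n = 6) (hp : P.p ≠ 2) {x : ℤ → V} (hx : P.Line x) (hs : P.Sg (x 1)) :
    P.Tr (P.QQ x 0 4) (x (-1)) (x 0) := by
  wlog ha : P.Ap x generalizing x
  · obtain ⟨y, hy, e⟩ := exists_ap hx (-2)
    have := this hy.1 (by rwa [e _ (by omega) (by omega)]) hy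
    rw [e _ (by omega) (by omega), e _ (by omega) (by omega)] at this
    exact this.mono fun g hg k k1 k2 => e k (by omega) (by omega) ▸ hg k k1 k2
  obtain ⟨h, hf, -, h1, h2⟩ := N6_h hn ha hs
  have a1 : P.adj (x (-1)) (x 0) := hx.adj' rfl
  have a2 : P.adj (x (-1)) (x (-2)) := hx.adj_pred rfl
  have a3 : P.adj (x 1) (x 2) := hx.adj' rfl
  have ne : x (-2) ≠ x 0 := (hx.ne' rfl).symm
  have hk : ∀ r ∈ P.R x (-1) 5, ⁅r, h⁆ ∈ P.QQ x 0 4 := fun r hr => by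
    have k1 : ⁅r, h⁆ ∈ P.R x (-1) 5 := (comm_mem hr (R_conj hr (by omega) fun k _ _ => hf k)).2
    have k2 : ⁅r, h⁆ ∈ P.Q (x 1) := R_Q hx k1 (by omega) (by omega) (by omega)
      ⟨k1.2 _ (by omega) (by omega), fun c hc => by
        by_cases c0 : c = x 0
        · rw [c0]; exact k1.2 _ (by omega) (by omega)
        have tr := N6_tr hn (hx.shift (-2)) (N6_sg hx hs _)
        norm_num at tr
        obtain ⟨g, hg, rfl⟩ := tr (x 2) c a3 hc (hx.ne' rfl) c0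
        have hg : g ∈ P.QQ x (-1) 0 := QQ_mono (by omega) (by omega) (QQ_shift.1 hg)
        have r2 : r • x 2 = x 2 := hr.2 _ (by omega) (by omega)
        have hg' : r⁻¹ * g * r⁻¹⁻¹ ∈ P.QQ x (-1) 0 :=
          QQ_conj hg fun k k1 k2 => (inv_mem hr).2 k k1 (by omega)
        have e1 := N6_act h2 (inv_mem hg) (QQ_fix hx (inv_mem hg) (by omega) (by omega) (by omega))
          a3 (hf 2)
        have e2 := N6_act h2 (inv_mem hg') (QQ_fix hx (inv_mem hg') (by omega) (by omega) (by omega))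
          a3 (hf 2)
        simp only [inv_inv, mul_inv_rev, mul_smul, r2] at e1 e2
        simp only [commutatorElement_def, mul_smul]
        rw [inv_smul_eq_iff.2 e1.symm, e2, smul_inv_smul]⟩
    intro k k3 k4
    obtain rfl | rfl | c : k = 1 ∨ k = 3 ∨ k % 2 = 0 := by omega
    · exact k2
    · exact N6_RQ hn hx hs k1 k2 (hx.adj' rfl)
    · exact E1_Q hx ((N6_E_even hn hx hs).of_ty (ty_even hx (by omega)).symm) k1 (by omega) (by omega)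
  have fx : ∀ c, P.adj (x (-1)) c → c ≠ x 0 → h • c = c → c = x (-2) := fun c hc c0 e => by
    obtain ⟨g, hg, rfl⟩ := N6_tr hn (hx.rev 2) hs (x (-2)) c a2 hc ne c0
    have hg : g ∈ P.QQ x 0 1 := QQ_mono le_rfl (by omega) (QQ_rev.1 hg)
    exact N6_odd hp a1 (QQ_A hx hg (k := -1) (by omega) (by omega) (by omega))
      ((N6_act h1 hg (QQ_fix hx hg (by omega) (by omega) (by omega)) a2 (hf _)).symm.trans e)
  choose r hr er using fun c : {z | P.adj (x (-1)) z ∧ z ≠ x 0} =>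
    R_tr' hx (i := -1) (j := 5) (by omega) (by omega) (x (-2)) c a2 c.2.1 ne c.2.2
  refine (card_le_sz a1 a2 ne (fun g hg => ⟨QQ_fix hx hg (by omega) (by omega) (by omega),
    QQ_fix hx hg (by omega) (by omega) (by omega)⟩) fun g hg e =>
      QQ_eq_one hx hg (by omega) a2 ne e).2 ?_
  rw [sz_eq a1, ← Nat.card_coe_set_eq]
  refine Nat.card_le_card_of_injective (fun c => (⟨⁅r c, h⁆, hk _ (hr c)⟩ : P.QQ x 0 4))
    fun c c' e => Subtype.ext ?_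
  have e : ⁅r c, h⁆ = ⁅r c', h⁆ := Subtype.mk.inj e
  have m := mul_mem (inv_mem (hr c')) (hr c)
  have e2 : h * ((r c')⁻¹ * r c) = (r c')⁻¹ * r c * h := by
    calc _ = (r c')⁻¹ * ⁅r c', h⁆ * h * r c := by rw [commutatorElement_def]; group
      _ = _ := by rw [← e, commutatorElement_def]; group
  have := fx _ (N6_adj (m.2 _ le_rfl (by omega)) a2) (N6_ne hx (m.2 _ (by omega) (by omega)))
    (by rw [← mul_smul, e2, mul_smul, hf])
  rw [← er c, ← er c', ← inv_smul_eq_iff, ← mul_smul, this]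

/-- `U₁ = QQ x 2 6` is regular on `Γ(x 1) ∖ x 2`, `U₇ = QQ x (-4) 0` on `Γ(x 1) ∖ x 0`; both fix
`x 1`, `x 7 = x (-5)`.  For `1 ≠ w ∈ U₁` there are unique `v, v' ∈ U₇` with `m = v w v'` swapping
`x 0, x 2`, and then `m x i = x (2 - i)`; same with the roles of `U₁, U₇` exchanged.  `h` (`N6_h`)
inverts `U₇` (`h v h⁻¹ v ∈ U₇ ⊓ K (x 1) = 1`), so `h² ∈ K (x 1)` and `h` fixes only `x 0, x 2` in
`Γ(x 1)`; `U₁` is abelian (`N6_ab`), conjugation by `h` is a fixed point free involution on `U₁`,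
so inverts it.  `h m h⁻¹ = v⁻¹ w⁻¹ v'⁻¹` and `m⁻¹ = v'⁻¹ w⁻¹ v⁻¹` ⇒ `v = v'`.  Finally
`m = (m v m⁻¹) v w = w v (m⁻¹ v m)` with `m v m⁻¹, m⁻¹ v m ∈ U₁`, uniqueness ⇒ `m v m⁻¹ = w`. -/
theorem N6_mu (hn : P.n = 6) (hp : P.p ≠ 2) {x : ℤ → V} (hx : P.Ap x) (hs : P.Sg (x 1)) {w : G}
    (hw : w ∈ P.QQ x 2 6) (h1 : w ≠ 1) : ∃ v ∈ P.QQ x (-4) 0,
      (∀ i, (v * w * v) • x i = x (2 - i)) ∧ v * w * v * v = w * (v * w * v) := by
  have hl := hx.1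
  obtain ⟨h, hf, -, -, h2⟩ := N6_h hn hx hs
  have a0 : P.adj (x 1) (x 0) := hl.adj_pred rfl
  have a2 : P.adj (x 1) (x 2) := hl.adj' rfl
  have ne : x 2 ≠ x 0 := hl.ne' rfl
  have tr : P.Tr (P.QQ x (-4) 0) (x 1) (x 0) :=
    (N6_X hn hp (hl.rev 0) (N6_sg hl hs _)).mono fun _ h => QQ_rev.1 h
  have f1 : ∀ {g}, g ∈ P.QQ x 2 6 → ∀ k, 1 ≤ k → k ≤ 7 → g • x k = x k := fun h k k1 k2 =>
    QQ_fix hl h (by omega) (by omega) (by omega)
  have f7 : ∀ {g}, g ∈ P.QQ x (-4) 0 → ∀ k, -5 ≤ k → k ≤ 1 → g • x k = x k := fun h k k1 k2 =>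
    QQ_fix hl h (by omega) (by omega) (by omega)
  have r1 : ∀ {g c}, g ∈ P.QQ x 2 6 → P.adj (x 1) c → c ≠ x 2 → g • c = c → g = 1 :=
    fun h => QQ_eq_one hl h (by omega)
  have r7 : ∀ {g c}, g ∈ P.QQ x (-4) 0 → P.adj (x 1) c → c ≠ x 0 → g • c = c → g = 1 :=
    fun h => QQ_eq_one' hl h (by omega)
  have h2' : ∀ g ∈ P.QQ x (-4) 0, h * g * h⁻¹ * g ∈ P.K (x 1) := fun g hg =>
    h2 g (QQ_mono (by omega) le_rfl hg)
  have act : ∀ {g}, g ∈ P.QQ x (-4) 0 → h • g • x 2 = g⁻¹ • x 2 := fun hg =>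
    N6_act h2' hg (f7 hg _ (by omega) le_rfl) a2 (hf 2)
  have i7 : ∀ {g}, g ∈ P.QQ x (-4) 0 → h * g * h⁻¹ = g⁻¹ := fun hg => eq_inv_of_mul_eq_one_left
    (r7 (mul_mem (QQ_conj hg fun k _ _ => hf k) hg) a2 ne ((h2' _ hg).2 _ a2))
  have w1 := f1 hw 1 le_rfl (by omega)
  have i1 : h * w * h⁻¹ = w⁻¹ := by
    have hw' : h * w * h⁻¹ ∈ P.QQ x 2 6 := QQ_conj hw fun k _ _ => hf k
    have hh : ∀ c, P.adj (x 1) c → h • h • c = c := fun c hc => by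
      by_cases c0 : c = x 0
      · rw [c0, hf, hf]
      obtain ⟨g, hg, rfl⟩ := tr _ c a2 hc ne c0
      rw [act hg, act (inv_mem hg), inv_inv]
    have e1 : w⁻¹ * (h * (h * w * h⁻¹) * h⁻¹) = 1 :=
      r1 (mul_mem (inv_mem hw) (QQ_conj hw' fun k _ _ => hf k)) a0 ne.symm (by
        simp only [mul_smul, inv_smul_eq_iff.2 (hf 0).symm]
        rw [hh _ (N6_adj w1 a0), inv_smul_smul])
    have e2 : ⁅w, h * w * h⁻¹⁆ = 1 := r1 (comm_mem hw' (by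
      exact mul_mem (mul_mem hw hw') (inv_mem hw))).1 a0 ne.symm ((N6_ab hn (hl.rev 4)
        (N6_sg hl hs _) (QQ_rev.2 (QQ_mono le_rfl (by omega) hw))
        (QQ_rev.2 (QQ_mono le_rfl (by omega) hw'))).2 _ a0)
    have m := mul_mem hw hw'
    refine eq_inv_of_mul_eq_one_right (r1 m a0 ne.symm ?_)
    by_contra c0
    obtain ⟨g, hg, e⟩ := tr _ _ a2 (N6_adj (f1 m 1 le_rfl (by omega)) a0) ne c0
    refine N6_ne hl (f1 m 2 (by omega) (by omega)) (i := 0) (by omega) (e.symm.trans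
      (N6_odd hp a0 (P.A_symm _ _ ▸ QQ_A hl hg (k := 0) (by omega) (by omega) le_rfl) ?_))
    have e3 : h * (w * (h * w * h⁻¹)) = w * (h * w * h⁻¹) * h := by
      calc _ = h * (h * w * h⁻¹) * h⁻¹ * (h * w * h⁻¹) * h := by
            rw [(commutatorElement_eq_one_iff_commute.1 e2).eq]; group
        _ = _ := by rw [← inv_mul_eq_one.1 e1]
    rw [← act hg, e, ← mul_smul, e3, mul_smul, hf]
  have n0 : ∀ {g}, g ∈ P.QQ x 2 6 → g ≠ 1 → g • x 0 ≠ x 0 := fun hg g1 e => g1 (r1 hg a0 ne.symm e)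
  obtain ⟨v, hv, ev⟩ := tr _ _ (N6_adj w1 a0) a2 (n0 hw h1) ne
  have ev' : v • x 2 = w⁻¹ • x 0 := by
    rw [← inv_smul_eq_iff.1 (show v⁻¹ • w⁻¹ • x 0 = x 2 from ?_)]
    rw [← i1, ← i7 hv]
    simp only [mul_smul, inv_smul_smul, inv_smul_eq_iff.2 (hf 0).symm, ev, hf]
  have hm : ∀ i, (v * w * v) • x i = x (2 - i) := N6_refl hn hx (c := 1)
    (by
      change (v * w * v) • x 0 = x 2
      rw [mul_smul, mul_smul, f7 hv _ (by omega) (by omega), ev])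
    (by rw [mul_smul, mul_smul, f7 hv _ (by omega) le_rfl, w1, f7 hv _ (by omega) le_rfl])
    (by
      change (v * w * v) • x 2 = x 0
      rw [mul_smul, mul_smul, ev', smul_inv_smul, f7 hv _ (by omega) (by omega)])
    (by
      change (v * w * v) • x 7 = x (-5)
      have p : x 7 = x (-5) := hx.per (by omega)
      rw [mul_smul, mul_smul, p, f7 hv _ le_rfl (by omega), ← p, f1 hw _ (by omega) le_rfl, p,
        f7 hv _ le_rfl (by omega)])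
  refine ⟨v, hv, hm, mul_inv_eq_iff_eq_mul.1 (inv_mul_eq_one.1 (r1 (c := v • x 2)
    (mul_mem (inv_mem hw) (N6_cj hm hv)) (N6_adj (f7 hv _ (by omega) le_rfl) a2) ?_ ?_)).symm⟩
  · rw [ev']; exact N6_ne hl (f1 (inv_mem hw) _ (by omega) (by omega))
  · rw [← mul_smul, show w⁻¹ * (v * w * v * v * (v * w * v)⁻¹) * v = w⁻¹ * (v * w * v) * w⁻¹ by group,
      mul_smul, f1 (inv_mem hw) _ (by omega) (by omega), mul_smul, hm, ev']
    rfl

end SP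

end Cfsg.Agent.BN2
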