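import Cfsg.Agent.BN2.Lin

/-!
# BN2/N8a: octagons, `σ` = even vertices: basic structure (~300 lines)

`n = 8`, `m = 4`, `x` a line with `Sg (x 0)` (so `Sg (x i)` for all even `i`).
`Z_y = Zv y ≤ Ball 4 y` (`Zv_ball`), `Z_i = Zv (x i) ≠ 1` (`exists_Z`, `Z_eq_Zv`); nontrivial
elements move every vertex at distance 5 (`C_eq_one`); `Z_y, Z_{y'}` commute if `d(y,y') ≤ 4`
(`C_comm`).  `V_1 = Vv (x 1) ≤ Q (x 1) ⊓ Ball 3 (x 1)`, `W_2 = Wv (x 2)`.  All statements can be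
applied to the lines `fun i => x (i + 2k)`, `fun i => x (2k - i)`.
-/

set_option autoImplicit false

open scoped commutatorElement

namespace Cfsg.Agent.BN2

namespace Pol

variable {G V : Type*} [Group G] [MulAction G V] {P : Pol G V}

/-- the elements acting on `Γ(y)` like an element of `Z` -/
def imgK (P : Pol G V) (Z : Subgroup G) (y : V) (f : ∀ z ∈ Z, z • y = y) : Subgroup G where
  carrier := {w | ∃ z ∈ Z, z⁻¹ * w ∈ P.K y}
  one_mem' := ⟨1, one_mem _, by simp⟩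
  mul_mem' := fun ⟨z, hz, k⟩ ⟨y, hy, l⟩ => ⟨z * y, mul_mem hz hy, by
    simpa [mul_assoc] using mul_mem (K_conj' k (f _ (inv_mem hy))) l⟩
  inv_mem' := fun ⟨z, hz, k⟩ => ⟨z⁻¹, inv_mem hz, by
    simpa [mul_assoc] using K_conj' (inv_mem k) (f _ hz)⟩

theorem K_imgK {Z : Subgroup G} {y : V} {f : ∀ z ∈ Z, z • y = y} {w : G} (h : w ∈ P.K y) :
    w ∈ P.imgK Z y f := ⟨1, one_mem _, by simpa using h⟩

theorem Wv_ind {y : V} {H : Subgroup G} (h : ∀ l c, P.adj y l → P.adj l c → P.Zv c ≤ H) :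
    P.Wv y ≤ H := Wv_le fun l hl => Vv_le fun c hc => h l c hl hc

theorem N8_m (hn : P.n = 8) : P.m = 4 := by simp [m, hn]

theorem N8_Z (hn : P.n = 8) {y : V} (hs : P.Sg y) {z : G} (hz : z ∈ P.Zv y) : z ∈ P.Ball 4 y :=
  N8_m hn ▸ Zv_ball hs hz

theorem N8_Vb (hn : P.n = 8) {y : V} {z : G} (hz : z ∈ P.Vv y) : z ∈ P.Ball 3 y := by
  simpa [N8_m hn] using Vv_ball y hz

theorem Sg.even {x : ℤ → V} (hs : P.Sg (x 0)) (hx : P.Line x) {i : ℤ} (hi : i % 2 = 0) :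
    P.Sg (x i) := hs.of_ty (ty_even hx (by omega)).symm

theorem N8_one (hn : P.n = 8) {p : ℤ → V} (hp : P.Line p) {u : G} {c j : ℤ}
    (h : u ∈ P.Ball 4 (p c)) (hj : j = c + 5 ∨ j = c - 5) (hf : u • p j = p j) : u = 1 :=
  have hm := N8_m hn
  C_eq_one (by omega) hp (hm ▸ h) (by omega) hf

theorem Zv_Wv {x : ℤ → V} (hx : P.Line x) {i j : ℤ} (h : j = i - 2 ∨ j = i ∨ j = i + 2) :
    P.Zv (x j) ≤ P.Wv (x i) := by
  rcases h with rfl | rfl | rfl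
  · exact (Zv_le_Vv (hx.adj_pred (i := i - 1) (by ring))).trans (Vv_le_Wv (hx.adj_pred (by ring)))
  · exact (Zv_le_Vv (hx.adj_pred (i := j + 1) rfl)).trans (Vv_le_Wv (hx.1 j))
  · exact (Zv_le_Vv (hx.adj' (i := i + 1) (by ring))).trans (Vv_le_Wv (hx.1 i))

theorem N8_ne (hn : P.n = 8) {x : ℤ → V} (hx : P.Line x) (hs : P.Sg (x 0)) {u w : G}
    (hu : u ∈ P.Zv (x 0)) (hw : w ∈ P.Zv (x 6)) (u1 : u ≠ 1) (w1 : w ≠ 1) : ⁅u, w⁆ ∉ P.K (x 0) := by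
  intro k
  have bu := N8_Z hn hs hu
  have bw := N8_Z hn (hs.even hx (by omega)) hw
  obtain ⟨r, hr, r1, r2⟩ := exists_fold hx (k := 2) (g := w) (Ball_fix hx bw (by omega) (by omega))
    fun e => w1 (N8_one hn hx bw (.inr (by omega)) e)
  have h1 : w * u⁻¹ * w⁻¹ ∈ P.K (x 0) := by
    simpa [commutatorElement_def, mul_assoc] using mul_mem (inv_mem (Ball_K' bu (by omega))) k
  have h2 := N8_one hn hr (u := w * u⁻¹ * w⁻¹) (c := 4) (j := -1)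
    (by rw [r2 4 (by omega)]; exact Ball_conj w (inv_mem bu)) (.inr (by omega))
    (by rw [r1 _ (by omega)]; exact K_fix hx h1 (by omega) (by omega))
  exact u1 (by simpa using h2)

theorem N8_cW (hn : P.n = 8) {x : ℤ → V} (hx : P.Line x) (hs : P.Sg (x 0)) {u w : G}
    (hu : u ∈ P.Zv (x 0)) (hw : w ∈ P.Zv (x 6)) : ⁅u, w⁆ ∈ P.Wv (x 2) ∧ ⁅u, w⁆ ∈ P.Wv (x 4) :=
  ⟨(comm_Wv (Zv_Wv hx (by omega) hu)
      (Ball_fix hx (N8_Z hn (hs.even hx (by omega)) hw) (by omega) (by omega))).2,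
    (comm_Wv (Zv_Wv hx (by omega) hw) (Ball_fix hx (N8_Z hn hs hu) (by omega) (by omega))).1⟩

end Pol

namespace SP

open Pol

variable {G V : Type*} [Group G] [MulAction G V] [Finite G] [Finite V] {P : SP G V}

/-- generators `Zv y`, `y ≠ x 2`: `Zv_img` at `x 4` (`j = 4`); `Z_2 ≤ K (x 4)`. -/
theorem N8_img (hn : P.n = 8) {x : ℤ → V} (hx : P.Line x) (hs : P.Sg (x 0)) {w : G}
    (hw : w ∈ P.Vv (x 1)) : ∃ z ∈ P.Zv (x 0), z⁻¹ * w ∈ P.K (x 4) := by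
  refine Vv_le (H := P.imgK _ _ fun z hz => Ball_fix hx (N8_Z hn hs hz) (by omega) (by omega))
    (fun c hc z hz => ?_) hw
  by_cases e : c = x 2
  · exact K_imgK (Ball_K hx (c := 2) (N8_Z hn (hs.even hx (by omega)) (e ▸ hz)) (by omega) (by omega))
  obtain ⟨r, hr, r1, rfl⟩ := exists_turn (hx.rev 4) (k := 3) hc e
  have := Zv_img hr (hx.rev 4) (r1 _ (by omega)) (r1 _ (by omega)) (j := 3 + 1) (by omega) (by omega) hz
  rw [r1 _ (by omega)] at this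
  exact this (Ball_fix hx (c := 1) (N8_Vb hn (Zv_le_Vv hc hz)) (by omega) (by omega))

/-- `Q (x 1)` centralizes `w` and is transitive on paths of length 3 from `x 1` through `x 2`. -/
theorem N8_U (hn : P.n = 8) {x : ℤ → V} (hx : P.Line x) (hs : P.Sg (x 0)) {w : G}
    (hw : w ∈ P.Vv (x 1)) (h4 : w ∈ P.K (x 4)) : w ∈ P.Ball 3 (x 2) := by
  intro q hq h0 i hi hi'
  by_cases e : x 1 = q 1
  · exact Ball_fix hq (c := 1) (e ▸ N8_Vb hn hw) (by omega) (by omega)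
  rcases hi.eq_or_lt with rfl | hi
  · exact h0 ▸ Ball_fix hx (N8_Vb hn hw) (by omega) (by omega)
  obtain ⟨r, hr, r1, r2⟩ := exists_turn' hq (k := 0) (z := x 1) (h0 ▸ hx.adj_pred rfl) e
  obtain ⟨g, hg, k⟩ := T_trans (hx.shift 1) (hr.shift (-1)) (by simpa using r2.symm)
    (by simpa using h0.symm.trans (r1 0 le_rfl).symm) (j := 3) (by omega)
  have h1 : g • x 4 = q 2 := (k 3 (by omega) le_rfl).trans (r1 2 (by omega))
  have h2 := K_conj g h4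
  rw [h1, Vv_comm hw hg, mul_inv_cancel_right] at h2
  exact K_fix hq h2 (by omega) (by omega)

/-- `w` fixes `x 5`, so in `N8_img` `z = 1`; `w ≡ z₂ ∈ Z_2` mod `K (x (-2))` (`N8_img` for
`i ↦ 2 - i`), and `z₂⁻¹ w` fixes `x (-3)..x 6`, `eq_one`. -/
theorem N8_V6 (hn : P.n = 8) {x : ℤ → V} (hx : P.Line x) (hs : P.Sg (x 0)) {w : G}
    (hw : w ∈ P.Vv (x 1)) (h6 : w • x 6 = x 6) : w ∈ P.Zv (x 2) := by
  obtain ⟨z, hz, k⟩ := N8_img hn (hx.rev 2) (hs.even hx (i := 2) (by omega)) hw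
  have h1 := N8_Vb hn (mul_mem (inv_mem (Zv_le_Vv (hx.1 1) hz)) hw)
  have h2 : (z⁻¹ * w) • x 6 = x 6 := by
    rw [mul_smul, h6]
    exact Ball_fix hx (c := 2) (N8_Z hn (hs.even hx (by omega)) (inv_mem hz)) (by omega) (by omega)
  have := eq_one hx (g := z⁻¹ * w) (a := -3) (k := 1) (fun i a b => by
    by_cases e : i = -3
    · exact K_fix hx k (by omega) (by omega)
    · exact fix_between hx (i := -1) (j := 6) (by omega) (Ball_fix hx h1 (by omega) (by omega)) h2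
        |> fun f => if c : -1 ≤ i then f c (by omega) else Ball_fix hx h1 (by omega) (by omega))
    (by omega) (by omega) (Ball_K hx h1 (by omega) (by omega)) (Ball_K hx h1 (by omega) (by omega))
  exact inv_mul_eq_one.1 this ▸ hz

theorem N8_W_ball (hn : P.n = 8) {y : V} {w : G} (hw : w ∈ P.Wv y) :
    w ∈ P.Ball 2 y ∧ w ∈ P.Q y := by
  refine Wv_le (H := P.Ball 2 y ⊓ P.Q y) (fun l hl v hv => ?_) hw
  obtain ⟨p, hp, rfl, rfl⟩ := exists_line_edge hl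
  have h1 : v ∈ P.Ball 2 (p 0) := Ball_move hp (N8_Vb hn hv) (by omega) (by omega)
  exact ⟨h1, mem_Q_of hl (P.A_symm _ _ ▸ Q_le_A (P.adj_symm hl) (Vv_le_Q _ hv)) (Ball_K' h1 (by omega))⟩

theorem N8_W_comm (hn : P.n = 8) {y : V} (hs : P.Sg y) {u w : G} (hu : u ∈ P.Wv y)
    (hw : w ∈ P.Wv y) : u * w = w * u := by
  have mc := fun {a b : G} => Subgroup.mem_centralizer_singleton_iff (g := a) (k := b)
  refine mc.1 (Wv_ind (fun l c hl hc u hu => mc.2 (mc.1 (Wv_ind (H := Subgroup.centralizer {u})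
    (fun l' c' hl' hc' w hw => mc.2 ?_) hw)).symm) hu)
  have hu' := (N8_W_ball hn (Vv_le_Wv hl (Zv_le_Vv hc hu))).2
  have hw' := (N8_W_ball hn (Vv_le_Wv hl' (Zv_le_Vv hc' hw))).2
  by_cases e : c = y
  · exact Zv_comm (e ▸ hu) hl (Q_le_A hl hw')
  by_cases e' : c' = y
  · exact (Zv_comm (e' ▸ hw) hl (Q_le_A hl hu')).symm
  by_cases el : l = l'
  · exact Vv_comm_Vv (Zv_le_Vv hc' hw) (Zv_le_Vv (el ▸ hc) hu)
  obtain ⟨p, hp, rfl, rfl, rfl⟩ := exists_line_two hl hl' el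
  obtain ⟨q, hq, q1, rfl⟩ := exists_turn hp (k := 1) hc' e'
  obtain ⟨r, hr, r1, rfl⟩ := exists_turn' hq (k := -1) (z := c) (by rwa [q1 _ (by omega)])
    (by rwa [q1 _ (by omega)])
  have hm := N8_m hn
  have hs' : P.Sg (r 0) := by rwa [r1 _ (by omega), q1 _ (by omega)]
  rw [← r1 _ (by omega)] at hw
  exact (C_comm (by omega) hr (Zv_ball (hs'.even hr (by omega)) hu)
    (Zv_ball (hs'.even hr (by omega)) hw) (by omega) (by omega)).symm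

/-- `Vv (x 1) ≤ K (x 0)`; for `l ≠ x 1` adjacent to `x 2`, generators `Z_2 ≤ K (x 0)` and `Zv c`
at distance 4 from `x 0` (`Zv_img`, `j = 4`). -/
theorem N8_W_img (hn : P.n = 8) {x : ℤ → V} (hx : P.Line x) (hs : P.Sg (x 0)) {w : G}
    (hw : w ∈ P.Wv (x 2)) : ∃ z ∈ P.Zv (x 4), z⁻¹ * w ∈ P.K (x 0) := by
  refine Wv_ind (H := P.imgK _ _ fun z hz => Ball_fix hx (c := 4)
    (N8_Z hn (hs.even hx (by omega)) hz) (by omega) (by omega)) (fun l c hl hc z hz => ?_) hw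
  by_cases e : l = x 1
  · exact K_imgK (Ball_K hx (c := 1) (N8_Vb hn (e ▸ Zv_le_Vv hc hz)) (by omega) (by omega))
  by_cases e' : c = x 2
  · exact K_imgK (Ball_K hx (c := 2) (N8_Z hn (hs.even hx (by omega)) (e' ▸ hz)) (by omega) (by omega))
  obtain ⟨q, hq, q1, rfl⟩ := exists_turn hx (k := 2) hl e
  obtain ⟨r, hr, r1, rfl⟩ := exists_turn hq (k := 2 + 1) hc (by rwa [q1 _ (by omega)])
  have r0 : r 0 = x 0 := (r1 _ (by omega)).trans (q1 _ (by omega))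
  have := Zv_img hr hx r0 ((r1 _ (by omega)).trans (q1 _ (by omega))) (j := 4) (by omega) (by omega) hz
    (Ball_fix hr (N8_Z hn (Sg.even (r0 ▸ hs) hr (by omega)) hz) (by omega) (by omega))
  rwa [r0] at this

/-- The `w ∈ W_4` with this property form a subgroup.  `h` centralizes `Vv (x 3)` and `Z_4`; for
`w ∈ Zv c`, `c ~ l ~ x 4`, `l ≠ x 3`, `c ≠ x 4`: `⁅h,w⁆ ∈ Vv l ⊓ K (x 2)`, apply `N8_U` to the
line `c, l, x 4, x 3, x 2`. -/
theorem N8_L90 (hn : P.n = 8) {x : ℤ → V} (hx : P.Line x) (hs : P.Sg (x 0)) {h w : G}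
    (hh : h ∈ P.QQ x 2 4) (hw : w ∈ P.Wv (x 4)) : ⁅h, w⁆ ∈ P.Ball 3 (x 4) := by
  let H : Subgroup G :=
    { carrier := {w | w • x 4 = x 4 ∧ ⁅h, w⁆ ∈ P.Ball 3 (x 4)}
      one_mem' := ⟨one_smul _ _, by simp⟩
      mul_mem' := fun {a b} ha hb => ⟨by rw [mul_smul, hb.1, ha.1], by
        simpa [commutatorElement_def, mul_assoc] using mul_mem ha.2 (Ball_conj' hb.2 ha.1)⟩
      inv_mem' := fun {a} ha => ⟨inv_smul_eq_iff.2 ha.1.symm, by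
        simpa [commutatorElement_def, mul_assoc] using
          Ball_conj' (inv_mem ha.2) (inv_smul_eq_iff.2 ha.1.symm)⟩ }
  refine (Wv_ind (H := H) (fun l c hl hc z hz =>
    ⟨(N8_W_ball hn (Vv_le_Wv hl (Zv_le_Vv hc hz))).2.1.1, ?_⟩) hw).2
  have h4 := hh 4 (by omega) le_rfl
  by_cases e : l = x 3
  · rw [commutatorElement_eq_one_iff_mul_comm.2
      (Vv_comm (e ▸ Zv_le_Vv hc hz) (hh 3 (by omega) (by omega)))]
    exact one_mem _
  by_cases e' : c = x 4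
  · rw [commutatorElement_eq_one_iff_mul_comm.2 (Zv_comm (e' ▸ hz) hl (Q_le_A hl h4))]
    exact one_mem _
  obtain ⟨q, hq, q1, rfl⟩ := exists_turn' (hx.rev 6) (k := 2) hl e
  obtain ⟨r, hr, r1, r2⟩ := exists_turn' hq (k := 2 - 1) hc (by rwa [q1 _ (by omega)])
  have e2 : r 2 = x 4 := (r1 _ (by omega)).trans (q1 _ (by omega))
  have e4 : r 4 = x 2 := (r1 _ (by omega)).trans (q1 _ (by omega))
  have hs' : P.Sg (r 0) := (hs.even hx (i := 4) (by omega)).of_ty (e2 ▸ ty_even hr (by omega))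
  rw [← r2] at hz
  rw [← e2]
  refine N8_U hn hr hs' ?_ ?_
  · rw [r1 1 (by omega)]
    exact (comm_Vv (Zv_le_Vv hc (r2 ▸ hz)) (h4.1.2 _ hl)).1
  · rw [e4]
    exact (comm_K (hh 2 le_rfl (by omega)).1
      (e4 ▸ Ball_fix hr (c := 0) (N8_Z hn hs' hz) (by omega) (by omega))).2

/-- `k = ⁅u,w⁆ ∈ W_2 ⊓ W_4` (`comm_Wv`), so `k ∈ QQ x 1 5`; `ζ4` from `N8_W_img`, `ζ2` from its
mirror image; `Z_2 ≤ QQ x (-1) 5`, `Z_4 ≤ QQ x 1 7`.  `ζ4 ≠ 1`: `k ≡ w u⁻¹ w⁻¹` mod `K (x 0)`, a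
central elation with centre `w x 0` at distance 4 from `x 0` (`w` moves `x 1`, `exists_fold`). -/
theorem N8_comm (hn : P.n = 8) {x : ℤ → V} (hx : P.Line x) (hs : P.Sg (x 0)) {u w : G}
    (hu : u ∈ P.Zv (x 0)) (hw : w ∈ P.Zv (x 6)) :
    ∃ ζ2 ∈ P.Zv (x 2), ∃ ξ ∈ P.QQ x 0 6, ∃ ζ4 ∈ P.Zv (x 4), ξ ∈ P.Wv (x 2) ∧ ξ ∈ P.Wv (x 4) ∧
      ⁅u, w⁆ = ζ2 * ξ * ζ4 ∧ (u ≠ 1 → w ≠ 1 → ζ2 ≠ 1 ∧ ζ4 ≠ 1) := by
  obtain ⟨k2, k4⟩ := N8_cW hn hx hs hu hw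
  have s2 := hs.even hx (i := 2) (by omega)
  have s4 := hs.even hx (i := 4) (by omega)
  have s6 := hs.even hx (i := 6) (by omega)
  obtain ⟨b, hb, eb⟩ := N8_W_img hn hx hs k2
  obtain ⟨a, ha, ea⟩ := N8_W_img hn (hx.rev 6) s6 k4
  have x2 := mul_mem (mul_mem (inv_mem (Zv_Wv hx (i := 2) (j := 2) (by omega) ha)) k2)
    (inv_mem (Zv_Wv hx (by omega) hb))
  have x4 := mul_mem (mul_mem (inv_mem (Zv_Wv hx (i := 4) (j := 2) (by omega) ha)) k4)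
    (inv_mem (Zv_Wv hx (by omega) hb))
  refine ⟨a, ha, _, mem_QQ_of hx (N8_W_ball hn x2).2 (by omega) (by omega) fun i i1 i2 => ?_, b, hb,
    x2, x4, by group, fun u1 w1 => ⟨fun e => ?_, fun e => ?_⟩⟩
  · rcases (by omega : i = 0 ∨ i = 6 ∨ (1 ≤ i ∧ i ≤ 3) ∨ (3 ≤ i ∧ i ≤ 5)) with rfl | rfl | c | c
    · rw [mul_assoc, N8_W_comm hn s2 k2 (inv_mem (Zv_Wv hx (by omega) hb))]
      exact mul_mem (inv_mem (Ball_K hx (c := 2) (N8_Z hn s2 ha) (by omega) (by omega))) eb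
    · exact mul_mem ea (inv_mem (Ball_K hx (N8_Z hn s4 hb) (by omega) (by omega)))
    · exact Ball_K hx (N8_W_ball hn x2).1 (by omega) (by omega)
    · exact Ball_K hx (N8_W_ball hn x4).1 (by omega) (by omega)
  · exact N8_ne hn (hx.rev 6) s6 hw hu w1 u1 (by simpa [e] using inv_mem ea)
  · exact N8_ne hn hx hs hu hw u1 w1 (by simpa [e] using eb)

/-- look at the action on `Γ(x 0)` and `Γ(x 6)` -/
theorem N8_uniq (hn : P.n = 8) {x : ℤ → V} (hx : P.Line x) (hs : P.Sg (x 0)) {a a' ξ ξ' b b' : G}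
    (ha : a ∈ P.Zv (x 2)) (ha' : a' ∈ P.Zv (x 2)) (hξ : ξ ∈ P.QQ x 0 6) (hξ' : ξ' ∈ P.QQ x 0 6)
    (hb : b ∈ P.Zv (x 4)) (hb' : b' ∈ P.Zv (x 4)) (e : a * ξ * b = a' * ξ' * b') :
    a = a' ∧ ξ = ξ' ∧ b = b' := by
  have s2 := hs.even hx (i := 2) (by omega)
  have s4 := hs.even hx (i := 4) (by omega)
  have k0 : ∀ a ∈ P.Zv (x 2), a ∈ P.K (x 0) := fun a ha => Ball_K hx (N8_Z hn s2 ha) (by omega) (by omega)
  have k6 : ∀ a ∈ P.Zv (x 4), a ∈ P.K (x 6) := fun a ha => Ball_K hx (N8_Z hn s4 ha) (by omega) (by omega)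
  have h1 : b * b'⁻¹ = 1 := N8_one hn hx (N8_Z hn s4 (mul_mem hb (inv_mem hb'))) (j := -1) (by omega)
    (K_fix hx (k := 0) (by
      rw [show b * b'⁻¹ = (a * ξ)⁻¹ * (a' * ξ') by rw [eq_mul_inv_of_mul_eq e.symm]; group]
      exact mul_mem (inv_mem (mul_mem (k0 a ha) (hξ 0 le_rfl (by omega)).1))
        (mul_mem (k0 a' ha') (hξ' 0 le_rfl (by omega)).1)) (by omega) (by omega))
  obtain rfl := mul_inv_eq_one.1 h1
  have h2 : a'⁻¹ * a = 1 := N8_one hn hx (N8_Z hn s2 (mul_mem (inv_mem ha') ha)) (j := 7) (by omega)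
    (K_fix hx (k := 6) (by
      rw [show a'⁻¹ * a = ξ' * ξ⁻¹ by rw [eq_mul_inv_of_mul_eq (mul_right_cancel e)]; group]
      exact mul_mem (hξ' 6 (by omega) le_rfl).1 (inv_mem (hξ 6 (by omega) le_rfl).1))
      (by omega) (by omega))
  obtain rfl := inv_mul_eq_one.1 h2
  exact ⟨rfl, mul_left_cancel (mul_right_cancel e), rfl⟩

theorem N8_mul_left (hn : P.n = 8) {x : ℤ → V} (hx : P.Line x) (hs : P.Sg (x 0)) {u u' w : G}
    (hu : u ∈ P.Zv (x 0)) (hu' : u' ∈ P.Zv (x 0)) (hw : w ∈ P.Zv (x 6)) :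
    ⁅u * u', w⁆ = ⁅u, w⁆ * ⁅u', w⁆ := by
  have s2 := hs.even hx (i := 2) (by omega)
  rw [N8_W_comm hn s2 (N8_cW hn hx hs hu hw).1 (N8_cW hn hx hs hu' hw).1,
    show ⁅u * u', w⁆ = u * ⁅u', w⁆ * u⁻¹ * ⁅u, w⁆ by simp only [commutatorElement_def]; group,
    N8_W_comm hn s2 (Zv_Wv hx (by omega) hu) (N8_cW hn hx hs hu' hw).1, mul_inv_cancel_right]

theorem N8_mul_right (hn : P.n = 8) {x : ℤ → V} (hx : P.Line x) (hs : P.Sg (x 0)) {u w w' : G}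
    (hu : u ∈ P.Zv (x 0)) (hw : w ∈ P.Zv (x 6)) (hw' : w' ∈ P.Zv (x 6)) :
    ⁅u, w * w'⁆ = ⁅u, w⁆ * ⁅u, w'⁆ := by
  rw [show ⁅u, w * w'⁆ = ⁅u, w⁆ * (w * ⁅u, w'⁆ * w⁻¹) by simp only [commutatorElement_def]; group,
    N8_W_comm hn (hs.even hx (i := 4) (by omega)) (Zv_Wv hx (by omega) hw)
      (N8_cW hn hx hs hu hw').2, mul_inv_cancel_right]

end SP

end Cfsg.Agent.BN2
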