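import Cfsg.Agent.BN2.N8a

/-!
# Octagons: the middle factor `ξ` of `⁅Z_0, Z_6⁆` is nondegenerate
-/

set_option autoImplicit false

open scoped commutatorElement

namespace Cfsg.Agent.BN2

namespace Pol

variable {G V : Type*} [Group G] [MulAction G V] {P : Pol G V}

theorem nb_line {l y y' : V} (h : P.adj l y) (h' : P.adj l y') (hne : y ≠ y') :
    ∃ x, P.Line x ∧ x 0 = y ∧ x 1 = l ∧ x 2 = y' := by
  obtain ⟨p, hp, h⟩ := exists_line_two h h' hne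
  exact ⟨_, hp.shift (-1), by simpa using h⟩

theorem nb_two (hn : P.n = 2 * P.m) {l y y' : V} (hs : P.Sg y) (h : P.adj l y) (h' : P.adj l y')
    (hne : y ≠ y') {u : G} (hu : u ∈ P.Zv y) (hu' : u ∈ P.Zv y') : u = 1 := by
  have hs' := hs.of_ty (ty_eq_of_adj h h')
  obtain ⟨x, hx, rfl, -, rfl⟩ := nb_line h h' hne
  have := P.three_le
  exact C_inf hn hx (Zv_ball hs hu) (Zv_ball hs' hu') (by omega) (by omega)

/-- an element commuting with a central elation and fixing a vertex near the centre fixes the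
centre -/
theorem nb_centre (hn : P.n = 2 * P.m) {p : ℤ → V} (hp : P.Line p) {w k : G} {c : ℤ}
    (hw : w ∈ P.Ball P.m (p c)) (w1 : w ≠ 1) (hc : k * w = w * k) (d : ℕ) (hd : d ≤ P.m)
    (hf : k • p (c + d) = p (c + d)) : k • p c = p c := by
  induction d with
  | zero => simpa using hf
  | succ d ih =>
    refine ih (by omega) (by_contra fun e => w1 ?_)
    obtain ⟨r, hr, r1, r2⟩ := exists_fold hp hf (by simpa [← add_assoc] using e)
    have := Ball_conj k hw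
    rw [hc, mul_inv_cancel_right] at this
    exact C_inf hn hr (c := c) (d := c + 2 * (d + 1)) (by rwa [r1 _ (by omega)])
      (by rwa [r2 _ (by omega), show 2 * (c + (d + 1 : ℕ)) - (c + 2 * (d + 1)) = c by omega])
      (by omega) (by omega)

end Pol

namespace SP

open Pol

variable {G V : Type*} [Group G] [MulAction G V] [Finite G] [Finite V] {P : SP G V}

theorem nb_deg (hn : P.n = 8) {x : ℤ → V} (hx : P.Line x) (hs : P.Sg (x 0)) {u w a b g : G}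
    (hu : u ∈ P.Zv (x 0)) (hw : w ∈ P.Zv (x 6)) (ha : a ∈ P.Zv (x 2)) (hb : b ∈ P.Zv (x 4))
    (e : ⁅u, w⁆ = a * b) (w1 : w ≠ 1) (hg : g ∈ P.R x 1 9) :
    u⁻¹ * (g * u * g⁻¹) ∈ P.Zv (x 2) := by
  have hm : P.m = 4 := by simp [m, hn]
  have h0 : P.adj (x 1) (x 0) := hx.adj_pred rfl
  have c := fun k (h1 : 1 ≤ k) (h2 : k ≤ 9) z => R_comm_Zv hx hg (z := z) (by omega) h1 h2
  have hk : u⁻¹ * (g * u * g⁻¹) ∈ P.Vv (x 1) := mul_mem (inv_mem (Zv_le_Vv h0 hu))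
    (Vv_conj' (Zv_le_Vv h0 hu) (hg.2 1 le_rfl (by omega)))
  have cw : Commute g w := c 6 (by omega) (by omega) w hw
  have : g * ⁅u, w⁆ * g⁻¹ = ⁅u, w⁆ := by
    rw [e, ← mul_assoc, c 2 (by omega) (by omega) a ha, mul_assoc a, c 4 (by omega) (by omega) b hb]
    group
  refine N8_V6 hn hx hs hk (nb_centre (by omega) (hx.rev 6) (c := 0)
    (Zv_ball (hs.of_ty (ty_even hx (by omega)).symm) hw) w1 ?_ 2 (by omega)
    (Ball_fix hx (Vv_ball _ hk) (by omega) (by omega)))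
  calc u⁻¹ * (g * u * g⁻¹) * w = u⁻¹ * (g * u * (g⁻¹ * w)) := by group
    _ = u⁻¹ * (g * ⁅u, w⁆ * g⁻¹) * (g * w) * u * g⁻¹ := by
      rw [cw.inv_left.eq, commutatorElement_def]; group
    _ = _ := by rw [this, cw.eq, commutatorElement_def]; group

theorem nb_lt (hn : P.n = 8) {x : ℤ → V} (hx : P.Line x) (hs : P.Sg (x 0)) {u w a b : G}
    (hu : u ∈ P.Zv (x 0)) (hw : w ∈ P.Zv (x 6)) (ha : a ∈ P.Zv (x 2)) (hb : b ∈ P.Zv (x 4))
    (e : ⁅u, w⁆ = a * b) (u1 : u ≠ 1) (w1 : w ≠ 1) : P.sz (x 1) < Nat.card (P.Zv (x 0)) := by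
  have hm : P.m = 4 := by simp [m, hn]
  have hn' : P.n = 2 * P.m := by omega
  have h0 : P.adj (x 1) (x 0) := hx.adj_pred rfl
  have h2 : P.adj (x 1) (x 2) := hx.1 1
  have sg : ∀ i, i % 2 = 0 → P.Sg (x i) := fun i h => hs.of_ty (ty_even hx (by omega)).symm
  have n02 : x 0 ≠ x 2 := (hx.ne' rfl).symm
  choose! g g1 g2 using fun y (h : y ∈ {y | P.adj (x 1) y ∧ y ≠ x 2}) =>
    R_tr' hx (i := 1) (j := 9) (by omega) (by omega) (x 0) y h0 h.1 n02 h.2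
  have k1 : ∀ y ∈ {y | P.adj (x 1) y ∧ y ≠ x 2}, g y * u * (g y)⁻¹ ∈ P.Zv y := fun y h => by
    simpa [g2 y h] using Zv_conj (g y) hu
  rw [sz_eq h2, card_Zv_of_ty (ty_even hx (i := 2) (j := 0) (by omega))]
  refine (Set.ncard_le_ncard_of_injOn (t := (P.Zv (x 2) : Set G) \ {a⁻¹})
    (fun y => u⁻¹ * (g y * u * (g y)⁻¹)) (fun y h => ⟨nb_deg hn hx hs hu hw ha hb e w1 (g1 y h),
      fun k => ?_⟩) fun y h y' h' k => by_contra fun ne => u1 ?_).trans_lt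
    (Set.ncard_sdiff_singleton_lt_of_mem (inv_mem ha))
  · have k2 := k1 y h
    rw [inv_mul_eq_iff_eq_mul.1 k] at k2
    have sy := hs.of_ty (ty_eq_of_adj h0 h.1)
    obtain ⟨q, hq, q0, q1, rfl⟩ := nb_line h2 h.1 h.2.symm
    have wb := Zv_ball (sg 6 rfl) hw
    obtain ⟨a', ha', ξ, hξ, b', hb', -, -, e', ne⟩ := N8_comm hn hx hs hu hw
    obtain ⟨rfl, -, rfl⟩ := N8_uniq hn hx hs ha ha' (one_mem _) hξ hb hb' (by rw [mul_one, ← e, e'])
    have c1 := C_comm hn' hx (Zv_ball hs hu) (Zv_ball (sg 2 rfl) ha) (by omega) (by omega)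
    have c2 := C_comm hn' hx (Zv_ball hs hu) (Zv_ball (sg 4 rfl) hb) (by omega) (by omega)
    have c3 := C_comm hn' hx (Zv_ball (sg 2 rfl) ha) (Zv_ball (sg 4 rfl) hb) (by omega) (by omega)
    refine three_centers (j := 2) hn ((hx.rev 2).smul w) hq (hx.shift 2)
      ((Ball_fix hx wb (by omega) (by omega)).trans q0.symm) (Ball_fix hx wb (by omega) (by omega))
      (fun h => w1 (C_eq_one hn' hx wb (j := 1) (by omega) (h.trans q1)))
      (fun h => hx.ne' (i := 1) (j := 3) rfl (smul_left_cancel w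
        ((Ball_fix hx wb (by omega) (by omega)).trans h.symm)))
      (fun h => hx.ne' (i := 1) (j := 3) rfl (h.symm.trans q1)) (b := u * a⁻¹) (c := b⁻¹) ?_
      (Zv_ball sy k2) (inv_mem (Zv_ball (sg 4 rfl) hb))
      (fun h => u1 (nb_two hn' hs h0 h2 n02 hu (mul_inv_eq_one.1 h ▸ ha))) (inv_ne_one.2 (ne u1 w1).2)
    have : w * u * w⁻¹ = u * a⁻¹ * b⁻¹ := by
      calc w * u * w⁻¹ = ⁅u, w⁆⁻¹ * u := by rw [commutatorElement_def]; group
        _ = _ := by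
          rw [e, c3, mul_inv_rev, mul_assoc, (Commute.inv_right c2).eq.symm, ← mul_assoc,
            (Commute.inv_right c1).eq.symm]
    exact this ▸ Ball_conj w (Zv_ball hs hu)
  · have := nb_two hn' (hs.of_ty (ty_eq_of_adj h0 h.1)) h.1 h'.1 ne (k1 y h)
      (mul_left_cancel k ▸ k1 y' h')
    simpa using this

omit [Finite G] [Finite V] in
theorem nb_div (hn : P.n = 8) {x : ℤ → V} (hx : P.Line x) {a a' ξ ξ' b b' : G}
    (hs : P.Sg (x 0)) (ha : a ∈ P.Zv (x 2)) (ha' : a' ∈ P.Zv (x 2)) (hξ : ξ ∈ P.QQ x 0 6)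
    (hξ' : ξ' ∈ P.QQ x 0 6) (hb : b ∈ P.Zv (x 4)) :
    (a * ξ * b)⁻¹ * (a' * ξ' * b') = a⁻¹ * a' * (ξ⁻¹ * ξ') * (b⁻¹ * b') := by
  have hm : P.m = 4 := by simp [m, hn]
  have sg : ∀ i, i % 2 = 0 → P.Sg (x i) := fun i h => hs.of_ty (ty_even hx (by omega)).symm
  have h1 := mul_mem (inv_mem ha) ha'
  have c1 := Zv_comm h1 (hx.1 2) ((inv_mem hξ 2 (by omega) (by omega)).2 _ (hx.1 2))
  have c2 := Zv_comm (inv_mem hb) (hx.1 4)
    ((mul_mem (inv_mem hξ) hξ' 4 (by omega) (by omega)).2 _ (hx.1 4))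
  have c3 := C_comm (by omega) hx (Zv_ball (sg 2 rfl) h1) (Zv_ball (sg 4 rfl) (inv_mem hb))
    (by omega) (by omega)
  calc _ = b⁻¹ * (ξ⁻¹ * (a⁻¹ * a')) * ξ' * b' := by group
    _ = b⁻¹ * (a⁻¹ * a') * (ξ⁻¹ * ξ') * b' := by rw [c1]; group
    _ = a⁻¹ * a' * (b⁻¹ * (ξ⁻¹ * ξ')) * b' := by rw [← c3]; group
    _ = _ := by rw [← c2]; group

/-- if `t < ζ` all pairs are degenerate -/
theorem nb_all (hn : P.n = 8) {x : ℤ → V} (hx : P.Line x) (hs : P.Sg (x 0))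
    (hlt : P.sz (x 1) < Nat.card (P.Zv (x 0))) {u : G} (hu : u ∈ P.Zv (x 0)) :
    ∃ w ∈ P.Zv (x 6), w ≠ 1 ∧ ∃ a ∈ P.Zv (x 2), ∃ b ∈ P.Zv (x 4), ⁅u, w⁆ = a * b := by
  by_contra! hc
  choose a ha ξ hξ b hb _ _ e _ using fun w : P.Zv (x 6) => N8_comm hn hx hs hu w.2
  have h1 := Nat.card_le_card_of_injective (fun w => (⟨ξ w, hξ w⟩ : P.QQ x 0 6)) fun w w' k => by
    by_contra ne
    refine hc _ (mul_mem (inv_mem w.2) w'.2) (fun h => ne (Subtype.ext (inv_mul_eq_one.1 h))) _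
      (mul_mem (inv_mem (ha w)) (ha w')) _ (mul_mem (inv_mem (hb w)) (hb w')) ?_
    have := N8_mul_right hn hx hs hu w.2 (mul_mem (inv_mem w.2) w'.2)
    rw [mul_inv_cancel_left, e, e, ← inv_mul_eq_iff_eq_mul,
      nb_div hn hx hs (ha w) (ha w') (hξ w) (hξ w') (hb w), Subtype.mk.inj k] at this
    simpa using this.symm
  have h2 := (card_le_sz (H := P.QQ x 0 6) (hx.1 (-1)) (hx.adj_pred (j := -2) rfl)
    (hx.ne' rfl).symm (fun g hg => ⟨QQ_fix hx hg (by omega) (by omega) (by omega),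
      QQ_fix hx hg (by omega) (by omega) (by omega)⟩) fun g hg =>
    QQ_eq_one hx hg (by omega) (hx.adj_pred (j := -2) rfl) (hx.ne' rfl).symm).1
  rw [card_Zv_of_ty (ty_even hx (i := 0) (by omega))] at h1
  rw [sz_of_ty (ty_even hx (i := 1) (by omega))] at h2
  omega

theorem nb_conj (hn : P.n = 8) {x : ℤ → V} (hx : P.Line x) (hs : P.Sg (x 0))
    (hlt : P.sz (x 1) < Nat.card (P.Zv (x 0))) {u c : G} (hu : u ∈ P.Zv (x 0))
    (hc : c ∈ P.A (x 1) (x 2)) : u⁻¹ * (c * u * c⁻¹) ∈ P.Zv (x 2) := by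
  obtain ⟨w, hw, w1, a, ha, b, hb, e⟩ := nb_all hn hx hs hlt hu
  have h0 : P.adj (x 1) (x 0) := hx.adj_pred rfl
  have n02 : x 0 ≠ x 2 := (hx.ne' rfl).symm
  obtain ⟨r, hr, r1⟩ := R_tr' hx (i := 1) (j := 9) (by omega) (by omega) (x 0) (c • x 0) h0
    (by simpa [P.A_fix hc] using P.adj_smul c h0) n02
    fun h => n02 (smul_left_cancel c (h.trans (A_fix' hc).symm))
  have := Zv_comm hu (P.adj_symm h0) (a := r⁻¹ * c) (P.A_symm _ _ ▸ P.compat (hx.1 1) h0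
    (mul_mem (inv_mem hr.1) hc) (by rw [mul_smul, inv_smul_eq_iff, r1]))
  have e' : c * u * c⁻¹ = r * u * r⁻¹ := by
    calc c * u * c⁻¹ = r * (r⁻¹ * c * u) * c⁻¹ := by group
      _ = _ := by rw [this]; group
  exact e' ▸ nb_deg hn hx hs hu hw ha hb e w1 hr

theorem nb_ge (hn : P.n = 8) {x : ℤ → V} (hx : P.Line x) (hs : P.Sg (x 0)) :
    Nat.card (P.Zv (x 0)) ≤ P.sz (x 1) := by
  by_contra! hlt
  have hm : P.m = 4 := by simp [m, hn]
  have hn' : P.n = 2 * P.m := by omega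
  have sg : ∀ i, i % 2 = 0 → P.Sg (x i) := fun i h => hs.of_ty (ty_even hx (by omega)).symm
  have lt : ∀ i j, i % 2 = 1 → j % 2 = 0 → P.sz (x i) < Nat.card (P.Zv (x j)) := fun i j h h' => by
    rwa [sz_of_ty (ty_even hx (i := 1) (by omega)), card_Zv_of_ty (ty_even hx (i := 0) (by omega))]
  obtain ⟨v, hv, v1⟩ := exists_Z (hx.1 6)
  rw [Z_eq_Zv (.inr hn) (sg 6 rfl) (hx.1 6)] at hv
  choose! a ha ξ hξ b hb w2 w4 e ne using fun u (hu : u ∈ P.Zv (x 0)) => N8_comm hn hx hs hu hv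
  have h32 : P.adj (x 3) (x 2) := hx.adj_pred rfl
  have n24 : x 2 ≠ x 4 := (hx.ne' rfl).symm
  obtain ⟨g, hg, g1, g2⟩ : ∃ g ∈ P.R x 3 11, g • x 2 ≠ x 2 ∧
      ∀ u ∈ P.Zv (x 0), ⁅g, ξ u⁆ ∈ P.Zv (x 4) → ⁅g, ξ u⁆ = 1 := by
    by_cases h : ∀ u ∈ P.Zv (x 0), ξ u = 1
    · obtain ⟨d, hd, d1, d2⟩ := P.thick (x 3) (x 4) (x 2)
      obtain ⟨g, hg, g1⟩ := R_tr' hx (i := 3) (j := 11) (by omega) (by omega) _ d h32 hd n24 d1
      exact ⟨g, hg, g1 ▸ d2, fun u hu _ => by simp [h u hu]⟩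
    push Not at h
    obtain ⟨u, hu, u1⟩ := h
    obtain ⟨k, hk⟩ := exists_smul_line hx (hx.shift 4) (ty_even hx (by omega)).symm 0
    have k1 : k * ξ u * k⁻¹ ∈ P.QQ x 4 10 := fun i h1 h2 => by
      simpa [hk (i - 4) (by omega) (by omega)] using
        Q_conj k (hξ u hu (i - 4) (by omega) (by omega))
    have k2 := Wv_conj k (w2 u hu)
    rw [hk 2 (by omega) (by omega)] at k2
    refine ⟨_, QQ_R hx k1 (by omega) (by omega) (by omega) (by omega),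
      fun h => u1 (by simpa using QQ_eq_one hx k1 (by omega) h32 n24 h), fun u' hu' h => ?_⟩
    have := N8_L90 hn (hx.shift 2) (sg 2 rfl)
      (QQ_shift.2 (QQ_mono (by omega) (by omega) (hξ u' hu'))) k2
    exact C_eq_one hn' hx (Zv_ball (sg 4 rfl) h) (j := 9) (by omega) (by
      simpa using Ball_fix hx (c := 6) (inv_mem this) (i := 9) (by omega) (by omega))
  have gA : g ∈ P.A (x 3) (x 4) := hg.1
  have gv := R_comm_Zv hx hg (by omega) (by omega) (by omega) hv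
  have φ4 : ∀ u ∈ P.Zv (x 0), (a u)⁻¹ * (g * a u * g⁻¹) ∈ P.Zv (x 4) := fun u hu =>
    nb_conj hn (hx.shift 2) (sg 2 rfl) (lt 3 2 rfl rfl) (ha u hu) gA
  have key : ∀ u ∈ P.Zv (x 0), ∃ y, (P.adj (x 5) y ∧ y ≠ x 4) ∧
      (a u)⁻¹ * (g * a u * g⁻¹) * v ∈ P.Zv y := fun u hu => by
    have ub := Zv_ball hs (inv_mem hu)
    have u3 := Ball_fix hx ub (i := 3) (by omega) (by omega)
    have u4 := Ball_fix hx ub (i := 4) (by omega) (by omega)
    have cK := Z_cent (hx.rev 4) (j := 4) (by omega) (by omega)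
      (Z_swap (inv_mem hu _ (hx.1 0))) u4 (P.A_symm _ _ ▸ gA)
    have h43 : P.adj (x 4) (x 3) := hx.adj_pred rfl
    have cA : ⁅u⁻¹, g⁆ ∈ P.A (x 5) (x 4) := P.A_symm _ _ ▸ (mem_Q_of h43
      (P.A_symm _ _ ▸ mul_mem (A_conj' gA u3 u4) (inv_mem gA))
      (by simpa using inv_mem cK)).2 _ (hx.1 4)
    have h := nb_conj hn (hx.rev 6) (sg 6 rfl) (lt 5 6 rfl rfl) hv cA
    have φ := φ4 u hu
    have c1 := N8_W_comm hn (sg 4 rfl) (Vv_le_Wv h43 (Zv_le_Vv h32 (ha u hu)))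
      (mul_mem (Vv_le_Wv h43 (Zv_le_Vv (hx.1 3) φ)) (comm_Wv (w4 u hu) (A_fix' gA)).1)
    have c2 := R_comm_Zv hx hg (by omega) (by omega) (by omega) (hb u hu)
    have e1 : ⁅u⁻¹, g⁆ * v * ⁅u⁻¹, g⁆⁻¹ =
        u⁻¹ * ((a u)⁻¹ * (g * a u * g⁻¹) * ⁅g, ξ u⁆) * u * v := by
      calc _ = u⁻¹ * g * u * g⁻¹ * (v * g) * u⁻¹ * g⁻¹ * u := by rw [commutatorElement_def]; group
        _ = u⁻¹ * g * ⁅u, v⁆ * g⁻¹ * (g * v) * g⁻¹ * u := by rw [← gv, commutatorElement_def]; group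
        _ = u⁻¹ * g * a u * ξ u * g⁻¹ * (g * b u) * g⁻¹ * v * u := by rw [gv, e u hu]; group
        _ = u⁻¹ * (a u * ((a u)⁻¹ * (g * a u * g⁻¹) * ⁅g, ξ u⁆)) * ξ u * b u * v * u := by
          rw [c2, commutatorElement_def]; group
        _ = u⁻¹ * ((a u)⁻¹ * (g * a u * g⁻¹) * ⁅g, ξ u⁆) * (a u * ξ u * b u) * v * u := by
          rw [c1]; group
        _ = _ := by rw [← e u hu, commutatorElement_def (g₁ := u)]; group
    have h2 := Zv_conj' (e1 ▸ h) (g := u * v) (show (u * v) • x 4 = x 4 by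
      rw [mul_smul, Ball_fix hx (Zv_ball (sg 6 rfl) hv) (by omega) (by omega),
        ← inv_smul_eq_iff.1 u4])
    have c3 := C_comm hn' hx ub (Zv_ball (sg 4 rfl) φ) (by omega) (by omega)
    rw [g2 u hu (by simpa [mul_assoc] using mul_mem (inv_mem φ) h2), mul_one, c3,
      inv_mul_cancel_right] at e1
    exact ⟨_, ⟨by simpa [P.A_fix cA] using P.adj_smul ⁅u⁻¹, g⁆ (hx.1 5), fun h => hx.2 4
      (smul_left_cancel _ (h.trans (A_fix' cA).symm))⟩, e1 ▸ Zv_conj _ hv⟩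
  have : Nonempty V := ⟨x 0⟩
  choose! y y1 y2 using key
  refine (sz_eq (y := x 5) (hx.adj_pred (j := 4) rfl) ▸ lt 5 0 rfl rfl).not_ge
    (Set.ncard_le_ncard_of_injOn (s := (P.Zv (x 0) : Set G)) y y1 fun u hu u' hu' k => ?_)
  have k1 := nb_two hn' (sg 4 rfl) (hx.adj_pred rfl) (y1 u hu).1 (y1 u hu).2.symm
    (mul_mem (φ4 u hu) (inv_mem (φ4 u' hu')))
    (by convert mul_mem (y2 u hu) (inv_mem (k ▸ y2 u' hu')) using 1; group)
  have ha2 := mul_mem (ha u' hu') (inv_mem (ha u hu))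
  have k2 := nb_two hn' (sg 2 rfl) h32 (by simpa [P.A_fix gA] using P.adj_smul g h32) g1.symm ha2 (by
    convert Zv_conj g ha2 using 1
    calc _ = a u' * ((a u)⁻¹ * (g * a u * g⁻¹)) * (g * (a u)⁻¹ * g⁻¹) := by group
      _ = _ := by rw [mul_inv_eq_one.1 k1]; group)
  have hd := mul_mem (inv_mem hu) hu'
  have := N8_mul_left hn hx hs hu hd hv
  rw [mul_inv_cancel_left, e u hu, e u' hu', e _ hd, ← inv_mul_eq_iff_eq_mul,
    nb_div hn hx hs (ha u hu) (ha u' hu') (hξ u hu) (hξ u' hu') (hb u hu),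
    mul_inv_eq_one.1 k2, inv_mul_cancel] at this
  by_contra h
  exact (ne _ hd (fun k => h (inv_mul_eq_one.1 k)) v1).1 (N8_uniq hn hx hs (one_mem _) (ha _ hd)
    (mul_mem (inv_mem (hξ u hu)) (hξ u' hu')) (hξ _ hd) (mul_mem (inv_mem (hb u hu)) (hb u' hu'))
    (hb _ hd) this).1.symm

theorem N8_nondeg (hn : P.n = 8) {x : ℤ → V} (hx : P.Line x) (hs : P.Sg (x 0)) {u w a b : G}
    (hu : u ∈ P.Zv (x 0)) (hw : w ∈ P.Zv (x 6)) (ha : a ∈ P.Zv (x 2)) (hb : b ∈ P.Zv (x 4))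
    (e : ⁅u, w⁆ = a * b) : u = 1 ∨ w = 1 := by
  by_contra! h
  exact (nb_lt hn hx hs hu hw ha hb e h.1 h.2).not_ge (nb_ge hn hx hs)

end SP

end Cfsg.Agent.BN2
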