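import Cfsg.Agent.BN2.N8b

/-!
# BN2/N8c: octagons: odd root groups, `V_1 = Z_0 Z_2`, `E1` at odd vertices (~250 lines)

Notation of `N8a`.  `Ξ = W_4 ⊓ QQ x 2 8` has `|Ξ| ≥ ζ` (`w ↦ ξ(u,w)` injective by `N8_nondeg`,
line shifted by 2).  `U_2 = V_1 ⊓ K (x 4)`, `U_0 = V_1 ⊓ K (x (-2))`.
* `g ∈ Ξ` centralizes `U_2`: `h ∈ U_2` lies in `QQ x 2 4`, `⁅h,g⁆ ∈ V_1 ⊓ Ball 3 (x 4)` (`N8_L90`)
  lies in `Z_2` (`N8_V6`) and fixes `x 7`, so is trivial.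
* For `1 ≠ u ∈ Z_0`: `w_g = u⁻¹ g u g⁻¹ ∈ U_2`, `g ↦ w_g` is a hom; `w_g ≡ z₂(g) ∈ Z_2` mod
  `K (x (-2))`; `w_g ∈ K (x (-2))` forces `g x 0 = x 0`, `g = 1` (`g u g⁻¹ ∈ Zv (g x 0)` would fix
  a vertex at distance 5).  So `g ↦ z₂(g)` is injective, hence bijective, `|Ξ| = ζ`.
* For `c ∈ Γ(x 1) ∖ {x 0, x 2}`, `1 ≠ z_c ∈ Zv c`, `z_c = u h` (`N8_img`), `u ≠ 1`; pick `g` with
  `ω = w_g⁻¹ h ∈ U_0 ⊓ U_2`; `z_c = (g u g⁻¹) ω ∈ K (g x (-2))`, so `c = g x 0`.  So `Ξ` is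
  transitive on `Γ(x 1) ∖ x 2`, `Ξ = QQ x 2 8`, `sz (x 1) = ζ`.
-/

set_option autoImplicit false

open scoped commutatorElement

namespace Cfsg.Agent.BN2

namespace SP

open Pol

variable {G V : Type*} [Group G] [MulAction G V] [Finite G] [Finite V] {P : SP G V}

omit [Finite G] [Finite V] in
theorem N8c_ex (hn : P.n = 8) {y : V} (hs : P.Sg y) : ∃ z ∈ P.Zv y, z ≠ 1 := by
  obtain ⟨c, hc, -, -⟩ := P.thick y y y
  rw [← Z_eq_Zv (.inr hn) hs hc]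
  exact exists_Z hc

omit [Finite G] [Finite V] in
theorem N8c_two (hn : P.n = 8) {y a b : V} (ha : P.adj y a) (hb : P.adj y b) {z : G}
    (h1 : z ∈ P.Ball 4 a) (h2 : z ∈ P.Ball 4 b) (z1 : z ≠ 1) : a = b := by
  by_contra e
  obtain ⟨p, hp, rfl, rfl, rfl⟩ := exists_line_two ha hb e
  have hm := N8_m hn
  exact z1 (C_inf (by omega) hp (hm ▸ h1) (hm ▸ h2) (by omega) (by omega))

omit [Finite G] [Finite V] in
theorem N8c_eq (hn : P.n = 8) {x : ℤ → V} (hx : P.Line x) (hs : P.Sg (x 0)) {c : V}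
    (hc : P.adj (x 1) c) {z : G} (hz : z ∈ P.Zv c) (z1 : z ≠ 1) (hK : z ∈ P.K (x (-2))) :
    c = x 0 := by
  by_contra e
  obtain ⟨r, hr, r1, rfl⟩ := exists_turn hx (k := 1) hc (by simpa using e)
  refine z1 (N8_one hn hr (N8_Z hn (hs.of_ty (ty_eq_of_adj (hx.adj_pred rfl) hc)) hz) (j := -3)
    (by omega) ?_)
  rw [r1 _ (by omega)]
  exact K_fix hx hK (by omega) (by omega)

theorem N8c_xi (hn : P.n = 8) {x : ℤ → V} (hx : P.Line x) (hs : P.Sg (x 0)) {u : G}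
    (hu : u ∈ P.Zv (x 0)) (h1 : u ≠ 1) : ∃ f : P.Zv (x 6) → ↥(P.QQ x 0 6 ⊓ P.Wv (x 2)),
      Function.Injective f ∧ ∀ w, ∃ a ∈ P.Zv (x 2), ∃ b ∈ P.Zv (x 4), ⁅u, w.1⁆ = a * f w * b := by
  choose a ha ξ hξ b hb k2 _ e _ using fun w : P.Zv (x 6) => N8_comm hn hx hs hu w.2
  refine ⟨fun w => ⟨ξ w, hξ w, k2 w⟩, fun w w' f => ?_, fun w => ⟨_, ha w, _, hb w, e w⟩⟩
  have f' : ξ w = ξ w' := congrArg Subtype.val f
  have s2 := hs.even hx (i := 2) (by omega)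
  have hw := mul_mem (inv_mem w.2) w'.2
  have h2 := N8_mul_right hn hx hs hu w.2 hw
  rw [mul_inv_cancel_left, e, e, ← f', ← inv_mul_eq_iff_eq_mul] at h2
  have ha' := mul_mem (inv_mem (ha w)) (ha w')
  have h3 : (a w * ξ w * b w)⁻¹ * (a w' * ξ w * b w') = (a w)⁻¹ * a w' * ((b w)⁻¹ * b w') := by
    calc _ = (b w)⁻¹ * (ξ w)⁻¹ * ((a w)⁻¹ * a w') * ξ w * b w' := by group
      _ = _ := by
        rw [N8_W_comm hn s2 (mul_mem (inv_mem (Zv_Wv hx (by omega) (hb w))) (inv_mem (k2 w)))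
          (Zv_Wv hx (by omega) ha')]
        group
  exact Subtype.ext (inv_mul_eq_one.1 ((N8_nondeg hn hx hs hu hw ha' (mul_mem (inv_mem (hb w)) (hb w'))
    (h2.symm.trans h3)).resolve_left h1))

theorem N8c_cent (hn : P.n = 8) {x : ℤ → V} (hx : P.Line x) (hs : P.Sg (x 0)) {g h : G}
    (hg : g ∈ P.QQ x 2 8 ⊓ P.Wv (x 4)) (hh : h ∈ P.Vv (x 1)) (hK : h ∈ P.K (x 4)) :
    h * g = g * h := by
  have h1 := N8_L90 hn hx hs (QQ_mono (by omega) le_rfl (mem_QQ_of hx (i := 1) (j := 4)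
    (Vv_le_Q _ hh) le_rfl (by omega) fun i a b => if c : i = 4 then c ▸ hK else
      Ball_K hx (N8_Vb hn hh) (by omega) (by omega))) hg.2
  have h2 := N8_V6 hn hx hs (comm_Vv hh (QQ_fix hx hg.1 (by omega) (by omega) (by omega))).2
    (Ball_fix hx h1 (by omega) (by omega))
  exact commutatorElement_eq_one_iff_mul_comm.1 (N8_one hn hx
    (N8_Z hn (hs.even hx (by omega)) h2) (j := 7) (by omega) (Ball_fix hx h1 (by omega) (by omega)))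

omit [Finite G] [Finite V] in
theorem N8c_w (hn : P.n = 8) {x : ℤ → V} (hx : P.Line x) (hs : P.Sg (x 0)) {u g : G}
    (hu : u ∈ P.Zv (x 0)) (hg : g ∈ P.QQ x 2 8) :
    u⁻¹ * (g * u * g⁻¹) ∈ P.Vv (x 1) ∧ u⁻¹ * (g * u * g⁻¹) ∈ P.K (x 4) := by
  have h1 := Zv_le_Vv (hx.adj_pred (i := 1) rfl) hu
  refine ⟨mul_mem (inv_mem h1) (Vv_conj' h1 (QQ_fix hx hg (by omega) (by omega) (by omega))), ?_⟩
  have h2 := (hg 4 (by omega) (by omega)).1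
  simpa [mul_assoc] using mul_mem (K_conj' h2
    (Ball_fix hx (N8_Z hn hs (inv_mem hu)) (by omega) (by omega))) (inv_mem h2)

theorem N8c_img (hn : P.n = 8) {x : ℤ → V} (hx : P.Line x) (hs : P.Sg (x 0)) {w : G}
    (hw : w ∈ P.Vv (x 1)) : ∃ z ∈ P.Zv (x 2), z⁻¹ * w ∈ P.K (x (-2)) := by
  simpa using N8_img hn (hx.rev 2) (hs.even hx (i := 2) (by omega)) hw

theorem N8c_onto (hn : P.n = 8) {x : ℤ → V} (hx : P.Line x) (hs : P.Sg (x 0)) {u : G}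
    (hu : u ∈ P.Zv (x 0)) (h1 : u ≠ 1) :
    Nat.card ↥(P.QQ x 2 8 ⊓ P.Wv (x 4)) = Nat.card (P.Zv (x 0)) ∧ ∀ z ∈ P.Zv (x 2),
      ∃ g ∈ P.QQ x 2 8 ⊓ P.Wv (x 4), z⁻¹ * (u⁻¹ * (g * u * g⁻¹)) ∈ P.K (x (-2)) := by
  choose z hz k using fun g : ↥(P.QQ x 2 8 ⊓ P.Wv (x 4)) =>
    N8c_img hn hx hs (N8c_w hn hx hs hu g.2.1).1
  have inj : Function.Injective fun g => (⟨z g, hz g⟩ : P.Zv (x 2)) := fun g g' e => by
    have hd := mul_mem (inv_mem g.2) g'.2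
    have h2 := mul_mem (inv_mem (k g)) (k g')
    have hw := N8c_w hn hx hs hu hd.1
    rw [← show z g = z g' from congrArg Subtype.val e,
      show ((z g)⁻¹ * (u⁻¹ * (g * u * (g : G)⁻¹)))⁻¹ * ((z g)⁻¹ * (u⁻¹ * (g' * u * (g' : G)⁻¹))) =
        g * (u⁻¹ * ((g : G)⁻¹ * g' * u * ((g : G)⁻¹ * g')⁻¹)) * (g : G)⁻¹ by group,
      ← N8c_cent hn hx hs g.2 hw.1 hw.2, mul_inv_cancel_right] at h2
    have h3 := mul_mem (Ball_K hx (N8_Z hn hs hu) (i := -2) (by omega) (by omega)) h2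
    rw [mul_inv_cancel_left] at h3
    have f1 : ((g : G)⁻¹ * g') • x 1 = x 1 := QQ_fix hx hd.1 (by omega) (by omega) (by omega)
    have h4 := N8c_eq hn hx hs (f1 ▸ P.adj_smul _ (hx.adj_pred (i := 1) (j := 0) rfl))
      (Zv_conj _ hu) (fun c => h1 (conj_eq_one_iff.1 c)) h3
    exact Subtype.ext (inv_mul_eq_one.1 (QQ_eq_one hx hd.1 (by omega) (hx.adj_pred (by omega))
      (hx.ne' (by omega)).symm h4))
  obtain ⟨v, hv, v1⟩ := N8c_ex hn (hs.even hx (i := 2) (by omega))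
  obtain ⟨f, hf, -⟩ := N8c_xi hn (hx.shift 2) (hs.even hx (by omega)) hv v1
  have e : P.QQ (fun i => x (i + 2)) 0 6 = P.QQ x 2 8 := Subgroup.ext fun _ => QQ_shift
  have c1 := Nat.card_le_card_of_injective f hf
  rw [e, card_Zv_of_ty (ty_even hx (i := 2) (by omega))] at c1
  have c2 := le_antisymm (Nat.card_le_card_of_injective _ inj) c1
  refine ⟨c2.trans (card_Zv_of_ty (ty_even hx (by omega))), fun y hy => ?_⟩
  obtain ⟨g, hg⟩ := ((Nat.bijective_iff_injective_and_card _).2 ⟨inj, c2⟩).2 ⟨y, hy⟩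
  exact ⟨g, g.2, (show z g = y from congrArg Subtype.val hg) ▸ k g⟩

theorem N8c_tr (hn : P.n = 8) {x : ℤ → V} (hx : P.Line x) (hs : P.Sg (x 0)) {c : V}
    (hc : P.adj (x 1) c) (hne : c ≠ x 2) : ∃ g ∈ P.QQ x 2 8 ⊓ P.Wv (x 4), g • x 0 = c := by
  obtain ⟨zc, hzc, z1⟩ := N8c_ex hn (hs.of_ty (ty_eq_of_adj (hx.adj_pred rfl) hc))
  have hV := Zv_le_Vv hc hzc
  obtain ⟨u, hu, k⟩ := N8_img hn hx hs hV
  have u1 : u ≠ 1 := fun e => hne (N8c_eq hn (hx.rev 2) (hs.even hx (i := 2) (by omega)) hc hzc z1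
    (by simpa [e] using k))
  have hh := mul_mem (inv_mem (Zv_le_Vv (hx.adj_pred (i := 1) rfl) hu)) hV
  obtain ⟨z, hz, l⟩ := N8c_img hn hx hs hh
  obtain ⟨g, hg, l'⟩ := (N8c_onto hn hx hs hu u1).2 z hz
  have hw := N8c_w hn hx hs hu hg.1
  have h1 := K_conj g (mul_mem (inv_mem l') l)
  rw [show (z⁻¹ * (u⁻¹ * (g * u * g⁻¹)))⁻¹ * (z⁻¹ * (u⁻¹ * zc)) =
    (u⁻¹ * (g * u * g⁻¹))⁻¹ * (u⁻¹ * zc) by group, ← N8c_cent hn hx hs hg
    (mul_mem (inv_mem hw.1) hh) (mul_mem (inv_mem hw.2) k), mul_inv_cancel_right] at h1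
  have h2 := mul_mem (K_conj g (Ball_K hx (N8_Z hn hs hu) (i := -2) (by omega) (by omega))) h1
  refine ⟨g, hg, (N8c_eq hn (hx.smul g) (hs.of_smul g) ?_ hzc z1 ?_).symm⟩
  · rwa [QQ_fix hx hg.1 (by omega) (by omega) (by omega)]
  · simpa [mul_assoc] using h2

theorem N8c_odd (hn : P.n = 8) {x : ℤ → V} (hx : P.Line x) (hs : P.Sg (x 0)) :
    P.QQ x 2 8 ≤ P.Wv (x 4) ∧ P.Tr (P.QQ x 2 8) (x 1) (x 2) ∧
      P.sz (x 1) = Nat.card (P.Zv (x 0)) := by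
  have tr : P.Tr (P.QQ x 2 8 ⊓ P.Wv (x 4)) (x 1) (x 2) := tr_of_base fun c => N8c_tr hn hx hs
  have h1 := sz_le_card (hx.adj' rfl) tr
  have a0 : P.adj (x 1) (x 0) := hx.adj_pred rfl
  have h2 := (card_le_sz (H := P.QQ x 2 8) (hx.adj' (j := 2) rfl) a0 (hx.ne' rfl).symm
    (fun g hg => ⟨QQ_fix hx hg (by omega) (by omega) (by omega),
      QQ_fix hx hg (by omega) (by omega) (by omega)⟩)
    fun g hg => QQ_eq_one hx hg (by omega) a0 (hx.ne' rfl).symm).1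
  obtain ⟨u, hu, u1⟩ := N8c_ex hn hs
  exact ⟨inf_eq_left.1 (Subgroup.eq_of_le_of_card_ge inf_le_left (h2.trans h1)), tr.mono inf_le_left,
    (le_antisymm h1 ((Subgroup.card_le_of_le inf_le_left).trans h2)).trans (N8c_onto hn hx hs hu u1).1⟩

/-- (the statements at `x 6`, `x 9` by the reflection `i ↦ 10 - i`) -/
theorem N8_odd (hn : P.n = 8) {x : ℤ → V} (hx : P.Line x) (hs : P.Sg (x 0)) :
    P.QQ x 2 8 ≤ P.Wv (x 4) ∧ P.QQ x 2 8 ≤ P.Wv (x 6) ∧ P.Tr (P.QQ x 2 8) (x 1) (x 2) ∧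
      P.Tr (P.QQ x 2 8) (x 9) (x 8) ∧ P.sz (x 1) = Nat.card (P.Zv (x 0)) := by
  have h1 := N8c_odd hn hx hs
  have h2 := N8c_odd hn (hx.rev 10) (hs.even hx (by omega))
  have e : P.QQ (fun i => x (10 - i)) 2 8 = P.QQ x 2 8 := Subgroup.ext fun _ => QQ_rev
  rw [e] at h2
  exact ⟨h1.1, h2.1, h1.2.1, h2.2.1, h1.2.2⟩

/-- counting: `w ↦ ξ(u,w)` is injective and `|QQ x 0 6| ≤ sz (x 1) = ζ` -/
theorem N8_xi (hn : P.n = 8) {x : ℤ → V} (hx : P.Line x) (hs : P.Sg (x 0)) {u ξ : G}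
    (hu : u ∈ P.Zv (x 0)) (h1 : u ≠ 1) (hξ : ξ ∈ P.QQ x 0 6) :
    ∃ w ∈ P.Zv (x 6), ∃ a ∈ P.Zv (x 2), ∃ b ∈ P.Zv (x 4), ⁅u, w⁆ = a * ξ * b := by
  obtain ⟨f, hf, e⟩ := N8c_xi hn hx hs hu h1
  have a0 : P.adj (x (-1)) (x (-2)) := hx.adj_pred rfl
  have h2 := (card_le_sz (H := P.QQ x 0 6) (hx.adj' (j := 0) rfl) a0 (hx.ne' rfl).symm
    (fun g hg => ⟨QQ_fix hx hg (by omega) (by omega) (by omega),
      QQ_fix hx hg (by omega) (by omega) (by omega)⟩)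
    fun g hg => QQ_eq_one hx hg (by omega) a0 (hx.ne' rfl).symm).1
  rw [sz_of_ty (ty_even hx (i := 1) (by omega)), (N8c_odd hn hx hs).2.2,
    ← card_Zv_of_ty (ty_even hx (j := 6) (by omega))] at h2
  have inj : Function.Injective fun w => (⟨f w, (f w).2.1⟩ : P.QQ x 0 6) := fun w w' e =>
    hf (Subtype.ext (congrArg (·.1) e))
  obtain ⟨w, hw⟩ := ((Nat.bijective_iff_injective_and_card _).2
    ⟨inj, le_antisymm (Nat.card_le_card_of_injective _ inj) h2⟩).2 ⟨ξ, hξ⟩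
  exact ⟨w, w.2, (show (f w : G) = ξ from congrArg Subtype.val hw) ▸ e w⟩

/-- `w = z₀ z₂ ω`, `ω ∈ U_0 ⊓ U_2`.  Conjugating by `Ξ`, `ω ∈ Ball 3 c` for all `c ∈ Γ(x 1)`
(`N8_U`), so `ω ∈ Ball 4 (x 1)`.  If `ω ≠ 1` it moves `x 6`; for `1 ≠ w ∈ Z_6`,
`k = ⁅w, ω⁆ ∈ Vv (x 5) ⊓ W_2` fixes `x 0`, so `k ∈ Z_4` (`N8_V6` for `i ↦ 6 - i`), `k ≠ 1`
(`C_inf`); but `k = (w ω w⁻¹) ω⁻¹` fixes `w x (-1)`, at distance 2 from `w x 1`, 4 from `x 1` and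
5 from `x 4`. -/
theorem N8_V (hn : P.n = 8) {x : ℤ → V} (hx : P.Line x) (hs : P.Sg (x 0)) {w : G}
    (hw : w ∈ P.Vv (x 1)) : ∃ a ∈ P.Zv (x 0), ∃ b ∈ P.Zv (x 2), w = a * b := by
  obtain ⟨a, ha, k⟩ := N8_img hn hx hs hw
  obtain ⟨b, hb, l⟩ := N8c_img hn hx hs hw
  have s2 := hs.even hx (i := 2) (by omega)
  have s6 := hs.even hx (i := 6) (by omega)
  have hb' := Zv_le_Vv (hx.adj' (i := 1) rfl) hb
  have h1 := mul_mem (mul_mem (inv_mem (Zv_le_Vv (hx.adj_pred (i := 1) rfl) ha)) hw) (inv_mem hb')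
  have h2 := mul_mem k (inv_mem (Ball_K hx (N8_Z hn s2 hb) (by omega) (by omega)))
  have h3 : a⁻¹ * w * b⁻¹ ∈ P.K (x (-2)) := by
    rw [mul_assoc, Vv_comm_Vv hw (inv_mem hb')]
    exact mul_mem (inv_mem (Ball_K hx (N8_Z hn hs ha) (by omega) (by omega))) l
  refine ⟨a, ha, b, hb, ?_⟩
  rw [← inv_mul_eq_iff_eq_mul, ← mul_inv_eq_one]
  generalize a⁻¹ * w * b⁻¹ = ω at h1 h2 h3
  have h4 : ω ∈ P.Ball 4 (x 1) := fun q hq q0 i i0 i4 => by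
    refine Ball_fix hq (c := 1) (k := 3) ?_ (by omega) (by omega)
    by_cases e : q 1 = x 2
    · exact e ▸ N8_U hn hx hs h1 h2
    obtain ⟨g, hg, e'⟩ := N8c_tr hn hx hs (q0 ▸ hq.adj' (j := 1) rfl) e
    have := Ball_conj g (N8_U hn (hx.rev 2) s2 h1 (by simpa using h3))
    rwa [← N8c_cent hn hx hs hg h1 h2, mul_inv_cancel_right, sub_self, e'] at this
  by_contra ω1
  obtain ⟨v, hv, v1⟩ := N8c_ex hn s6
  have bv := N8_Z hn s6 hv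
  have f5 : ω • x 5 = x 5 := Ball_fix hx h4 (by omega) (by omega)
  have f2 : v • x 2 = x 2 := Ball_fix hx bv (by omega) (by omega)
  have k4 : ⁅v, ω⁆ ∈ P.Zv (x 4) := N8_V6 hn (hx.rev 6) s6
    (comm_Vv (Zv_le_Vv (hx.adj' (i := 5) rfl) hv) f5).2 (Ball_fix hx (N8_W_ball hn
      (comm_Wv (Vv_le_Wv (hx.adj_pred (i := 2) rfl) h1) f2).1).1 (by omega) (by omega))
  obtain ⟨r, hr, r1, r2⟩ := exists_fold hx (k := 2) (g := v) f2
    fun e => v1 (N8_one hn hx bv (.inr (by omega)) e)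
  have k1 : ⁅v, ω⁆ = 1 := N8_one hn (hx.smul v) (c := 4) (j := -1) (by
      rw [Ball_fix hx bv (by omega) (by omega)]
      exact N8_Z hn (hs.even hx (by omega)) k4) (by omega) (by
    have := Ball_fix hr (c := 1) (i := 5) (r1 1 (by omega) ▸ inv_mem h4) (by omega) (by omega)
    rw [r2 5 (by omega), show (2 * 2 - 5 : ℤ) = -1 by omega] at this
    rw [commutatorElement_def, mul_smul, this, mul_smul, inv_smul_smul, mul_smul,
      Ball_fix hx h4 (by omega) (by omega)])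
  have := Ball_conj ω bv
  rw [← commutatorElement_eq_one_iff_mul_comm.1 k1, mul_inv_cancel_right] at this
  exact ω1 (N8_one hn hx h4 (j := 6) (by omega) (N8c_two hn
    (f5 ▸ P.adj_smul ω (hx.adj' (i := 5) rfl)) (hx.adj' (i := 5) rfl) this bv v1))

/-- `e` fixing `x 0, x 1, x 2` centralizes `V_1 = Z_0 Z_2`, so `Zv c = Zv (e c)`, `e c = c`. -/
theorem N8_E_odd (hn : P.n = 8) {x : ℤ → V} (hx : P.Line x) (hs : P.Sg (x 0)) :
    P.E1 (x 1) := by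
  intro a b ha hb hab e he hf
  have sg : ∀ c, P.adj (x 1) c → P.Sg c := fun c hc => hs.of_ty (ty_eq_of_adj (hx.adj_pred rfl) hc)
  refine ⟨P.A_fix he, fun c hc => ?_⟩
  obtain ⟨z, hz, z1⟩ := N8c_ex hn (sg c hc)
  obtain ⟨p, hp, p0, p1, p2⟩ := exists_line_two ha hb hab
  obtain ⟨u, hu, v, hv, rfl⟩ := N8_V hn (hp.shift (-1)) (by simpa [p0] using sg a ha) (w := z)
    (by simpa [p1] using Zv_le_Vv hc hz)
  have c1 := Zv_comm (y := a) (by simpa [p0] using hu) (P.adj_symm ha) (P.A_symm _ _ ▸ he)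
  have c2 := Zv_comm (y := b) (by simpa [p2] using hv) (P.adj_symm hb)
    (P.A_symm _ _ ▸ P.compat ha hb he hf)
  have := Ball_conj e (N8_Z hn (sg c hc) hz)
  rw [← mul_assoc, c1, mul_assoc u, c2, ← mul_assoc, mul_inv_cancel_right] at this
  exact N8c_two hn (P.A_fix he ▸ P.adj_smul e hc) hc this (N8_Z hn (sg c hc) hz) z1

end SP

end Cfsg.Agent.BN2
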