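import Cfsg.Agent.BN2.OcP3
import Cfsg.Agent.BN2.QdB
import Cfsg.Agent.BN2.Typ
import Cfsg.Agent.UL.TitsGrp
import Cfsg.Agent.UL.Inner
import Cfsg.Agent.Chev.Tits1

/-!
# Finite Moufang octagons (S1144): identification with `²F₄(q)`
-/

set_option autoImplicit false
set_option linter.unusedSectionVars false

namespace Cfsg.Agent.BN2

open Cfsg.Agent.St Cfsg.Agent.Chev Cfsg.Agent.BNP Cfsg.Lie

theorem oct_ncl {H : Type*} [Group H] {C : Subgroup H} [C.Normal] [IsSimpleGroup C] (i2 : C.index = 2)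
    {U : Subgroup H} (hU : ¬ 2 ∣ U.index) {u : H} (hu : u ∈ U) (u1 : u * u ≠ 1) (u2 : u * u ∈ C) :
    Subgroup.normalClosure (U : Set H) = ⊤ ∧ ¬ IsSimpleGroup H := by
  refine ⟨?_, fun _ => ?_⟩
  · set N := Subgroup.normalClosure (U : Set H)
    have hu' : u ∈ N := Subgroup.le_normalClosure hu
    have hN : C ≤ N := by
      refine Subgroup.subgroupOf_eq_top.1 ((Subgroup.Normal.eq_bot_or_eq_top
        (inferInstance : (N.subgroupOf C).Normal)).resolve_left fun q => u1 ?_)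
      have m : (⟨u * u, u2⟩ : C) ∈ N.subgroupOf _ := Subgroup.mem_subgroupOf.2 (mul_mem hu' hu')
      rw [q, Subgroup.mem_bot] at m
      exact congrArg Subtype.val m
    rcases (Nat.dvd_prime Nat.prime_two).1 (i2 ▸ Subgroup.index_dvd_of_le hN) with q | q
    · exact Subgroup.index_eq_one.1 q
    · exact absurd (q ▸ Subgroup.index_dvd_of_le (Subgroup.le_normalClosure : U ≤ N)) hU
  · rcases Subgroup.Normal.eq_bot_or_eq_top (inferInstance : C.Normal) with q | q
    · exact u1 (Subgroup.mem_bot.1 (q ▸ u2))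
    · rw [q, Subgroup.index_top] at i2
      omega

namespace MP

variable {G V : Type} [Group G] [MulAction G V] [Finite G] [Finite V] {M : MP G V}
  {G' V' : Type} [Group G'] [MulAction G' V'] [Finite G'] [Finite V'] {M' : MP G' V'}

theorem oct_iso (h : M.Good) (h' : M'.Good) (H : M.Oc) (H' : M'.Oc)
    (e : Nat.card (M.U 1) = Nat.card (M'.U 1)) : Nonempty (G ≃* G') := by
  obtain ⟨F, _, _, ⟨D⟩⟩ := H.exists_od
  obtain ⟨F', _, _, ⟨D'⟩⟩ := H'.exists_od
  have hc : Fintype.card F' = Fintype.card F := by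
    rw [← Nat.card_eq_fintype_card, ← Nat.card_eq_fintype_card, D.E.card, D'.E.card, e]
  obtain ⟨D''⟩ := D'.congr (FiniteField.ringEquivOfCardEq hc)
  obtain ⟨σ, R⟩ := D.exists_rel H
  obtain ⟨σ', R'⟩ := D''.exists_rel H'
  obtain rfl := sq_unique D.two σ σ' R.sq R'.sq
  exact OP.iso ⟨D, D'', σ, H, H', R, R'⟩ h h'

theorem Oc.sizes (H : M.Oc) : (∃ m, Nat.card (M.U 1) = 2 ^ (2 * m + 1)) ∧
    Nat.card (M.U 0) = Nat.card (M.U 1) ^ 2 := by
  obtain ⟨F, _, _, ⟨D⟩⟩ := H.exists_od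
  obtain ⟨σ, R⟩ := D.exists_rel H
  obtain ⟨m, hm⟩ := card_of_sq D.two σ R.sq
  exact ⟨⟨m, by rw [← D.E.card, Nat.card_eq_fintype_card, hm]⟩, by rw [R.card_U0 H, D.E.card]⟩

theorem oct_model (h : M.Good) (H : M.Oc) {W : Type} [Group W] (T : Split 2 G' (Fin 2) W)
    (o8 : orderOf (T.s 0 * T.s 1) = 8) (hcore : T.B.normalCore = ⊥)
    (hn : Subgroup.normalClosure (T.U : Set G') = ⊤)
    (c0 : Nat.card (UL.rootX T 0) = Nat.card (M.U 1))
    (c1 : Nat.card (UL.rootX T 1) = Nat.card (M.U 1) ^ 2) : Nonempty (G ≃* G') := by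
  have := T.toTits.finite_W
  have hc : T.s 0 * T.s 1 ≠ T.s 1 * T.s 0 := fun q => by
    have : orderOf (T.s 0 * T.s 1) ∣ 2 := orderOf_dvd_of_pow_eq_one (by
      rw [sq]
      nth_rewrite 1 [q]
      rw [mul_assoc, ← mul_assoc (T.s 0), T.cox.sq, one_mul, T.cox.sq])
    rw [o8] at this
    omega
  have q0 : ∀ i, qq T.toTits i = Nat.card (UL.rootX T i) := fun i =>
    Nat.succ_injective ((relIndex_eq_qq _ i).symm.trans (UL.relIndex_par_gen T i))
  obtain ⟨V', _, _, M', g1, -, g2, g3, g4, -⟩ := exists_good T.toTits (a := 0) (b := 1) (by decide)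
    hc ((faith_iff _).2 hcore) (spl_of_split0 T.toSplit0) hn
  rw [o8] at g2
  rw [g2, show ((8 : ℕ) : ℤ) - 1 = 7 from rfl, q0, c1] at g4
  rw [q0, c0] at g3
  have r : (15 : ℤ) = 2 * M'.n - 1 := by rw [g2]; rfl
  rcases oct_sg g2 with s | s
  · have a := (Oc.sizes ⟨g2, s⟩).2
    have b := two_le_card_U (M := M) 1
    rw [g3, card_U_even (M := M') (i := 7) (j := 1) (by decide), g4, ← pow_mul] at a
    have := Nat.pow_right_injective b (a.symm.trans (pow_one _).symm)
    omega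
  · refine oct_iso (M' := M'.rev 15) h (by rw [r]; exact g1.rev) H ⟨g2, s⟩ ?_
    rw [U_rev, card_U_even (M := M') (i := 0) (by rw [g2]; decide), g3]

theorem Oc.lie [IsSimpleGroup G] (h : M.Good) (H : M.Oc) : Lie G := by
  obtain ⟨⟨m, hm⟩, -⟩ := H.sizes
  rcases Nat.eq_zero_or_pos m with rfl | m1
  · obtain ⟨W, _, T, k⟩ := UL.exists_titsPkg
    have i2 := Tits.index_commutator
    obtain ⟨u, hu, u1, u2⟩ := k.X1
    have l := @oct_ncl _ _ _ _ Tits.isSimpleGroup i2 _ T.toSplit0.not_dvd_index_U _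
      (UL.rootX_le_U T 1 hu) u1 u2
    obtain ⟨e⟩ := oct_model h H T k.ord k.core l.1 (by rw [k.card0, hm]; rfl) (by rw [k.card1, hm]; rfl)
    exact absurd e.symm.isSimpleGroup l.2
  · let K := GaloisField 2 (2 * m + 1)
    let _ : Fintype K := Fintype.ofFinite _
    have hK : Fintype.card K = 2 ^ (2 * m + 1) := by
      rw [← Nat.card_eq_fintype_card, GaloisField.card 2 _ (by omega)]
    obtain ⟨_, S, θ, hθ, -, hT⟩ := F4.exists_data hK
    have hr : (Subgroup.inclusion (F4.le_group (K := K) (e := 2 ^ m))).range = (F4.tw S θ hθ).data.T :=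
      (F4.tw S θ hθ).data.range_inclusion _ hT
    have hj := Subgroup.inclusion_injective (F4.le_group (K := K) (e := 2 ^ m))
    have := S.finite
    have : Finite (twistedF4 K (2 ^ m)) := Finite.of_injective _ hj
    have := (F4.isSimpleGroup S θ hθ (F4.two_lt m1 hK) _ hj hr).1
    let T := UL.sysSplit 2 (F4.tw S θ hθ) _ hj hr
    have e := oct_model h H T (by rw [UL.orderOf_sysSplit, F4.orderOf_wJ]; decide)
      (UL.core_of_simple T) ((Subgroup.Normal.eq_bot_or_eq_top inferInstance).resolve_left fun q =>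
        (spl_of_split0 T.toSplit0).ne_bot (eq_bot_iff.2 (q ▸ Subgroup.le_normalClosure)))
      (by rw [UL.card_rootX_sysSplit, F4.card_UJ, hm, hK]; simp)
      (by rw [UL.card_rootX_sysSplit, F4.card_UJ, hm, hK]; simp)
    have : Iso2F4 G := ⟨K, _, _, m, m1, hK, e⟩
    unfold Lie IsExceptionalLieType
    tauto

theorem oct_lie [IsSimpleGroup G] (h : M.Good) (hn : M.n = 8) : Lie G := by
  rcases oct_sg hn with s | s
  · exact Oc.lie h ⟨hn, s⟩
  · refine Oc.lie (M := M.rev 15) ?_ ⟨hn, s⟩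
    rw [show (15 : ℤ) = 2 * M.n - 1 by rw [hn]; rfl]
    exact h.rev

end MP

end Cfsg.Agent.BN2
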