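import Cfsg.Agent.BN2.Main
import Cfsg.Agent.BN2.Bridge

/-!
# Rank two split Tits systems are Moufang
-/

set_option autoImplicit false

namespace Cfsg.Agent.BN2

open Cfsg.Agent.St Cfsg.Agent.Chev Cfsg.Agent.BNP

universe u

variable {G : Type u} {ι W : Type*} [Group G] [Group W] [Finite G] [Finite W]

theorem ord_cases (T : Tits G ι W) {a b : ι} (hab : a ≠ b)
    (hc : T.s a * T.s b ≠ T.s b * T.s a) : orderOf (T.s a * T.s b) = 3 ∨
      orderOf (T.s a * T.s b) = 4 ∨ orderOf (T.s a * T.s b) = 6 ∨ orderOf (T.s a * T.s b) = 8 := by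
  have h := feit_higman_tits T hab
  simp only [Set.mem_insert_iff, Set.mem_singleton_iff] at h
  rcases h with h | h
  · exfalso
    have := av_ord T.cox a b
    rw [h, av_two, av_two] at this
    exact hc this
  · exact h

/-- the polygon of a split rank two Tits system -/
theorem exists_sp (T : Tits G ι W) {a b : ι} (hab : a ≠ b) (hι : ∀ k, k = a ∨ k = b)
    (hc : T.s a * T.s b ≠ T.s b * T.s a) (hf : Faith T) {U : Subgroup G} (hU : Spl T U) :
    ∃ (V : Type u) (_ : MulAction G V) (_ : Finite V) (P : SP G V) (x : ℤ → V),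
      Dict T a b P.toPol x ∧ (P.n = 3 ∨ P.n = 4 ∨ P.n = 6 ∨ P.n = 8) := by
  have h := ord_cases T hab hc
  obtain ⟨V, _, _, P, x, hD⟩ := exists_dict T hab hι (by omega) hf hU
  rw [← hD.n_eq] at h
  obtain ⟨S, rfl⟩ := P.exists_SP (by omega)
  exact ⟨V, _, inferInstance, S, x, hD, h⟩

theorem Dict.X_eq {T : Tits G ι W} {a b : ι} {V : Type u} [MulAction G V] [Finite V] {P : SP G V}
    {x : ℤ → V} (hD : Dict T a b P.toPol x) (hn : P.n = 3 ∨ P.n = 4 ∨ P.n = 6 ∨ P.n = 8) {l : ℕ}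
    (hl : l < P.n) : X T (bt T.s a b l) = P.X x (-l) := by
  ext g
  rw [hD.X_iff l hl]
  exact ⟨SP.mem_X_of_K hn hD.ap.1, fun h k h1 h2 => (Pol.mem_X.1 h k h1 h2).1⟩

theorem Dict.X_le_B {T : Tits G ι W} {a b : ι} {V : Type u} [MulAction G V] {P : Pol G V}
    {x : ℤ → V} (hD : Dict T a b P x) {i : ℤ} (h1 : 1 - P.n ≤ i) (h2 : i ≤ 0) :
    P.X x i ≤ T.B := fun g hg => by
  have h3 := P.three_le
  exact (hD.B_iff g).2 ⟨Pol.QQ_fix hD.ap.1 hg (by omega) (by omega) (by omega),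
    Pol.QQ_fix hD.ap.1 hg (by omega) (by omega) (by omega)⟩

theorem rank_two (T : Tits G ι W) {a b : ι} (hab : a ≠ b) (hι : ∀ k, k = a ∨ k = b)
    (hc : T.s a * T.s b ≠ T.s b * T.s a) (hf : Faith T) {U : Subgroup G} (hU : Spl T U) :
    MH T ∧ ∀ u ∈ U, u ∈ Fx T Set.univ → u = 1 := by
  obtain ⟨V, _, _, P, x, hD, hn⟩ := exists_sp T hab hι hc hf hU
  have h3 := P.three_le
  refine ⟨⟨hf, fun i => ?_, fun i => ?_⟩, fun u hu hx => ?_⟩
  · rcases hι i with rfl | rfl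
    · exact ⟨b, hc⟩
    · exact ⟨a, hc.symm⟩
  · rcases hι i with rfl | rfl
    · intro y hy
      rw [← bt_zero i b, hD.X_eq hn (by omega)]
      exact hD.mouf_a _ (hD.X_le_B (by omega) (by omega))
        (by simpa using SP.X_tr hn hD.ap.1 0) y hy
    · intro y hy
      rw [← bt_zero i a, bt_symm T.cox (l := P.n - 1) (by rw [← hD.n_eq]; omega),
        hD.X_eq hn (by omega)]
      refine hD.mouf_b _ (hD.X_le_B (by omega) (by omega)) ?_ y hy
      have := SP.X_tr' hn hD.ap.1 (-((P.n - 1 : ℕ) : ℤ))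
      rwa [show -((P.n - 1 : ℕ) : ℤ) + P.n = 1 by omega, sub_self] at this
  · refine SP.D_eq_one hn hD.ap ⟨?_, (hD.Fx_iff u).1 hx⟩
    exact P.A_max U (hD.ap.1.adj' (by simp)) (fun u hu => (hD.B_iff u).1 (hU.le hu))
      (fun g h0 h1 => hU.conj g ((hD.B_iff g).2 ⟨h0, h1⟩)) hU.nil hu

end Cfsg.Agent.BN2
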