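import Cfsg.Agent.BN2.Rank2
import Cfsg.Agent.UL.Blocks
import Cfsg.Agent.PLocal.Amb

/-!
# Reduction of the uniqueness of splittings to rank two
-/

set_option autoImplicit false

namespace Cfsg.Agent.BN2

open Cfsg.Agent.St Cfsg.Agent.Chev Cfsg.Agent.BNP

universe u

section

variable {G : Type u} {ι W : Type*} [Group G] [Group W] {T : Tits G ι W}

theorem smul_mk_eq_iff (g y : G) : g • (y : Ch T) = y ↔ y⁻¹ * g * y ∈ T.B := by
  rw [smul_mk, eq_comm, QuotientGroup.eq, mul_assoc]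

theorem mem_Fx_univ {g : G} : g ∈ Fx T Set.univ ↔ ∀ n ∈ T.N, n⁻¹ * g * n ∈ T.B := by
  have k : ∀ n ∈ T.N, ap T (T.wt n) = (n : Ch T) := fun n hn => by
    rw [← mul_one (T.wt n), ← mv_of_mem_N hn, ap_one, smul_mk, mul_one]
  refine ⟨fun h n hn => ?_, fun h w _ => ?_⟩
  · rw [← smul_mk_eq_iff, ← k n hn]; exact h _ trivial
  · obtain ⟨n, hn, rfl⟩ := T.exists_N w
    rw [k n hn, smul_mk_eq_iff]; exact h n hn

theorem fx_res {κ : Type*} (e : κ → ι) (he : Function.Injective e) {g : T.par (Set.range e)}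
    (h : (g : G) ∈ Fx T Set.univ) : g ∈ Fx (titsRes T e he) Set.univ :=
  mem_Fx_univ.2 fun n hn => mem_Fx_univ.1 h n hn

theorem fx_quot {g : G} (h : g ∈ Fx T Set.univ) :
    QuotientGroup.mk' T.B.normalCore g ∈ Fx (titsQuot T) Set.univ := mem_Fx_univ.2 (by
  rintro _ ⟨n, hn, rfl⟩
  obtain ⟨a, ha, k, hk, rfl⟩ := Subgroup.mem_sup_of_normal_right.1 hn
  refine ⟨k⁻¹ * (a⁻¹ * g * a) * k, mul_mem (mul_mem (inv_mem (T.B.normalCore_le hk)) (mem_Fx_univ.1 h a ha))
    (T.B.normalCore_le hk), ?_⟩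
  simp only [map_mul, map_inv, mul_inv_rev, mul_assoc])

theorem Spl.res {U : Subgroup G} (hU : Spl T U) {κ : Type*} (e : κ → ι) (he : Function.Injective e) :
    Spl (titsRes T e he) (U.subgroupOf _) where
  le := Subgroup.comap_mono hU.le
  conj b hb u hu := hU.conj b hb u hu
  nil := by
    have := hU.nil
    exact Group.nilpotent_of_mulEquiv (Subgroup.subgroupOfEquivOfLe (hU.le.trans (T.B_le_par _))).symm
  dec b hb := by
    obtain ⟨u, hu, h⟩ := hU.dec b hb
    exact ⟨⟨u, T.B_le_par _ (hU.le hu)⟩, hu, fx_res e he h⟩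

theorem Spl.quot {U : Subgroup G} (hU : Spl T U) : Spl (titsQuot T) (U.map (QuotientGroup.mk' _)) where
  le := Subgroup.map_mono hU.le
  conj := by
    rintro _ ⟨b, hb, rfl⟩ _ ⟨u, hu, rfl⟩
    exact ⟨_, hU.conj b hb u hu, rfl⟩
  nil := by
    have := hU.nil
    exact Group.nilpotent_of_surjective _ (MonoidHom.subgroupMap_surjective _ U)
  dec := by
    rintro _ ⟨b, hb, rfl⟩
    obtain ⟨u, hu, h⟩ := hU.dec b hb
    exact ⟨_, ⟨u, hu, rfl⟩, fx_quot h⟩

end

theorem core {G : Type u} {ι W : Type*} [Group G] [Group W] [Finite G] [Finite W] [Nontrivial ι]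
    (T : Tits G ι W) (hirr : UL.Irred T) (hf : Faith T) {U : Subgroup G} (hU : Spl T U) :
    ∀ u ∈ U, u ∈ Fx T Set.univ → u = 1 := by
  intro u hu hx
  refine hf.eq_one (x := ap T 1) (rigid_ap (fun v _ => hx _ trivial) fun i _ y hy => ?_)
  obtain ⟨i, rfl, j, hj, hc⟩ := hirr {i} (Set.singleton_nonempty i) (Set.singleton_ne_univ i)
  have he : Function.Injective ![i, j] := by
    have : j ≠ i := hj
    intro a b
    fin_cases a <;> fin_cases b <;> simp [this, this.symm]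
  have h := (rank_two (titsQuot (titsRes T _ he)) (a := 0) (b := 1) (by decide) (by decide)
    (fun e => hc (congrArg Subtype.val e)) (faith_quot _) (hU.res _ he).quot).2 _
    ⟨⟨u, T.B_le_par _ (hU.le hu)⟩, hu, rfl⟩ (fx_quot (fx_res _ he hx))
  induction y using QuotientGroup.induction_on with | H y => ?_
  rw [Rs, ap_one, dist_mk, inv_one, one_mul, ← T.mem_par] at hy
  exact (smul_mk_eq_iff u y).2 (by
    simpa [Subgroup.mem_subgroupOf, titsRes] using (QuotientGroup.eq_one_iff _).1 h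
      ⟨y, T.par_mono (by simp) hy⟩⁻¹)

/-- the splitting of a `BNPair` -/
theorem spl_ofBN {G : Type u} {ι W : Type*} [Group G] [Group W] (P : BNPair G) (e : ι → P.S)
    (he : Function.Bijective e) (φ : BN.W P ≃* W) {U : Subgroup G} (hU : U ≤ P.B)
    (hn : ∀ b ∈ P.B, ∀ u ∈ U, b * u * b⁻¹ ∈ U) (hnil : Group.IsNilpotent U)
    (h : U ⊔ (P.B ⊓ P.N) = P.B) : Spl (Tits.ofBN P e he φ) U := by
  refine ⟨hU, hn, hnil, fun b hb => ?_⟩
  obtain ⟨u, hu, t, ht, rfl⟩ := (PLocal.Amb.mem_sup_of_le_normalizer_left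
    (inf_le_left.trans (Subgroup.le_normalizer_iff.2 hn))).1 (h.ge hb)
  refine ⟨u, hu, mem_Fx_univ.2 fun n hn => ?_⟩
  change _ ∈ P.B
  simpa using P.conj_mem _ (inv_mem hn) t ht

/-- a splitting subgroup is the Fitting subgroup of `B` -/
theorem Spl.eq_fitting {G : Type u} {ι W : Type*} [Group G] [Group W] [Finite G] [Finite W] [Nontrivial ι]
    {T : Tits G ι W} (hirr : UL.Irred T) (hf : Faith T) {U : Subgroup G} (hU : Spl T U) :
    U = (fittingSubgroup T.B).map T.B.subtype := by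
  have := hU.nil
  have h1 := Grp.le_map_fitting hU.le (Subgroup.le_normalizer_iff.2 hU.conj) hU.nil
  have h2 : Spl T ((fittingSubgroup T.B).map T.B.subtype) := ⟨Subgroup.map_subtype_le _,
    Subgroup.le_normalizer_iff.1 (PLocal.Amb.le_normalizer_map_subtype _), Grp.isNilpotent_map_fitting _,
    fun b hb => (hU.dec b hb).imp fun u h => ⟨h1 h.1, h.2⟩⟩
  refine le_antisymm h1 fun f hf' => ?_
  obtain ⟨u, hu, h⟩ := hU.dec f (h2.le hf')
  rwa [← inv_mul_eq_one.1 (core T hirr hf h2 _ (mul_mem (inv_mem (h1 hu)) hf') h)]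

end Cfsg.Agent.BN2
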