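import Cfsg.Agent.BN2.Base

/-!
# Elementary API for `SP` (compatibility along paths, `R`, `QQ`, `Vv`, `Wv`)
-/

set_option autoImplicit false

open scoped commutatorElement

namespace Cfsg.Agent.BN2

namespace Pol

variable {G V : Type*} [Group G] [MulAction G V] (P : Pol G V)

/-- the group generated by the `Zv c`, `c` adjacent to `y` -/
def Vv (y : V) : Subgroup G := Subgroup.closure {g | ∃ c, P.adj y c ∧ g ∈ P.Zv c}

/-- the group generated by the `Vv l`, `l` adjacent to `y` (so by the `Zv c`, `d(c,y) ∈ {0,2}`) -/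
def Wv (y : V) : Subgroup G := Subgroup.closure {g | ∃ l, P.adj y l ∧ g ∈ P.Vv l}

variable {P}

theorem Zv_le_Vv {y c : V} (h : P.adj y c) : P.Zv c ≤ P.Vv y :=
  fun _ hg => Subgroup.subset_closure ⟨c, h, hg⟩

theorem Vv_le_Wv {y l : V} (h : P.adj y l) : P.Vv l ≤ P.Wv y :=
  fun _ hg => Subgroup.subset_closure ⟨l, h, hg⟩

theorem Vv_le {y : V} {H : Subgroup G} (h : ∀ c, P.adj y c → P.Zv c ≤ H) : P.Vv y ≤ H :=
  (Subgroup.closure_le _).2 fun _ ⟨c, hc, hg⟩ => h c hc hg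

theorem Wv_le {y : V} {H : Subgroup G} (h : ∀ l, P.adj y l → P.Vv l ≤ H) : P.Wv y ≤ H :=
  (Subgroup.closure_le _).2 fun _ ⟨c, hc, hg⟩ => h c hc hg

theorem Vv_conj (g : G) {y : V} {u : G} (h : u ∈ P.Vv y) : g * u * g⁻¹ ∈ P.Vv (g • y) :=
  Vv_le (H := (P.Vv (g • y)).comap (MulAut.conj g).toMonoidHom)
    (fun _ hc _ hu => Zv_le_Vv (P.adj_smul g hc) (Zv_conj g hu)) h

theorem Vv_conj' {g : G} {y : V} {u : G} (h : u ∈ P.Vv y) (hg : g • y = y) :
    g * u * g⁻¹ ∈ P.Vv y := by simpa [hg] using Vv_conj g h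

theorem Wv_conj (g : G) {y : V} {u : G} (h : u ∈ P.Wv y) : g * u * g⁻¹ ∈ P.Wv (g • y) :=
  Wv_le (H := (P.Wv (g • y)).comap (MulAut.conj g).toMonoidHom)
    (fun _ hc _ hu => Vv_le_Wv (P.adj_smul g hc) (Vv_conj g hu)) h

theorem Wv_conj' {g : G} {y : V} {u : G} (h : u ∈ P.Wv y) (hg : g • y = y) :
    g * u * g⁻¹ ∈ P.Wv y := by simpa [hg] using Wv_conj g h

/-- `Q y` centralizes `Vv y` -/
theorem Vv_comm {y : V} {u g : G} (hu : u ∈ P.Vv y) (hg : g ∈ P.Q y) : g * u = u * g :=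
  Vv_le (H := Subgroup.centralizer {g}) (fun c hc z hz => by
    rw [Subgroup.mem_centralizer_singleton_iff]
    exact (Zv_comm hz (P.adj_symm hc) (P.A_symm y c ▸ hg.2 c hc)).symm) hu g rfl

/-- a subgroup normalized by `g` contains its commutators with `g` -/
theorem comm_mem {H : Subgroup G} {u g : G} (hu : u ∈ H) (hg : g * u * g⁻¹ ∈ H) :
    ⁅g, u⁆ ∈ H ∧ ⁅u, g⁆ ∈ H := by
  have : ⁅g, u⁆ ∈ H := by rw [commutatorElement_def]; exact mul_mem hg (inv_mem hu)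
  exact ⟨this, by simpa using inv_mem this⟩

theorem comm_K {y : V} {u g : G} (hu : u ∈ P.K y) (hg : g • y = y) :
    ⁅g, u⁆ ∈ P.K y ∧ ⁅u, g⁆ ∈ P.K y := comm_mem hu (K_conj' hu hg)

theorem comm_Q {y : V} {u g : G} (hu : u ∈ P.Q y) (hg : g • y = y) :
    ⁅g, u⁆ ∈ P.Q y ∧ ⁅u, g⁆ ∈ P.Q y := comm_mem hu (Q_conj' hu hg)

theorem comm_Ball {k : ℕ} {y : V} {u g : G} (hu : u ∈ P.Ball k y) (hg : g • y = y) :
    ⁅g, u⁆ ∈ P.Ball k y ∧ ⁅u, g⁆ ∈ P.Ball k y := comm_mem hu (Ball_conj' hu hg)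

theorem comm_Vv {y : V} {u g : G} (hu : u ∈ P.Vv y) (hg : g • y = y) :
    ⁅g, u⁆ ∈ P.Vv y ∧ ⁅u, g⁆ ∈ P.Vv y := comm_mem hu (Vv_conj' hu hg)

theorem comm_Wv {y : V} {u g : G} (hu : u ∈ P.Wv y) (hg : g • y = y) :
    ⁅g, u⁆ ∈ P.Wv y ∧ ⁅u, g⁆ ∈ P.Wv y := comm_mem hu (Wv_conj' hu hg)

theorem QQ_fix {x : ℤ → V} (hx : P.Line x) {i j k : ℤ} {u : G} (h : u ∈ P.QQ x i j) (hij : i ≤ j)
    (h1 : i - 1 ≤ k) (h2 : k ≤ j + 1) : u • x k = x k := by
  by_cases hk : k ≤ i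
  · exact K_fix hx (h i le_rfl hij).1 h1 (by omega)
  · exact K_fix hx (h (k - 1) (by omega) (by omega)).1 (by omega) (by omega)

theorem QQ_mono {x : ℤ → V} {i j i' j' : ℤ} (h1 : i ≤ i') (h2 : j' ≤ j) :
    P.QQ x i j ≤ P.QQ x i' j' := fun _ h k a b => h k (by omega) (by omega)

theorem QQ_conj {x : ℤ → V} {i j : ℤ} {u g : G} (h : u ∈ P.QQ x i j)
    (hg : ∀ k, i ≤ k → k ≤ j → g • x k = x k) : g * u * g⁻¹ ∈ P.QQ x i j :=
  fun k a b => Q_conj' (h k a b) (hg k a b)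

theorem R_conj {x : ℤ → V} {i j : ℤ} {u g : G} (h : u ∈ P.R x i j) (hij : i < j)
    (hg : ∀ k, i ≤ k → k ≤ j → g • x k = x k) : g * u * g⁻¹ ∈ P.R x i j :=
  ⟨A_conj' h.1 (hg i le_rfl hij.le) (hg _ (by omega) (by omega)), fun k a b => by
    rw [mul_smul, mul_smul, inv_smul_eq_iff.2 (hg k a b).symm, h.2 k a b, hg k a b]⟩

theorem QQ_A {x : ℤ → V} (hx : P.Line x) {i j k : ℤ} {u : G} (h : u ∈ P.QQ x i j) (hij : i ≤ j)
    (h1 : i - 1 ≤ k) (h2 : k ≤ j) : u ∈ P.A (x k) (x (k + 1)) := by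
  by_cases hk : i ≤ k
  · exact (h k hk h2).2 _ (hx.1 k)
  · rw [P.A_symm]
    exact (h (k + 1) (by omega) (by omega)).2 _ (hx.adj_pred rfl)

theorem QQ_R {x : ℤ → V} (hx : P.Line x) {i j a b : ℤ} {u : G} (h : u ∈ P.QQ x i j) (hij : i ≤ j)
    (h1 : i - 1 ≤ a) (h2 : b ≤ j + 1) (hab : a < b) : u ∈ P.R x a b :=
  ⟨QQ_A hx h hij h1 (by omega), fun _ _ _ => QQ_fix hx h hij (by omega) (by omega)⟩

/-- an element of `QQ x i j`, `j - i = n - 2` (a root group), fixing a neighbour `c ≠ x i` of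
`x (i - 1)` is trivial -/
theorem QQ_eq_one {x : ℤ → V} (hx : P.Line x) {i j : ℤ} {u : G} (h : u ∈ P.QQ x i j)
    (hij : i + P.n - 2 ≤ j) {c : V} (hc : P.adj (x (i - 1)) c) (hne : c ≠ x i) (hf : u • c = c) :
    u = 1 := by
  have h3 := P.three_le
  obtain ⟨r, hr, r1, r2⟩ := exists_turn' hx hc (by simpa using hne)
  refine eq_one hr (a := i - 1 - 1) (k := i) (fun k a b => ?_) (by omega) (by omega)
    (by rw [r1 _ (by omega)]; exact (h i le_rfl (by omega)).1)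
    (by rw [r1 _ (by omega)]; exact (h _ (by omega) (by omega)).1)
  rcases a.eq_or_lt with rfl | a
  · rwa [r2]
  · rw [r1 _ (by omega)]; exact QQ_fix hx h (by omega) (by omega) (by omega)

theorem QQ_rev {x : ℤ → V} {i j c : ℤ} {u : G} :
    u ∈ P.QQ (fun k => x (c - k)) i j ↔ u ∈ P.QQ x (c - j) (c - i) :=
  ⟨fun h k a b => by simpa using h (c - k) (by omega) (by omega),
    fun h k a b => h (c - k) (by omega) (by omega)⟩

theorem QQ_shift {x : ℤ → V} {i j c : ℤ} {u : G} :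
    u ∈ P.QQ (fun k => x (k + c)) i j ↔ u ∈ P.QQ x (i + c) (j + c) :=
  ⟨fun h k a b => by simpa using h (k - c) (by omega) (by omega),
    fun h k a b => h (k + c) (by omega) (by omega)⟩

theorem R_shift {x : ℤ → V} {i j c : ℤ} {u : G} :
    u ∈ P.R (fun k => x (k + c)) i j ↔ u ∈ P.R x (i + c) (j + c) :=
  ⟨fun h => ⟨by simpa [add_right_comm i 1 c] using h.1, fun k a b => by
      simpa using h.2 (k - c) (by omega) (by omega)⟩,
    fun h => ⟨by simpa [add_right_comm i 1 c] using h.1,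
      fun k a b => h.2 (k + c) (by omega) (by omega)⟩⟩

theorem QQ_eq_one' {x : ℤ → V} (hx : P.Line x) {i j : ℤ} {u : G} (h : u ∈ P.QQ x i j)
    (hij : i + P.n - 2 ≤ j) {c : V} (hc : P.adj (x (j + 1)) c) (hne : c ≠ x j) (hf : u • c = c) :
    u = 1 :=
  QQ_eq_one (hx.rev 0) (i := -j) (j := -i) (QQ_rev.2 (by simpa using h)) (by omega)
    (by simpa [show -(-j - 1) = j + 1 by ring] using hc) (by simpa using hne) hf

end Pol

namespace SP

open Pol

variable {G V : Type*} [Group G] [MulAction G V] {P : SP G V}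

theorem A_line {x : ℤ → V} (hx : P.Line x) {u : G} {a b i j : ℤ}
    (hu : u ∈ P.A (x i) (x (i + 1))) (hf : ∀ k, a ≤ k → k ≤ b → u • x k = x k) (hi : a ≤ i)
    (hi' : i < b) (hj : a ≤ j) (hj' : j < b) : u ∈ P.A (x j) (x (j + 1)) := by
  induction j using Int.inductionOn' (b := i) with
  | zero => exact hu
  | succ k hk ih =>
    refine P.compat (hx.adj_pred rfl) (hx.1 _) ?_ (hf _ (by omega) (by omega))
    rw [P.A_symm]; exact ih (by omega) (by omega)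
  | pred k hk ih =>
    rw [P.A_symm, sub_add_cancel]
    exact P.compat (hx.1 k) (hx.adj_pred (by ring)) (ih (by omega) (by omega))
      (hf _ (by omega) (by omega))

theorem mem_Q_of {y z : V} (h : P.adj y z) {u : G} (hu : u ∈ P.A y z) (hK : u ∈ P.K y) :
    u ∈ P.Q y := ⟨hK, fun c hc => P.compat h hc hu (hK.2 c hc)⟩

theorem R_A {x : ℤ → V} (hx : P.Line x) {u : G} {i j k : ℤ} (hu : u ∈ P.R x i j) (h1 : i ≤ k)
    (h2 : k < j) : u ∈ P.A (x k) (x (k + 1)) :=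
  A_line hx hu.1 hu.2 le_rfl (by omega) h1 h2

theorem mem_R_of {x : ℤ → V} (hx : P.Line x) {u : G} {i j k : ℤ}
    (hu : u ∈ P.A (x k) (x (k + 1))) (hf : ∀ l, i ≤ l → l ≤ j → u • x l = x l) (h1 : i ≤ k)
    (h2 : k < j) : u ∈ P.R x i j := ⟨A_line hx hu hf h1 h2 le_rfl (by omega), hf⟩

theorem R_mono {x : ℤ → V} (hx : P.Line x) {i j i' j' : ℤ} (h1 : i ≤ i') (h2 : j' ≤ j)
    (h : i' < j') : P.R x i j ≤ P.R x i' j' := fun _ hu =>
  ⟨R_A hx hu h1 (by omega), fun k a b => hu.2 k (by omega) (by omega)⟩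

theorem R_rev {x : ℤ → V} (hx : P.Line x) {i j c : ℤ} {u : G} (hij : i < j) :
    u ∈ P.R (fun k => x (c - k)) i j ↔ u ∈ P.R x (c - j) (c - i) := by
  constructor
  · intro h
    refine mem_R_of hx (k := c - (i + 1)) ?_ (fun k a b => by
      simpa using h.2 (c - k) (by omega) (by omega)) (by omega) (by omega)
    rw [P.A_symm, show c - (i + 1) + 1 = c - i by ring]; exact h.1
  · intro h
    refine ⟨?_, fun k a b => h.2 (c - k) (by omega) (by omega)⟩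
    have := R_A hx h (k := c - (i + 1)) (by omega) (by omega)
    rwa [P.A_symm, show c - (i + 1) + 1 = c - i by ring] at this

/-- an element of `R x i j` lying in `K (x k)`, `i ≤ k ≤ j`, lies in `Q (x k)` -/
theorem R_Q {x : ℤ → V} (hx : P.Line x) {u : G} {i j k : ℤ} (hu : u ∈ P.R x i j) (hij : i < j)
    (h1 : i ≤ k) (h2 : k ≤ j) (hK : u ∈ P.K (x k)) : u ∈ P.Q (x k) := by
  rcases h2.eq_or_lt with rfl | h2
  · refine mem_Q_of (hx.adj_pred (j := k - 1) (by ring)) ?_ hK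
    have := R_A hx hu (k := k - 1) (by omega) (by omega)
    rwa [P.A_symm, sub_add_cancel] at this
  · exact mem_Q_of (hx.1 k) (R_A hx hu h1 h2) hK

/-- `Q (x c) ∩ K (x i) ∩ … ∩ K (x j) ≤ QQ x i j` for `i ≤ c ≤ j` -/
theorem mem_QQ_of {x : ℤ → V} (hx : P.Line x) {u : G} {i j c : ℤ} (hc : u ∈ P.Q (x c))
    (h1 : i ≤ c) (h2 : c ≤ j) (hK : ∀ k, i ≤ k → k ≤ j → u ∈ P.K (x k)) : u ∈ P.QQ x i j :=
  fun k a b => R_Q hx (i := i) (j := j + 1) (mem_R_of hx (k := c) (hc.2 _ (hx.1 c))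
    (fun l a b => by
      rcases b.eq_or_lt with rfl | b
      · exact K_fix hx (hK j (by omega) le_rfl) (by omega) le_rfl
      · exact (hK l a (by omega)).1) h1 (by omega)) (by omega) a (by omega) (hK k a b)

/-- with `E1 (x k)`, elements of `R x i j`, `i < k < j`, lie in `Q (x k)` -/
theorem E1_Q {x : ℤ → V} (hx : P.Line x) {u : G} {i j k : ℤ} (hE : P.E1 (x k))
    (hu : u ∈ P.R x i j) (h1 : i < k) (h2 : k < j) : u ∈ P.Q (x k) :=
  R_Q hx hu (by omega) h1.le h2.le (hE _ _ (hx.1 k) (hx.adj_pred (j := k - 1) (by ring))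
    (hx.ne' (by ring)) u (R_A hx hu h1.le h2) (hu.2 _ (by omega) (by omega)))

theorem R_tr {x : ℤ → V} (hx : P.Line x) {i j : ℤ} (hij : i < j) (hj : j ≤ i + P.n) :
    P.Tr (P.R x i j) (x j) (x (j - 1)) := fun b c hb hc h1 h2 => by
  obtain ⟨r, hr, r1, rfl⟩ := exists_turn hx hb h1
  obtain ⟨s, hs, s1, rfl⟩ := exists_turn hx hc h2
  obtain ⟨g, hg, e⟩ := trans hr hs (a := i) (k := i) le_rfl (by omega)
    (by rw [r1 _ hij.le, s1 _ hij.le]) (by rw [r1 _ hij, s1 _ hij])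
  refine ⟨g, ⟨by rwa [r1 _ hij.le, r1 _ hij] at hg, fun k a b => ?_⟩, e _ (by omega) (by omega)⟩
  have := e k a (by omega)
  rwa [r1 _ b, s1 _ b] at this

theorem R_tr' {x : ℤ → V} (hx : P.Line x) {i j : ℤ} (hij : i < j) (hj : j ≤ i + P.n) :
    P.Tr (P.R x i j) (x i) (x (i + 1)) := by
  have := R_tr (hx.rev 0) (i := -j) (j := -i) (by omega) (by omega)
  simp only [zero_sub, neg_neg, show -(-i - 1) = i + 1 by ring] at this
  exact this.mono fun u hu => by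
    simpa using (R_rev (c := 0) hx (by omega : -j < -i)).1 (by simpa using hu)

theorem D_R {x : ℤ → V} (hx : P.Line x) {u : G} (hu : u ∈ P.D x) {i j : ℤ} (hij : i < j) :
    u ∈ P.R x i j :=
  ⟨A_line hx (a := min i 0) (b := max j 1) (i := 0) (by simpa using hu.1) (fun k _ _ => hu.2 k)
    (by omega) (by omega) (by omega) (by omega), fun k _ _ => hu.2 k⟩

theorem mem_D_of {x : ℤ → V} (hx : P.Ap x) {u : G} {i j : ℤ} (hu : u ∈ P.R x i j)
    (hj : i + P.n + 1 ≤ j) : u ∈ P.D x := by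
  have hf := fix_ap hx (a := i) fun k a b => hu.2 k a (by omega)
  refine ⟨?_, hf⟩
  simpa using A_line hx.1 (a := min i 0) (b := max (i + 1) 1) (j := 0) hu.1 (fun k _ _ => hf k)
    (by omega) (by omega) (by omega) (by omega)

/-- elements mapping the line `x` to itself by a shift or reflection normalize `D x` -/
theorem D_conj {x : ℤ → V} (hx : P.Line x) {u g : G} (hu : u ∈ P.D x) {c : ℤ}
    (hg : (∀ i, g • x i = x (i + c)) ∨ ∀ i, g • x i = x (c - i)) : g * u * g⁻¹ ∈ P.D x := by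
  have hf : ∀ k, (g * u * g⁻¹) • x k = x k := fun k => by
    obtain ⟨l, hl⟩ : ∃ l, g • x l = x k := by
      rcases hg with hg | hg
      · exact ⟨k - c, by simp [hg]⟩
      · exact ⟨c - k, by simp [hg]⟩
    rw [← hl, mul_smul, mul_smul, inv_smul_smul, hu.2]
  refine ⟨?_, hf⟩
  rcases hg with hg | hg
  · have := P.A_conj g (D_R hx hu (i := -c) (j := -c + 1) (by omega)).1
    simpa [hg] using this
  · have := P.A_conj g (D_R hx hu (i := c - 1) (j := c) (by omega)).1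
    rw [P.A_symm]
    simpa [hg] using this

theorem pow_eq_one_of_A [Finite G] {a b : V} (h : P.adj a b) {u : G} (hu : u ∈ P.A a b) :
    ∃ k : ℕ, u ^ P.p ^ k = 1 := by
  obtain ⟨k, hk⟩ := P.A_p h ⟨u, hu⟩
  exact ⟨k, congrArg Subtype.val hk⟩

end SP

end Cfsg.Agent.BN2
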